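import Cfsg.Agent.Chev.LTO
import Cfsg.Agent.Chev.StLT
import Cfsg.Agent.Chev.Supp
import Cfsg.Agent.Chev.Coord
import Cfsg.Agent.BN.TwAut
import Cfsg.Prelude.Def_LieTypeChar

/-! Products of conjugacy classes in groups of Lie type: definitions. -/

set_option autoImplicit false

namespace CF.Ah

open CF.BN CF.Chev CF.Loc Cfsg

section

variable {G : Type*} [Group G]

/-- `g` is a `p`-element. -/
def PE (p : ℕ) (g : G) : Prop := ∃ k : ℕ, g ^ p ^ k = 1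

/-- `x` is conjugate to `a` under `H`. -/
def Cj (H : Subgroup G) (a x : G) : Prop := ∃ g ∈ H, x = g * a * g⁻¹

/-- All products are `p`-elements. -/
def PU (p : ℕ) (H : Subgroup G) (a b : G) : Prop := ∀ x y, Cj H a x → Cj H b y → PE p (x * y)

/-- All products lie in one class of nontrivial `p`-elements. -/
def SC (p : ℕ) (H : Subgroup G) (a b : G) : Prop :=
  ∃ c, c ≠ 1 ∧ PE p c ∧ ∀ x y, Cj H a x → Cj H b y → Cj H c (x * y)

/-- Sylow subgroups of the centralizers factorize every `p`-subgroup containing them. -/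
def Fac (p : ℕ) (H : Subgroup G) (a b : G) : Prop :=
  ∀ x y, Cj H a x → Cj H b y → ∀ S T R : Subgroup G, IsSyl p S (H ⊓ Subgroup.centralizer {x}) →
    IsSyl p T (H ⊓ Subgroup.centralizer {y}) → IsPGroup p R → R ≤ H → S ≤ R → T ≤ R →
      IsSyl p R H ∧ ∀ r ∈ R, ∃ s ∈ S, ∃ t ∈ T, r = s * t

/-- A character with the values of the Steinberg character. -/
def HasSV (p : ℕ) (X : Type*) [Group X] : Prop :=
  ∃ χ : X → ℂ, IsIrrCharacter X χ ∧ (∀ x, p ∣ orderOf x → χ x = 0) ∧ ∀ x, ¬ p ∣ orderOf x →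
    χ x = (p ^ (Nat.card (Subgroup.centralizer ({x} : Set X))).factorization p : ℕ) ∨
      χ x = -(p ^ (Nat.card (Subgroup.centralizer ({x} : Set X))).factorization p : ℕ)

variable {p : ℕ} {H : Subgroup G} {a b x y z g : G}

theorem Cj.refl (H : Subgroup G) (a : G) : Cj H a a := ⟨1, one_mem _, by simp⟩

theorem Cj.of (hg : g ∈ H) (a : G) : Cj H a (g * a * g⁻¹) := ⟨g, hg, rfl⟩

theorem Cj.trans (h : Cj H a x) (h' : Cj H x y) : Cj H a y := by
  obtain ⟨g, hg, rfl⟩ := h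
  obtain ⟨k, hk, rfl⟩ := h'
  exact ⟨k * g, mul_mem hk hg, by group⟩

theorem Cj.symm (h : Cj H a x) : Cj H x a := by
  obtain ⟨g, hg, rfl⟩ := h
  exact ⟨g⁻¹, inv_mem hg, by group⟩

theorem Cj.conj (h : Cj H a x) (hg : g ∈ H) : Cj H a (g * x * g⁻¹) := h.trans (.of hg x)

theorem Cj.mem (h : Cj H a x) (ha : a ∈ H) : x ∈ H := by
  obtain ⟨g, hg, rfl⟩ := h
  exact mul_mem (mul_mem hg ha) (inv_mem hg)

theorem Cj.ne_one (h : Cj H a x) (ha : a ≠ 1) : x ≠ 1 := by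
  obtain ⟨g, -, rfl⟩ := h
  simpa using ha

theorem Cj.orderOf (h : Cj H a x) : orderOf x = orderOf a := by
  obtain ⟨g, -, rfl⟩ := h
  exact (MulAut.conj g).orderOf_eq a

theorem PE.conj (h : PE p x) (g : G) : PE p (g * x * g⁻¹) := by
  obtain ⟨k, hk⟩ := h
  exact ⟨k, by rw [conj_pow, hk]; simp⟩

theorem PE.cj (h : PE p a) (h' : Cj H a x) : PE p x := by
  obtain ⟨g, -, rfl⟩ := h'
  exact h.conj g

theorem PE.swap (h : PE p (x * y)) : PE p (y * x) := by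
  simpa [mul_assoc] using h.conj x⁻¹

theorem PE.map {G' : Type*} [Group G'] (h : PE p x) (f : G →* G') : PE p (f x) := by
  obtain ⟨k, hk⟩ := h
  exact ⟨k, by rw [← map_pow, hk, map_one]⟩

theorem PE.of_mem {Q : Subgroup G} (h : IsPGroup p Q) (hx : x ∈ Q) : PE p x := by
  obtain ⟨k, hk⟩ := h ⟨x, hx⟩
  exact ⟨k, congrArg Subtype.val hk⟩

theorem PU.symm (h : PU p H a b) : PU p H b a := fun x y hx hy => (h y x hy hx).swap

theorem PU.cj (h : PU p H a b) (hx : Cj H a x) (hy : Cj H b y) : PU p H x y :=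
  fun u v hu hv => h u v (hx.trans hu) (hy.trans hv)

theorem SC.pu (h : SC p H a b) : PU p H a b := by
  obtain ⟨c, -, hc, h⟩ := h
  exact fun x y hx hy => hc.cj (h x y hx hy)

theorem SC.symm (h : SC p H a b) (hb : b ∈ H) : SC p H b a := by
  obtain ⟨c, h1, hc, h⟩ := h
  refine ⟨c, h1, hc, fun x y hx hy => ?_⟩
  simpa [mul_assoc] using (h y x hy hx).conj (hx.mem hb)

theorem SC.cj (h : SC p H a b) (hx : Cj H a x) (hy : Cj H b y) : SC p H x y := by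
  obtain ⟨c, h1, hc, h⟩ := h
  exact ⟨c, h1, hc, fun u v hu hv => h u v (hx.trans hu) (hy.trans hv)⟩

theorem Fac.cj (h : Fac p H a b) (hx : Cj H a x) (hy : Cj H b y) : Fac p H x y :=
  fun u v hu hv => h u v (hx.trans hu) (hy.trans hv)

theorem Fac.symm (h : Fac p H a b) : Fac p H b a := fun x y hx hy S T R hS hT hR h1 h2 h3 => by
  obtain ⟨h4, h5⟩ := h y x hy hx T S R hT hS hR h1 h3 h2
  refine ⟨h4, fun r hr => ?_⟩
  obtain ⟨s, hs, t, ht, e⟩ := h5 r⁻¹ (inv_mem hr)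
  exact ⟨t⁻¹, inv_mem ht, s⁻¹, inv_mem hs, by rw [← mul_inv_rev, ← e, inv_inv]⟩

/-- Transport along an isomorphism onto a subgroup. -/
theorem SC.map {X : Type*} [Group X] (e : X ≃* H) {a b : X} (h : SC p ⊤ a b) :
    SC p H (e a) (e b) := by
  obtain ⟨c, h1, hc, h⟩ := h
  refine ⟨e c, by simpa using h1, hc.map (H.subtype.comp e.toMonoidHom), ?_⟩
  rintro _ _ ⟨g, hg, rfl⟩ ⟨k, hk, rfl⟩
  obtain ⟨g, rfl⟩ : ∃ g', (e g' : G) = g := ⟨e.symm ⟨g, hg⟩, by simp⟩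
  obtain ⟨k, rfl⟩ : ∃ k', (e k' : G) = k := ⟨e.symm ⟨k, hk⟩, by simp⟩
  obtain ⟨m, -, hm⟩ := h _ _ (.of (Subgroup.mem_top g) a) (.of (Subgroup.mem_top k) b)
  exact ⟨e m, (e m).2, by simpa using congrArg (fun t => (e t : G)) hm⟩

theorem isSyl_comap {X : Type*} [Group X] {f : X →* G} (hf : Function.Injective f) {S L : Subgroup G}
    (hL : L ≤ f.range) (h : IsSyl p S L) : IsSyl p (S.comap f) (L.comap f) :=
  ⟨Subgroup.comap_mono h.1, h.2.1.comap_of_injective f hf, fun Q h1 h2 h3 => by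
    rw [← h.2.2 (Q.map f) (h1.map f) (fun s hs => by
      obtain ⟨t, rfl⟩ := hL (h.1 hs)
      exact ⟨t, h2 hs, rfl⟩) (Subgroup.map_le_iff_le_comap.2 h3),
      Subgroup.comap_map_eq_self_of_injective hf]⟩

/-- Transport along an isomorphism onto a subgroup. -/
theorem Fac.map {X : Type*} [Group X] (e : X ≃* H) {a b : X} (h : Fac p ⊤ a b) :
    Fac p H (e a) (e b) := by
  let f : X →* G := H.subtype.comp e.toMonoidHom
  have hf : Function.Injective f := Subtype.val_injective.comp e.injective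
  have hr : ∀ g ∈ H, ∃ g', f g' = g := fun g hg => ⟨e.symm ⟨g, hg⟩, by simp [f]⟩
  have hc : ∀ x : X, (H ⊓ Subgroup.centralizer {f x}).comap f = ⊤ ⊓ Subgroup.centralizer {x} := fun x => by
    ext y
    simp only [Subgroup.mem_comap, Subgroup.mem_inf, Subgroup.mem_centralizer_singleton_iff, ← map_mul,
      hf.eq_iff, Subgroup.mem_top, true_and, and_iff_right_iff_imp]
    exact fun _ => (e y).2
  rintro _ _ ⟨g, hg, rfl⟩ ⟨k, hk, rfl⟩ S T R hS hT hR h1 h2 h3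
  obtain ⟨g, rfl⟩ := hr g hg
  obtain ⟨k, rfl⟩ := hr k hk
  have e1 : f g * (e a : G) * (f g)⁻¹ = f (g * a * g⁻¹) := by simp [f]
  have e2 : f k * (e b : G) * (f k)⁻¹ = f (k * b * k⁻¹) := by simp [f]
  rw [e1] at hS
  rw [e2] at hT
  obtain ⟨h4, h5⟩ := h _ _ (.of (Subgroup.mem_top g) a) (.of (Subgroup.mem_top k) b) _ _ (R.comap f)
    (hc _ ▸ isSyl_comap hf (fun x hx => hr x hx.1) hS) (hc _ ▸ isSyl_comap hf (fun x hx => hr x hx.1) hT)
    (hR.comap_of_injective f hf) le_top (Subgroup.comap_mono h2) (Subgroup.comap_mono h3)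
  refine ⟨⟨h1, hR, fun Q q1 q2 q3 => le_antisymm (fun s hs => ?_) q2⟩, fun r hr' => ?_⟩
  · obtain ⟨t, rfl⟩ := hr s (q3 hs)
    have := h4.2.2 (Q.comap f) (q1.comap_of_injective f hf) (Subgroup.comap_mono q2) le_top
    exact (this ▸ hs : t ∈ R.comap f)
  · obtain ⟨t, rfl⟩ := hr r (h1 hr')
    obtain ⟨u, hu, v, hv, rfl⟩ := h5 t hr'
    exact ⟨f u, hu, f v, hv, map_mul f u v⟩

/-- No factorization for nontrivial `p'`-elements. -/
def NoS (p : ℕ) (X : Type*) [Group X] : Prop :=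
  ∀ a b : X, a ≠ 1 → b ≠ 1 → ¬ p ∣ orderOf a → ¬ p ∣ orderOf b → ¬ Fac p ⊤ a b

/-- No product of nontrivial classes is a class of `p`-elements. -/
def NoU (p : ℕ) (X : Type*) [Group X] : Prop := ∀ a b : X, a ≠ 1 → b ≠ 1 → ¬ SC p ⊤ a b

theorem noS_of {X : Type*} [Group X] (e : X ≃* H) (h : ∀ a ∈ H, ∀ b ∈ H, a ≠ 1 → b ≠ 1 →
    ¬ p ∣ orderOf a → ¬ p ∣ orderOf b → ¬ Fac p H a b) : NoS p X := fun a b h1 h2 h3 h4 h5 =>
  h _ (e a).2 _ (e b).2 (by simpa using h1) (by simpa using h2) (by simpa using h3) (by simpa using h4)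
    (h5.map e)

theorem noU_of {X : Type*} [Group X] (e : X ≃* H) (h : ∀ a ∈ H, ∀ b ∈ H, a ≠ 1 → b ≠ 1 →
    ¬ SC p H a b) : NoU p X := fun a b h1 h2 h5 =>
  h _ (e a).2 _ (e b).2 (by simpa using h1) (by simpa using h2) (h5.map e)

theorem NoS.of_equiv {X : Type*} [Group X] (h : NoS p G) (e : X ≃* G) : NoS p X :=
  noS_of (e.trans Subgroup.topEquiv.symm) fun a _ b _ => h a b

theorem NoU.of_equiv {X : Type*} [Group X] (h : NoU p G) (e : X ≃* G) : NoU p X :=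
  noU_of (e.trans Subgroup.topEquiv.symm) fun a _ b _ => h a b

end

variable {B ι : Type} [Fintype B] [DecidableEq B] [Fintype ι] [DecidableEq ι]
  {C : ChevBasis B ι} {K : Type*} [Field K] {G : Type*} [Group G] {ρ : StRep C K G}

/-- `x` lies in the Levi subgroup of type `J` and in no conjugate of a smaller parabolic subgroup. -/
structure Min (T : Tw ρ) (G1 : Subgroup G) (J : Set B) (x : G) : Prop where
  stab : T.S.Stab J
  mem : x ∈ ρ.LJ J ⊓ G1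
  min : ∀ g ∈ G1, ∀ I, T.S.Stab I → g * x * g⁻¹ ∈ ρ.PJ I → J.ncard ≤ I.ncard

/-- The factorization of `U`. -/
def FU (T : Tw ρ) (G1 : Subgroup G) (a b : G) : Prop :=
  ∀ J J' x y, Cj G1 a x → Cj G1 b y → Min T G1 J x → Min T G1 J' y → ∀ u ∈ ρ.Up ⊓ G1,
    ∃ s ∈ ρ.UJ J ⊓ G1, ∃ t ∈ ρ.UJ J' ⊓ G1, Commute s x ∧ Commute t y ∧ u = s * t

/-- The class of `a` meets the cell of `w`. -/
def WA (ρ : StRep C K G) (H : Subgroup G) (a : G) (w : Equiv.Perm ι) : Prop :=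
  ∃ x, Cj H a x ∧ x ∈ ρ.Cell w

/-- The cells met by the class of `a` and the inverse of the class of `b`. -/
def Om (ρ : StRep C K G) (H : Subgroup G) (a b : G) (w : Equiv.Perm ι) : Prop :=
  WA ρ H a w ∧ WA ρ H b w⁻¹

/-- `w` centralizes the torus. -/
def Kw (ρ : StRep C K G) (H : Subgroup G) (w : Equiv.Perm ι) : Prop :=
  ∀ n ∈ H, ρ.NW n w → ∀ h ∈ ρ.H ⊓ H, Commute n h

/-- `w` maps the roots of the orbit of the node `i` to their negatives. -/
def Neg (T : Tw ρ) (w : Equiv.Perm ι) (i : B) : Prop :=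
  C.InSub (T.S.orb i) (w (C.simple i)) ∧ ¬ C.Pos (w (C.simple i))

/-- A conjugate of `a` maps the root subgroup of `θ` to an opposite one. -/
def Opp (p : ℕ) (ρ : StRep C K G) (H : Subgroup G) (θ : ι) (a : G) : Prop :=
  ∃ x, Cj H a x ∧ ¬ IsPGroup p ↥(ρ.X θ ⊔ (ρ.X θ).map (MulAut.conj x).toMonoidHom)

/-- Graph-field twists (the untwisted groups included). -/
structure Gr (T : Tw ρ) (φ : K →+* K) (c : Kˣ) : Prop where
  φ_eq : ∀ r, T.φ r = φ
  c_eq : ∀ i, T.c (C.simple i) = c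
  sq : c * c = 1
  car : ∀ i j, C.car (T.p i) (T.p j) = C.car i j
  ord : ∀ (k : ℕ), φ ^ k = 1 → T.p ^ k = 1 ∧ c ^ k = 1
  ord' : ∀ i, T.p i ≠ i → ∀ k : ℕ, (T.p ^ k) i = i → φ ^ k = 1
  triv : T.p = 1 → φ = 1 ∧ c = 1

/-- The standing assumptions. -/
structure St (p : ℕ) (T : Tw ρ) (G1 : Subgroup G) (ω : ι → ℝ) (a b : G) : Prop where
  lt : LT p T G1 ω
  center : Subgroup.center G = ⊥
  ma : a ∈ G1
  mb : b ∈ G1
  na : a ≠ 1
  nb : b ≠ 1

end CF.Ah
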