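import Cfsg.Agent.Ah.B
import Cfsg.Agent.Geom.Stab
import Cfsg.Agent.Geom.Groups

/-! Sylow subgroups of centralizers of semisimple elements in linear groups. -/

set_option autoImplicit false
set_option linter.unusedSectionVars false

namespace CF.Ah.CL

open CF.Loc CF.Geom Module Subgroup

variable {p : ℕ} [hp : Fact p.Prime]

section grp

variable {G : Type*} [Group G] {H N S T R Q : Subgroup G} {a b x y g t : G}

theorem syl_cj (hS : IsSyl p S (H ⊓ centralizer {x})) (hg : g ∈ 𝐍(H)) :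
    IsSyl p (cj[g] S) (H ⊓ centralizer {g * x * g⁻¹}) := by
  have := hS.cj g
  rwa [cj_inf, cj_eq_self hg, cj_centralizer_singleton] at this

theorem fact [Finite H] (h : Fac p H a b) (hx : Cj H a x) (hy : Cj H b y)
    (hS : IsSyl p S (H ⊓ centralizer {x})) (hT : IsSyl p T (H ⊓ centralizer {y})) (hN : N ≤ H)
    (h1 : S ≤ N) (h2 : T ≤ N) : ∃ R, IsSyl p R H ∧ R ≤ N ∧ S ≤ R ∧
      ∃ n ∈ N, ∀ r ∈ R, ∃ s ∈ S, ∃ t ∈ T, r = s * (n * t * n⁻¹) := by
  have := finite_of_le hN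
  obtain ⟨R, hR, k⟩ := exists_isSyl_ge hS.isPGroup h1
  obtain ⟨n, hn, k'⟩ := hR.exists_cj_le hT.isPGroup h2
  obtain ⟨h3, h4⟩ := h x _ hx (hy.conj (hN hn)) S _ R hS (syl_cj hT (le_normalizer (hN hn))) hR.isPGroup
    (hR.le.trans hN) k k'
  refine ⟨R, h3, hR.le, k, n, hn, fun r hr => ?_⟩
  obtain ⟨s, hs, _, ⟨t, ht, rfl⟩, e⟩ := h4 r hr
  exact ⟨s, hs, t, ht, e⟩

/-- A normal `p`-subgroup of an overgroup of both Sylow subgroups. -/
theorem rad [Finite H] (h : Fac p H a b) (hx : Cj H a x) (hy : Cj H b y)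
    (hS : IsSyl p S (H ⊓ centralizer {x})) (hT : IsSyl p T (H ⊓ centralizer {y})) (hN : N ≤ H)
    (h1 : S ≤ N) (h2 : T ≤ N) (hQ : IsPGroup p Q) (h3 : Q ≤ H) (h4 : N ≤ 𝐍(Q)) :
    ∃ n ∈ N, ∀ r ∈ Q, ∃ s ∈ S, ∃ t ∈ T, r = s * (n * t * n⁻¹) := by
  obtain ⟨R, hR, k, -, n, hn, e⟩ := fact h hx hy hS hT hN h1 h2
  exact ⟨n, hn, fun r hr => e r (hR.le_of_le_normalizer hQ h3 (k.trans h4) hr)⟩

theorem mem_of_syl [Finite H] (hR : IsSyl p R H) (h : R ≤ N) (hN : N ≤ H) (ht : t ∈ H) (hn : t ∈ 𝐍(N))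
    (hq : t ^ p ∈ N) : t ∈ N := by
  by_contra k
  have l : N ≤ H ⊓ 𝐍(N) := le_inf hN le_normalizer
  have := finite_of_le (inf_le_left : H ⊓ 𝐍(N) ≤ H)
  have : (N.subgroupOf (H ⊓ 𝐍(N))).Normal := (normal_subgroupOf_iff_le_normalizer l).2 inf_le_right
  refine (hR.mono (h.trans l) inf_le_left).not_dvd_relIndex_of_le h l ?_
  have o : orderOf (QuotientGroup.mk (⟨t, ht, hn⟩ : ↥(H ⊓ 𝐍(N))) : _ ⧸ N.subgroupOf (H ⊓ 𝐍(N))) = p :=
    orderOf_eq_prime (by rw [← QuotientGroup.mk_pow, QuotientGroup.eq_one_iff]; exact hq)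
      fun e => k (mem_subgroupOf.1 ((QuotientGroup.eq_one_iff _).1 e))
  exact o ▸ orderOf_dvd_natCard _

/-- An overgroup of both Sylow subgroups is closed under `p`-extensions. -/
theorem mem_of_fac [Finite H] (h : Fac p H a b) (hx : Cj H a x) (hy : Cj H b y)
    (hS : IsSyl p S (H ⊓ centralizer {x})) (hT : IsSyl p T (H ⊓ centralizer {y})) (hN : N ≤ H)
    (h1 : S ≤ N) (h2 : T ≤ N) (ht : t ∈ H) (hn : ∀ n ∈ N, t * n * t⁻¹ ∈ N) (hq : t ^ p ∈ N) : t ∈ N := by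
  have := finite_of_le hN
  obtain ⟨R, hR, k, -⟩ := fact h hx hy hS hT hN h1 h2
  exact mem_of_syl hR k hN ht (mem_normalizer_of_conj_mem hn) hq

theorem comm (hS : IsSyl p S (H ⊓ centralizer {x})) {s : G} (hs : s ∈ S) : s * x = x * s :=
  mem_centralizer_singleton_iff.1 (hS.le hs).2

end grp

variable {F V : Type*} [Field F] [Finite F] [CharP F p] [AddCommGroup V] [Module F V]
  [FiniteDimensional F V] {H S : Subgroup (V ≃ₗ[F] V)} {a g : V ≃ₗ[F] V} {A D W : Submodule F V}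

theorem fin (H : Subgroup (V ≃ₗ[F] V)) : Finite H :=
  have := Module.finite_of_finite F (M := V)
  have : Finite (V ≃ₗ[F] V) := Finite.of_injective _ DFunLike.coe_injective
  inferInstance

theorem fix_mod (hS : IsPGroup p S) (hA : ∀ s ∈ S, ∀ v ∈ A, s v ∈ A) (hD : ∀ s ∈ S, ∀ v ∈ D, s v ∈ D)
    (h : ¬ D ≤ A) : ∃ z ∈ D, z ∉ A ∧ ∀ s ∈ S, s z - z ∈ A := by
  have := Module.finite_of_finite F (M := V ⧸ A)
  let _ : MulAction S (D.map A.mkQ) :=
    { smul := fun s x => ⟨A.mapQ A s.1.toLinearMap (hA s.1 s.2) x.1, by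
        obtain ⟨_, v, hv, rfl⟩ := x
        exact ⟨s.1 v, hD _ s.2 v hv, rfl⟩⟩
      one_smul := by rintro ⟨_, v, hv, rfl⟩; rfl
      mul_smul := by rintro s t ⟨_, v, hv, rfl⟩; rfl }
  obtain ⟨v, hv, hv'⟩ := SetLike.not_le_iff_exists.1 h
  have hd : p ∣ Nat.card (D.map A.mkQ) := by
    have : addOrderOf (⟨A.mkQ v, v, hv, rfl⟩ : D.map A.mkQ) = p := addOrderOf_eq_prime
      (by rw [← Nat.cast_smul_eq_nsmul F, CharP.cast_eq_zero, zero_smul])
      fun e => hv' ((Submodule.Quotient.mk_eq_zero A).1 (congrArg Subtype.val e))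
    exact this ▸ addOrderOf_dvd_natCard _
  obtain ⟨⟨_, z, hz, rfl⟩, hb, hb0⟩ := hS.exists_fixed_point_of_prime_dvd_card_of_fixed_point
    (D.map A.mkQ) hd (a := 0) fun g => Subtype.ext (map_zero (A.mapQ A g.1.toLinearMap (hA g.1 g.2)))
  exact ⟨z, hz, fun k => hb0 (Subtype.ext ((Submodule.Quotient.mk_eq_zero A).2 k).symm), fun s hs =>
    (Submodule.Quotient.eq A).1 (congrArg Subtype.val (hb ⟨s, hs⟩))⟩

theorem exists_fix (hS : IsPGroup p S) (hD : ∀ s ∈ S, ∀ v ∈ D, s v ∈ D) (h : D ≠ ⊥) :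
    ∃ z ∈ D, z ≠ 0 ∧ ∀ s ∈ S, s z = z := by
  simpa [sub_eq_zero] using fix_mod (A := ⊥) hS (by simp) hD (by simpa using h)

/-- No Jordan blocks. -/
theorem ss (ha : ¬ p ∣ orderOf a) {c : F} {v : V} (h : a (a v - c • v) = c • (a v - c • v)) :
    a v = c • v := by
  obtain ⟨w, hw⟩ : ∃ w, a v = c • v + w := ⟨a v - c • v, by abel⟩
  rw [hw, add_sub_cancel_left] at h
  have e : ∀ k : ℕ, (a ^ (k + 1)) v = c ^ (k + 1) • v + ((k + 1 : ℕ) * c ^ k : F) • w ∧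
      (a ^ (k + 1)) w = c ^ (k + 1) • w := fun k => by
    induction k with
    | zero => simp [hw, h]
    | succ k ih =>
      rw [pow_succ' a, LinearEquiv.mul_apply, LinearEquiv.mul_apply, ih.1, ih.2]
      simp only [map_add, map_smul, hw, h]
      constructor <;> push_cast <;> module
  obtain ⟨k, hk⟩ : ∃ k, orderOf a = k + 1 := Nat.exists_eq_succ_of_ne_zero fun e => ha (e ▸ dvd_zero p)
  obtain ⟨e1, e2⟩ := e k
  rw [← hk, pow_orderOf_eq_one, LinearEquiv.coe_one, id] at e1 e2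
  by_contra n
  have w0 : w ≠ 0 := fun e => n (by simpa [e] using hw)
  have c1 : c ^ orderOf a = 1 := smul_left_injective F w0 (by simpa using e2.symm)
  have c0 : c ≠ 0 := fun e => by simp [e, hk] at c1
  rw [c1, one_smul, left_eq_add, smul_eq_zero, mul_eq_zero, CharP.cast_eq_zero_iff F p] at e1
  simp [ha, c0, w0] at e1

/-- Lifting of eigenvectors. -/
theorem lift_eig (ha : ¬ p ∣ orderOf a) (hA : ∀ v ∈ A, a v ∈ A) {c : F} {z : V} (h : a z - c • z ∈ A) :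
    ∃ w ∈ A, a (z - w) = c • (z - w) := by
  let f : A →ₗ[F] A := (a.toLinearMap - c • LinearMap.id).restrict fun v hv =>
    sub_mem (hA v hv) (A.smul_mem c hv)
  have k : LinearMap.ker (f ∘ₗ f) = LinearMap.ker f := le_antisymm (fun v hv => Subtype.ext
    (sub_eq_zero.2 (ss ha (sub_eq_zero.1 (congrArg Subtype.val hv))))) (LinearMap.ker_le_ker_comp f f)
  have r : LinearMap.range (f ∘ₗ f) = LinearMap.range f :=
    Submodule.eq_of_le_of_finrank_eq (LinearMap.range_comp_le_range f f) (by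
      have h1 := (f ∘ₗ f).finrank_range_add_finrank_ker
      have h2 := f.finrank_range_add_finrank_ker
      rw [k] at h1
      omega)
  obtain ⟨w, hw⟩ := r.ge ⟨⟨_, h⟩, rfl⟩
  have hw : a (a w - c • (w : V)) - c • (a w - c • (w : V)) = a (a z - c • z) - c • (a z - c • z) :=
    congrArg Subtype.val hw
  refine ⟨w, w.2, ss ha ?_⟩
  simp only [map_sub, map_smul] at hw ⊢
  linear_combination (norm := module) -hw

/-- An element that acts as a scalar on the sections of a chain. -/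
theorem eig_of_mod (ha : ¬ p ∣ orderOf a) {c : F} (hA : ∀ v ∈ A, a v = c • v) {z : V}
    (h : a z - c • z ∈ A) : a z = c • z := ss ha (hA _ h)

theorem two_fix (hS : IsPGroup p S) (hc : ∀ s ∈ S, s * a = a * s) (ha : ¬ p ∣ orderOf a)
    (hn : ∀ c : F, ∃ v, a v ≠ c • v) (e : V) : ∃ z, z ∉ F ∙ e ∧ ∀ s ∈ S, s z = z := by
  by_contra! k
  replace k : ∀ z, (∀ s ∈ S, s z = z) → ∃ c : F, c • e = z := fun z hz => by
    by_contra n
    obtain ⟨s, hs, e⟩ := k z (mt Submodule.mem_span_singleton.1 n)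
    exact e (hz s hs)
  have hc' : ∀ s ∈ S, ∀ v, s (a v) = a (s v) := fun s hs v => DFunLike.congr_fun (hc s hs) v
  obtain ⟨z, -, z0, hz⟩ := exists_fix (D := ⊤) hS (by simp) fun e => by
    obtain ⟨v, hv⟩ := hn 0
    exact hv (by simpa using e.le (Submodule.mem_top (x := a v)))
  obtain ⟨c, rfl⟩ := k z hz
  obtain ⟨d, hd⟩ := k (a (c • e)) fun s hs => by rw [hc' s hs, hz s hs]
  have c0 : c ≠ 0 := left_ne_zero_of_smul z0
  have he : a e = (c⁻¹ * d) • e := by rw [mul_smul, hd, map_smul, inv_smul_smul₀ c0]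
  obtain ⟨_, ⟨v, rfl⟩, v0, hv⟩ := exists_fix (D := LinearMap.range (a.toLinearMap - (c⁻¹ * d) • LinearMap.id))
    hS (by rintro s hs _ ⟨v, rfl⟩; exact ⟨s v, by simp [hc' s hs]⟩) fun e => by
      obtain ⟨v, hv⟩ := hn (c⁻¹ * d)
      exact hv (sub_eq_zero.1 (e.le ⟨v, rfl⟩))
  obtain ⟨m, hm⟩ := k _ hv
  have hm : m • e = a v - (c⁻¹ * d) • v := hm
  exact v0 (sub_eq_zero.2 (ss ha (by rw [← hm, map_smul, he, smul_comm])))

variable {σ : F →+* F} {B : V →ₛₗ[σ] V →ₗ[F] F} {Q : V → F}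

theorem perp_inv (hg : ∀ u v, B (g u) (g v) = B u v) (hW : ∀ v ∈ W, g v ∈ W) :
    ∀ z ∈ perp B W, g z ∈ perp B W := fun z hz => by
  have := map_perp hg W
  rw [map_eq_of_le g hW le_rfl] at this
  exact this.le ⟨z, hz, rfl⟩

/-- An invariant totally isotropic subspace such that `S` is trivial on `W^⊥ / W`. -/
theorem exists_W (h : IsWittPair σ B Q) (hS : IsPGroup p S) (hc : ∀ s ∈ S, s * a = a * s)
    (h1 : ∀ s ∈ S, ∀ u v, B (s u) (s v) = B u v) (h2 : ∀ u v, B (a u) (a v) = B u v) :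
    ∃ W : Submodule F V, W ≤ perp B W ∧ (∀ v ∈ W, a v ∈ W) ∧ (∀ s ∈ S, ∀ v ∈ W, s v ∈ W) ∧
      ∀ s ∈ S, ∀ z ∈ perp B W, s z - z ∈ W := by
  have hc' : ∀ s ∈ S, ∀ v, s (a v) = a (s v) := fun s hs v => DFunLike.congr_fun (hc s hs) v
  obtain ⟨W, ⟨w1, w2, w3⟩, mx⟩ := (set_has_maximal_iff_noetherian.2 (inferInstance : IsNoetherian F V))
    {W | W ≤ perp B W ∧ (∀ v ∈ W, a v ∈ W) ∧ ∀ s ∈ S, ∀ v ∈ W, s v ∈ W} ⟨⊥, bot_le, by simp, by simp⟩
  let C : Submodule F V :=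
    { carrier := {z | z ∈ perp B W ∧ ∀ s ∈ S, s z - z ∈ W}
      add_mem' := fun u v => ⟨add_mem u.1 v.1, fun s hs => by
        rw [map_add, add_sub_add_comm]; exact add_mem (u.2 s hs) (v.2 s hs)⟩
      zero_mem' := by simp
      smul_mem' := fun c _ u => ⟨Submodule.smul_mem _ c u.1, fun s hs => by
        rw [map_smul, ← smul_sub]; exact W.smul_mem c (u.2 s hs)⟩ }
  have c0 : W ≤ C := fun z hz => ⟨w1 hz, fun s hs => sub_mem (w3 s hs z hz) hz⟩
  have c1 : C ≤ perp B W := fun z hz => hz.1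
  have c2 : ∀ v ∈ C, a v ∈ C := fun z hz => ⟨perp_inv h2 w2 z hz.1, fun s hs => by
    rw [hc' s hs, ← map_sub]; exact w2 _ (hz.2 s hs)⟩
  have c3 : ∀ s ∈ S, ∀ v ∈ C, s v ∈ C := fun s hs z hz => by
    simpa using add_mem (c0 (hz.2 s hs)) hz
  have c4 : perp B C ≤ W := by
    by_contra n
    obtain ⟨z, z1, z2, z3⟩ := fix_mod hS w3 (fun s hs => perp_inv (h1 s hs) (c3 s hs)) n
    refine mx (C ⊓ perp B C) ⟨inf_le_right.trans (perp_anti inf_le_left), fun v hv =>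
      ⟨c2 v hv.1, perp_inv h2 c2 v hv.2⟩, fun s hs v hv =>
      ⟨c3 s hs v hv.1, perp_inv (h1 s hs) (c3 s hs) v hv.2⟩⟩
      (lt_of_le_of_ne (le_inf c0 (h.le_perp_comm.1 c1)) fun e => z2 (e.ge ⟨⟨perp_anti c0 z1, z3⟩, z1⟩))
  refine ⟨W, w1, w2, w3, fun s hs z hz => ?_⟩
  have := perp_anti (B := B) c4 hz
  rw [h.perp_perp] at this
  exact this.2 s hs

/-- Non-central elements are not scalar. -/
theorem not_scalar {Y : Type*} [Group Y] (e : Y ≃* H) {y : Y} (hy : y ∉ center Y) (c : F) :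
    ∃ v, (e y).1 v ≠ c • v := by
  by_contra! k
  exact hy (mem_center_iff.2 fun g => e.injective (Subtype.ext (LinearEquiv.ext fun v => by simp [k])))

end CF.Ah.CL
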