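import Cfsg.Agent.Ah.B
import Cfsg.Agent.Char.Orth
import Cfsg.Agent.Char.Inner
import Cfsg.Agent.Loc.CD

/-! Products of conjugacy classes: characters and Sylow theory. -/

set_option autoImplicit false

namespace CF.Ah

open CF.Loc CF.Char Cfsg Subgroup

variable {p : ℕ} [hp : Fact p.Prime] {X Y : Type*} [Group X] [Group Y]

theorem fac_of [Finite X] (h : HasSV p X) {a b c : X}
    (e : {g : X | ∃ u v : X, g = (u * a * u⁻¹) * (v * b * v⁻¹)} = {g : X | IsConj c g})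
    (hc : ¬ p ∣ orderOf c ∨ ¬ p ∣ orderOf a ∧ ¬ p ∣ orderOf b) :
    ¬ p ∣ orderOf a ∧ ¬ p ∣ orderOf b ∧ Fac p ⊤ a b := by
  obtain ⟨χ, i, z, v⟩ := h
  have := Fintype.ofFinite X
  have k : ∀ x y, Cj ⊤ a x → Cj ⊤ b y → IsConj c (x * y) := by
    rintro _ _ ⟨g, -, rfl⟩ ⟨k, -, rfl⟩
    exact e.le ⟨g, k, rfl⟩
  have ck : ∀ {x y}, IsConj x y → χ y = χ x := fun h => by
    obtain ⟨g, rfl⟩ := isConj_iff.1 h
    exact irr_isClassFunction i _ _
  have cj : ∀ {x y}, Cj ⊤ x y → χ y = χ x := fun ⟨g, _, r⟩ => ck (isConj_iff.2 ⟨g, r.symm⟩)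
  have m : χ c * χ 1 = χ a * χ b := by
    have s := sum_irr_conj_mul i a b
    rwa [Finset.sum_congr rfl fun g _ => ck (k _ _ (.of (mem_top g) a) (.refl _ b)), Finset.sum_const,
      Finset.card_univ, nsmul_eq_mul, ← Nat.card_eq_fintype_card, mul_assoc, mul_div_assoc,
      mul_right_inj' (Nat.cast_ne_zero.2 Nat.card_pos.ne'), eq_div_iff (irr_one_ne_zero i)] at s
  have nm : ∀ x S, ¬ p ∣ orderOf x → IsSyl p S (⊤ ⊓ centralizer {x}) → ‖χ x‖ = Nat.card S := fun x S o s => by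
    rw [s.card_eq, top_inf_eq]
    rcases v x o with e | e <;> rw [e] <;> simp
  have nz : ∀ x, ¬ p ∣ orderOf x ↔ χ x ≠ 0 := fun x => ⟨fun o n => by
    obtain ⟨S, s⟩ := exists_isSyl p (⊤ ⊓ centralizer {x})
    have := nm x S o s
    rw [n, norm_zero] at this
    exact Nat.card_pos.ne (by exact_mod_cast this), fun n o => n (z x o)⟩
  have n : χ a * χ b ≠ 0 := hc.elim (fun h => m ▸ mul_ne_zero ((nz c).1 h) (irr_one_ne_zero i))
    fun h => mul_ne_zero ((nz a).1 h.1) ((nz b).1 h.2)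
  refine ⟨(nz a).2 (left_ne_zero_of_mul n), (nz b).2 (right_ne_zero_of_mul n),
    fun x y hx hy S T R hS hT hR _ h1 h2 => ?_⟩
  rw [← cj hx, ← cj hy, ← ck (k x y hx hy)] at m
  rw [← cj hx, ← cj hy] at n
  obtain ⟨P, hP⟩ := exists_isSyl p (⊤ ⊓ centralizer {(1 : X)})
  obtain ⟨D, hD⟩ := exists_isSyl p (⊤ ⊓ centralizer {x * y})
  have m' := congrArg norm m
  rw [norm_mul, norm_mul, nm _ D ((nz _).2 (left_ne_zero_of_mul (m ▸ n))) hD,
    nm _ P ((nz _).2 (irr_one_ne_zero i)) hP, nm _ S ((nz _).2 (left_ne_zero_of_mul n)) hS,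
    nm _ T ((nz _).2 (right_ne_zero_of_mul n)) hT] at m'
  replace m' : Nat.card D * Nat.card P = Nat.card S * Nat.card T := by exact_mod_cast m'
  replace hP : IsSyl p P ⊤ := by
    rwa [show ⊤ ⊓ centralizer {(1 : X)} = ⊤ from eq_top_iff.2 fun g _ =>
      ⟨trivial, mem_centralizer_singleton_iff.2 (Commute.one_right g)⟩] at hP
  have d : Nat.card ↥(S ⊓ T) ≤ Nat.card D := hD.card_le hS.isPGroup.to_inf_left fun g m =>
    ⟨trivial, mem_centralizer_singleton_iff.2 (Commute.mul_right (mem_centralizer_singleton_iff.1 (hS.le m.1).2)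
      (mem_centralizer_singleton_iff.1 (hT.le m.2).2))⟩
  have r := hP.card_le hR le_top
  have f := coe_eq_mul_of_card_le h1 h2 (by rw [← m', mul_comm]; exact Nat.mul_le_mul d r)
  refine ⟨hP.of_card_le hR le_top (Nat.le_of_mul_le_mul_left ?_ (Nat.card_pos (α := D))), fun r hr => ?_⟩
  · rw [m', ← CF.Solv.card_mul_set_mul_card_inf S T, ← f, mul_comm]
    exact Nat.mul_le_mul_right _ d
  · obtain ⟨s, hs, t, ht, e⟩ := f.le hr
    exact ⟨s, hs, t, ht, e.symm⟩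

namespace FA

theorem eq_one {N : Subgroup Y} (h : ¬ p ∣ Nat.card N) {u : Y} (m : u ∈ N) (e : PE p u) : u = 1 := by
  obtain ⟨k, e⟩ := e
  exact orderOf_eq_one_iff.1 (Nat.eq_one_of_dvd_coprimes ((hp.out.coprime_iff_not_dvd.2 h).pow_left k)
    (orderOf_dvd_of_pow_eq_one e) (N.orderOf_dvd_natCard m))

theorem syl [Finite Y] {f : Y →* X} (hf : Function.Surjective f) (hz : f.ker ≤ center Y)
    (h : ¬ p ∣ Nat.card f.ker) {x : Y} {S : Subgroup Y} (s : IsSyl p S (⊤ ⊓ centralizer {x})) :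
    IsSyl p (S.map f) (⊤ ⊓ centralizer {f x}) := by
  refine ⟨?_, s.isPGroup.map f, fun Q q l m => ?_⟩
  · rintro _ ⟨g, hg, rfl⟩
    exact ⟨trivial, mem_centralizer_singleton_iff.2
      (Commute.map (mem_centralizer_singleton_iff.1 (s.le hg).2) f)⟩
  obtain ⟨P, hP, k⟩ := exists_isSyl_ge s.isPGroup (map_le_iff_le_comap.1 l)
  have e := hP.map f
  rw [map_comap_eq_self_of_surjective hf] at e
  rw [← e.eq_of_isPGroup q, s.eq_of_le hP.isPGroup k fun g hg =>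
    ⟨trivial, mem_centralizer_singleton_iff.2 ?_⟩]
  have c : x⁻¹ * g * x * g⁻¹ ∈ f.ker := by
    have := mem_centralizer_singleton_iff.1 (m (hP.le hg)).2
    rw [MonoidHom.mem_ker, map_mul, map_mul, map_mul, map_inv, map_inv, mul_assoc _ (f g), this]
    group
  obtain ⟨n, hn⟩ := PE.of_mem hP.isPGroup hg
  have c1 : Commute (x⁻¹ * g * x * g⁻¹) g := (mem_center_iff.1 (hz c) g).symm
  have := eq_one h c ⟨n, by
    have := c1.mul_pow (p ^ n)
    rw [hn, mul_one, inv_mul_cancel_right] at this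
    rw [← this, show x⁻¹ * g * x = x⁻¹ * g * x⁻¹⁻¹ by simp, conj_pow, hn]
    simp⟩
  rwa [mul_inv_eq_one, mul_assoc, inv_mul_eq_iff_eq_mul] at this

end FA

theorem Fac.lift [Finite Y] {f : Y →* X} (hf : Function.Surjective f) (hz : f.ker ≤ Subgroup.center Y)
    (hp : ¬ p ∣ Nat.card f.ker) {a b : Y} (h : Fac p ⊤ (f a) (f b)) : Fac p ⊤ a b := by
  have c : ∀ {a x}, Cj ⊤ a x → Cj ⊤ (f a) (f x) := fun ⟨g, _, r⟩ => ⟨f g, trivial, by simp [r]⟩
  have k : ∀ {Q : Subgroup Y} {u v}, IsPGroup p Q → u ∈ Q → v ∈ Q → f u = f v → u = v := fun q a b e =>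
    inv_mul_eq_one.1 (FA.eq_one hp (by simp [e]) (.of_mem q (mul_mem (inv_mem a) b)))
  intro x y hx hy S T R hS hT hR _ h1 h2
  obtain ⟨s, t⟩ := h _ _ (c hx) (c hy) _ _ _ (FA.syl hf hz hp hS) (FA.syl hf hz hp hT) (hR.map f) le_top
    (map_mono h1) (map_mono h2)
  refine ⟨⟨le_top, hR, fun Q q l _ => le_antisymm (fun g hg => ?_) l⟩, fun r hr => ?_⟩
  · obtain ⟨r, hr, e⟩ := (s.eq_of_le (q.map f) (map_mono l) le_top).le (mem_map_of_mem f hg)
    exact k q (l hr) hg e ▸ hr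
  · obtain ⟨_, ⟨u, hu, rfl⟩, _, ⟨v, hv, rfl⟩, e⟩ := t _ (mem_map_of_mem f hr)
    exact ⟨u, hu, v, hv, k hR hr (mul_mem (h1 hu) (h2 hv)) (e.trans (map_mul f u v).symm)⟩

/-- it suffices to treat non-central `p'`-elements of the covering group -/
theorem noS_quot [Finite Y] (hp : ¬ p ∣ Nat.card (Subgroup.center Y))
    (h : ∀ a b : Y, a ∉ Subgroup.center Y → b ∉ Subgroup.center Y → ¬ p ∣ orderOf a → ¬ p ∣ orderOf b →
      ¬ Fac p ⊤ a b) : NoS p (Y ⧸ Subgroup.center Y) := fun a b h1 h2 h3 h4 h5 => by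
  obtain ⟨a, rfl⟩ := QuotientGroup.mk_surjective a
  obtain ⟨b, rfl⟩ := QuotientGroup.mk_surjective b
  have o : ∀ a : Y, ¬ p ∣ orderOf (a : Y ⧸ center Y) → ¬ p ∣ orderOf a := fun a n d => by
    have m : a ^ orderOf (a : Y ⧸ center Y) ∈ center Y := by
      rw [← QuotientGroup.eq_one_iff, QuotientGroup.mk_pow, pow_orderOf_eq_one]
    refine ((Nat.Prime.dvd_mul Fact.out).1 (d.trans (orderOf_dvd_of_pow_eq_one ?_))).elim n hp
    rw [pow_mul]
    exact orderOf_dvd_iff_pow_eq_one.1 ((center Y).orderOf_dvd_natCard m)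
  exact h a b (mt (QuotientGroup.eq_one_iff a).2 h1) (mt (QuotientGroup.eq_one_iff b).2 h2) (o a h3) (o b h4)
    (Fac.lift (QuotientGroup.mk'_surjective _) (QuotientGroup.ker_mk' _).le
      (by rwa [QuotientGroup.ker_mk']) h5)

/-- a subgroup containing both Sylow subgroups contains a Sylow subgroup of `H` -/
theorem Fac.syl_le [Finite X] {H N S T : Subgroup X} {a b x y : X} (h : Fac p H a b) (hx : Cj H a x)
    (hy : Cj H b y) (hS : IsSyl p S (H ⊓ Subgroup.centralizer {x}))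
    (hT : IsSyl p T (H ⊓ Subgroup.centralizer {y})) (hN : N ≤ H) (h1 : S ≤ N) (h2 : T ≤ N) :
    ∃ R ≤ N, IsSyl p R H := by
  obtain ⟨R, r, l⟩ := exists_isSyl_ge hS.isPGroup h1
  obtain ⟨n, hn, m⟩ := r.exists_cj_le hT.isPGroup h2
  have t := hT.cj n
  rw [cj_inf, cj_eq_self_of_mem (hN hn), cj_centralizer_singleton] at t
  exact ⟨R, r.le, (h _ _ hx (hy.conj (hN hn)) _ _ R hS t r.isPGroup (r.le.trans hN) l m).1⟩

end CF.Ah
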