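import Cfsg.Agent.Ah.CL
import Cfsg.Agent.Ah.FA
import Cfsg.Agent.Geom.Families
import Cfsg.Agent.Geom.Simple

/-! Orthogonal groups: `p`-subgroups that commute with a semisimple element. -/

set_option autoImplicit false
set_option linter.unusedSectionVars false

namespace CF.Ah.OQ

open CF.Loc CF.Geom CF.Ah.CL Module Subgroup QuadraticMap

variable {p : ℕ} [hp : Fact p.Prime] {F V : Type*} [Field F] [Finite F] [CharP F p] [AddCommGroup V]
  [Module F V] [FiniteDimensional F V] {Q : QuadraticForm F V} {S T : Subgroup (V ≃ₗ[F] V)}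
  {a b g x : V ≃ₗ[F] V} {A B W Z : Submodule F V}

/-- `Ω(Q)` inside the linear group. -/
def Om (Q : QuadraticForm F V) : Subgroup (V ≃ₗ[F] V) := (commutator (OG Q)).map (OG Q).subtype

abbrev pp (Q : QuadraticForm F V) (W : Submodule F V) : Submodule F V := perp (polarBilin Q) W

/-- Totally singular. -/
def TS (Q : QuadraticForm F V) (W : Submodule F V) : Prop := ∀ v ∈ W, Q v = 0

/-- Invariant. -/
def Iv (g : V ≃ₗ[F] V) (A : Submodule F V) : Prop := ∀ v ∈ A, g v ∈ A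

/-- `S` is trivial on `B / A`. -/
def Tv (S : Subgroup (V ≃ₗ[F] V)) (A B : Submodule F V) : Prop := ∀ s ∈ S, ∀ v ∈ B, s v - v ∈ A

/-- The commutator space `[Z, S]`. -/
def cm (S : Subgroup (V ≃ₗ[F] V)) (Z : Submodule F V) : Submodule F V :=
  Submodule.span F {u | ∃ s ∈ S, ∃ v ∈ Z, u = s v - v}

theorem mem_pp {v : V} : v ∈ pp Q W ↔ ∀ u ∈ W, polar Q u v = 0 := mem_perp

theorem fr_pp (hQ : (polarBilin Q).Nondegenerate) (W : Submodule F V) :
    finrank F W + finrank F (pp Q W) = finrank F V := (isWittPair_quad Q hQ).finrank_perp W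

theorem pp_pp (hQ : (polarBilin Q).Nondegenerate) (W : Submodule F V) : pp Q (pp Q W) = W :=
  (isWittPair_quad Q hQ).perp_perp W

theorem Om_le : Om Q ≤ OG Q := map_subtype_le _

theorem mem_Om (hg : g ∈ OG Q) : g ∈ Om Q ↔ (⟨g, hg⟩ : OG Q) ∈ commutator (OG Q) :=
  mem_map_iff_mem (f := (OG Q).subtype) (x := ⟨g, hg⟩) Subtype.val_injective

theorem pol (hg : g ∈ OG Q) (u v : V) : polar Q (g u) (g v) = polar Q u v := OG_polar ⟨g, hg⟩ u v

theorem qm (hg : g ∈ OG Q) (v : V) : Q (g v) = Q v := OG_map ⟨g, hg⟩ v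

theorem pol' (hg : g ∈ OG Q) (u v : V) : polar Q u (g v - v) = polar Q (g⁻¹ u - u) v := by
  rw [polar_sub_right, polar_sub_left, ← pol hg (g⁻¹ u) v]
  simp

theorem TS.le (h : TS Q W) : W ≤ pp Q W := le_perp_of_totally_singular h

theorem Iv.pp (h : Iv g W) (hg : g ∈ OG Q) : Iv g (pp Q W) := perp_inv hg.1 h

theorem Iv.inv (h : Iv g W) : Iv g⁻¹ W := fun v hv => by
  obtain ⟨u, hu, rfl⟩ := (map_eq_of_le g h le_rfl).ge hv
  simpa using hu

theorem Tv.iv (h : Tv S A B) (h1 : A ≤ Z) (h2 : Z ≤ B) : ∀ s ∈ S, Iv s Z := fun s hs v hv => by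
  simpa using add_mem (h1 (h s hs v (h2 hv))) hv

theorem Tv.mono (h : Tv S A B) (h1 : A ≤ W) (h2 : Z ≤ B) : Tv S W Z :=
  fun s hs v hv => h1 (h s hs v (h2 hv))

theorem mem_cm {s : V ≃ₗ[F] V} (hs : s ∈ S) {v : V} (hv : v ∈ Z) : s v - v ∈ cm S Z :=
  Submodule.subset_span ⟨s, hs, v, hv, rfl⟩

theorem cm_le : cm S Z ≤ A ↔ Tv S A Z :=
  ⟨fun h _ hs _ hv => h (mem_cm hs hv), fun h => Submodule.span_le.2 (by
    rintro _ ⟨s, hs, v, hv, rfl⟩
    exact h s hs v hv)⟩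

theorem cm_le_self (h : ∀ s ∈ S, Iv s Z) : cm S Z ≤ Z :=
  cm_le.2 fun s hs v hv => sub_mem (h s hs v hv) hv

theorem cm_map (f : V →ₗ[F] V) (hf : ∀ s ∈ S, ∀ v, s (f v) = f (s v)) (h : ∀ v ∈ Z, f v ∈ B) :
    ∀ v ∈ cm S Z, f v ∈ cm S B := fun _ hv => (cm_le (A := (cm S B).comap f)).2 (fun s hs v hv => by
  rw [Submodule.mem_comap, map_sub, ← hf s hs]
  exact mem_cm hs (h v hv)) hv

theorem Iv.sup (h : Iv g A) (h' : Iv g B) : Iv g (A ⊔ B) := fun v hv => by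
  obtain ⟨u, hu, w, hw, rfl⟩ := Submodule.mem_sup.1 hv
  rw [map_add]
  exact Submodule.add_mem_sup (h u hu) (h' w hw)

/-- An element that fixes `W` and is trivial on `W^⊥ / W` is an even product of reflections. -/
theorem par (hQ : (polarBilin Q).Nondegenerate) (vs : List V) (hvs : ∀ v ∈ vs, Q v ≠ 0) (hW : TS Q W)
    (h2 : ∀ v ∈ pp Q W, (vs.map (oRefl Q)).prod.1 v - v ∈ W) : Even vs.length := by
  let Q' : QuadraticForm F (V × V) := Q.prod (-Q)
  have e0 : ∀ u v : V × V, polar Q' u v = polar Q u.1 v.1 - polar Q u.2 v.2 := fun u v => by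
    rw [polar_prod, sub_eq_add_neg]
    congr 1
    exact polar_neg Q u.2 v.2
  have hQ' : (polarBilin Q').Nondegenerate := nondegenerate_of_left _ fun z hz => Prod.ext
    (hQ.1 _ fun y => by simpa [e0] using hz (y, 0)) (hQ.1 _ fun y => by simpa [e0] using hz (0, y))
  have e1 : ∀ (vs : List V) (z : V × V), ((vs.map fun v => (v, (0 : V))).map (oRefl Q')).prod.1 z =
      ((vs.map (oRefl Q)).prod.1 z.1, z.2) := fun vs => by
    induction vs with
    | nil => simp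
    | cons v vs ih =>
      intro z
      simp only [List.map_cons, List.prod_cons, Subgroup.coe_mul, LinearEquiv.mul_apply, ih, oRefl_apply, e0]
      simp [Q']
  let M : Submodule F (V × V) := (pp Q W).prod (pp Q W) ⊓ W.comap (LinearMap.fst F V V - LinearMap.snd F V V)
  have hM : ∀ z : V × V, z ∈ M ↔ (z.1 ∈ pp Q W ∧ z.2 ∈ pp Q W) ∧ z.1 - z.2 ∈ W := fun z => Iff.rfl
  have s1 : ∀ z ∈ M, Q' z = 0 := fun z hz => by
    obtain ⟨⟨-, h1⟩, h3⟩ := (hM z).1 hz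
    have := quad_add Q (z.1 - z.2) z.2
    rw [sub_add_cancel, hW _ h3, mem_pp.1 h1 _ h3] at this
    simp [Q', this]
  have w := isWittPair_quad Q hQ
  have w' := isWittPair_quad Q' hQ'
  have s2 : perp (polarBilin Q') M ≤ M := fun z hz => by
    have hz : ∀ u ∈ M, polar Q' u z = 0 := mem_perp.1 hz
    refine (hM z).2 ⟨⟨mem_pp.2 fun u hu => ?_, mem_pp.2 fun u hu => ?_⟩, ?_⟩
    · simpa [e0] using hz (u, 0) ((hM _).2 ⟨⟨hW.le hu, zero_mem _⟩, by simpa using hu⟩)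
    · simpa [e0] using hz (0, u) ((hM _).2 ⟨⟨zero_mem _, hW.le hu⟩, by simpa using hu⟩)
    · rw [← w.perp_perp W]
      exact mem_pp.2 fun u hu => by
        simpa [e0] using hz (u, u) ((hM _).2 ⟨⟨hu, hu⟩, by simp⟩)
  have mx : MaxTS Q' M := ⟨by
    have h1 := w'.finrank_perp M
    rw [le_antisymm s2 (le_perp_of_totally_singular s1)] at h1
    omega, s1⟩
  have := (mx.even_length_iff hQ' (vs.map fun v => (v, 0)) (by simpa [Q'] using hvs)).2 (by
    rw [map_eq_of_le (U := M) (W := M) _ (fun z hz => ?_) le_rfl, inf_idem, Nat.sub_self]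
    · exact Even.zero
    obtain ⟨⟨h0, h1⟩, h3⟩ := (hM z).1 hz
    rw [e1, hM]
    exact ⟨⟨by simpa using add_mem (hW.le (h2 _ h0)) h0, h1⟩, by simpa using add_mem (h2 _ h0) h3⟩)
  simpa using this

theorem exists_even (hQ : (polarBilin Q).Nondegenerate) (h5 : 5 ≤ finrank F V) (hg : g ∈ Om Q) :
    ∃ vs : List V, (∀ v ∈ vs, Q v ≠ 0) ∧ (vs.map (oRefl Q)).prod.1 = g ∧ Even vs.length := by
  have ht := reflSub_eq_top hQ (Or.inr (by omega))
  obtain ⟨g, hg, rfl⟩ := hg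
  obtain ⟨vs, h1, rfl⟩ := mem_reflSub_iff.1 (ht ▸ mem_top g)
  exact ⟨vs, h1, rfl, ((prod_oRefl_mem_commutator_iff hQ ht vs h1).1 hg).1⟩

/-- An element of `Ω` does not induce a reflection on `W^⊥ / W`. -/
theorem par' (hQ : (polarBilin Q).Nondegenerate) (h5 : 5 ≤ finrank F V) (hg : g ∈ Om Q) (hW : TS Q W)
    {c : V} (hc : c ∈ pp Q W) (h0 : Q c ≠ 0) (h : ∀ v ∈ pp Q W, g v - (oRefl Q c).1 v ∈ W) : False := by
  obtain ⟨vs, h1, rfl, h2⟩ := exists_even hQ h5 hg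
  have := par hQ (vs ++ [c]) (by simpa [or_imp, forall_and, h0] using h1) hW fun v hv => by
    have k := h ((oRefl Q c).1 v) (by rw [oRefl_apply]; exact sub_mem hv (Submodule.smul_mem _ _ hc))
    have e : (oRefl Q c).1 ((oRefl Q c).1 v) = v := by
      rw [← LinearEquiv.mul_apply, ← Subgroup.coe_mul, oRefl_mul_self]; rfl
    simpa [e] using k
  simp [Nat.even_add_one, h2] at this

theorem orth (h0 : S ≤ OG Q) (hZ : Z ≤ pp Q W) {v : V} (hv : v ∈ pp Q W) (h : ∀ s ∈ S, s v - v ∈ W)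
    {k : V} (hk : k ∈ cm S Z ⊔ W) : polar Q v k = 0 := by
  have : cm S Z ⊔ W ≤ pp Q (F ∙ v) := sup_le (cm_le.2 fun s hs u hu => mem_perp_singleton.2 (by
    rw [polarBilin_apply_apply, pol' (h0 hs)]
    exact mem_pp.1 (hZ hu) _ (h _ (inv_mem hs)))) fun u hu => mem_perp_singleton.2 (by
    rw [polarBilin_apply_apply, polar_comm]
    exact mem_pp.1 hv u hu)
  exact mem_perp_singleton.1 (this hk)

/-- The vectors of `Z` fixed modulo `W`. -/
def fx (S : Subgroup (V ≃ₗ[F] V)) (W Z : Submodule F V) : Submodule F V where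
  carrier := {z | z ∈ Z ∧ ∀ s ∈ S, s z - z ∈ W}
  add_mem' u v := ⟨add_mem u.1 v.1, fun s hs => by
    rw [map_add, add_sub_add_comm]; exact add_mem (u.2 s hs) (v.2 s hs)⟩
  zero_mem' := by simp
  smul_mem' c _ u := ⟨Submodule.smul_mem _ c u.1, fun s hs => by
    rw [map_smul, ← smul_sub]; exact W.smul_mem c (u.2 s hs)⟩

theorem core (hS : IsPGroup p S) (h0 : S ≤ OG Q) (hW : TS Q W) (hZ : Z ≤ pp Q W) (hWZ : W ≤ Z)
    (h1 : ∀ s ∈ S, Iv s W) (h2 : ∀ s ∈ S, Iv s Z)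
    (h : ∀ v ∈ cm S Z ⊔ W, (∀ s ∈ S, s v - v ∈ W) → Q v = 0 → v ∈ W) :
    Tv S W Z ∨ (2 : F) = 0 ∧ ∃ c ∈ cm S Z ⊔ W, Q c ≠ 0 ∧ (∀ v ∈ cm S Z ⊔ W, ∃ l : F, v - l • c ∈ W) ∧
      ∀ s ∈ S, (∀ v ∈ Z, s v - v ∈ W) ∨ ∀ v ∈ Z, s v - (oRefl Q c).1 v ∈ W := by
  have kz : cm S Z ⊔ W ≤ Z := sup_le (cm_le_self h2) hWZ
  have tk : Tv S (cm S Z ⊔ W) Z := cm_le.1 le_sup_left
  have kr : cm S Z ⊔ W ≤ fx S W (cm S Z ⊔ W) := by
    by_contra n
    obtain ⟨z, z1, z2, z3⟩ := fix_mod hS (fun s hs v hv => by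
      have : s v - v ∈ fx S W (cm S Z ⊔ W) := ⟨Submodule.mem_sup_right (hv.2 s hs), fun t ht =>
        sub_mem (h1 t ht _ (hv.2 s hs)) (hv.2 s hs)⟩
      simpa using add_mem this hv) (tk.iv le_rfl kz) n
    refine z2 ⟨z1, fun s hs => h _ (z3 s hs).1 (z3 s hs).2 ?_⟩
    have := quad_add Q (s z - z) z
    rwa [sub_add_cancel, qm (h0 hs), orth h0 hZ (hZ (kz (z3 s hs).1)) (z3 s hs).2 z1, add_zero,
      right_eq_add] at this
  refine or_iff_not_imp_left.2 fun n => ?_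
  obtain ⟨s, hs, v, hv, n⟩ : ∃ s ∈ S, ∃ v ∈ Z, s v - v ∉ W := by simpa [Tv] using n
  have hc := tk s hs v hv
  generalize s v - v = c at n hc
  have c0 : Q c ≠ 0 := fun e => n (h c hc (kr hc).2 e)
  have o : ∀ u ∈ cm S Z ⊔ W, polar Q u c = 0 := fun u hu => orth h0 hZ (hZ (kz hu)) (kr hu).2 hc
  have t0 : (2 : F) = 0 := by simpa [polar_self', c0] using o c hc
  have k : ∀ v ∈ cm S Z ⊔ W, ∃ l : F, v - l • c ∈ W := fun u hu => by
    obtain ⟨l, hl⟩ := isSquare_of_two_eq_zero t0 (Q u / Q c)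
    have m := sub_mem hu (Submodule.smul_mem _ l hc)
    refine ⟨l, h _ m (kr m).2 ?_⟩
    rw [quad_sub, quad_smul, polar_smul_right, o u hu, pow_two, ← hl, div_mul_cancel₀ _ c0]
    simp only [smul_zero]
    linear_combination Q u * t0
  refine ⟨t0, c, hc, c0, k, fun s hs => ?_⟩
  refine le_or_le_of_forall_mem_or (U := Z) (X := W.comap (s.toLinearMap - LinearMap.id))
    (Y := W.comap (s.toLinearMap - (oRefl Q c).1.toLinearMap)) fun u hu => ?_
  obtain ⟨l, hl⟩ := k _ (tk s hs u hu)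
  obtain ⟨w, hw, e⟩ : ∃ w ∈ W, s u = w + (u + l • c) := ⟨_, hl, by abel⟩
  have q := qm (h0 hs) u
  rw [e, quad_add, hW w hw, mem_pp.1 (hZ (add_mem hu (Z.smul_mem l (kz hc)))) w hw, quad_add, quad_smul,
    polar_smul_right, smul_eq_mul] at q
  have q' : l * (l * Q c + polar Q c u) = 0 := by rw [polar_comm]; linear_combination q
  rcases mul_eq_zero.1 q' with q' | q'
  · left
    simpa [e, q'] using hw
  · right
    have : l = -((Q c)⁻¹ * polar Q c u) := by field_simp; linear_combination q'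
    simpa [e, oRefl_apply, this, ← sub_eq_add_neg] using hw

/-- A `p`-group fixes a singular vector in an invariant subspace of dimension at least `3`. -/
theorem fs (hS : IsPGroup p S) (h0 : S ≤ OG Q) (h2 : ∀ s ∈ S, Iv s Z) (h3 : 3 ≤ finrank F Z) :
    ∃ z ∈ Z, z ≠ 0 ∧ Q z = 0 ∧ ∀ s ∈ S, s z = z := by
  by_contra n
  have n : ∀ z ∈ Z, (∀ s ∈ S, s z = z) → Q z = 0 → z = 0 := fun z h1 h2 h3 => by
    by_contra k
    exact n ⟨z, h1, k, h3, h2⟩
  have kz : cm S Z ⊔ ⊥ ≤ Z := sup_le (cm_le_self h2) bot_le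
  rcases core (W := ⊥) hS h0 (by simp [TS]) (by simp [perp_bot]) bot_le (by simp [Iv]) h2
    (fun v hv h1 h2 => n v (kz hv) (by simpa [sub_eq_zero] using h1) h2) with h | ⟨t0, c, hc, c0, -, h⟩
  · obtain ⟨v, h1, h4, h5⟩ := exists_singular_mem Q h3
    exact h4 (n v h1 (fun s hs => sub_eq_zero.1 (h s hs v h1)) h5)
  have fx : ∀ v ∈ Z, polar Q c v = 0 → ∀ s ∈ S, s v = v := fun v hv e s hs => by
    rcases h s hs with k | k
    · exact sub_eq_zero.1 (k v hv)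
    · simpa [oRefl_of_polar_eq_zero e, sub_eq_zero] using k v hv
  obtain ⟨ψ, hψ⟩ : ∃ ψ : Dual F V, ψ c ≠ 0 := by
    by_contra! k
    exact c0 (by rw [(forall_dual_apply_eq_zero_iff F c).1 k, map_zero])
  obtain ⟨d, d0, d1, d2⟩ := exists_ne_zero_mem_ker_two h3 (polarBilin Q c ∘ₗ Z.subtype) (ψ ∘ₗ Z.subtype)
  have d1 : polar Q c d = 0 := d1
  have d2 : ψ d = 0 := d2
  have cc : polar Q c c = 0 := by rw [polar_self', t0, zero_mul]
  obtain ⟨l, hl⟩ := isSquare_of_two_eq_zero t0 (Q d / Q c)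
  have m := sub_mem d.2 (Z.smul_mem l (kz hc))
  have e := n _ m (fx _ m (by simp [d1, cc])) (by
    rw [quad_sub, quad_smul, polar_smul_right, polar_comm, d1, pow_two, ← hl, div_mul_cancel₀ _ c0]
    simp only [smul_zero]
    linear_combination Q d * t0)
  have l0 : l = 0 := by simpa [d2, hψ] using congrArg ψ e
  exact d0 (Subtype.ext (by simpa [l0] using e))

theorem cm_lt (hQ : (polarBilin Q).Nondegenerate) (hS : IsPGroup p S) (h0 : S ≤ OG Q)
    (h2 : ∀ s ∈ S, Iv s Z) (h : Z ≤ cm S Z) : Z = ⊥ := by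
  have w := isWittPair_quad Q hQ
  have : (⊤ : Submodule F V) ≤ pp Q Z := by
    by_contra n
    obtain ⟨z, -, z2, z3⟩ := fix_mod hS (fun s hs => (h2 s hs).pp (h0 hs)) (by simp) n
    have : cm S Z ≤ pp Q (F ∙ z) := cm_le.2 fun s hs u hu => mem_perp_singleton.2 (by
      rw [polarBilin_apply_apply, pol' (h0 hs), polar_comm]
      exact mem_pp.1 (z3 _ (inv_mem hs)) u hu)
    exact z2 (mem_pp.2 fun u hu => by rw [polar_comm]; exact mem_perp_singleton.1 (this (h hu)))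
  rw [← pp_pp hQ Z, top_le_iff.1 this]
  exact w.perp_top

/-- The standing assumptions. -/
structure Cx (p : ℕ) (Q : QuadraticForm F V) (x : V ≃ₗ[F] V) (S : Subgroup (V ≃ₗ[F] V)) : Prop where
  nd : (polarBilin Q).Nondegenerate
  dim : 5 ≤ finrank F V
  mem : x ∈ Om Q
  le : S ≤ Om Q
  pg : IsPGroup p S
  cm : ∀ s ∈ S, ∀ v, s (x v) = x (s v)
  ord : ¬ p ∣ orderOf x
  ns : ∀ c : F, ∃ v, x v ≠ c • v

theorem Cx.w (c : Cx p Q x S) : IsWittPair (RingHom.id F) (polarBilin Q) Q := isWittPair_quad Q c.nd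
theorem Cx.o (c : Cx p Q x S) : S ≤ OG Q := c.le.trans Om_le
theorem Cx.ox (c : Cx p Q x S) : x ∈ OG Q := Om_le c.mem

theorem Cx.iv (c : Cx p Q x S) (h : Iv x Z) : Iv x (OQ.cm S Z) := cm_map x.toLinearMap c.cm h

theorem Cx.gen (c : Cx p Q x S) (h1 : Iv x B) (h2 : ∀ s ∈ S, Iv s B) {l : F}
    (h : ∀ v ∈ B, x v - l • v ∈ OQ.cm S B) : ∀ v ∈ B, x v = l • v := by
  let n : V →ₗ[F] V := x.toLinearMap - l • LinearMap.id
  have e : ∀ v, n v = x v - l • v := fun v => rfl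
  have cs : ∀ s ∈ S, ∀ v, s (n v) = n (s v) := fun s hs v => by simp [e, c.cm s hs]
  have : B.map n = ⊥ := cm_lt c.nd c.pg c.o (by
    rintro s hs _ ⟨v, hv, rfl⟩
    exact ⟨s v, h2 s hs v hv, (cs s hs v).symm⟩) (by
    rintro _ ⟨v, hv, rfl⟩
    obtain ⟨_, ⟨w, hw, rfl⟩, k⟩ := lift_eig (A := B.map n) c.ord (by
      rintro _ ⟨v, hv, rfl⟩
      exact ⟨x v, h1 v hv, by simp [e]⟩) (c := l) (z := v) ⟨v, hv, rfl⟩
    have : n v = n (n w) := by
      rw [← sub_eq_zero, ← map_sub, e, k, sub_self]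
    rw [this]
    exact cm_map n cs (fun v hv => Submodule.mem_map_of_mem hv) _ (h w hw))
  exact fun v hv => sub_eq_zero.1 (this.le ⟨v, hv, rfl⟩)

/-- An element that is a scalar on `W^⊥` is a scalar. -/
theorem Cx.sc (c : Cx p Q x S) (hW : TS Q W) {l : F} (hl : l ^ 2 = 1) (h : ∀ v ∈ pp Q W, x v = l • v) :
    False := by
  obtain ⟨v, hv⟩ := c.ns l
  refine hv (eig_of_mod (A := W) c.ord (fun u hu => h u (hW.le hu)) ?_)
  rw [← c.w.perp_perp W]
  refine mem_pp.2 fun u hu => ?_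
  have := pol c.ox u v
  rw [h u hu, polar_smul_left, smul_eq_mul] at this
  rw [polar_sub_right, polar_smul_right, smul_eq_mul]
  linear_combination l * this - polar Q u (x v) * hl

/-- A maximal invariant totally singular subspace. -/
structure Mx (Q : QuadraticForm F V) (x : V ≃ₗ[F] V) (S : Subgroup (V ≃ₗ[F] V)) (W : Submodule F V) :
    Prop where
  ts : TS Q W
  ix : Iv x W
  is : ∀ s ∈ S, Iv s W
  mx : ∀ A, TS Q A → Iv x A → (∀ s ∈ S, Iv s A) → W ≤ A → A ≤ W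

theorem exists_mx (Q : QuadraticForm F V) (x : V ≃ₗ[F] V) (S : Subgroup (V ≃ₗ[F] V)) :
    ∃ W, Mx Q x S W := by
  obtain ⟨W, ⟨w1, w2, w3⟩, mx⟩ := (set_has_maximal_iff_noetherian.2 (inferInstance : IsNoetherian F V))
    {W | TS Q W ∧ Iv x W ∧ ∀ s ∈ S, Iv s W} ⟨⊥, by simp [TS], by simp [Iv], by simp [Iv]⟩
  exact ⟨W, w1, w2, w3, fun A h1 h2 h3 h4 => by
    by_contra n
    exact mx A ⟨h1, h2, h3⟩ (lt_of_le_not_ge h4 n)⟩

theorem Mx.tv (h : Mx Q x S W) (c : Cx p Q x S) : Tv S W (pp Q W) := by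
  have h2 : ∀ s ∈ S, Iv s (pp Q W) := fun s hs => (h.is s hs).pp (c.o hs)
  have kz : cm S (pp Q W) ⊔ W ≤ pp Q W := sup_le (cm_le_self h2) h.ts.le
  let R : Submodule F V :=
    { carrier := {v | v ∈ fx S W (cm S (pp Q W) ⊔ W) ∧ Q v = 0}
      add_mem' := fun {u v} hu hv => ⟨add_mem hu.1 hv.1, by
        rw [quad_add, hu.2, hv.2, orth c.o le_rfl (kz hu.1.1) hu.1.2 hv.1.1]; simp⟩
      zero_mem' := ⟨zero_mem _, map_zero Q⟩
      smul_mem' := fun l _ u => ⟨Submodule.smul_mem _ l u.1, by rw [quad_smul, u.2, mul_zero]⟩ }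
  have wr : W ≤ R := fun v hv =>
    ⟨⟨Submodule.mem_sup_right hv, fun s hs => sub_mem (h.is s hs v hv) hv⟩, h.ts v hv⟩
  have := h.mx R (fun v hv => hv.2) (fun v hv => ⟨⟨((c.iv (h.ix.pp c.ox)).sup h.ix) v hv.1.1, fun s hs => by
    rw [c.cm s hs, ← map_sub]
    exact h.ix _ (hv.1.2 s hs)⟩, by rw [qm c.ox, hv.2]⟩)
    (fun s hs v hv => by simpa using add_mem (wr (hv.1.2 s hs)) hv) wr
  rcases core c.pg c.o h.ts le_rfl h.ts.le h.is h2 fun v h1 h2 h3 => this ⟨⟨h1, h2⟩, h3⟩ with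
    k | ⟨-, d, hd, d0, -, k⟩
  · exact k
  · exact fun s hs => (k s hs).resolve_right (par' c.nd c.dim (c.le hs) h.ts (kz hd) d0)

theorem TS.sup (h : TS Q W) {v : V} (hv : v ∈ pp Q W) (h0 : Q v = 0) : TS Q (W ⊔ F ∙ v) := fun u hu => by
  obtain ⟨w, hw, _, k, rfl⟩ := Submodule.mem_sup.1 hu
  obtain ⟨l, rfl⟩ := Submodule.mem_span_singleton.1 k
  simp [quad_add, quad_smul, h w hw, h0, mem_pp.1 hv w hw]

theorem ext1 (hW : TS Q W) (h1 : W ≤ Z) (h3 : finrank F W + 3 ≤ finrank F Z) :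
    ∃ v ∈ Z, v ∉ W ∧ Q v = 0 := by
  obtain ⟨U, hU⟩ := W.exists_isCompl
  have e1 := Submodule.finrank_sup_add_finrank_inf_eq W (U ⊓ Z)
  rw [← sup_inf_assoc_of_le _ h1, hU.sup_eq_top, top_inf_eq] at e1
  obtain ⟨v, k1, k2, k3⟩ := exists_singular_mem Q (U := U ⊓ Z) (by omega)
  exact ⟨v, k1.2, fun k => k2 (hU.inf_eq_bot.le ⟨k, k1.1⟩), k3⟩

theorem ext (hQ : (polarBilin Q).Nondegenerate) (hW : TS Q W) {j : ℕ} (h1 : finrank F W ≤ j)
    (h2 : 2 * j + 1 ≤ finrank F V) : ∃ A, W ≤ A ∧ TS Q A ∧ finrank F A = j := by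
  induction j, h1 using Nat.le_induction with
  | base => exact ⟨W, le_rfl, hW, rfl⟩
  | succ j h1 ih =>
    obtain ⟨A, a1, a2, a3⟩ := ih (by omega)
    have := fr_pp hQ A
    obtain ⟨v, v1, v2, v3⟩ := ext1 a2 a2.le (by omega)
    exact ⟨A ⊔ F ∙ v, a1.trans le_sup_left, a2.sup v1 v3, by
      rw [Submodule.finrank_sup_span_singleton v2, a3]⟩

/-- `S` fixes a totally singular plane pointwise. -/
def TT (Q : QuadraticForm F V) (S : Subgroup (V ≃ₗ[F] V)) : Prop :=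
  ∃ B, TS Q B ∧ finrank F B = 2 ∧ Tv S ⊥ B

theorem tt_of {e f : V} (e0 : e ≠ 0) (h : f ∉ F ∙ e) (he : Q e = 0) (hf : Q f = 0) (o : polar Q e f = 0)
    (h1 : ∀ s ∈ S, s e = e) (h2 : ∀ s ∈ S, s f = f) : TT Q S := by
  have t : TS Q (F ∙ e) := fun u hu => by
    obtain ⟨l, rfl⟩ := Submodule.mem_span_singleton.1 hu
    simp [quad_smul, he]
  refine ⟨(F ∙ e) ⊔ F ∙ f, t.sup (mem_perp_singleton.2 o) hf, by
    rw [Submodule.finrank_sup_span_singleton h, finrank_span_singleton e0], fun s hs v hv => ?_⟩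
  have : (F ∙ e) ⊔ (F ∙ f) ≤ fx S ⊥ ⊤ := by
    simp only [sup_le_iff, Submodule.span_singleton_le_iff_mem]
    exact ⟨⟨trivial, fun s hs => by simp [h1 s hs]⟩, trivial, fun s hs => by simp [h2 s hs]⟩
  exact (this hv).2 s hs

theorem Cx.tt (c : Cx p Q x S) {e f : V} (e0 : e ≠ 0) (h : f ∉ F ∙ e) (he : Q e = 0) (hf : Q f = 0)
    (h1 : ∀ s ∈ S, s e = e) (h2 : ∀ s ∈ S, s f = f) : TT Q S := by
  by_cases o : polar Q e f = 0
  · exact tt_of e0 h he hf o h1 h2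
  have d1 := fr_pp c.nd (Submodule.span F {e, f})
  have d2 : finrank F (Submodule.span F {e, f}) = 2 :=
    finrank_span_pair (linearIndependent_pair_of_notMem e0 h)
  have d3 := c.dim
  obtain ⟨z, z1, z2, z3, z4⟩ := fs (Z := pp Q (Submodule.span F {e, f})) c.pg c.o (fun s hs v hv => by
    rw [mem_perp_pair] at hv ⊢
    simp only [polarBilin_apply_apply] at hv ⊢
    rw [← h1 s hs, ← h2 s hs, pol (c.o hs), pol (c.o hs)]
    exact hv) (by omega)
  rw [mem_perp_pair] at z1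
  refine tt_of e0 (fun k => ?_) he z3 z1.1 h1 z4
  obtain ⟨l, rfl⟩ := Submodule.mem_span_singleton.1 k
  have : l * polar Q e f = 0 := by simpa [polar_comm Q f e] using z1.2
  exact z2 (by rw [(mul_eq_zero.1 this).resolve_right o, zero_smul])

/-- The image of `x - l`. -/
def rg (x : V ≃ₗ[F] V) (l : F) : Submodule F V := LinearMap.range (x.toLinearMap - l • LinearMap.id)

theorem mem_rg {l : F} {z : V} : z ∈ rg x l ↔ ∃ v, x v - l • v = z := Iff.rfl

/-- The exceptional configuration: `x` is `±1` outside an anisotropic subspace centralized by `S`. -/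
structure RR (Q : QuadraticForm F V) (x : V ≃ₗ[F] V) (S : Subgroup (V ≃ₗ[F] V)) (l : F) : Prop where
  sq : l ^ 2 = 1
  an : ∀ z ∈ rg x l, Q z = 0 → z = 0
  fix : ∀ s ∈ S, ∀ z ∈ rg x l, s z = z

theorem Cx.rg_eig (c : Cx p Q x S) {l : F} {z : V} (hz : z ∈ rg x l) (h : x z = l • z) : z = 0 := by
  obtain ⟨v, rfl⟩ := mem_rg.1 hz
  exact sub_eq_zero.2 (ss c.ord h)

theorem Cx.nt (c : Cx p Q x S) (n : ¬ TT Q S) : ∃ l, RR Q x S l := by
  have d3 := c.dim
  obtain ⟨e, -, e0, e1, e2⟩ := fs (Z := ⊤) c.pg c.o (by simp [Iv]) (by rw [finrank_top]; omega)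
  have k : ∀ f, Q f = 0 → (∀ s ∈ S, s f = f) → ∃ m : F, m • e = f := fun f h1 h2 => by
    by_contra k
    exact n (c.tt e0 (mt Submodule.mem_span_singleton.1 k) e1 h1 e2 h2)
  obtain ⟨l, hl⟩ := k (x e) (by rw [qm c.ox, e1]) fun s hs => by rw [c.cm s hs, e2 s hs]
  have i1 : ∀ s ∈ S, Iv s (rg x l) := by
    rintro s hs _ ⟨v, rfl⟩
    exact ⟨s v, by simp [c.cm s hs]⟩
  have i2 : Iv x (rg x l) := by
    rintro _ ⟨v, rfl⟩
    exact ⟨x v, by simp⟩
  have a : ∀ z ∈ rg x l, (∀ s ∈ S, s z = z) → Q z = 0 → z = 0 := fun z h1 h2 h3 => by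
    obtain ⟨m, rfl⟩ := k z h3 h2
    exact c.rg_eig h1 (by rw [map_smul, ← hl, smul_comm])
  have d : finrank F (rg x l) ≤ 2 := by
    by_contra d
    obtain ⟨z, z1, z2, z3, z4⟩ := fs c.pg c.o i1 (by omega)
    exact z2 (a z z1 z4 z3)
  have l2 : l ^ 2 = 1 := by
    by_contra l2
    have d1 := (x.toLinearMap - l • LinearMap.id).finrank_range_add_finrank_ker
    have d2 := c.w.two_mul_finrank_le (U := LinearMap.ker (x.toLinearMap - l • LinearMap.id))
      fun v hv => mem_pp.2 fun u hu => by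
        have := pol c.ox u v
        rw [(sub_eq_zero.1 hu : x u = l • u), (sub_eq_zero.1 hv : x v = l • v), polar_smul_left,
          polar_smul_right, smul_eq_mul, smul_eq_mul] at this
        exact (mul_eq_zero.1 (by linear_combination this : (l ^ 2 - 1) * polar Q u v = 0)).resolve_left
          (sub_ne_zero.2 l2)
    unfold rg at d
    omega
  have kz : OQ.cm S (rg x l) ⊔ ⊥ ≤ rg x l := sup_le (cm_le_self i1) bot_le
  rcases core (W := ⊥) c.pg c.o (by simp [TS]) (by simp [perp_bot]) bot_le (by simp [Iv]) i1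
    (fun v hv h1 h2 => a v (kz hv) (by simpa [sub_eq_zero] using h1) h2) with h | ⟨t0, z, hz, z0, h, -⟩
  · have f : ∀ s ∈ S, ∀ z ∈ rg x l, s z = z := fun s hs z hz => sub_eq_zero.1 (h s hs z hz)
    exact ⟨l, l2, fun z hz => a z hz fun s hs => f s hs z hz, f⟩
  · obtain ⟨m, hm⟩ := h (x z) (((c.iv i2).sup (by simp [Iv])) z hz)
    have hm : x z = m • z := sub_eq_zero.1 hm
    have q := qm c.ox z
    rw [hm, quad_smul, mul_left_eq_self₀] at q
    have : m = l := sub_eq_zero.1 (pow_eq_zero_iff two_ne_zero |>.1 (by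
      linear_combination q.resolve_right z0 + l2 + (1 - m * l) * t0))
    exact absurd (by rw [c.rg_eig (kz hz) (this ▸ hm), map_zero]) z0

/-- From `W^⊥` to the perp of a hyperplane of `W`. -/
theorem Tv.hyp (h : Tv S A (pp Q W)) (hQ : (polarBilin Q).Nondegenerate) (h0 : S ≤ OG Q) (hW : TS Q W)
    (h1 : A ≤ W) (h2 : finrank F W ≤ finrank F A + 1) : Tv S A (pp Q A) := fun s hs v hv => by
  by_cases k : v ∈ pp Q W
  · exact h s hs v k
  have r : s v - v ∈ W := by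
    rw [← pp_pp hQ W]
    exact mem_pp.2 fun u hu => by
      rw [pol' (h0 hs)]
      exact mem_pp.1 hv _ (h _ (inv_mem hs) u hu)
  have q := quad_add Q (s v - v) v
  rw [sub_add_cancel, qm (h0 hs), hW _ r, zero_add, left_eq_add] at q
  by_contra n
  rw [← eq_of_le_of_finrank_le_succ h1 h2 r n, pp, perp_sup] at k
  exact k ⟨hv, mem_perp_singleton.2 q⟩

theorem mid (h1 : A ≤ W) {j : ℕ} (d1 : finrank F A ≤ j) (d2 : j ≤ finrank F W) :
    ∃ B, A ≤ B ∧ B ≤ W ∧ finrank F B = j := by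
  induction j, d1 using Nat.le_induction with
  | base => exact ⟨A, le_rfl, h1, rfl⟩
  | succ j d1 ih =>
    obtain ⟨B, b1, b2, b3⟩ := ih (by omega)
    obtain ⟨v, v1, v2⟩ := SetLike.not_le_iff_exists.1 fun k : W ≤ B => by
      have := Submodule.finrank_mono k
      omega
    exact ⟨B ⊔ F ∙ v, b1.trans le_sup_left, sup_le b2 ((Submodule.span_singleton_le_iff_mem _ _).2 v1), by
      rw [Submodule.finrank_sup_span_singleton v2, b3]⟩

theorem exists_hyp (h1 : A ≤ W) (h : ¬ W ≤ A) {j : ℕ} (h2 : finrank F W = j + 1) :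
    ∃ B, A ≤ B ∧ B ≤ W ∧ finrank F B = j := by
  have := Submodule.finrank_lt_finrank_of_lt (lt_of_le_not_ge h1 h)
  exact mid h1 (by omega) (by omega)

/-- The elements of `Ω` that are trivial on `B / A`. -/
def NN (Q : QuadraticForm F V) (A B : Submodule F V) : Subgroup (V ≃ₗ[F] V) where
  carrier := {g | g ∈ Om Q ∧ Iv g A ∧ ∀ v ∈ B, g v - v ∈ A}
  mul_mem' {a b} ha hb := ⟨mul_mem ha.1 hb.1, fun v hv => ha.2.1 _ (hb.2.1 v hv), fun v hv => by
    simpa using add_mem (ha.2.1 _ (hb.2.2 v hv)) (ha.2.2 v hv)⟩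
  one_mem' := ⟨one_mem _, fun _ h => h, by simp⟩
  inv_mem' {a} ha := ⟨inv_mem ha.1, ha.2.1.inv, fun v hv => by
    simpa using neg_mem (ha.2.1.inv _ (ha.2.2 v hv))⟩

theorem NN_conj {n : V ≃ₗ[F] V} (hg : g ∈ Om Q) (h1 : Iv g A) (h2 : Iv g B) (hn : n ∈ NN Q A B) :
    g * n * g⁻¹ ∈ NN Q A B :=
  ⟨mul_mem (mul_mem hg hn.1) (inv_mem hg), fun v hv => h1 _ (hn.2.1 _ (h1.inv v hv)), fun v hv => by
    simpa using h1 _ (hn.2.2 _ (h2.inv v hv))⟩

theorem eich_mem (hQ : (polarBilin Q).Nondegenerate) (h5 : 5 ≤ finrank F V) {e w : V} (he : Q e = 0)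
    (hw : polar Q e w = 0) : (eichler he hw).1 ∈ Om Q :=
  ⟨_, eichlerSub_le_commutator hQ (Or.inr (by omega)) (eichler_mem he hw), rfl⟩

theorem eich_pow {e w : V} (he : Q e = 0) (hw : polar Q e w = 0) : (eichler he hw).1 ^ p = 1 := by
  have : ∀ (k : ℕ) v, ((eichler he hw).1 ^ k) v = eichlerMap Q e ((k : F) • w) v := fun k => by
    induction k with
    | zero => simp [eichlerMap_zero]
    | succ k ih =>
      intro v
      rw [pow_succ', LinearEquiv.mul_apply, ih, Nat.cast_succ, add_comm, add_smul, one_smul]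
      exact eichlerMap_add he (by simp [hw]) hw v
  ext v
  simp [this, eichlerMap_zero]

/-- The data of a factorization. -/
structure Fz (p : ℕ) (Q : QuadraticForm F V) (a b : V ≃ₗ[F] V) (S T : Subgroup (V ≃ₗ[F] V)) : Prop where
  fac : Fac p (Om Q) a b
  sa : IsSyl p S (Om Q ⊓ centralizer {a})
  sb : IsSyl p T (Om Q ⊓ centralizer {b})
  ca : Cx p Q a S
  cb : Cx p Q b T

theorem Fz.symm (h : Fz p Q a b S T) : Fz p Q b a T S := ⟨h.fac.symm, h.sb, h.sa, h.cb, h.ca⟩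

theorem Fz.cj (h : Fz p Q a b S T) (hg : g ∈ Om Q) : Fz p Q a (g * b * g⁻¹) S (cj[g] T) := by
  have s := syl_cj h.sb (le_normalizer hg)
  refine ⟨h.fac.cj (.refl _ _) (.of hg b), h.sa, s, h.ca, h.cb.nd, h.cb.dim, (Cj.of hg b).mem h.cb.mem,
    s.le.trans inf_le_left, s.isPGroup, fun t ht v => DFunLike.congr_fun (comm s ht) v,
    (Cj.of hg b).orderOf ▸ h.cb.ord, fun c => ?_⟩
  obtain ⟨v, hv⟩ := h.cb.ns c
  exact ⟨g v, fun e => hv (g.injective (by simpa using e))⟩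

theorem Tv.cj (h : Tv T A B) (g : V ≃ₗ[F] V) :
    Tv (cj[g] T) (A.map (g : V →ₗ[F] V)) (B.map (g : V →ₗ[F] V)) := by
  rintro _ ⟨t, ht, rfl⟩ _ ⟨v, hv, rfl⟩
  exact ⟨_, h t ht v hv, by simp⟩

theorem Fz.eich (h : Fz p Q a b S T) (hAB : A ≤ B) (h1 : Tv S A B) (h2 : Tv T A B) {e w : V} (he : Q e = 0)
    (hw : polar Q e w = 0) (i1 : Iv (eichler he hw).1 A) (i2 : Iv (eichler he hw).1 B) :
    ∀ v ∈ B, (eichler he hw).1 v - v ∈ A := by
  have := fin (Om Q)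
  have m := eich_mem h.ca.nd h.ca.dim he hw
  exact (mem_of_fac (N := NN Q A B) h.fac (.refl _ _) (.refl _ _) h.sa h.sb (fun g hg => hg.1)
    (fun s hs => ⟨h.ca.le hs, h1.iv le_rfl hAB s hs, h1 s hs⟩)
    (fun s hs => ⟨h.cb.le hs, h2.iv le_rfl hAB s hs, h2 s hs⟩) m (fun n hn => NN_conj m i1 i2 hn)
    (by rw [eich_pow]; exact one_mem _)).2.2

theorem Fz.noT (h : Fz p Q a b S T) (hAB : A ≤ B) (hB : TS Q B) (d : finrank F A + 2 ≤ finrank F B)
    (h1 : Tv S A B) (h2 : Tv T A B) : False := by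
  obtain ⟨e, e1, e2⟩ := SetLike.not_le_iff_exists.1 fun k : B ≤ A => by
    have := Submodule.finrank_mono k
    omega
  obtain ⟨f, f1, f2⟩ := SetLike.not_le_iff_exists.1 fun k : B ≤ A ⊔ F ∙ e => by
    have := Submodule.finrank_mono k
    rw [Submodule.finrank_sup_span_singleton e2] at this
    omega
  obtain ⟨w, w1, w2⟩ := h.ca.w.exists_dual_vec f2
  have hw : polar Q e w = 0 := w2 e (Submodule.mem_sup_right (Submodule.mem_span_singleton_self e))
  have ap : ∀ v ∈ B, (eichler (hB e e1) hw).1 v = v - polar Q v w • e := fun v hv => by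
    rw [eichler_apply_of_perp _ _ (mem_pp.1 (hB.le hv) e e1), polar_comm]
  have := h.eich hAB h1 h2 (hB e e1) hw (fun v hv => by
    rw [ap v (hAB hv), show polar Q v w = 0 from w2 v (Submodule.mem_sup_left hv)]
    simpa using hv) (fun v hv => by rw [ap v hv]; exact sub_mem hv (B.smul_mem _ e1)) f f1
  rw [ap f f1, show polar Q f w = 1 from w1] at this
  exact e2 (by simpa using this)

theorem Fz.noL (h : Fz p Q a b S T) (hA : TS Q A) (d : 2 * finrank F A + 3 ≤ finrank F V)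
    (h1 : Tv S A (pp Q A)) (h2 : Tv T A (pp Q A)) : False := by
  have d1 := fr_pp h.ca.nd A
  obtain ⟨e, e1, e2, he⟩ := ext1 hA hA.le (by omega)
  have d2 := fr_pp h.ca.nd (A ⊔ F ∙ e)
  obtain ⟨w, w1, w2⟩ := SetLike.not_le_iff_exists.1 fun k : pp Q (A ⊔ F ∙ e) ≤ A ⊔ F ∙ e => by
    have := Submodule.finrank_mono k
    rw [Submodule.finrank_sup_span_singleton e2] at this d2
    omega
  rw [pp, perp_sup] at w1
  have hw : polar Q e w = 0 := mem_perp_singleton.1 w1.2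
  obtain ⟨f, f1, f2⟩ := h.ca.w.exists_dual_vec e2
  have i1 : Iv (eichler he hw).1 A := fun v hv => by
    rw [eichler_apply_of_perp _ _ (by rw [polar_comm]; exact mem_pp.1 e1 v hv), polar_comm,
      mem_pp.1 w1.1 v hv]
    simpa using hv
  have := h.eich hA.le h1 h2 he hw i1 (i1.pp (eichler he hw).2) f (mem_pp.2 f2)
  rw [eichler_apply, show polar Q e f = 1 from f1] at this
  refine w2 ?_
  have m : e ∈ A ⊔ F ∙ e := Submodule.mem_sup_right (Submodule.mem_span_singleton_self e)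
  convert add_mem (Submodule.mem_sup_left this) (Submodule.smul_mem _ (polar Q w f + Q w) m) using 1
  module

theorem witt (c : Cx p Q x S) (hA : TS Q A) (hB : TS Q B) (d : finrank F A = finrank F B)
    (d' : 2 * finrank F B < finrank F V) : ∃ g ∈ Om Q, A.map (g : V →ₗ[F] V) = B := by
  have := c.dim
  obtain ⟨g, hg, e⟩ := exists_mem_commutator_totally_singular c.nd
    (reflSub_eq_top c.nd (Or.inr (by omega))) hA hB d d'
  exact ⟨g.1, ⟨g, hg, rfl⟩, e⟩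

theorem Fz.tt (h : Fz p Q a b S T) (h1 : TT Q S) (h2 : TT Q T) : False := by
  obtain ⟨A, a1, a2, a3⟩ := h1
  obtain ⟨B, b1, b2, b3⟩ := h2
  have := h.ca.dim
  obtain ⟨g, hg, rfl⟩ := witt h.ca b1 a1 (b2.trans a2.symm) (by omega)
  exact (h.cj hg).noT bot_le a1 (by simp [a2]) a3 (by simpa using b3.cj g)

theorem Fz.move (h : Fz p Q a b S T) (hA : TS Q A) (hB : TS Q B) (d : finrank F B = finrank F A)
    (d' : 2 * finrank F A < finrank F V) (h2 : Tv T B (pp Q B)) :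
    ∃ b T, Fz p Q a b S T ∧ Tv T A (pp Q A) := by
  obtain ⟨g, hg, rfl⟩ := witt h.ca hB hA d d'
  have := h2.cj g
  rw [pp, map_perp (Om_le hg).1 B] at this
  exact ⟨_, _, h.cj hg, this⟩

/-- Trivial on `A^⊥ / A` for a totally singular subspace of dimension `j`. -/
def LL (Q : QuadraticForm F V) (S : Subgroup (V ≃ₗ[F] V)) (j : ℕ) : Prop :=
  ∃ A, TS Q A ∧ finrank F A = j ∧ Tv S A (pp Q A)

theorem Fz.ll (h : Fz p Q a b S T) {j : ℕ} (d : 2 * j + 3 ≤ finrank F V) (h1 : LL Q S j) (h2 : LL Q T j) :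
    False := by
  obtain ⟨A, a1, rfl, a3⟩ := h1
  obtain ⟨B, b1, b2, b3⟩ := h2
  obtain ⟨b, T, k, k'⟩ := h.move a1 b1 b2 (by omega) b3
  exact k.noL a1 d a3 k'

theorem Mx.ll (h : Mx Q x S W) (c : Cx p Q x S) {j : ℕ} (d : finrank F W ≤ j)
    (d' : 2 * j + 1 ≤ finrank F V) : LL Q S j := by
  obtain ⟨A, a1, a2, a3⟩ := ext c.nd h.ts d d'
  exact ⟨A, a2, a3, (h.tv c).mono a1 (perp_anti a1)⟩

theorem Mx.ll' (h : Mx Q x S W) (c : Cx p Q x S) {j : ℕ} (d : finrank F W = j + 1)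
    (n : ¬ W ≤ cm S (pp Q W)) : LL Q S j := by
  obtain ⟨A, a1, a2, a3⟩ := exists_hyp (cm_le.2 (h.tv c)) n d
  exact ⟨A, fun v hv => h.ts v (a2 hv), a3, (cm_le.1 a1).hyp c.nd c.o h.ts a2 (by omega)⟩

theorem noS_POmega {ι : Type} [Fintype ι] [DecidableEq ι] {Q : QuadraticForm F (ι → F)}
    (hQ : (polarBilin Q).Nondegenerate) (h5 : 5 ≤ Fintype.card ι)
    (h : ∀ a b S T, ¬ Fz p Q a b S T) : NoS p (Cfsg.POmega F Q) := by
  classical
  let e : Cfsg.Omega F Q ≃* Om Q :=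
    (omegaEquiv Q).trans (equivMapOfInjective _ (OG Q).subtype Subtype.val_injective)
  have := fin (Om Q)
  have : Finite (Cfsg.Omega F Q) := Finite.of_equiv _ e.symm.toEquiv
  refine noS_quot ?_ fun a b ha hb pa pb k => ?_
  · rw [card_center_omega hQ (by simp; omega) (Or.inr (by simp; omega)) (omegaToOG_injective Q)
      (omegaToOG_range Q)]
    split_ifs with k
    · exact fun d => k.1 (by exact_mod_cast (CharP.cast_eq_zero_iff F p 2).2 d)
    · exact hp.out.one_lt.ne' ∘ Nat.dvd_one.1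
  have c : ∀ a ∉ center (Cfsg.Omega F Q), ¬ p ∣ orderOf a → ∀ S, IsSyl p S (Om Q ⊓ centralizer {(e a).1}) →
      Cx p Q (e a).1 S := fun a ha pa S s =>
    ⟨hQ, by simpa using h5, (e a).2, s.le.trans inf_le_left, s.isPGroup,
      fun t ht v => DFunLike.congr_fun (comm s ht) v, by simpa using pa, not_scalar e ha⟩
  obtain ⟨S, s⟩ := exists_isSyl p (Om Q ⊓ centralizer {(e a).1})
  obtain ⟨T, t⟩ := exists_isSyl p (Om Q ⊓ centralizer {(e b).1})
  exact h _ _ S T ⟨k.map e, s, t, c a ha pa S s, c b hb pb T t⟩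

end CF.Ah.OQ
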