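import Cfsg.Agent.Ah.SV
import Cfsg.Agent.BN.LangS
import Cfsg.Agent.Chev.LTX

/-! No factorization in the groups of type `E`. -/

set_option autoImplicit false

namespace CF.Ah

open CF.BN CF.Chev CF.Loc Cfsg Cfsg.Lie

namespace SE

section
variable {B ι : Type} [Fintype B] [DecidableEq B] [Fintype ι] [DecidableEq ι]
  {C : ChevBasis B ι} {K : Type*} [Field K] {G : Type*} [Group G] {ρ : StRep C K G}
  {T : Tw ρ} {G1 : Subgroup G} {ω : ι → ℝ} {p : ℕ} [Fact p.Prime] {J J' : Set B} {a b x y : G}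
  {w : Equiv.Perm ι} {i j : B} {r : ι}

omit [Fact p.Prime] in
/-- Moving to an associated set of nodes. -/
theorem mv (M : LT p T G1 ω) (hx : Cj G1 a x) (h : Min T G1 J x) (hw : w ∈ T.S.Wf)
    (e : ∀ j ∈ J, ∃ j', w (C.simple j) = C.simple j') :
    ∃ x', Cj G1 a x' ∧ Min T G1 {j' | ∃ j ∈ J, w (C.simple j) = C.simple j'} x' := by
  obtain ⟨n, h1, h2⟩ := M.form.exists_n hw
  have c : ∀ j j', w (C.simple j) = C.simple j' ↔ w (C.simple (T.p j)) = C.simple (T.p j') := fun j j' => by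
    have : w (T.π (C.simple j)) = T.π (w (C.simple j)) :=
      congr($(Subgroup.mem_centralizer_singleton_iff.1 hw.2) (C.simple j))
    rw [← T.π_simple, ← T.π_simple, this, T.π.injective.eq_iff]
  refine ⟨_, hx.conj h1, h.conjN h1 h2 (fun i => ⟨fun ⟨j, a, e⟩ => ?_, fun ⟨j, a, e⟩ =>
    ⟨_, (h.stab j).2 a, (c _ _).1 e⟩⟩) (fun j a => (e j a).imp fun _ e => ⟨⟨j, a, e⟩, e⟩) ?_⟩
  · obtain ⟨j, rfl⟩ := T.p.surjective j
    exact ⟨j, (h.stab j).1 a, (c _ _).2 e⟩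
  · rw [← Set.ncard_image_of_injective _ C.simple_injective]
    exact (Set.ncard_le_ncard (t := (fun j => w (C.simple j)) '' J) (by
      rintro _ ⟨_, ⟨j, a, e⟩, rfl⟩; exact ⟨j, a, e⟩)).trans Set.ncard_image_le

/-- Moving a torus element. -/
theorem mvH (M : LT p T G1 ω) (hy : Cj G1 b y) (h : Min T G1 ∅ y) (hw : w ∈ T.S.Wf)
    (e : ¬ Commute y (ρ.x r 1)) : ∃ y' ∈ ρ.H ⊓ G1, Cj G1 b y' ∧ ¬ Commute y' (ρ.x (w r) 1) :=
  let ⟨y', h1, h2, h3⟩ := exists_move M h.mem_H hw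
  ⟨y', h1, hy.trans h2, mt (h3 r).1 e⟩

theorem Wf_triv {hρ : ρ.Faithful} {hG : ρ.Gp = ⊤} (hw : w ∈ C.W) : w ∈ (trivTw hρ hG).S.Wf :=
  ⟨hw, Subgroup.mem_centralizer_singleton_iff.2 (Commute.one_right w)⟩

theorem core (S : St p T G1 ω a b) (ha : ¬ p ∣ orderOf a) (hb : ¬ p ∣ orderOf b) {c d : B} (hd : d ≠ c)
    (H : ∀ J : Set B, J.Nonempty → J ≠ {c}ᶜ → ∃ w ∈ T.S.Wf, (∀ j ∈ J, ∃ j', w (C.simple j) = C.simple j') ∧
      ∃ j ∈ J, w (C.simple j) = C.simple c) (H' : ∀ i, ({i} : Set B) ≠ {c}ᶜ) : ¬ FU T G1 a b := fun h => by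
  have M := S.lt
  have tr : ∀ i j, ∃ w ∈ T.S.Wf, w (C.simple i) = C.simple j := fun i j => by
    obtain ⟨u, u1, -, _, rfl, u2⟩ := H _ (Set.singleton_nonempty i) (H' i)
    obtain ⟨v, v1, -, _, rfl, v2⟩ := H _ (Set.singleton_nonempty j) (H' j)
    exact ⟨v⁻¹ * u, mul_mem (inv_mem v1) u1, by rw [Equiv.Perm.mul_apply, u2, ← v2]; simp⟩
  have t0 {a x : G} (n : a ≠ 1) (hx : Cj G1 a x) (m : Min T G1 ∅ x) (j : B) :
      ∃ y ∈ ρ.H ⊓ G1, Cj G1 a y ∧ ¬ Commute y (ρ.x (C.simple j) 1) := by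
    obtain ⟨i, e⟩ := not_forall.1 (mt (eq_one_of_cen M S.center m.mem_H.1) (hx.ne_one n))
    obtain ⟨w, w1, w2⟩ := tr i j
    exact w2 ▸ mvH M hx m w1 e
  have t1 {a b x y : G} {J : Set B} (h : FU T G1 a b) (hb : b ∈ G1) (n : b ≠ 1) (hx : Cj G1 a x) (hy : Cj G1 b y)
      (m : Min T G1 J x) (m' : Min T G1 ∅ y) : ¬ J.Nonempty := fun ⟨j, hj⟩ =>
    let ⟨_, a1, a2, a3⟩ := t0 n hy m' j
    a3 (h.tor M hx a2 m a1.1 hb hj)
  have t2 {a b x y : G} {J : Set B} (h : FU T G1 a b) (hx : Cj G1 a x) (hy : Cj G1 b y)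
      (m : Min T G1 {c}ᶜ x) (m' : Min T G1 J y) : ¬ J.Nonempty := fun ⟨j, hj⟩ => by
    have e : ∀ j ∈ J, j = c := fun j a => not_not.1 fun n => (h.disj M hx hy m m').notMem_of_mem_left n a
    obtain ⟨w, w1, w2⟩ := tr c d
    obtain ⟨y', a1, a2⟩ := mv M hy m' w1 fun j a => ⟨d, e j a ▸ w2⟩
    exact (h.disj M hx a1 m a2).notMem_of_mem_left hd ⟨j, hj, e j hj ▸ w2⟩
  obtain ⟨J, x, hx, m⟩ := exists_min M S.ma ha
  obtain ⟨J', y, hy, m'⟩ := exists_min M S.mb hb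
  rcases J.eq_empty_or_nonempty with rfl | n <;> rcases J'.eq_empty_or_nonempty with rfl | n'
  · obtain ⟨x', a1, a2, a3⟩ := t0 S.na hx m c
    obtain ⟨y', b1, b2, b3⟩ := t0 S.nb hy m' c
    exact (h.tor₂ M a2 b2 a1 b1 c).elim a3 b3
  · exact t1 h.symm S.ma S.na hy hx m' m n'
  · exact t1 h S.mb S.nb hx hy m m' n
  by_cases e : J = {c}ᶜ
  · exact t2 h hx hy (e ▸ m) m' n'
  by_cases e' : J' = {c}ᶜ
  · exact t2 h.symm hy hx (e' ▸ m') m n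
  obtain ⟨u, u1, u2, u3⟩ := H J n e
  obtain ⟨v, v1, v2, v3⟩ := H J' n' e'
  obtain ⟨x', a1, a2⟩ := mv M hx m u1 u2
  obtain ⟨y', b1, b2⟩ := mv M hy m' v1 v2
  exact (h.disj M a1 b1 a2 b2).notMem_of_mem_left u3 v3

end

/-- Unpacking a word. -/
def un : ℕ → ℕ → List ℕ
  | 0, _ => []
  | f + 1, k => if k = 0 then [] else (k % 9 - 1) :: un f (k / 9)

/-- A word. -/
def wd (l : ℕ) [NeZero l] (tb : List ℕ) (m : ℕ) : List (Fin l) := (un 40 (tb.getD m 0)).map (Fin.ofNat l)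

/-- The check. -/
abbrev Ok (T : Tab) {l : ℕ} [NeZero l] (c : Fin l) (tb : List ℕ) : Prop := ∀ m < 2 ^ l,
  (∀ j : Fin l, ¬ m.testBit j) ∨ (∀ j : Fin l, m.testBit j ↔ j ≠ c) ∨
    (∀ j : Fin l, m.testBit j → ∃ j' : Fin l, actT T ((wd l tb m).map Fin.val) (T.sim j) = T.sim j') ∧
      ∃ j : Fin l, m.testBit j ∧ actT T ((wd l tb m).map Fin.val) (T.sim j) = T.sim c

theorem main {D : ChevalleyDatum} [NeZero D.rank] {C : ChevBasis (Fin D.rank) (Fin D.nroots)} (h : Good D C)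
    {T : Tab} (t : TabOf C T) {c d : Fin D.rank} (hd : d ≠ c) {tb : List ℕ} (k : Ok T c tb)
    (H' : ∀ i, ∃ j, ¬ (j = i ↔ j ≠ c)) {p : ℕ} [Fact p.Prime] (K : Type) [Field K] [Finite K] [CharP K p] :
    NoS p (D.group K) := fun a b na nb ha hb f => by
  classical
  refine core ⟨h.lt K, h.link.center_group K, trivial, trivial, na, nb⟩ ha hb hd (fun J ⟨j, hj⟩ n => ?_)
    (fun i e => (H' i).elim fun j n => n (Set.ext_iff.1 e j)) (f.fu (h.lt K) ha hb)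
  have b : ∀ j : Fin D.rank, (Nat.ofBits fun j => decide (j ∈ J)).testBit j ↔ j ∈ J := fun j => by
    rw [Nat.testBit_ofBits_lt _ _ j.2, decide_eq_true_eq]
  have := k _ (Nat.ofBits_lt_two_pow fun j => decide (j ∈ J))
  simp only [b, ← t.sim, ← t.wp, Fin.val_inj] at this
  exact ⟨_, Wf_triv (C.wp_mem_W _), (this.resolve_left fun a => a j hj).resolve_left fun a => n (Set.ext a)⟩

/-- Words for `E₆`. -/
def tb6 : List ℕ := [0, 28, 3109, 28, 0, 0, 0, 0, 31, 1810, 281, 186817, 0, 0, 0, 0, 3208, 28, 390208, 28, 0, 0, 0, 0, 284, 43363,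
  31606899, 207371195312, 0, 0, 0, 0, 324211, 28, 3109, 28, 0, 0, 0, 0, 31, 1810, 281, 186817, 0, 0, 0, 0, 259907,
  28, 184670723, 28, 0, 0, 0, 0, 2562, 15140255, 1346932190, 0, 0, 0, 0, 0]

/-- Words for `E₇`. -/
def tb7 : List ℕ := [0, 186916, 3127, 3127, 3208, 257052, 81859, 183435068, 49, 49, 443, 443, 444, 3997, 6630607, 2120537513, 0, 0,
  0, 0, 0, 0, 0, 0, 0, 0, 0, 0, 0, 0, 0, 0, 51, 51, 51, 51, 51, 51, 51, 51, 1833, 1833, 50744, 50744, 9123,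
  456706, 537212116, 242708661182, 0, 0, 0, 0, 0, 0, 0, 0, 0, 0, 0, 0, 0, 0, 0, 0, 4848, 4848, 3127, 3127, 3208,
  4848, 4848, 4848, 49, 49, 443, 443, 444, 3997, 6630607, 2120537513, 0, 0, 0, 0, 0, 0, 0, 0, 0, 0, 0, 0, 0, 0, 0,
  0, 466, 466, 466, 466, 466, 466, 466, 466, 16504, 16504, 136190059, 136190059, 82114, 172089360373,
  285425921206183, 0, 0, 0, 0, 0, 0, 0, 0, 0, 0, 0, 0, 0, 0, 0, 0, 0]

/-- Words for `E₈`. -/
def tb8 : List ℕ := [0, 186817, 0, 0, 3109, 251625, 0, 0, 22, 22, 0, 0, 201, 1810, 0, 0, 3127, 3127, 0, 0, 81859, 31606644, 0, 0,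
  203, 203, 0, 0, 6630607, 962231441, 0, 0, 323482, 186817, 0, 0, 3109, 251625, 0, 0, 22, 22, 0, 0, 201, 1810, 0,
  0, 253346, 253346, 0, 0, 4110295, 332933691, 0, 0, 1833, 1833, 0, 0, 964288110, 128987541904218155, 0, 0,
  31609975, 186817, 0, 0, 3109, 251625, 0, 0, 22, 22, 0, 0, 201, 1810, 0, 0, 3127, 3127, 0, 0, 81859, 187390463,
  0, 0, 203, 203, 0, 0, 6630607, 962231441, 0, 0, 235819004, 186817, 0, 0, 3109, 251625, 0, 0, 22, 22, 0, 0, 201,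
  1810, 0, 0, 20521095, 20521095, 0, 0, 42374047, 3432297603, 0, 0, 16504, 16504, 0, 0, 278016126569,
  515169457044410268532497873, 0, 0, 2996440582, 186817, 0, 0, 3109, 251625, 0, 0, 22, 22, 0, 0, 201, 1810, 0, 0,
  3127, 3127, 0, 0, 81859, 31606644, 0, 0, 203, 203, 0, 0, 6630607, 962231441, 0, 0, 323482, 186817, 0, 0, 3109,
  251625, 0, 0, 22, 22, 0, 0, 201, 1810, 0, 0, 253346, 253346, 0, 0, 6630638, 176937643215662, 0, 0, 1833, 1833,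
  0, 0, 964288110, 128987541904218155, 0, 0, 207393052433, 186817, 0, 0, 3109, 251625, 0, 0, 22, 22, 0, 0, 201,
  1810, 0, 0, 3127, 3127, 0, 0, 81859, 187390463, 0, 0, 203, 203, 0, 0, 6630607, 962231441, 0, 0, 171912054633,
  186817, 0, 0, 3109, 251625, 0, 0, 22, 22, 0, 0, 201, 1810, 0, 0, 1662208774, 1662208774, 0, 0, 43503621586,
  347240127685798905601523, 0, 0, 148544, 148544, 0, 0, 30260382687127914231, 0, 0, 0]

theorem ok6 : Ok tabE6 (2 : Fin 6) tb6 := by decide +kernel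

theorem ok7 : Ok tabE7 (4 : Fin 7) tb7 := by decide +kernel

theorem ok8 : Ok tabE8 (1 : Fin 8) tb8 := by decide +kernel

end SE

variable {p : ℕ} [Fact p.Prime] (K : Type) [Field K] [Fintype K] [CharP K p]

theorem s_E6 : NoS p (chevE6.group K) :=
  @SE.main chevE6 ⟨by decide⟩ _ goodE6 _ (tabOf certE6) (2 : Fin 6) (0 : Fin 6) (by decide : (0 : Fin 6) ≠ 2) _
    SE.ok6 (by decide : ∀ i : Fin 6, ∃ j, ¬ (j = i ↔ j ≠ 2)) _ _ K _ _ _

theorem s_E7 : NoS p (chevE7.group K) :=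
  @SE.main chevE7 ⟨by decide⟩ _ goodE7 _ (tabOf certE7) (4 : Fin 7) (0 : Fin 7) (by decide : (0 : Fin 7) ≠ 4) _
    SE.ok7 (by decide : ∀ i : Fin 7, ∃ j, ¬ (j = i ↔ j ≠ 4)) _ _ K _ _ _

theorem s_E8 : NoS p (chevE8.group K) :=
  @SE.main chevE8 ⟨by decide⟩ _ goodE8 _ (tabOf certE8) (1 : Fin 8) (0 : Fin 8) (by decide : (0 : Fin 8) ≠ 1) _
    SE.ok8 (by decide : ∀ i : Fin 8, ∃ j, ¬ (j = i ↔ j ≠ 1)) _ _ K _ _ _

end CF.Ah
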