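import Cfsg.Agent.Ah.SN
import Cfsg.Agent.BN.LangS

/-! No factorization for semisimple elements of `F₄(q)` and `G₂(q)`. -/

set_option autoImplicit false

namespace CF.Ah

open CF.BN CF.Chev CF.Loc Cfsg Cfsg.Lie

namespace SF

variable {K : Type*} [Field K] {G : Type*} [Group G] {p : ℕ} [Fact p.Prime] {a b x : G}

section

variable {l n : ℕ} {C : ChevBasis (Fin l) (Fin n)} {T : Tab} (H : TabOf C T)
include H

theorem wp_eq (w : List (Fin l)) (r s : Fin n) (h : actT T (w.map Fin.val) r = s) : C.wp w r = s :=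
  Fin.ext ((H.wp w r).trans h)

theorem wp_sim (w : List (Fin l)) (i j : Fin l) (h : actT T (w.map Fin.val) (T.sim i) = T.sim j) :
    C.wp w (C.simple i) = C.simple j := wp_eq H w _ _ (by rw [H.sim, H.sim, h])

theorem sim_eq (i : Fin l) (r : Fin n) (h : T.sim i = r) : C.simple i = r :=
  Fin.ext ((H.sim i).trans h)

theorem gen (i : Fin l) (w : Fin l → List (Fin l))
    (h : ∀ j : Fin l, T.car j (actT T ((w j).map Fin.val) (T.sim i)) = -1) (j : Fin l) :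
    ∃ v, C.A (C.simple j) (C.wp v (C.simple i)) = -1 := ⟨w j, by rw [H.car, H.wp, H.sim, h]⟩

end

section G2

variable {ρ : StRep cG2 K G} {hρ : ρ.Faithful} {hG : ρ.Gp = ⊤} {ω : Fin 12 → ℝ}

theorem natG (M : LT p (trivTw hρ hG) ⊤ ω) : ¬ NP (trivTw hρ hG) ⊤ {1} 7 7 := fun h => by
  have H : TabOf cG2 tabG2 := tabOf certG2
  refine top M ?_ ?_ ?_ ?_ ((h.step (α := 6) (c' := 8) ?_ ?_ ?_ ?_ ?_ ?_ le_rfl ?_).move M ?_ ?_
    (wp_mem [1]) (cG2.wp_mem_WJ (by simp)) (wp_eq H [1] 7 8 (by decide +kernel)) ?_) <;>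
  simp only [D, RootSys.nbl, RootSys.Pos, RootSys.InSub, Pi.le_def, funext_iff, H.vec, H.car, H.wp,
    Set.mem_inter_iff, Set.mem_ofPred_eq, Set.mem_singleton_iff, Pi.add_apply, Pi.sub_apply,
    Pi.zero_apply, ne_eq] <;> decide +kernel

theorem klG (M : LT p (trivTw hρ hG) ⊤ ω) (hZ : Subgroup.center G = ⊥) (ha : a ≠ 1)
    (hp : ¬ p ∣ orderOf a) : Kl (trivTw hρ hG) ⊤ a 0 := by
  have H : TabOf cG2 tabG2 := tabOf certG2
  obtain ⟨J, x, hx, h⟩ := exists_min M (Subgroup.mem_top a) hp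
  by_cases h0 : 0 ∈ J
  · exact kl_mem hx h h0
  by_cases h1 : 1 ∈ J
  · obtain rfl : J = {1} := Set.ext fun k => by fin_cases k <;> simp [h0, h1]
    exact kl_nat hx h (sim_eq H 0 7 (by decide +kernel) ▸ natG M)
  · obtain rfl : J = ∅ := Set.ext fun k => by fin_cases k <;> simp [h0, h1]
    exact kl_tor' M hZ ha hx h (gen H 0 ![[1], []] (by decide +kernel))

end G2

section F4

variable {ρ : StRep cF4 K G} {hρ : ρ.Faithful} {hG : ρ.Gp = ⊤} {ω : Fin 48 → ℝ}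

theorem natF (M : LT p (trivTw hρ hG) ⊤ ω) : ¬ NP (trivTw hρ hG) ⊤ {2} 27 27 := fun h => by
  have H : TabOf cF4 tabF4 := tabOf certF4
  refine top M ?_ ?_ ?_ ?_ ((h.step (α := 25) (c' := 28) ?_ ?_ ?_ ?_ ?_ ?_ le_rfl ?_).move M ?_ ?_
    (wp_mem [2]) (cF4.wp_mem_WJ (by simp)) (wp_eq H [2] 27 28 (by decide +kernel)) ?_) <;>
  simp only [D, RootSys.nbl, RootSys.Pos, RootSys.InSub, Pi.le_def, funext_iff, H.vec, H.car, H.wp,
    Set.mem_inter_iff, Set.mem_ofPred_eq, Set.mem_singleton_iff, Pi.add_apply, Pi.sub_apply,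
    Pi.zero_apply, ne_eq] <;> decide +kernel

theorem natF' (M : LT p (trivTw hρ hG) ⊤ ω) : ¬ NP (trivTw hρ hG) ⊤ {2, 3} 27 27 := fun h => by
  have H : TabOf cF4 tabF4 := tabOf certF4
  refine top M ?_ ?_ ?_ ?_ (((h.step (α := 25) (c' := 28) ?_ ?_ ?_ ?_ ?_ ?_ le_rfl ?_).step
    (α := 26) (c' := 29) ?_ ?_ ?_ ?_ ?_ ?_ ?_ ?_).move M ?_ ?_
    (wp_mem [3, 2]) (cF4.wp_mem_WJ (by simp)) (wp_eq H [3, 2] 27 29 (by decide +kernel)) ?_) <;>
  simp only [D, RootSys.nbl, RootSys.Pos, RootSys.InSub, Pi.le_def, funext_iff, H.vec, H.car, H.wp,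
    Set.mem_inter_iff, Set.mem_ofPred_eq, Set.mem_singleton_iff, Set.mem_insert_iff, Pi.add_apply,
    Pi.sub_apply, Pi.zero_apply, ne_eq] <;> decide +kernel

theorem klF (M : LT p (trivTw hρ hG) ⊤ ω) (hZ : Subgroup.center G = ⊥) (ha : a ≠ 1)
    (hp : ¬ p ∣ orderOf a) : Kl (trivTw hρ hG) ⊤ a 1 ∨
      ∃ x, Cj ⊤ a x ∧ Min (trivTw hρ hG) ⊤ {0, 2, 3} x := by
  have H : TabOf cF4 tabF4 := tabOf certF4
  have e := sim_eq H 1 27 (by decide +kernel)
  obtain ⟨J, x, hx, h⟩ := exists_min M (Subgroup.mem_top a) hp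
  by_cases h1 : 1 ∈ J
  · exact .inl (kl_mem hx h h1)
  by_cases h0 : 0 ∈ J <;> by_cases h2 : 2 ∈ J
  · by_cases h3 : 3 ∈ J
    · obtain rfl : J = {0, 2, 3} := Set.ext fun k => by fin_cases k <;> simp [h0, h1, h2, h3]
      exact .inr ⟨x, hx, h⟩
    · obtain ⟨y, hy, h⟩ := assoc' M hx h [0, 1, 2, 3] ![1, 0, 3, 0] fun j hj => by
        fin_cases j
        exacts [wp_sim H _ _ _ (by decide +kernel), absurd hj h1, wp_sim H _ _ _ (by decide +kernel),
          absurd hj h3]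
      exact .inl (kl_mem hy h ⟨0, h0, rfl⟩)
  · obtain ⟨y, hy, h⟩ := assoc' M hx h [0, 1] ![1, 0, 0, 3] fun j hj => by
      fin_cases j
      exacts [wp_sim H _ _ _ (by decide +kernel), absurd hj h1, absurd hj h2,
        wp_sim H _ _ _ (by decide +kernel)]
    exact .inl (kl_mem hy h ⟨0, h0, rfl⟩)
  · by_cases h3 : 3 ∈ J
    · obtain rfl : J = {2, 3} := Set.ext fun k => by fin_cases k <;> simp [h0, h1, h2, h3]
      exact .inl (kl_nat hx h (e ▸ natF' M))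
    · obtain rfl : J = {2} := Set.ext fun k => by fin_cases k <;> simp [h0, h1, h2, h3]
      exact .inl (kl_nat hx h (e ▸ natF M))
  · by_cases h3 : 3 ∈ J
    · obtain rfl : J = {3} := Set.ext fun k => by fin_cases k <;> simp [h0, h1, h2, h3]
      obtain ⟨y, hy, h⟩ := assoc' M hx h [3, 2] (fun _ => 2) fun j hj => by
        obtain rfl : j = 3 := hj
        exact wp_sim H _ _ _ (by decide +kernel)
      rw [Set.image_singleton] at h
      exact .inl (kl_nat hy h (e ▸ natF M))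
    · obtain rfl : J = ∅ := Set.ext fun k => by fin_cases k <;> simp [h0, h1, h2, h3]
      exact .inl (kl_tor' M hZ ha hx h (gen H 1 ![[], [0, 1], [], [2]] (by decide +kernel)))

theorem excF (M : LT p (trivTw hρ hG) ⊤ ω) (hZ : Subgroup.center G = ⊥) (hb : b ≠ 1)
    (hp : ¬ p ∣ orderOf b) (h : FU (trivTw hρ hG) ⊤ a b) (hx : Cj ⊤ a x)
    (h' : Min (trivTw hρ hG) ⊤ {0, 2, 3} x) : False := by
  have H : TabOf cF4 tabF4 := tabOf certF4
  refine (kl_mem hx h' (i := 0) (by simp)).false M h ?_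
  obtain ⟨J, y, hy, h1⟩ := exists_min M (Subgroup.mem_top b) hp
  have h2 := Set.disjoint_left.1 (h.disj M hx hy h' h1)
  have h0 := h2 (a := 0) (by simp)
  have h3 := h2 (a := 3) (by simp)
  replace h2 := h2 (a := 2) (by simp)
  by_cases h4 : 1 ∈ J
  · obtain ⟨z, hz, h5⟩ := assoc' M hy h1 [1, 0] (fun _ => 0) fun j hj => by
      fin_cases j
      exacts [absurd hj h0, wp_sim H _ _ _ (by decide +kernel), absurd hj h2, absurd hj h3]
    exact kl_mem hz h5 ⟨1, h4, rfl⟩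
  · obtain rfl : J = ∅ := Set.ext fun k => by fin_cases k <;> simp [h0, h2, h3, h4]
    exact kl_tor' M hZ hb hy h1 (gen H 0 ![[0, 1], [], [0, 1], [2, 0, 1]] (by decide +kernel))

end F4

end SF

variable {p : ℕ} [Fact p.Prime] (K : Type) [Field K] [Fintype K] [CharP K p]

theorem s_F4 : NoS p (chevF4.group K) := fun a b ha hb pa pb h => by
  have M : LT p (trivTw (ρ := repF4 K) (linkF4.faithful_gpRep K) (linkF4.gpRep_Gp K)) ⊤ 1 :=
    goodF4.lt K
  have hZ := linkF4.center_group K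
  have h1 := SF.fu M h pa pb
  rcases SF.klF M hZ ha pa with h2 | ⟨x, hx, h2⟩
  · rcases SF.klF M hZ hb pb with h3 | ⟨y, hy, h3⟩
    exacts [h2.false M h1 h3, SF.excF M hZ ha pa h1.symm hy h3]
  · exact SF.excF M hZ hb pb h1 hx h2

theorem s_G2 : NoS p (chevG2.group K) := fun a b ha hb pa pb h => by
  have M : LT p (trivTw (ρ := repG2 K) (linkG2.faithful_gpRep K) (linkG2.gpRep_Gp K)) ⊤ 1 :=
    goodG2.lt K
  have hZ := linkG2.center_group K
  exact (SF.klG M hZ ha pa).false M (SF.fu M h pa pb) (SF.klG M hZ hb pb)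

end CF.Ah
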