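import Cfsg.Agent.Ah.B
import Cfsg.Agent.Coprime.Glauberman

/-! Semisimple elements in minimal position and the factorization of `U`. -/

set_option autoImplicit false

namespace CF.Ah

open CF.BN CF.Chev CF.Loc Cfsg

variable {B ι : Type} [Fintype B] [DecidableEq B] [Fintype ι] [DecidableEq ι]
  {C : ChevBasis B ι} {K : Type*} [Field K] {G : Type*} [Group G] {ρ : StRep C K G}
  {T : Tw ρ} {G1 : Subgroup G} {ω : ι → ℝ} {p : ℕ} [Fact p.Prime] {J J' I : Set B} {a b x y k n : G}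
  {w : Equiv.Perm ι} {i : B} {r : ι}

namespace SM

theorem σ_mem_UJ (h : T.S.Stab J) (hx : x ∈ ρ.UJ J) : T.σ x ∈ ρ.UJ J :=
  T.σ_mem_U (fun _ hr => And.intro (T.pos_π_iff.2 hr.1) (mt h.inSub_π.1 hr.2)) hx

theorem σ_mem_LJ (h : T.S.Stab J) (hx : x ∈ ρ.LJ J) : T.σ x ∈ ρ.LJ J :=
  (sup_le (fun _ hg => StRep.H_mem_LJ (T.σ_mem_H hg)) (fun _ hg => Subgroup.mem_sup_right
    (T.σ_mem_U (fun _ hr => h.inSub_π.2 hr) hg)) : ρ.LJ J ≤ (ρ.LJ J).comap T.σ) hx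

/-- The Levi decomposition in the twisted group. -/
theorem levi (F : T.Form G1) (h : T.S.Stab J) (hx : x ∈ ρ.PJ J ⊓ G1) :
    ∃ u ∈ ρ.UJ J ⊓ G1, ∃ l ∈ ρ.LJ J ⊓ G1, x = u * l := by
  obtain ⟨u, hu, l, hl, rfl⟩ := StRep.mem_PJ_iff_UJ_LJ.1 hx.1
  have e : T.σ u * T.σ l = u * l := (map_mul _ _ _).symm.trans (F.fix hx.2)
  have e1 : T.σ l = l := StRep.eq_of_UJ_mul T.faith (mul_mem (inv_mem (σ_mem_UJ h hu)) hu) hl
    (σ_mem_LJ h hl) (by rw [mul_assoc, ← e]; simp)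
  rw [e1, mul_left_inj] at e
  have h1 : u ∈ G1 := F.Up_le ⟨ρ.UJ_le_Up J hu, e⟩
  exact ⟨u, ⟨hu, h1⟩, l, ⟨hl, (mul_mem_cancel_left h1).1 hx.2⟩, rfl⟩

theorem commute_iff (hρ : ρ.Faithful) {χ : Char B K} (h : ρ.ActsT y χ) {t : K} (ht : t ≠ 0) :
    Commute y (ρ.x r t) ↔ χ.ev (C.vec r) = 1 := by
  rw [commute_iff_eq, ← mul_inv_eq_iff_eq_mul, h, (hρ.x_injective r).eq_iff, mul_eq_right₀ ht,
    Units.val_eq_one]

theorem commute_congr (hρ : ρ.Faithful) (hy : y ∈ ρ.H) {t u : K} (ht : t ≠ 0) (hu : u ≠ 0) :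
    Commute y (ρ.x r t) ↔ Commute y (ρ.x r u) := by
  obtain ⟨χ, -, h, -⟩ := StRep.exists_actsT_of_mem_H hy
  rw [commute_iff hρ h ht, commute_iff hρ h hu]

/-- A torus element centralizing `x_r(1)` centralizes the root subgroup. -/
theorem commute_x (hρ : ρ.Faithful) (hy : y ∈ ρ.H) (h : Commute y (ρ.x r 1)) (t : K) :
    Commute y (ρ.x r t) := by
  by_cases ht : t = 0
  · simp [ht]
  · exact (commute_congr hρ hy one_ne_zero ht).1 h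

theorem UJ_le_Ui (hi : i ∈ J) : ρ.UJ J ≤ ρ.Ui i :=
  ρ.U_mono fun _ hr => And.intro hr.1 fun e => hr.2 (e ▸ C.inSub_simple.2 hi)

/-- Every simple coordinate occurs. -/
theorem exists_notMem (M : LT p T G1 ω) (i : B) : ∃ u ∈ ρ.Up ⊓ G1, u ∉ ρ.Ui i := by
  obtain ⟨j, hj, t, ht, c, hc, h⟩ := M.simp i
  refine ⟨_, ⟨mul_mem (ρ.x_mem_U (S := {r | C.Pos r}) (C.pos_simple j) t) (ρ.Ui_le_Up j hc), h⟩, ?_⟩
  have key : ∃ s ≠ 0, ∃ d ∈ ρ.Ui i, ρ.x (C.simple j) t * c = ρ.x (C.simple i) s * d := by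
    refine T.S.orb_induction (q := fun i => ∃ s ≠ 0, ∃ d ∈ ρ.Ui i,
      ρ.x (C.simple j) t * c = ρ.x (C.simple i) s * d) ⟨t, ht, c, hc, rfl⟩ ?_ hj
    rintro l ⟨s, hs, d, hd, e⟩
    refine ⟨T.c (C.simple l) * T.φ (C.simple l) s, mul_ne_zero (Units.ne_zero _)
      ((map_ne_zero _).2 hs), T.σ d, T.σ_mem_U (fun r hr => And.intro (T.pos_π_iff.2 hr.1)
        fun e' => hr.2 (T.π.injective (e'.trans (T.π_simple l).symm))) hd, ?_⟩
    rw [← T.mem_Fix.1 (M.form.fix h), e, map_mul, T.σ_x, T.π_simple]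
    rfl
  obtain ⟨s, hs, d, hd, e⟩ := key
  rw [e, mul_mem_cancel_right hd]
  exact fun h => hs (eq_zero_of_mem_Ui T.faith h)

theorem commute_of_notMem (hρ : ρ.Faithful) (hy : y ∈ ρ.H) {t : G} (ht : t ∈ ρ.Up)
    (h : t ∉ ρ.Ui i) (hc : Commute t y) : Commute y (ρ.x (C.simple i) 1) := by
  obtain ⟨χ, -, hχ, -⟩ := StRep.exists_actsT_of_mem_H hy
  obtain ⟨c, hc', s, rfl⟩ := StRep.exists_Ui_mul_x i ht
  have hs : s ≠ 0 := fun e => h (by simpa [e] using hc')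
  have e : ρ.x (C.simple i) (s - χ.ev (C.vec (C.simple i)) * s) = c⁻¹ * (y * c * y⁻¹) := by
    rw [ρ.x_sub, ← hχ]
    calc _ = c⁻¹ * (c * ρ.x (C.simple i) s * y) * (ρ.x (C.simple i) s)⁻¹ * y⁻¹ := by group
      _ = _ := by rw [hc.eq]; group
  have := eq_zero_of_mem_Ui hρ (e ▸ mul_mem (inv_mem hc') (StRep.H_conj_mem_U hy hc'))
  rw [commute_iff hρ hχ one_ne_zero]
  exact Units.ext ((mul_left_eq_self₀.1 (sub_eq_zero.1 this).symm).resolve_right hs)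

/-- The support of an element of the twisted Weyl group is stable. -/
theorem exists_stab (M : LT p T G1 ω) (hw : w ∈ T.S.Wf) (h : w ∈ C.WJ I) :
    ∃ J, T.S.Stab J ∧ J ⊆ I ∧ w ∈ C.WJ J := by
  refine ⟨{i | T.S.orb i ⊆ I}, fun i => ?_, fun i hi => hi (T.S.mem_orb_self i),
    C.mem_WJ_of_invs hw.1 fun r h1 h2 i hi => by_contra fun e => hi fun j hj => ?_⟩
  · simp only [Set.mem_ofPred_eq,
      T.S.orb_eq_of_mem ((T.S.stab_orb i i).2 (T.S.mem_orb_self i))]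
  obtain ⟨s, h3, h4, h5⟩ := T.S.orb_induction (q := fun j => ∃ s, C.Pos s ∧ ¬ C.Pos (w s) ∧
    C.vec s j ≠ 0) ⟨r, h1, h2, e⟩ (fun j ⟨s, h3, h4, h5⟩ => ⟨T.S.π s, T.S.pos_π_iff.2 h3, by
      rwa [Sym.apply_π hw, T.S.pos_π_iff], fun h6 => by
        have := M.compat s j
        have h7 := M.wt.one_le (T.S.π s)
        have h8 := M.wt.one_le (C.simple j)
        rw [h6, Int.cast_zero, zero_mul, eq_comm, mul_eq_zero] at this
        exact this.elim (fun h => h5 (by exact_mod_cast h)) (by positivity)⟩) hj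
  exact (by_contra fun h6 => h4 (C.pos_WJ_of_not_inSub h h3 h6) : C.InSub I s).mem h5

theorem eq_one_of (hp : ¬ p ∣ orderOf y) (h : PE p y) : y = 1 := by
  obtain ⟨k, hk⟩ := h
  exact orderOf_eq_one_iff.1 (Nat.eq_one_of_dvd_coprimes
    (((Fact.out : p.Prime).coprime_iff_not_dvd.2 hp).symm.pow_right k) dvd_rfl
    (orderOf_dvd_of_pow_eq_one hk))

theorem fu_of (M : LT p T G1 ω) (syl : ∀ J x, Min T G1 J x → ¬ p ∣ orderOf x →
    IsSyl p (ρ.UJ J ⊓ G1 ⊓ Subgroup.centralizer {x}) (G1 ⊓ Subgroup.centralizer {x}))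
    (h : Fac p G1 a b) (ha : ¬ p ∣ orderOf a) (hb : ¬ p ∣ orderOf b) : FU T G1 a b :=
  fun J J' x y hx hy h1 h2 u hu => by
    obtain ⟨s, hs, t, ht, e⟩ := (h x y hx hy _ _ (ρ.Up ⊓ G1) (syl J x h1 (hx.orderOf ▸ ha))
      (syl J' y h2 (hy.orderOf ▸ hb)) M.isSyl.isPGroup inf_le_right
      (inf_le_left.trans (inf_le_inf_right _ (ρ.UJ_le_Up J)))
      (inf_le_left.trans (inf_le_inf_right _ (ρ.UJ_le_Up J')))).2 u hu
    exact ⟨s, hs.1, t, ht.1, Subgroup.mem_centralizer_singleton_iff.1 hs.2,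
      Subgroup.mem_centralizer_singleton_iff.1 ht.2, e⟩

end SM

open SM

theorem exists_min (M : LT p T G1 ω) (ha : a ∈ G1) (hp : ¬ p ∣ orderOf a) :
    ∃ J x, Cj G1 a x ∧ Min T G1 J x := by
  have := M.finite
  obtain ⟨⟨J, g⟩, ⟨h1, h2, h3⟩, hm⟩ := Set.exists_min_image
    {x : Set B × G | T.S.Stab x.1 ∧ x.2 ∈ G1 ∧ x.2 * a * x.2⁻¹ ∈ ρ.PJ x.1} (fun x => x.1.ncard)
    (Set.toFinite _) ⟨(Set.univ, 1), T.S.stab_univ, one_mem _, by simp [StRep.PJ_univ, T.top]⟩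
  dsimp only at h1 h2 h3 hm
  have h4 : Subgroup.zpowers (g * a * g⁻¹) ≤ ρ.PJ J ⊓ G1 :=
    Subgroup.zpowers_le.2 (im h3 (mul_mem (mul_mem h2 ha) (inv_mem h2)))
  obtain ⟨k, hk, h5⟩ := Coprime.exists_conj_mem_of_mul (Subgroup.zpowers (g * a * g⁻¹))
    (ρ.UJ J ⊓ G1) (h4.trans (le_normalizer_inf (inf_le_left.trans (ρ.PJ_le_normalizer_UJ J))
      (inf_le_right.trans Subgroup.le_normalizer))) (by
      obtain ⟨k, hk⟩ := (M.isPGroup_of_le (Q := ρ.UJ J ⊓ G1)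
        (inf_le_left.trans (ρ.UJ_le_Up J))).exists_card_eq
      rw [hk, Nat.card_zpowers, (Cj.of h2 a).orderOf]
      exact (((Fact.out : p.Prime).coprime_iff_not_dvd.2 hp).symm.pow_right k))
    (.inl inferInstance) (ρ.LJ J) fun c hc => by
      obtain ⟨u, hu, l, hl, rfl⟩ := levi M.form h1 (h4 hc)
      exact ⟨u, hu, by simpa using hl.1⟩
  have h6 : Cj G1 a (k⁻¹ * (g * a * g⁻¹) * k) := by
    simpa using (Cj.of h2 a).conj (inv_mem hk.2)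
  exact ⟨J, _, h6, h1, ⟨h5 _ (Subgroup.mem_zpowers _), h6.mem ha⟩, fun m hm' I hI h =>
    hm (I, m * k⁻¹ * g) ⟨hI, mul_mem (mul_mem hm' (inv_mem hk.2)) h2, by simpa [mul_assoc] using h⟩⟩

theorem Min.conjL (h : Min T G1 J x) (hk : k ∈ ρ.LJ J ⊓ G1) : Min T G1 J (k * x * k⁻¹) :=
  ⟨h.stab, mul_mem (mul_mem hk h.mem) (inv_mem hk), fun g hg I hI e =>
    h.min (g * k) (mul_mem hg hk.2) I hI (by simpa [mul_assoc] using e)⟩

theorem Min.conjN (h : Min T G1 J x) (hn : n ∈ G1) (hw : ρ.NW n w) (h1 : T.S.Stab J')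
    (h2 : ∀ j ∈ J, ∃ j' ∈ J', w (C.simple j) = C.simple j') (h3 : J'.ncard ≤ J.ncard) :
    Min T G1 J' (n * x * n⁻¹) := by
  refine ⟨h1, im ?_ (mul_mem (mul_mem hn (ir h.mem)) (inv_mem hn)), fun g hg I hI e => h3.trans
    (h.min (g * n) (mul_mem hg hn) I hI (by simpa [mul_assoc] using e))⟩
  have key : ∀ r, C.InSub J' (w r) → ρ.X r ≤ (ρ.LJ J').comap (MulAut.conj n).toMonoidHom :=
    fun r hr => StRep.X_le_iff.2 fun t => by
      obtain ⟨c, e⟩ := hw.acts.exists_conj_x r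
      change n * ρ.x r t * n⁻¹ ∈ ρ.LJ J'
      rw [e]; exact StRep.x_mem_LJ hr _
  refine (sup_le (fun _ hg => StRep.H_mem_LJ (hw.acts.conj_mem_H hg)) (StRep.U_inSub_le fun j hj => ?_) :
    ρ.LJ J ≤ (ρ.LJ J').comap (MulAut.conj n).toMonoidHom) h.mem.1
  obtain ⟨j', h4, h5⟩ := h2 j hj
  exact ⟨key _ (h5 ▸ C.inSub_simple.2 h4), key _ (by
    rw [RootSys.neg_aut hw.mem_Aut, C.inSub_neg, h5]; exact C.inSub_simple.2 h4)⟩

theorem Min.cell (M : LT p T G1 ω) (h : Min T G1 J x) :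
    ∃ w ∈ T.S.Wf, w ∈ C.WJ J ∧ x ∈ ρ.Cell w ∧ ∀ I, T.S.Stab I → w ∈ C.WJ I → J.ncard ≤ I.ncard := by
  obtain ⟨w, hw, hc⟩ := StRep.mem_PJ_iff.1 (ρ.LJ_le_PJ J h.mem.1)
  exact ⟨w, Tw.mem_Wf_of_cell (M.form.fix h.mem.2) hc, hw, hc, fun I hI e =>
    h.min 1 (one_mem _) I hI (by simpa using StRep.mem_PJ_iff.2 ⟨w, e, hc⟩)⟩

/-- The cell of `x` has full support. -/
theorem Min.subset (M : LT p T G1 ω) (h : Min T G1 J x) (hx : x ∈ ρ.Cell w) (hw : w ∈ C.WJ I) :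
    J ⊆ I := by
  obtain ⟨v, h1, h2, h3, h4⟩ := h.cell M
  obtain rfl := StRep.cell_unique T.faith hx h3
  obtain ⟨L, h5, h6, h7⟩ := exists_stab M h1 (I := J ∩ I) (C.mem_WJ_of_invs h1.1 fun r hr hr' i hi =>
    by_contra fun e => hi ⟨(by_contra fun h => hr' (C.pos_WJ_of_not_inSub h2 hr h) : C.InSub J r).mem e,
      (by_contra fun h => hr' (C.pos_WJ_of_not_inSub hw hr h) : C.InSub I r).mem e⟩)
  rw [← Set.eq_of_subset_of_ncard_le (h6.trans Set.inter_subset_left) (h4 L h5 h7)]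
  exact h6.trans Set.inter_subset_right

/-- A `J`-dominant root fixed by the cell of `x` is orthogonal to `J`. -/
theorem Min.fix (M : LT p T G1 ω) (h : Min T G1 J x) (hx : x ∈ ρ.Cell w) (hr : w r = r)
    (hd : ∀ j ∈ J, 0 ≤ C.A (C.simple j) r) : ∀ j ∈ J, C.A (C.simple j) r = 0 := fun _ hj =>
  (h.subset M hx (RootSys.mem_WJ_of_fix hd ((StRep.mem_PJ_iff_of_cell T.faith hx).1
    (ρ.LJ_le_PJ J h.mem.1)) hr) hj).2

theorem min_empty (hy : y ∈ ρ.H ⊓ G1) : Min T G1 ∅ y :=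
  ⟨T.S.stab_empty, ⟨StRep.H_mem_LJ hy.1, hy.2⟩, fun _ _ _ _ _ => by simp⟩

theorem Min.mem_H (h : Min T G1 ∅ y) : y ∈ ρ.H ⊓ G1 :=
  ⟨by simpa [StRep.LJ, C.not_inSub_empty] using h.mem.1, h.mem.2⟩

theorem FU.symm (h : FU T G1 a b) : FU T G1 b a := fun J J' x y hx hy h1 h2 u hu => by
  obtain ⟨s, hs, t, ht, h3, h4, e⟩ := h J' J y x hy hx h2 h1 u⁻¹ (inv_mem hu)
  exact ⟨t⁻¹, inv_mem ht, s⁻¹, inv_mem hs, h4.inv_left, h3.inv_left, by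
    rw [← mul_inv_rev, ← e, inv_inv]⟩

theorem FU.cj (h : FU T G1 a b) (hx : Cj G1 a x) (hy : Cj G1 b y) : FU T G1 x y :=
  fun J J' u v hu hv => h J J' u v (hx.trans hu) (hy.trans hv)

theorem FU.disj (M : LT p T G1 ω) (h : FU T G1 a b) (hx : Cj G1 a x) (hy : Cj G1 b y)
    (h1 : Min T G1 J x) (h2 : Min T G1 J' y) : Disjoint J J' := Set.disjoint_left.2 fun i hi hi' => by
  obtain ⟨u, hu, h3⟩ := exists_notMem M i
  obtain ⟨s, hs, t, ht, -, -, rfl⟩ := h J J' x y hx hy h1 h2 u hu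
  exact h3 (mul_mem (UJ_le_Ui hi hs.1) (UJ_le_Ui hi' ht.1))

theorem FU.ne_univ (S : St p T G1 ω a b) (h : FU T G1 a b) (hb : ¬ p ∣ orderOf b) (hx : Cj G1 a x)
    (h1 : Min T G1 J x) : J ≠ Set.univ := by
  rintro rfl
  obtain ⟨J', y, hy, h2⟩ := exists_min S.lt S.mb hb
  have := S.lt.ne
  have h3 := S.lt.centralizer_UJ S.center T.S.stab_empty Set.empty_ne_univ
    (im (hy.mem S.mb) (mem_centralizer_iff'.2 fun u hu => by
      obtain ⟨s, hs, t, -, -, h4, rfl⟩ := h _ J' x y hx hy h1 h2 u (ρ.UJ_empty ▸ hu)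
      obtain rfl : s = 1 := by simpa [StRep.UJ, C.inSub_univ] using hs.1
      rw [one_mul]; exact h4))
  exact hy.ne_one S.nb (eq_one_of (hy.orderOf ▸ hb)
    (.of_mem S.lt.isPGroup_Up (ρ.UJ_le_Up _ h3.1)))

theorem FU.tor (M : LT p T G1 ω) (h : FU T G1 a b) (hx : Cj G1 a x) (hy : Cj G1 b y)
    (h1 : Min T G1 J x) (h2 : y ∈ ρ.H) (hb : b ∈ G1) (hi : i ∈ J) :
    Commute y (ρ.x (C.simple i) 1) := by
  obtain ⟨u, hu, h3⟩ := exists_notMem M i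
  obtain ⟨s, hs, t, ht, -, h4, rfl⟩ := h J ∅ x y hx hy h1 (min_empty ⟨h2, hy.mem hb⟩) u hu
  exact commute_of_notMem T.faith h2 (ρ.UJ_le_Up _ ht.1)
    (fun e => h3 (mul_mem (UJ_le_Ui hi hs.1) e)) h4

theorem FU.tor₂ (M : LT p T G1 ω) (h : FU T G1 a b) (hx : Cj G1 a x) (hy : Cj G1 b y)
    (h1 : x ∈ ρ.H ⊓ G1) (h2 : y ∈ ρ.H ⊓ G1) (i : B) :
    Commute x (ρ.x (C.simple i) 1) ∨ Commute y (ρ.x (C.simple i) 1) := by
  obtain ⟨u, hu, h3⟩ := exists_notMem M i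
  obtain ⟨s, hs, t, ht, h4, h5, rfl⟩ := h ∅ ∅ x y hx hy (min_empty h1) (min_empty h2) u hu
  by_cases e : s ∈ ρ.Ui i
  · exact .inr (commute_of_notMem T.faith h2.1 (ρ.UJ_le_Up _ ht.1) (fun e' => h3 (mul_mem e e')) h5)
  · exact .inl (commute_of_notMem T.faith h1.1 (ρ.UJ_le_Up _ hs.1) e h4)

/-- Moving a torus element by the Weyl group. -/
theorem exists_move (M : LT p T G1 ω) (hy : y ∈ ρ.H ⊓ G1) (hw : w ∈ T.S.Wf) :
    ∃ y' ∈ ρ.H ⊓ G1, Cj G1 y y' ∧ ∀ r, Commute y' (ρ.x (w r) 1) ↔ Commute y (ρ.x r 1) := by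
  obtain ⟨n, h1, h2⟩ := M.form.exists_n hw
  have h3 := h2.acts.conj_mem_H hy.1
  refine ⟨_, ⟨h3, (Cj.of h1 y).mem hy.2⟩, .of h1 y, fun r => ?_⟩
  obtain ⟨c, e⟩ := h2.acts.exists_conj_x r
  rw [commute_congr T.faith h3 one_ne_zero (u := c * 1) (by simp), ← e]
  exact ⟨fun h => by simpa [mul_assoc] using h.map (MulAut.conj n⁻¹),
    fun h => by simpa using h.map (MulAut.conj n)⟩

theorem cen_add (hρ : ρ.Faithful) (hy : y ∈ ρ.H) {s u : ι} (h : C.vec u = C.vec r + C.vec s)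
    (h1 : Commute y (ρ.x r 1)) (h2 : Commute y (ρ.x s 1)) : Commute y (ρ.x u 1) := by
  obtain ⟨χ, -, hχ, -⟩ := StRep.exists_actsT_of_mem_H hy
  rw [commute_iff hρ hχ one_ne_zero] at h1 h2 ⊢
  rw [h, Char.ev_add, h1, h2, one_mul]

theorem cen_neg (hρ : ρ.Faithful) (hy : y ∈ ρ.H) (h1 : Commute y (ρ.x r 1)) :
    Commute y (ρ.x (C.neg r) 1) := by
  obtain ⟨χ, -, hχ, -⟩ := StRep.exists_actsT_of_mem_H hy
  rw [commute_iff hρ hχ one_ne_zero] at h1 ⊢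
  rw [C.vec_neg, Char.ev_neg, h1, inv_one]

theorem cen_π (M : LT p T G1 ω) (hy : y ∈ ρ.H ⊓ G1) :
    Commute y (ρ.x (T.π r) 1) ↔ Commute y (ρ.x r 1) := by
  obtain ⟨χ, -, hχ, -⟩ := StRep.exists_actsT_of_mem_H hy.1
  rw [commute_iff T.faith hχ one_ne_zero, commute_iff T.faith hχ one_ne_zero,
    T.ev_π (M.form.fix hy.2) hχ, ← Units.val_eq_one, ← Units.val_eq_one]
  exact map_eq_one_iff (T.φ r) (T.φ r).injective

theorem eq_one_of_cen (M : LT p T G1 ω) (hZ : Subgroup.center G = ⊥) (hy : y ∈ ρ.H)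
    (h : ∀ i, Commute y (ρ.x (C.simple i) 1)) : y = 1 := by
  obtain ⟨χ, -, hχ, -⟩ := StRep.exists_actsT_of_mem_H hy
  have := M.ne
  obtain rfl := C.char_eq_one_of_simple fun i => (commute_iff T.faith hχ one_ne_zero).1 (h i)
  exact hZ.le ((StRep.mem_center_iff_actsT T.top).2 hχ)

end CF.Ah
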