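import Cfsg.Agent.Ah.SM
import Cfsg.Agent.Chev.StVal

/-! The values of the Steinberg character of a twisted group at semisimple elements. -/

set_option autoImplicit false

namespace CF.Ah

open Finset CF.BN CF.Chev CF.Loc Cfsg MulAction CF.Chev.StRep
open scoped _root_.Classical

variable {B ι : Type} [Fintype B] [DecidableEq B] [Fintype ι] [DecidableEq ι]
  {C : ChevBasis B ι} {K : Type*} [Field K] {G : Type*} [Group G] {ρ : StRep C K G}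
  {T : Tw ρ} {G1 : Subgroup G} {ω : ι → ℝ} {p : ℕ}

namespace SV

variable {I J : Set B} {w : Equiv.Perm ι} {s u g : G}

theorem σ_PJ (hJ : T.S.Stab J) (hy : g ∈ ρ.PJ J) : T.σ g ∈ ρ.PJ J := by
  obtain ⟨z, hz, hy⟩ := StRep.mem_PJ_iff.1 hy
  obtain ⟨a, ha, n, hn, a', ha', rfl⟩ := hy
  rw [map_mul, map_mul]
  exact mul_mem (mul_mem (ρ.Bo_le_PJ J (T.σ_mem_Bo ha)) ((T.nW_σ hn).mem_PJ (hJ.conj_mem hz)))
    (ρ.Bo_le_PJ J (T.σ_mem_Bo ha'))

theorem inSub_π {R : RootSys B ι} (S : Sym R) {r : ι} (h : R.InSub I r) :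
    R.InSub (S.p '' I) (S.π r) := by
  obtain ⟨w, hw, i, hi, rfl⟩ := R.exists_WJ_simple h
  have h1 : S.π * w * S.π⁻¹ ∈ R.WJ (S.p '' I) := by
    obtain ⟨l, hl, rfl⟩ := R.mem_WJ_iff.1 hw
    rw [S.conj_wp]
    exact R.wp_mem_WJ fun i hi => by
      obtain ⟨j, hj, rfl⟩ := List.mem_map.1 hi
      exact ⟨j, hl j hj, rfl⟩
  have := (R.inSub_WJ h1 (R.simple (S.p i))).2 (R.inSub_simple.2 ⟨i, hi, rfl⟩)
  simpa [← S.π_simple] using this

theorem stab_lo {R : RootSys B ι} {S : Sym R} (hJ : S.Stab J) (hw : w ∈ S.Wf) :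
    S.Stab (R.lo J w) := by
  have h1 : R.lo J w ⊆ S.p '' R.lo J w := RootSys.lo_subset.2 fun r hr => by
    obtain ⟨r, rfl⟩ := S.π.surjective r
    rw [Sym.apply_π (inv_mem hw)]
    exact inSub_π S (RootSys.lo_subset.1 le_rfl r (hJ.inSub_π.1 hr))
  have h2 := Set.eq_of_subset_of_ncard_le h1 (Set.ncard_image_le (Set.toFinite _))
  intro i
  nth_rw 1 [h2]
  exact S.p.injective.mem_set_image

theorem stab_asc {R : RootSys B ι} {S : Sym R} (hw : w ∈ S.Wf) : S.Stab (R.asc w) := fun i =>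
  Sym.pos_simple_iff hw ((S.stab_orb i i).2 (S.mem_orb_self i))

theorem flag_fix (F : T.Form G1) (hI : T.S.Stab I) (hw : w ∈ C.W) (h : I ⊆ C.asc w)
    (hu : u ∈ ρ.Uw w⁻¹) (hg : g ∈ G1) (e : (u * ρ.nc w)⁻¹ * g ∈ ρ.PJ I) :
    w ∈ T.S.Wf ∧ u ∈ G1 := by
  have h1 := T.nW_σ (nW_wd (ρ := ρ) hw)
  have hw' := h1.mem_W
  have h2 : (ρ.nc (T.π * w * T.π⁻¹))⁻¹ * T.σ (ρ.nc w) ∈ ρ.H :=
    StRep.NW.mem_H (by simpa only [inv_mul_cancel] using (nW_wd (ρ := ρ) hw').inv.mul h1)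
  have h3 := σ_PJ hI e
  rw [map_mul, map_inv, map_mul, T.mem_Fix.1 (F.fix hg)] at h3
  have h4 := flagP_inj T.faith hw hw' h (fun i hi => by
      obtain ⟨k, rfl⟩ := T.p.surjective i
      change C.Pos _
      rw [← T.π_simple]
      have h5 : C.Pos (w (C.simple k)) := h ((hI k).1 hi)
      simpa [T.pos_π_iff] using h5) hu
    (T.σ_mem_U (fun r hr => And.intro (T.pos_π_iff.2 hr.1) (by
      simpa [T.pos_π_iff] using hr.2)) hu) (by
      simpa [mul_assoc] using mul_mem (mul_mem e (inv_mem h3))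
        (inv_mem (ρ.Bo_le_PJ I (ρ.H_le_Bo h2))))
  exact ⟨Sym.mem_Wf.2 ⟨hw, h4.1.symm⟩, F.Up_le ⟨ρ.Uw_le_Up _ hu, h4.2.symm⟩⟩

theorem flag_mem (F : T.Form G1) (hw : w ∈ T.S.Wf) (I : Set B) :
    ∃ n ∈ G1, (ρ.nc w)⁻¹ * n ∈ ρ.PJ I := by
  obtain ⟨n, h1, h2⟩ := F.exists_n hw
  exact ⟨n, h1, ρ.Bo_le_PJ I (ρ.H_le_Bo (StRep.NW.mem_H (by
    simpa using (nW_wd (ρ := ρ) (Sym.Wf_le_W hw)).inv.mul h2)))⟩

theorem card_fix (P : Subgroup G) (s : G1) : Nat.card (fixedBy (G1 ⧸ P.subgroupOf G1) s) =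
    Nat.card {y : G ⧸ P // (∃ g ∈ G1, y = g) ∧ (s : G) • y = y} := by
  have h0 : ∀ y : G1, s • (y : G1 ⧸ P.subgroupOf G1) = y ↔ (s : G) • ((y : G) : G ⧸ P) = (y : G) :=
    fun y => by
      rw [eq_comm, eq_comm (b := ((y : G) : G ⧸ P))]
      exact (QuotientGroup.eq (a := y) (b := s * y)).trans
        (QuotientGroup.eq (a := (y : G)) (b := s * y)).symm
  refine Nat.card_eq_of_bijective (fun q => ⟨(q.1.out : G), ⟨_, q.1.out.2, rfl⟩,
    (h0 _).1 (by rw [QuotientGroup.out_eq']; exact q.2)⟩) ⟨fun q q' e => Subtype.ext ?_, ?_⟩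
  · rw [← q.1.out_eq', ← q'.1.out_eq']
    exact QuotientGroup.eq.2 (QuotientGroup.eq.1 (congrArg Subtype.val e) :)
  · rintro ⟨_, ⟨g, hg, rfl⟩, h⟩
    refine ⟨⟨(⟨g, hg⟩ : G1), (h0 _).2 h⟩, Subtype.ext ?_⟩
    obtain ⟨b, hb⟩ := QuotientGroup.mk_out_eq_mul (P.subgroupOf G1) ⟨g, hg⟩
    simp only [hb]
    exact QuotientGroup.mk_mul_of_mem _ b.2

theorem lo_sub (F : T.Form G1) (hJ : T.S.Stab J) (hI : T.S.Stab I) (hs : s ∈ ρ.PJ J)
    (hm : ∀ g ∈ G1, ∀ I ⊆ J, T.S.Stab I → g⁻¹ * s * g ∈ ρ.PJ I → J ⊆ I) (hw : w ∈ T.S.Wf)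
    (hu : u ∈ ρ.Up) (hu1 : u ∈ G1) (h : (u * ρ.nc w)⁻¹ * (s * (u * ρ.nc w)) ∈ ρ.PJ I) :
    C.lo J w ⊆ I := by
  have hρ := T.faith
  obtain ⟨v, hv, h1⟩ := C.exists_min_coset J (Sym.mem_Aut hw)
  have hv1 : v ∈ T.S.Wf := by
    have := RootSys.eq_one_of_min_coset (mul_mem (C.W_le_Aut (C.WJ_le_W J hv)) (Sym.mem_Aut hw))
      (mul_mem (hJ.conj_mem hv) (inv_mem hv)) h1 fun j hj => by
        obtain ⟨k, rfl⟩ := T.S.p.surjective j
        have h2 := T.S.pos_π_iff.2 (h1 k ((hJ k).1 hj))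
        rw [mul_inv_rev, Equiv.Perm.mul_apply, ← Sym.apply_π (inv_mem hw)] at h2
        rw [← T.S.π_simple]
        simpa using h2
    exact Sym.mem_Wf.2 ⟨C.WJ_le_W J hv, mul_inv_eq_one.1 this⟩
  obtain ⟨m, hm1, hm'⟩ := F.exists_n hv1
  have hn := hm'.mul (nW_wd (ρ := ρ) (Sym.Wf_le_W hw))
  have hw' := C.W_le_Aut hn.mem_W
  have hg : u * m⁻¹ ∈ ρ.PJ J := mul_mem (ρ.Bo_le_PJ J (ρ.Up_le_Bo hu)) (inv_mem (hm'.mem_PJ hv))
  obtain ⟨a, ha, h2⟩ := mem_PJ_iff.1 (mul_mem (mul_mem (inv_mem hg) hs) hg)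
  obtain ⟨b, hb, h3⟩ := mem_PJ_iff.1 (inv_mem h)
  obtain ⟨b', hb', h4⟩ := mul_mem_cell_WJ hb h3 hn.inv.mem_cell
  obtain ⟨n, hn'⟩ := ρ.exists_nW (C.WJ_le_W J ha)
  obtain ⟨c, hc, x, hx, e⟩ := hn'.mem_cell_iff_sharp.1 h2
  have h5 := cell_mul_right (cell_mul_left hc (hn'.mul hn).mem_cell) (ρ.Up_le_Bo
    (hn.acts.inv_conj_mem_U (T := {r | C.Pos r}) (fun r hr => pos_of_inSub (inv_mem hw') h1 hr.1
      (by_contra fun h => hr.2 (C.pos_WJ_of_not_inSub ha hr.1 h))) hx))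
  have h6 := cell_unique hρ h5 (by
    convert cell_inv h4 using 1
    rw [show c = (u * m⁻¹)⁻¹ * s * (u * m⁻¹) * x⁻¹ * n⁻¹ by rw [e]; group]
    group)
  have h7 := hm _ (mul_mem hu1 (inv_mem hm1)) _ Set.inter_subset_left (fun j => and_congr (hJ j) (by
      rw [Set.mem_ofPred_eq, Set.mem_ofPred_eq, ← T.S.π_simple,
        Sym.apply_π (inv_mem (mul_mem hv1 hw)), hI.inSub_π]))
    (mem_PJ_iff.2 ⟨a, RootSys.mem_WJ_of_mul_eq hw' h1 ha (inv_mem hb') (by simpa using h6), h2⟩)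
  refine RootSys.lo_subset.2 fun r hr => (C.lev_vec_eq_zero_iff I _).1 ?_
  have := (RootSys.lin_lev I (inv_mem hw')).eq_zero_of_inSub (r := v r) fun i hi =>
    (C.inSub_WJ hv r).2 hr i fun h => hi (by
      simpa [RootSys.zer, RootSys.lev_vec_eq_zero_iff] using (h7 h).2)
  simpa using this

theorem card_min [Finite G] (F : T.Form G1) (hJ : T.S.Stab J) (hI : T.S.Stab I) (hs : s ∈ ρ.PJ J)
    (hm : ∀ g ∈ G1, ∀ I ⊆ J, T.S.Stab I → g⁻¹ * s * g ∈ ρ.PJ I → J ⊆ I) :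
    Nat.card {y : G ⧸ ρ.PJ I // (∃ g ∈ G1, y = g) ∧ s • y = y} =
      ∑ w ∈ univ.filter (· ∈ T.S.Wf) with C.lo J w ⊆ I ∧ I ⊆ C.asc w, Nat.card
        {u // (u ∈ ρ.Uw w⁻¹ ∧ u ∈ G1) ∧
          (u * ρ.nc w)⁻¹ * (s * (u * ρ.nc w)) ∈ ρ.PJ (C.lo J w)} := by
  have hρ := T.faith
  have e : ∀ g : G, s • (g : G ⧸ ρ.PJ I) = g ↔ g⁻¹ * (s * g) ∈ ρ.PJ I := fun g => by
    rw [MulAction.Quotient.smul_mk, eq_comm, QuotientGroup.eq, smul_eq_mul]
  rw [filter_filter]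
  refine (card_flagP hρ T.top I (fun y => (∃ g ∈ G1, y = g) ∧ s • y = y)
    fun _ _ _ => inferInstance).trans
    ((sum_subset (fun w => ?_) fun w h h' => ?_).symm.trans (sum_congr rfl fun w h => ?_))
  · simpa using fun h _ h' => ⟨Sym.Wf_le_W h, h'⟩
  · simp only [mem_filter, mem_univ, true_and] at h h'
    refine Nat.card_eq_zero.2 (.inl ⟨fun ⟨u, hu, ⟨g, hg, h0⟩, h1⟩ => ?_⟩)
    obtain ⟨h2, h3⟩ := flag_fix F hI h.1 h.2 hu hg (QuotientGroup.eq.1 h0)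
    exact h' ⟨h2, lo_sub F hJ hI hs hm h2 (ρ.Uw_le_Up _ hu) h3 ((e _).1 h1), h.2⟩
  · simp only [mem_filter, mem_univ, true_and] at h
    have hw := Sym.Wf_le_W h.1
    refine Nat.card_congr (Equiv.subtypeEquivRight fun u => ?_)
    rw [and_assoc]
    refine and_congr_right fun hu => and_congr ⟨fun ⟨g, hg, h0⟩ =>
      (flag_fix F hI hw h.2.2 hu hg (QuotientGroup.eq.1 h0)).2, fun h1 => ?_⟩ ?_
    · obtain ⟨n, h2, h3⟩ := flag_mem F h.1 I
      exact ⟨u * n, mul_mem h1 h2, QuotientGroup.eq.2 (by simpa [mul_assoc] using h3)⟩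
    refine (e _).trans ⟨fun h1 => ?_, fun h1 => PJ_mono h.2.1 h1⟩
    obtain ⟨u', hu', h2⟩ := exists_Uw_lo hw (mul_mem hs (ρ.Bo_le_PJ J (ρ.Up_le_Bo
      (ρ.Uw_le_Up _ hu))))
    rw [mul_assoc s] at h2
    obtain rfl := (flagP_inj hρ hw hw h.2.2 h.2.2 hu hu' (by
      simpa [mul_assoc] using mul_mem h1 (inv_mem (PJ_mono h.2.1 h2)))).2
    exact h2

/-- The generator of the BN-pair attached to a node. -/
noncomputable def κ (F : T.Form G1) (i : B) : F.bn.S := ⟨F.nJ (T.S.orb i), i, rfl⟩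

theorem κ_surj (F : T.Form G1) : Function.Surjective (κ F) := by
  rintro ⟨_, i, rfl⟩
  exact ⟨i, rfl⟩

theorem κ_pre (F : T.Form G1) (hJ : T.S.Stab J) : κ F ⁻¹' (κ F '' J) = J := by
  refine le_antisymm ?_ (Set.subset_preimage_image _ _)
  rintro i ⟨j, hj, e⟩
  have e1 : F.nJ (T.S.orb j) = F.nJ (T.S.orb i) := congrArg Subtype.val e
  have := lg_injective ((F.nW_nJ j).eq T.faith (e1 ▸ F.nW_nJ i))
  exact hJ.orb_subset hj (this ▸ T.S.mem_orb_self i)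

theorem κ_stab (F : T.Form G1) (L : Set F.bn.S) : T.S.Stab (κ F ⁻¹' L) := fun i => by
  simp only [Set.mem_preimage, κ, T.S.orb_eq_of_mem ((T.S.stab_orb i i).2 (T.S.mem_orb_self i))]

theorem parW_eq (F : T.Form G1) (L : Set F.bn.S) :
    parW F.bn L = (ρ.PJ (κ F ⁻¹' L)).subgroupOf G1 := by
  refine le_antisymm (parW_le (P := F.bn) (fun b hb => Subgroup.mem_subgroupOf.2
    (ρ.Bo_le_PJ _ hb)) fun j hj => ?_) fun g hg => ?_
  · obtain ⟨i, rfl⟩ := κ_surj F j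
    exact (F.nW_nJ i).mem_PJ (C.WJ_mono ((κ_stab F L).orb_subset hj) (lg_mem _))
  · obtain ⟨y, hy, e⟩ := PJ_inf_le F (κ_stab F L) (M := (parW F.bn L).map G1.subtype)
      (Subgroup.map_subtype_le _) (fun b hb => ⟨⟨b, hb.2⟩, B_le_parW L hb.1, rfl⟩)
      (fun i hi => ⟨_, ⟨κ F i, s_mem_parW_iff.2 hi, rfl⟩, F.nW_nJ i⟩) ⟨hg, g.2⟩
    exact Subtype.ext e ▸ hy

variable [Fact p.Prime]

theorem st_min (M : LT p T G1 ω) (F : T.Form G1) [Fintype F.bn.S] (hJ : T.S.Stab J) {x : G1}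
    (hs : (x : G) ∈ ρ.PJ J)
    (hm : ∀ g ∈ G1, ∀ I ⊆ J, T.S.Stab I → g⁻¹ * x * g ∈ ρ.PJ I → J ⊆ I) (hp : ¬ p ∣ orderOf x) :
    ∃ k : ℕ, stChar F.bn id x =
      (-1) ^ k * Nat.card ↥(ρ.UJ J ⊓ G1 ⊓ Subgroup.centralizer {(x : G)}) := by
  have := M.finite
  have hρ := T.faith
  set s : G := (x : G)
  set w := lg C.toRootSys J * lg C.toRootSys Set.univ
  have hw1 : w ∈ T.S.Wf := mul_mem hJ.lg_mem_Wf T.S.stab_univ.lg_mem_Wf
  have hw : w ∈ C.W := Sym.Wf_le_W hw1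
  have h1 := sum_alt_filter (univ.filter (· ∈ T.S.Wf)) (fun w => κ F '' C.lo J w)
    (fun w => κ F '' C.asc w) fun w => Nat.card {u // (u ∈ ρ.Uw w⁻¹ ∧ u ∈ G1) ∧
      (u * ρ.nc w)⁻¹ * (s * (u * ρ.nc w)) ∈ ρ.PJ (C.lo J w)}
  rw [show (univ.filter (· ∈ T.S.Wf)).filter (fun w => κ F '' C.lo J w = κ F '' C.asc w) = {w} from
    ext fun v => by
      simp only [mem_filter, mem_univ, true_and, mem_singleton]
      refine ⟨fun h => (RootSys.lo_eq_asc (Sym.Wf_le_W h.1)).1 ?_, fun h => h ▸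
        ⟨hw1, congrArg _ ((RootSys.lo_eq_asc hw).2 rfl)⟩⟩
      rw [← κ_pre F (stab_lo hJ h.1), h.2, κ_pre F (stab_asc h.1)], sum_singleton] at h1
  have e : ρ.Uw w⁻¹ = ρ.UJ J :=
    congrArg ρ.U (Set.ext fun r => and_congr_right fun hr => (RootSys.pos_lg_lg hr).not)
  have h2 := ((RootSys.lo_eq_asc (J := J) hw).2 rfl).le
  have hU : IsPGroup p ↥(ρ.UJ J ⊓ G1) := M.isPGroup_of_le (inf_le_left.trans (ρ.UJ_le_Up J))
  obtain ⟨u, hu, h3⟩ := Coprime.exists_fixed_of_orbit (Subgroup.zpowers s) (ρ.UJ J ⊓ G1)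
    (le_normalizer_inf ((Subgroup.zpowers_le.2 hs).trans (ρ.PJ_le_normalizer_UJ J))
      ((Subgroup.zpowers_le.2 x.2).trans Subgroup.le_normalizer)) (by
      obtain ⟨k, hk⟩ := hU.exists_card_eq
      rw [hk, Nat.card_zpowers, Subgroup.orderOf_coe]
      exact (((Fact.out : p.Prime).coprime_iff_not_dvd.2 hp).symm.pow_right k))
    (.inl inferInstance) (ρ.nc w : G ⧸ ρ.PJ (C.lo J w)) fun a ha => by
      obtain ⟨u, hu, h⟩ := exists_Uw_lo hw (Subgroup.zpowers_le.2 hs ha)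
      obtain ⟨n, h4, h5⟩ := flag_mem F hw1 (C.lo J w)
      exact ⟨u, ⟨e ▸ hu, (flag_fix F (stab_lo hJ hw1) hw h2 hu
        (mul_mem (Subgroup.zpowers_le.2 x.2 ha) h4) (by
          simpa [mul_assoc] using mul_mem h h5)).2⟩, QuotientGroup.eq.2 h⟩
  replace h3 : (u * ρ.nc w)⁻¹ * (s * (u * ρ.nc w)) ∈ ρ.PJ (C.lo J w) :=
    QuotientGroup.eq.1 (h3 s (Subgroup.mem_zpowers s)).symm
  refine ⟨(κ F '' C.lo J w).ncard, ?_⟩
  have h6 : ∀ L : Finset F.bn.S, (univ.filter (· ∈ T.S.Wf)).filter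
      (fun w => C.lo J w ⊆ κ F ⁻¹' L ∧ κ F ⁻¹' L ⊆ C.asc w) = (univ.filter (· ∈ T.S.Wf)).filter
        (fun w => κ F '' C.lo J w ⊆ L ∧ (L : Set F.bn.S) ⊆ κ F '' C.asc w) := fun L =>
    filter_congr fun v hv => and_congr Set.image_subset_iff.symm (by
      rw [← (κ_surj F).preimage_subset_preimage_iff, κ_pre F (stab_asc (mem_filter.1 hv).2)])
  have h7 := fun L : Finset F.bn.S => (congrArg (fun P : Subgroup G1 => Nat.card (fixedBy (G1 ⧸ P) x))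
    ((congrArg _ (Set.image_id _)).trans (parW_eq F L))).trans ((card_fix _ x).trans
      (card_min F hJ (κ_stab F _) hs hm))
  simp only [h6] at h7
  simp only [stChar, fixedPointCharacter, h7]
  refine (by exact_mod_cast h1 : _ = (((-1) ^ (κ F '' C.lo J w).ncard * _ : ℤ) : ℂ)).trans ?_
  push_cast
  congr 2
  refine Nat.card_congr ((Equiv.mulRight u⁻¹).subtypeEquiv fun y => ?_)
  rw [e, Subgroup.mem_inf, Equiv.coe_mulRight, mul_mem_cancel_right (inv_mem hu),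
    Subgroup.mem_centralizer_singleton_iff]
  refine and_congr_right fun hx => ⟨fun h => ?_, fun h => ?_⟩
  · have h4 := mul_mem (PJ_conj_mem_UJ hs (mul_mem hx.1 (inv_mem hu.1))) hu.1
    have := (flagP_inj hρ hw hw h2 h2 (e ▸ hx.1) (e ▸ h4) (by
      simpa [mul_assoc] using mul_mem h (inv_mem h3))).2
    rw [← mul_inv_eq_iff_eq_mul, eq_mul_inv_iff_mul_eq] at this
    exact this
  · convert h3 using 1
    rw [show s * (y * ρ.nc w) = y * u⁻¹ * s * u * ρ.nc w by rw [h]; group]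
    group

theorem st_one (M : LT p T G1 ω) [Fintype M.form.bn.S] :
    stChar M.form.bn id 1 = (p ^ (Nat.card G1).factorization p : ℕ) := by
  have F := M.form
  have := M.finite
  obtain ⟨n, h1, h2⟩ := F.exists_n0
  rw [stChar_one Function.surjective_id (n := ⟨n, h1⟩) h2.mem_N fun b hb h =>
    ρ.H_le_N (StRep.mem_H_of_conj_mem T.faith h2 hb h), ← M.isSyl.card_eq, Nat.cast_inj,
    F.bn_B, F.bn_N, ← ρ.Bo.inf_subgroupOf_right, Subgroup.relIndex_subgroupOf inf_le_right]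
  refine Nat.eq_of_mul_eq_mul_right (Nat.card_pos (α := (ρ.H ⊓ G1 : Subgroup G))) ?_
  rw [← F.card_Bo, ← Subgroup.inf_relIndex_right, ← inf_assoc, inf_comm ρ.N, StRep.Bo_inf_N T.faith,
    mul_comm, card_mul_relIndex (inf_le_inf_right _ ρ.H_le_Bo)]

omit [Fact p.Prime] in
theorem card_cen (x : G1) : Nat.card ↥(G1 ⊓ Subgroup.centralizer {(x : G)}) =
    Nat.card (Subgroup.centralizer ({x} : Set G1)) := by
  rw [← Subgroup.card_map_of_injective (f := G1.subtype) Subtype.val_injective]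
  congr 2
  ext y
  simp only [Subgroup.mem_inf, Subgroup.mem_map, Subgroup.mem_centralizer_singleton_iff]
  exact ⟨fun h => ⟨⟨y, h.1⟩, Subtype.ext h.2, rfl⟩, fun ⟨z, h, e⟩ =>
    e ▸ ⟨z.2, congrArg Subtype.val h⟩⟩

theorem key (M : LT p T G1 ω) [Fintype M.form.bn.S] (hJ : T.S.Stab J) {x : G1}
    (hs : (x : G) ∈ ρ.PJ J)
    (hm : ∀ g ∈ G1, ∀ I ⊆ J, T.S.Stab I → g⁻¹ * x * g ∈ ρ.PJ I → J ⊆ I) (hp : ¬ p ∣ orderOf x) :
    Nat.card ↥(ρ.UJ J ⊓ G1 ⊓ Subgroup.centralizer {(x : G)}) =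
      p ^ (Nat.card (Subgroup.centralizer ({x} : Set G1))).factorization p := by
  have := M.finite
  obtain ⟨k, hk⟩ := st_min M M.form hJ hs hm hp
  obtain ⟨a, ha⟩ := (M.isPGroup_of_le (Q := ρ.UJ J ⊓ G1 ⊓ Subgroup.centralizer {(x : G)})
    (inf_le_left.trans (inf_le_left.trans (ρ.UJ_le_Up J)))).exists_card_eq
  have h2 := Subgroup.card_dvd_of_le (inf_le_inf_right (Subgroup.centralizer {(x : G)})
    (inf_le_right (a := ρ.UJ J) (b := G1)))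
  rw [card_cen, ha] at h2
  rw [ha] at hk ⊢
  have h3 := BlockB.centralChar_isIntegral' (irr_stChar (P := M.form.bn) Function.surjective_id) x
  have h4 : p ^ (Nat.card G1).factorization p ∣ (Subgroup.centralizer {x}).index * p ^ a :=
    Char.dvd_of_isIntegral_div (pow_ne_zero _ (Fact.out : p.Prime).ne_zero) (by
      rw [centralChar, hk, st_one M] at h3
      rcases neg_one_pow_eq_or ℂ k with h | h
      · simpa [h] using h3
      · simpa [h, neg_div] using h3.neg)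
  rw [(Fact.out : p.Prime).pow_dvd_iff_le_factorization (mul_ne_zero
      Subgroup.index_ne_zero_of_finite (pow_ne_zero _ (Fact.out : p.Prime).ne_zero)),
    Nat.factorization_mul Subgroup.index_ne_zero_of_finite
      (pow_ne_zero _ (Fact.out : p.Prime).ne_zero), (Fact.out : p.Prime).factorization_pow,
    ← BlockB.factorization_index_add x] at h4
  rw [(Fact.out : p.Prime).pow_dvd_iff_le_factorization Nat.card_pos.ne'] at h2
  rw [h2.antisymm (by simpa using h4)]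

end SV

variable [Fact p.Prime]

theorem hasSV_of_lt (M : LT p T G1 ω) : HasSV p G1 := by
  have := M.finite
  have := Fintype.ofFinite M.form.bn.S
  have h0 := irr_stChar (P := M.form.bn) Function.surjective_id
  refine ⟨_, h0, fun x hx => irr_eq_zero_of_one_eq h0 (SV.st_one M) hx, fun s hp => ?_⟩
  obtain ⟨⟨J, g⟩, h1, hm⟩ := Set.exists_min_image
    {x : Set B × G1 | T.S.Stab x.1 ∧ ((x.2⁻¹ * s * x.2 : G1) : G) ∈ ρ.PJ x.1}
    (fun x => x.1.ncard) (Set.toFinite _) ⟨(Set.univ, 1), T.S.stab_univ, by simp [PJ_univ, T.top]⟩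
  have h2 : ∀ y ∈ G1, ∀ I ⊆ J, T.S.Stab I → y⁻¹ * (g⁻¹ * s * g : G1) * y ∈ ρ.PJ I → J ⊆ I :=
    fun y hy I hI h3 h => (Set.eq_of_subset_of_ncard_le hI
      (hm (I, g * ⟨y, hy⟩) ⟨h3, by simpa [mul_assoc] using h⟩)).ge
  have h3 : ¬ p ∣ orderOf (g⁻¹ * s * g) := by simpa using mt (Loc.orderOf_conj g⁻¹ s ▸ ·) hp
  obtain ⟨k, hk⟩ := SV.st_min M M.form h1.1 h1.2 h2 h3
  have h4 : Nat.card (Subgroup.centralizer ({g⁻¹ * s * g} : Set G1)) =
      Nat.card (Subgroup.centralizer ({s} : Set G1)) :=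
    Nat.card_congr ((MulAut.conj g).toEquiv.subtypeEquiv fun y => by
      simp only [Subgroup.mem_centralizer_singleton_iff]
      exact ⟨fun h => by simpa [mul_assoc] using congrArg (g * · * g⁻¹) h,
        fun h => by simpa [mul_assoc] using congrArg (g⁻¹ * · * g) h⟩)
  rw [SV.key M h1.1 h1.2 h2 h3, h4, show stChar M.form.bn id _ = stChar M.form.bn id s by
    simpa using Char.irr_isClassFunction h0 s g⁻¹] at hk
  rw [hk]
  rcases neg_one_pow_eq_or ℂ k with h | h <;> simp [h]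

theorem Min.syl {J : Set B} {x : G} (M : LT p T G1 ω) (h : Min T G1 J x) (hp : ¬ p ∣ orderOf x) :
    IsSyl p (ρ.UJ J ⊓ G1 ⊓ Subgroup.centralizer {x}) (G1 ⊓ Subgroup.centralizer {x}) := by
  have := M.finite
  have := Fintype.ofFinite M.form.bn.S
  have h1 := SV.key M h.stab (x := ⟨x, h.mem.2⟩) (ρ.LJ_le_PJ J h.mem.1) (fun g hg I hI h1 h2 =>
    (Set.eq_of_subset_of_ncard_le hI (h.min g⁻¹ (inv_mem hg) I h1 (by simpa using h2))).ge)
    (by rwa [← Subgroup.orderOf_coe])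
  have hQ : IsPGroup p ↥(ρ.UJ J ⊓ G1 ⊓ Subgroup.centralizer {x}) :=
    M.isPGroup_of_le (inf_le_left.trans (inf_le_left.trans (ρ.UJ_le_Up J)))
  obtain ⟨S, hS, -⟩ := exists_isSyl_ge hQ (inf_le_inf_right _ inf_le_right)
  refine hS.of_card_le hQ (inf_le_inf_right _ inf_le_right) ?_
  rw [hS.card_eq, h1, ← SV.card_cen]

theorem Fac.fu {a b : G} (M : LT p T G1 ω) (h : Fac p G1 a b) (ha : ¬ p ∣ orderOf a)
    (hb : ¬ p ∣ orderOf b) : FU T G1 a b :=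
  SM.fu_of M (fun _ _ => Min.syl M) h ha hb

theorem HasSV.of_equiv {X Y : Type*} [Group X] [Group Y] (h : HasSV p X) (e : Y ≃* X) :
    HasSV p Y := by
  obtain ⟨χ, h1, h2, h3⟩ := h
  refine ⟨_, Char.irr_comp_equiv h1 e, fun y hy => h2 _ (by rwa [e.orderOf_eq]), fun y hy => ?_⟩
  have h4 : Nat.card (Subgroup.centralizer ({y} : Set Y)) =
      Nat.card (Subgroup.centralizer ({e y} : Set X)) :=
    Nat.card_congr (e.toEquiv.subtypeEquiv fun z => by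
      simp [Subgroup.mem_centralizer_singleton_iff, ← map_mul])
  rw [h4]
  exact h3 _ (by rwa [e.orderOf_eq])

theorem hasSV {X : Type*} [Group X] (h : IsLieTypeChar p X) : HasSV p X := by
  obtain ⟨M, ⟨e⟩, -⟩ := hasMdl h
  exact (hasSV_of_lt M.lt).of_equiv e

end CF.Ah
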