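import Cfsg.Agent.Ah.SM
import Cfsg.Agent.Ah.SV

/-! Top vectors and natural modules in unipotent radicals. -/

set_option autoImplicit false

namespace CF.Ah

open CF.BN CF.Chev CF.Loc Cfsg Cfsg.Lie

namespace SF

variable {B ι : Type} [Fintype B] [DecidableEq B] [Fintype ι] [DecidableEq ι]
  {C : ChevBasis B ι} {K : Type*} [Field K] {G : Type*} [Group G] {ρ : StRep C K G}
  {T : Tw ρ} {G1 : Subgroup G} {ω : ι → ℝ} {p : ℕ} [Fact p.Prime] {J : Set B} {a b x y s : G}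
  {w : Equiv.Perm ι} {i : B} {α β c c' g : ι} {t : K}

/-- The positive roots outside `Φ_J` not below `c`. -/
def D (R : RootSys B ι) (J : Set B) (c : ι) : Set ι := {r | R.Pos r ∧ ¬ R.InSub J r} ∩ R.nbl c

theorem ideal_UJ (R : RootSys B ι) (J : Set B) :
    R.Ideal {r | R.Pos r} {r | R.Pos r ∧ ¬ R.InSub J r} := (R.ideal_rad J).mono fun _ h => .inl h

theorem bst_UJ : ρ.BSt {r | C.Pos r ∧ ¬ C.InSub J r} :=
  StRep.bst_of_ideal (ideal_UJ _ J) fun _ h => h.1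

theorem bst_D : ρ.BSt (D C.toRootSys J c) :=
  StRep.bst_of_ideal ((ideal_UJ _ J).inter (C.ideal_lo c)) fun _ h => h.1.1

theorem bst_E (hc : C.Pos c) (hc' : ¬ C.InSub J c) : ρ.BSt ({c} ∪ D C.toRootSys J c) := by
  refine StRep.bst_of_ideal (fun r hr s hs u i j hi hj e => ?_) ?_
  · rcases hs with rfl | hs
    · by_cases h : C.vec u ≤ C.vec s
      · exact .inl (C.vec_inj (le_antisymm h (RootSys.le_of_comb hr hc hj e)))
      · exact .inr ⟨ideal_UJ _ J r hr s ⟨hc, hc'⟩ u i j hi hj e, RootSys.Pos.of_add hr hc e, h⟩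
    · exact .inr ((ideal_UJ _ J).inter (C.ideal_lo c) r hr s hs u i j hi hj e)
  · rintro r (rfl | hr)
    exacts [hc, hr.1.1]

theorem mem_D (hρ : ρ.Faithful) (h1 : y ∈ ρ.UJ J) (h2 : y ∈ ρ.U (C.nbl c)) :
    y ∈ ρ.U (D C.toRootSys J c) :=
  StRep.mem_U_inter hρ (bst_UJ (ρ := ρ)).closed (bst_UJ (ρ := ρ)).isNil (ρ.bst_lo c).closed
    (ρ.bst_lo c).isNil h1 h2

/-- An element of `U_J` centralizing a minimal element has leading root `β` modulo the roots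
not below `c`. -/
def NP (T : Tw ρ) (G1 : Subgroup G) (J : Set B) (β c : ι) : Prop :=
  ∃ x s t, Min T G1 J x ∧ s ∈ ρ.UJ J ∧ Commute s x ∧ t ≠ 0 ∧ (ρ.x β t)⁻¹ * s ∈ ρ.U (C.nbl c)

/-- There is no top vector. -/
theorem top (M : LT p T G1 ω) (hg : C.Pos g) (hg' : ¬ C.InSub J g)
    (hd : ∀ j ∈ J, 0 ≤ C.A (C.simple j) g) (hn : ∃ j ∈ J, C.A (C.simple j) g ≠ 0) :
    ¬ NP T G1 J g g := by
  rintro ⟨x, s, t, h, hs, hc, ht, e⟩
  obtain ⟨w, -, hw, hx, -⟩ := h.cell M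
  have h1 : ρ.x g t ∈ ρ.UJ J := ρ.x_mem_U (And.intro hg hg') t
  have h2 := mem_D T.faith (mul_mem (inv_mem h1) hs) e
  have h3 : s ∈ ρ.U ({g} ∪ D C.toRootSys J g) := by
    simpa using mul_mem (ρ.x_mem_U (S := {g} ∪ D C.toRootSys J g) (.inl rfl) t)
      (ρ.U_mono Set.subset_union_right h2)
  obtain ⟨r, h4, h5, h6⟩ := StRep.supp_of_conj T.faith (bst_E hg hg') bst_D (bst_E hg hg') h3
    (fun h4 => ht (StRep.eq_zero_of_lo T.faith (by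
      simpa using mul_mem (ρ.U_mono Set.inter_subset_right h4) (inv_mem e)))) hx
    (by rwa [← hc.eq, mul_inv_cancel_right])
  obtain rfl : r = g := h4.resolve_right h5
  obtain ⟨j, hj, e⟩ := hn
  refine e (h.fix M hx (h6.resolve_right fun h7 => h7.2.2 ?_) hd j hj)
  rw [C.vec_aut (C.W_le_Aut (C.WJ_le_W J hw))]
  exact RootSys.lin_le (by simpa only [C.A_simple] using hd) hw

theorem NP.conj {k : G} (h : Min T G1 J x) (hs : s ∈ ρ.UJ J) (hc : Commute s x)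
    (hk : k ∈ ρ.LJ J ⊓ G1) (ht : t ≠ 0) (e : (ρ.x β t)⁻¹ * (k * s * k⁻¹) ∈ ρ.U (C.nbl c)) :
    NP T G1 J β c :=
  ⟨_, _, t, h.conjL hk, StRep.PJ_conj_mem_UJ (ρ.LJ_le_PJ J hk.1) hs,
    by simpa using hc.map (MulAut.conj k), ht, e⟩

/-- Killing one coordinate. -/
theorem kill (hβ : C.Pos β) (hα : C.Pos α) (e : C.vec c = C.vec α + C.vec β)
    (hN : ∀ v, C.vec v ≠ C.vec α - C.vec β) (ht : t ≠ 0) (h : (ρ.x β t)⁻¹ * s ∈ ρ.U (C.nbl β))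
    {u : K} (h' : (ρ.x c u)⁻¹ * ((ρ.x β t)⁻¹ * s) ∈ ρ.U (C.nbl c)) :
    ∃ v, (ρ.x β t)⁻¹ * ((ρ.x α v)⁻¹ * s * ρ.x α v) ∈ ρ.U (C.nbl c) := by
  have h1 : (C.N β α : K) * (-t) ≠ 0 := mul_ne_zero
    (cast_ne_zero_of_natAbs_one (C.N_abs_one β α c e hN)) (neg_ne_zero.2 ht)
  have h2 := StRep.coord_comm hβ hα e h (u / (C.N β α * (-t)))
  rw [mul_div_cancel₀ _ h1] at h2
  refine ⟨u / (C.N β α * (-t)), ?_⟩
  have h3 := StRep.conj_lo (inv_mem (ρ.x_mem_Bo (C.mem_lo_of_add hβ hα e).1 u))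
    (mul_mem h' (inv_mem h2))
  simpa [mul_assoc] using h3

theorem lead (hρ : ρ.Faithful) (hc : C.Pos c') (hc' : ¬ C.InSub J c')
    (hD : ∀ r ∈ D C.toRootSys J c, r = c' ∨ r ∈ C.nbl c') (h1 : y ∈ ρ.UJ J) (h2 : y ∈ ρ.U (C.nbl c)) :
    ∃ u, (ρ.x c' u)⁻¹ * y ∈ ρ.U (C.nbl c') := by
  obtain ⟨_, h3, z, h4, rfl⟩ := ρ.exists_mul_of_mem_U (bst_E (ρ := ρ) hc hc').closed
    (bst_E (ρ := ρ) hc hc').isNil (ρ.U_mono (fun r hr => (hD r hr).imp id fun h => ⟨hr.1, h⟩)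
      (mem_D hρ h1 h2))
  obtain ⟨u, rfl⟩ := ρ.mem_X.1 (ρ.U_singleton c' ▸ h3)
  exact ⟨u, by simpa using ρ.U_mono Set.inter_subset_right h4⟩

theorem NP.step (h : NP T ⊤ J β c) (hβ : C.Pos β) (hβ' : ¬ C.InSub J β) (hα : C.Pos α)
    (hα' : C.InSub J α) (e : C.vec c' = C.vec α + C.vec β) (hN : ∀ v, C.vec v ≠ C.vec α - C.vec β)
    (hc : C.vec β ≤ C.vec c) (hD : ∀ r ∈ D C.toRootSys J c, r = c' ∨ r ∈ C.nbl c') :
    NP T ⊤ J β c' := by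
  obtain ⟨x, s, t, h, hs, h1, ht, h2⟩ := h
  obtain ⟨u, h3⟩ := lead T.faith (C.mem_lo_of_add hβ hα e).1
    (fun h => hβ' fun k hk => by simpa [e, hα' k hk] using h k hk) hD
    (mul_mem (inv_mem (ρ.x_mem_U (And.intro hβ hβ') t)) hs) h2
  obtain ⟨v, h4⟩ := kill hβ hα e hN ht (ρ.U_mono (C.lo_anti hc) h2) h3
  exact NP.conj h hs h1 (inv_mem ⟨StRep.x_mem_LJ hα' v, trivial⟩) ht (by rwa [inv_inv])

omit [Fact p.Prime] in
theorem NP.move (M : LT p T G1 ω) (h : NP T G1 J β c) (hβ : C.Pos β) (hβ' : ¬ C.InSub J β)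
    (hw : w ∈ T.S.Wf) (hw' : w ∈ C.WJ J) (e : w β = g)
    (hD : ∀ r ∈ D C.toRootSys J c, ¬ C.vec (w r) ≤ C.vec c') : NP T G1 J g c' := by
  obtain ⟨x, s, t, h, hs, h1, ht, h2⟩ := h
  obtain ⟨n, hn, h3⟩ := M.form.exists_n hw
  obtain ⟨z, h4⟩ := h3.acts.exists_conj_x β
  refine NP.conj h hs h1 ⟨h3.mem_LJ hw', hn⟩ (t := z * t) (mul_ne_zero z.ne_zero ht) ?_
  have := h3.acts.conj_mem_U (T := C.nbl c')
    (fun r hr => ⟨C.pos_WJ_of_not_inSub hw' hr.1.1 hr.1.2, hD r hr⟩)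
    (mem_D T.faith (mul_mem (inv_mem (ρ.x_mem_U (And.intro hβ hβ') t)) hs) h2)
  rw [← e, ← h4]
  simpa [mul_assoc] using this

/-- The Sylow subgroup of the centralizer of a conjugate of `a` has no `i`-th simple coordinate. -/
def Kl (T : Tw ρ) (G1 : Subgroup G) (a : G) (i : B) : Prop :=
  ∃ J x, Cj G1 a x ∧ Min T G1 J x ∧ ∀ s ∈ ρ.UJ J, Commute s x → s ∈ ρ.Ui i

theorem Kl.false (M : LT p T G1 ω) (h : FU T G1 a b) (ha : Kl T G1 a i) (hb : Kl T G1 b i) :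
    False := by
  obtain ⟨J, x, h1, h2, h3⟩ := ha
  obtain ⟨J', y, h4, h5, h6⟩ := hb
  obtain ⟨u, hu, h7⟩ := SM.exists_notMem M i
  obtain ⟨s, hs, t, ht, h8, h9, rfl⟩ := h J J' x y h1 h4 h2 h5 u hu
  exact h7 (mul_mem (h3 s hs.1 h8) (h6 t ht.1 h9))

theorem kl_mem (hx : Cj G1 a x) (h : Min T G1 J x) (hi : i ∈ J) : Kl T G1 a i :=
  ⟨J, x, hx, h, fun _ hs _ => SM.UJ_le_Ui hi hs⟩

theorem kl_nat (hx : Cj G1 a x) (h : Min T G1 J x) (hi : ¬ NP T G1 J (C.simple i) (C.simple i)) :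
    Kl T G1 a i := ⟨J, x, hx, h, fun s hs hc => by
  obtain ⟨z, hz, t, rfl⟩ := StRep.exists_Ui_mul_x i (ρ.UJ_le_Up J hs)
  by_cases ht : t = 0
  · simpa [ht] using hz
  refine (hi ⟨x, _, t, h, hs, hc, ht, ?_⟩).elim
  rw [← mul_assoc]
  exact StRep.conj_lo (ρ.x_mem_Bo (C.pos_simple i) t) (by rwa [C.lo_simple])⟩

theorem kl_tor (M : LT p T G1 ω) (hx : Cj G1 a y) (hy : y ∈ ρ.H ⊓ G1) (hw : w ∈ T.S.Wf)
    (h : ¬ Commute y (ρ.x (w (C.simple i)) 1)) : Kl T G1 a i := by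
  obtain ⟨z, h1, h2, h3⟩ := exists_move M hy (inv_mem hw)
  refine ⟨∅, z, hx.trans h2, min_empty h1, fun s hs hc => by_contra fun e => h ((h3 _).1 ?_)⟩
  simpa using SM.commute_of_notMem T.faith h1.1 (ρ.UJ_le_Up _ hs) e hc

omit [Fact p.Prime] in
theorem assoc (M : LT p T G1 ω) (hx : Cj G1 a x) (h : Min T G1 J x) (hw : w ∈ T.S.Wf) (f : B → B)
    (hf : ∀ j ∈ J, w (C.simple j) = C.simple (f j)) (hJ : T.S.Stab (f '' J)) :
    ∃ y, Cj G1 a y ∧ Min T G1 (f '' J) y := by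
  obtain ⟨n, hn, h1⟩ := M.form.exists_n hw
  exact ⟨_, hx.conj hn, h.conjN hn h1 hJ (fun j hj => ⟨_, ⟨j, hj, rfl⟩, hf j hj⟩)
    (Set.ncard_image_le (Set.toFinite J))⟩

theorem fu (M : LT p T G1 ω) (h : Fac p G1 a b) (ha : ¬ p ∣ orderOf a) (hb : ¬ p ∣ orderOf b) :
    FU T G1 a b := SM.fu_of M (fun _ _ h hp => h.syl M hp) h ha hb

/-! ### The untwisted groups -/

variable {hρ : ρ.Faithful} {hG : ρ.Gp = ⊤}

theorem wp_mem (l : List B) : C.wp l ∈ (trivTw hρ hG).S.Wf :=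
  Sym.mem_Wf.2 ⟨C.wp_mem_W l, by simp [Tw.S, trivTw]⟩

theorem kl_tor' (M : LT p (trivTw hρ hG) ⊤ ω) (hZ : Subgroup.center G = ⊥) (ha : a ≠ 1)
    (hx : Cj ⊤ a y) (hy : Min (trivTw hρ hG) ⊤ ∅ y)
    (h : ∀ j, ∃ l, C.A (C.simple j) (C.wp l (C.simple i)) = -1) : Kl (trivTw hρ hG) ⊤ a i := by
  by_contra e
  have h1 : ∀ l, Commute y (ρ.x (C.wp l (C.simple i)) 1) := fun l =>
    by_contra fun h1 => e (kl_tor M hx hy.mem_H (wp_mem l) h1)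
  refine hx.ne_one ha (eq_one_of_cen M hZ hy.mem_H.1 fun j => ?_)
  obtain ⟨l, hl⟩ := h j
  refine cen_add hρ hy.mem_H.1 ?_ (h1 (j :: l)) (cen_neg hρ hy.mem_H.1 (h1 l))
  rw [C.wp_cons, Equiv.Perm.mul_apply, C.vec_sref, hl, C.vec_neg]
  simp

omit [Fact p.Prime] in
theorem assoc' (M : LT p (trivTw hρ hG) ⊤ ω) (hx : Cj ⊤ a x) (h : Min (trivTw hρ hG) ⊤ J x)
    (l : List B) (f : B → B) (hf : ∀ j ∈ J, C.wp l (C.simple j) = C.simple (f j)) :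
    ∃ y, Cj ⊤ a y ∧ Min (trivTw hρ hG) ⊤ (f '' J) y :=
  assoc M hx h (wp_mem l) f hf fun _ => Iff.rfl

end SF

end CF.Ah
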