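import Cfsg.Agent.Ah.SSp
import Cfsg.Agent.Geom.Polar
import Cfsg.Agent.Geom.Hyp
import Cfsg.Agent.Geom.Simple
import Cfsg.Agent.Geom.StdQuad

/-! Semisimple classes of orthogonal groups in odd dimension. -/

set_option autoImplicit false
set_option linter.unusedSectionVars false

namespace CF.Ah

open CF.Loc CF.Geom Module Subgroup Cfsg QuadraticMap

variable {p : ℕ} [hp : Fact p.Prime]

namespace SO1

open CL

variable {F V : Type*} [Field F] [Finite F] [CharP F p] [AddCommGroup V] [Module F V]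
  [FiniteDimensional F V] {S T : Subgroup (V ≃ₗ[F] V)} {a b g : V ≃ₗ[F] V}
  {Q : QuadraticForm F V} {A W : Submodule F V}

/-- The elements that act trivially on `W^⊥ / W`. -/
def Ne {σ : F →+* F} (B : V →ₛₗ[σ] V →ₗ[F] F) (W : Submodule F V) : Subgroup (V ≃ₗ[F] V) where
  carrier := {g | g ∈ subStab W ∧ ∀ z ∈ perp B W, g z - z ∈ W}
  one_mem' := ⟨one_mem _, by simp⟩
  mul_mem' := fun {g k} h h' => ⟨mul_mem h.1 h'.1, fun z hz => by
    simpa using add_mem (subStab_apply h.1 (h'.2 z hz)) (h.2 z hz)⟩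
  inv_mem' := fun {g} h => ⟨inv_mem h.1, fun z hz => by
    simpa using neg_mem (subStab_apply (inv_mem h.1) (h.2 z hz))⟩

/-- `W` is totally singular and `S` acts trivially on `W^⊥ / W`. -/
structure Ty (Q : QuadraticForm F V) (S : Subgroup (V ≃ₗ[F] V)) (W : Submodule F V) : Prop where
  ts : ∀ w ∈ W, Q w = 0
  tr : ∀ s ∈ S, ∀ z ∈ perp (polarBilin Q) W, s z - z ∈ W

theorem le_perp (h : ∀ w ∈ W, Q w = 0) : W ≤ perp (polarBilin Q) W := fun y hy => mem_perp.2 fun x hx => by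
  simp [polar, h x hx, h y hy, h _ (add_mem hx hy)]

theorem not_EE (hQ : (polarBilin Q).Nondegenerate) (htop : reflSub Q = ⊤) (h4 : finrank F V ≠ 4)
    (h : Fac p (OmG Q) a b) (hS : IsSyl p S (OmG Q ⊓ centralizer {a}))
    (hT : IsSyl p T (OmG Q ⊓ centralizer {b})) (h1 : Ty Q S W) (h2 : Ty Q T A)
    (d1 : finrank F A ≤ finrank F W) (d2 : 2 * finrank F W + 3 ≤ finrank F V) : False := by
  have := fin (OmG Q)
  have hW := isWittPair_quad Q hQ
  have w1 := le_perp h1.ts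
  have r1 := hW.finrank_perp W
  obtain ⟨C, hC⟩ := W.exists_isCompl
  have r2 := Submodule.finrank_add_eq_of_isCompl hC
  have r3 := Submodule.finrank_sup_add_finrank_inf_eq C (perp (polarBilin Q) W)
  have r4 := Submodule.finrank_le (C ⊔ perp (polarBilin Q) W)
  obtain ⟨e, e1, e0, e2⟩ := exists_singular_mem Q (U := C ⊓ perp (polarBilin Q) W) (by omega)
  have e3 : e ∉ W := fun k => e0 ((Submodule.disjoint_def.1 hC.disjoint) e k e1.1)
  obtain ⟨f, f1, f2, f3⟩ := hW.exists_partner e3 (by simpa using e2) (mem_perp.1 e1.2)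
  replace f1 : Q f = 0 := by simpa using f1
  have e4 : ∀ x ∈ W, polar Q e x = 0 := fun x hx => hW.refl (mem_perp.1 e1.2 x hx)
  have f4 : ∀ x ∈ W, polar Q f x = 0 := fun x hx => hW.refl (f3 x hx)
  obtain ⟨D, D1, D2⟩ := exists_le_finrank_eq W d1
  obtain ⟨g, g1, g2⟩ := hW.exists_isom_totally_singular (by simpa using h2.ts)
    (fun u hu => by simpa using h1.ts u (D1 hu)) (le_perp h2.ts) (le_perp fun u hu => h1.ts u (D1 hu)) D2.symm
  obtain ⟨j, j1, j2⟩ : ∃ j ∈ OmG Q, ∀ x ∈ A, j x ∈ W := by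
    have m : ∀ x ∈ A, g x ∈ W := fun x hx => D1 (g2.le ⟨x, hx, rfl⟩)
    obtain ⟨c, -, k | k⟩ := exists_oTor_adjust hQ htop e2 f1 f2 (z := e - (1 : F) • f)
      (by rw [quad_hyp_sub e2 f1 f2]; simp) ⟨g, g1⟩
    · exact ⟨_, mem_OmG.2 k, fun x hx => by
        simpa [oTor_of_perp (e4 _ (m x hx)) (f4 _ (m x hx))] using m x hx⟩
    · exact ⟨_, mem_OmG.2 k, fun x hx => by
        simpa [oRefl_apply, e4 _ (m x hx), f4 _ (m x hx),
          oTor_of_perp (e4 _ (m x hx)) (f4 _ (m x hx))] using m x hx⟩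
  obtain ⟨w, w2, w3⟩ := SetLike.not_le_iff_exists.1 fun l : perp (polarBilin Q) (W ⊔ F ∙ e) ≤ W ⊔ F ∙ e => by
    have := Submodule.finrank_mono l
    have := hW.finrank_perp (W ⊔ F ∙ e)
    have := Submodule.finrank_add_le_finrank_add_finrank W (F ∙ e)
    have := finrank_span_singleton (K := F) e0
    omega
  rw [perp_sup] at w2
  have w4 : polar Q e w = 0 := mem_perp_singleton.1 w2.2
  have t1 := mem_OmG.2 (eichlerSub_le_commutator hQ (.inr h4) (eichler_mem e2 w4))
  have t2 : (eichler e2 w4).1 ∈ subStab W := mem_subStab_iff_le.2 fun x hx => by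
    rwa [eichler_apply_of_perp _ _ (e4 x hx), show polar Q w x = 0 from hW.refl (mem_perp.1 w2.1 x hx),
      zero_smul, sub_zero]
  have t3 : ∀ n : ℕ, (eichler e2 w4).1 ^ n = (eichler e2 (w := (n : F) • w) (by simp [w4])).1 := fun n => by
    induction n with
    | zero => simp [eichler_zero]
    | succ n ih => rw [pow_succ, ih, ← coe_mul, ← eichler_add]; simp [add_smul]
  have mk : ∀ s, (∀ z ∈ perp (polarBilin Q) W, s z - z ∈ W) → s ∈ Ne (polarBilin Q) W := fun s k =>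
    ⟨mem_subStab_iff_le.2 fun w hw => by simpa using add_mem (k w (w1 hw)) hw, k⟩
  have := mem_of_fac (N := OmG Q ⊓ Ne (polarBilin Q) W) h (.refl _ _) (.of j1 b) hS
    (syl_cj hT (le_normalizer j1)) inf_le_left (fun s hs => ⟨(hS.le hs).1, mk s (h1.tr s hs)⟩)
    (fun t ht => ⟨cj_le_of_mem j1 (hT.le.trans inf_le_left) ht, mk t fun z hz => by
      obtain ⟨t, ht, rfl⟩ := ht
      obtain ⟨z, rfl⟩ := j.surjective z
      simpa using j2 _ (h2.tr t ht z (mem_perp.2 fun y hy => by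
        rw [← (OmG_le j1).1]; exact mem_perp.1 hz _ (j2 y hy)))⟩) t1
    (fun n hn => ⟨(OmG Q).mul_mem ((OmG Q).mul_mem t1 hn.1) ((OmG Q).inv_mem t1), mk _ fun z hz => by
      simpa using subStab_apply t2 (hn.2.2 _ (perp_inv (OmG_le (inv_mem t1)).1
        (fun w hw => subStab_apply (inv_mem t2) hw) z hz))⟩)
    (by rw [t3]; simp [eichler_zero])
  have k := this.2.2 f (mem_perp.2 f3)
  rw [eichler_apply, show polar Q e f = 1 from f2] at k
  exact w3 (Submodule.mem_sup.2 ⟨_, k, (polar Q w f + Q w) • e, Submodule.smul_mem _ _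
    (Submodule.mem_span_singleton_self e), by module⟩)

theorem exists_ty (hQ : (polarBilin Q).Nondegenerate) (h2 : (2 : F) ≠ 0) (ho : Odd (finrank F V))
    (ha : ¬ p ∣ orderOf a) (ma : a ∈ OmG Q) (na : ∀ c : F, ∃ v, a v ≠ c • v)
    (hS : IsSyl p S (OmG Q ⊓ centralizer {a})) : ∃ W, Ty Q S W ∧ 2 * finrank F W + 3 ≤ finrank F V := by
  have hW := isWittPair_quad Q hQ
  have iso := (OmG_le ma).1
  have isoS : ∀ s ∈ S, s ∈ OG Q := fun s hs => OmG_le (hS.le hs).1
  have cm : ∀ s ∈ S, ∀ v, s (a v) = a (s v) := fun s hs v => DFunLike.congr_fun (comm hS hs) v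
  obtain ⟨W, w1, w2, w3, w4⟩ := exists_W hW hS.isPGroup (fun _ => comm hS) (fun s hs => (isoS s hs).1) iso
  have ti : ∀ x ∈ W, ∀ y ∈ perp (polarBilin Q) W, polar Q x y = 0 := fun x hx y hy => mem_perp.1 hy x hx
  have ts : ∀ w ∈ W, Q w = 0 := fun w hw => by simpa [polar_self', h2] using ti w hw w (w1 hw)
  by_cases k : 2 * finrank F W + 3 ≤ finrank F V
  · exact ⟨W, ⟨ts, w4⟩, k⟩
  have r1 := hW.finrank_perp W
  have r2 := hW.two_mul_finrank_le w1
  obtain ⟨n, hn⟩ := ho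
  have sp : ∀ {A D : Submodule F V} {z : V}, A ≤ D → finrank F D ≤ finrank F A + 1 → z ∈ D → z ∉ A →
      ∀ y ∈ D, ∃ w ∈ A, ∃ c : F, y = w + c • z := fun {A D z} l d z1 z2 y hy => by
    obtain ⟨w, hw, _, hk, rfl⟩ := Submodule.mem_sup.1 ((Submodule.eq_of_le_of_finrank_le
      (sup_le l ((Submodule.span_singleton_le_iff_mem _ _).2 z1)) (d.trans
        (Submodule.finrank_lt_finrank_of_lt (lt_of_le_of_ne le_sup_left fun e =>
          z2 (e.ge (Submodule.mem_sup_right (Submodule.mem_span_singleton_self z))))))).ge hy)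
    obtain ⟨c, rfl⟩ := Submodule.mem_span_singleton.1 hk
    exact ⟨w, hw, c, rfl⟩
  obtain ⟨z, z1, z2⟩ := SetLike.not_le_iff_exists.1 fun l : perp (polarBilin Q) W ≤ W => by
    have := Submodule.finrank_mono l
    omega
  obtain ⟨w, hw, c, e⟩ := sp w1 (by omega) z1 z2 _ (perp_inv iso w2 z z1)
  obtain ⟨u, hu, v1⟩ := lift_eig ha w2 (c := c) (z := z) (by simpa [e] using hw)
  have v2 : z - u ∈ perp (polarBilin Q) W := sub_mem z1 (w1 hu)
  have v3 : z - u ∉ W := fun n => z2 (by simpa using add_mem n hu)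
  generalize z - u = v at v1 v2 v3
  have sv := sp w1 (by omega) v2 v3
  have v4 : polar Q v v ≠ 0 := fun n => v3 (hW.perp_perp W ▸ mem_perp.2 fun y hy => by
    obtain ⟨w, hw, c, rfl⟩ := sv y hy
    simp [ti w hw v v2, n])
  have c2 : c * c = 1 := mul_right_cancel₀ v4 (by
    have := iso v v
    simp only [v1, polarBilin_apply_apply, polar_smul_left, polar_smul_right, smul_eq_mul] at this
    linear_combination this)
  let A := W ⊓ LinearMap.ker (a.toLinearMap - c • LinearMap.id)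
  have mA : ∀ {x}, x ∈ A ↔ x ∈ W ∧ a x = c • x := by simp [A, sub_eq_zero]
  obtain ⟨y, y1, y2, y3⟩ := fix_mod (A := perp (polarBilin Q) W) (D := perp (polarBilin Q) A) hS.isPGroup
    (fun s hs => perp_inv (isoS s hs).1 (w3 s hs)) (fun s hs => perp_inv (isoS s hs).1 fun x hx =>
      mA.2 ⟨w3 s hs x (mA.1 hx).1, by rw [← cm s hs, (mA.1 hx).2, map_smul]⟩) fun l => by
      have l' := perp_anti (B := polarBilin Q) l
      rw [hW.perp_perp, hW.perp_perp] at l'
      obtain ⟨z, hz⟩ := na c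
      refine hz (eig_of_mod (A := perp (polarBilin Q) W) ha (fun y hy => ?_) (mem_perp.2 fun w hw => ?_))
      · obtain ⟨w, hw, d, rfl⟩ := sv y hy
        rw [map_add, map_smul, v1, (mA.1 (l' hw)).2, smul_add, smul_comm]
      · have := iso w z
        rw [(mA.1 (l' hw)).2, map_smul, LinearMap.smul_apply, smul_eq_mul] at this
        rw [map_sub, map_smul, smul_eq_mul]
        linear_combination c * this - polarBilin Q w (a z) * c2
  have mD : ∀ {x}, x ∈ W ⊓ perp (polarBilin Q) (F ∙ y) ↔ x ∈ W ∧ polar Q y x = 0 :=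
    and_congr_right fun _ => mem_perp_singleton
  have d1 : finrank F ↥(W ⊓ perp (polarBilin Q) (F ∙ y)) < finrank F W :=
    Submodule.finrank_lt_finrank_of_lt (lt_of_le_of_ne inf_le_left fun e => y2 (mem_perp.2 fun x hx =>
      hW.refl (mD.1 (e.ge hx)).2))
  refine ⟨W ⊓ perp (polarBilin Q) (F ∙ y), ⟨fun w hw => ts w hw.1, fun s hs z hz => ?_⟩, by omega⟩
  have q1 : s v - v ∈ A := mA.2 ⟨w4 s hs v v2, by rw [map_sub, ← cm s hs, v1, map_smul, smul_sub]⟩
  have q2 : polar Q y (s v - v) = 0 := hW.refl (mem_perp.1 y1 _ q1)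
  have q3 : ∀ x, polar Q y (s x - x) = -polar Q (s y - y) (s x) := fun x => by
    have : polar Q (s y) (s x) = polar Q y x := (isoS s hs).1 y x
    simp [this]
  obtain ⟨w, hw, d, e⟩ := sv _ (y3 s hs)
  have d0 : d = 0 := by
    have := q3 v
    have k := ti _ q1.1 v v2
    rw [polar_sub_left, sub_eq_zero, polar_comm] at k
    rw [q2, e, polar_add_left, polar_smul_left, ti w hw _ (perp_inv (isoS s hs).1 (w3 s hs) v v2), k] at this
    exact (smul_eq_zero.1 ((zero_add _).symm.trans (neg_eq_zero.1 this.symm))).resolve_right v4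
  rw [d0, zero_smul, add_zero] at e
  rw [hW.perp_inf, hW.perp_perp] at hz
  obtain ⟨z, hz', _, hk, rfl⟩ := Submodule.mem_sup.1 hz
  obtain ⟨l, rfl⟩ := Submodule.mem_span_singleton.1 hk
  rw [map_add, map_smul, add_sub_add_comm, ← smul_sub]
  refine add_mem (mD.2 ⟨w4 s hs z hz', ?_⟩) (Submodule.smul_mem _ _ (mD.2 ⟨e ▸ hw, ?_⟩))
  · rw [q3, e, ti w hw _ (perp_inv (isoS s hs).1 (w3 s hs) z hz'), neg_zero]
  · have := (isoS s hs).2 y
    rw [eq_add_of_sub_eq' e] at this
    rw [e, polar, this, ts w hw]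
    ring

end SO1

theorem s_B {X : Type*} [Group X] (h : IsPOmegaOddChar p X) : NoS p X := by
  classical
  obtain ⟨F, _, _, _, m, hm, ho, ⟨e⟩⟩ := h
  have h2 := two_ne_zero_of_odd_card ho
  have hQ := qOdd_nondegenerate h2 m
  have d : finrank F (Unit ⊕ (Fin m ⊕ Fin m) → F) = 2 * m + 1 := by simp; omega
  let φ : Omega F (qOdd m F) ≃* OmG (qOdd m F) :=
    (omegaEquiv _).trans (equivMapOfInjective _ _ (subtype_injective _))
  have := CL.fin (OmG (qOdd m F))
  have := Finite.of_equiv _ φ.symm.toEquiv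
  refine NoS.of_equiv (noS_quot (Y := Omega F (qOdd m F)) (fun k => ?_) fun a b na nb ha hb h => ?_) e
  · rw [card_center_omega hQ (by omega) (.inr (by omega)) (omegaToOG_injective _) (omegaToOG_range _)] at k
    refine h2 ?_
    split_ifs at k
    · exact (CharP.cast_eq_zero_iff F p 2).2 k
    · exact absurd (Nat.dvd_one.1 k) hp.out.one_lt.ne'
  · obtain ⟨S, hS⟩ := exists_isSyl p (OmG (qOdd m F) ⊓ centralizer {(φ a).1})
    obtain ⟨T, hT⟩ := exists_isSyl p (OmG (qOdd m F) ⊓ centralizer {(φ b).1})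
    obtain ⟨W, w1, w2⟩ := SO1.exists_ty hQ h2 ⟨m, d⟩ (by simpa using ha) (φ a).2 (CL.not_scalar φ na) hS
    obtain ⟨A, a1, a2⟩ := SO1.exists_ty hQ h2 ⟨m, d⟩ (by simpa using hb) (φ b).2 (CL.not_scalar φ nb) hT
    have t := reflSub_eq_top_of_two_ne_zero hQ h2
    rcases le_total (finrank F A) (finrank F W) with l | l
    · exact SO1.not_EE hQ t (by omega) (h.map φ) hS hT w1 a1 l w2
    · exact SO1.not_EE hQ t (by omega) (h.map φ).symm hT hS a1 w1 l a2

end CF.Ah
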