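import Cfsg.Agent.Ah.OQ

/-! No factorization in even-dimensional orthogonal groups. -/

set_option autoImplicit false
set_option linter.unusedSectionVars false

namespace CF.Ah

open CF.Loc CF.Geom CF.Ah.CL CF.Ah.OQ Module Subgroup QuadraticMap Cfsg

variable {p : ℕ} [hp : Fact p.Prime]

namespace SO2

variable {F V : Type*} [Field F] [Finite F] [CharP F p] [AddCommGroup V] [Module F V]
  [FiniteDimensional F V] {Q : QuadraticForm F V} {S T : Subgroup (V ≃ₗ[F] V)} {a b g x : V ≃ₗ[F] V}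
  {A W Z Z' : Submodule F V} {l : F} {n : ℕ}

theorem dec {v u : V} (hu : u ∈ W ⊔ F ∙ v) : ∃ w ∈ W, ∃ l : F, u = w + l • v := by
  obtain ⟨w, hw, _, k, rfl⟩ := Submodule.mem_sup.1 hu
  obtain ⟨l, rfl⟩ := Submodule.mem_span_singleton.1 k
  exact ⟨w, hw, l, rfl⟩

theorem eig_pol (hx : x ∈ OG Q) {u : V} (h : x u = l • u) (v : V) : l * polar Q u (x v) = polar Q u v := by
  rw [← pol hx u v, h, polar_smul_left, smul_eq_mul]

theorem rr_eig (r : RR Q x S l) (hW : TS Q W) (h : Iv x W) : ∀ w ∈ W, x w = l • w := fun w hw =>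
  sub_eq_zero.1 (r.an _ ⟨w, rfl⟩ (hW _ (sub_mem (h w hw) (W.smul_mem l hw))))

theorem rr_pp (c : Cx p Q x S) (r : RR Q x S l) (h : ∀ w ∈ W, x w = l • w) : rg x l ≤ pp Q W := by
  rintro _ ⟨v, rfl⟩
  refine mem_pp.2 fun u hu => ?_
  change polar Q u (x v - l • v) = 0
  rw [polar_sub_right, polar_smul_right, smul_eq_mul]
  linear_combination l * eig_pol c.ox (h u hu) v - polar Q u (x v) * r.sq

theorem rg_ne (c : Cx p Q x S) : rg x l ≠ ⊥ := fun e => by
  obtain ⟨v, hv⟩ := c.ns l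
  exact hv (sub_eq_zero.1 (e.le ⟨v, rfl⟩))

theorem exists_max (hQ : (polarBilin Q).Nondegenerate) (hP : IsPlus Q) (hW : TS Q W)
    (d : 2 * (finrank F W + 1) = finrank F V) : ∃ M, MaxTS Q M ∧ W ≤ M := by
  obtain ⟨U, u1, u2⟩ := hP
  have := MaxTS.card_containing hQ ⟨u1, u2⟩ hW (by omega)
  obtain ⟨M, h⟩ := (Nat.card_ne_zero.1 (by omega : Nat.card {M // MaxTS Q M ∧ W ≤ M} ≠ 0)).1
  exact ⟨M, h⟩

theorem ne_pred (c : Cx p Q x S) (hP : IsPlus Q) (h : Mx Q x S W) :
    2 * (finrank F W + 1) ≠ finrank F V := fun d => by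
  obtain ⟨M, m1, m2⟩ := exists_max c.nd hP h.ts d
  have m3 := m1.dim
  have m4 : M ≤ pp Q W := (le_perp_of_totally_singular m1.sing).trans (perp_anti m2)
  obtain ⟨vs, h1, rfl, h2⟩ := exists_even c.nd c.dim c.mem
  have h3 := (m1.even_length_iff c.nd vs h1).1 h2
  have l1 : W ≤ M ⊓ M.map ((vs.map (oRefl Q)).prod.1 : V →ₗ[F] V) := le_inf m2
    ((map_eq_of_le _ h.ix le_rfl).ge.trans (Submodule.map_mono m2))
  have l2 := Submodule.finrank_mono l1
  have l3 := Submodule.finrank_mono (inf_le_left : M ⊓ M.map ((vs.map (oRefl Q)).prod.1 : V →ₗ[F] V) ≤ M)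
  have e := Submodule.eq_of_le_of_finrank_eq
    (inf_le_left : M ⊓ M.map ((vs.map (oRefl Q)).prod.1 : V →ₗ[F] V) ≤ M) (by
      rw [Nat.even_iff] at h3
      omega)
  have e' := Submodule.eq_of_le_of_finrank_eq (inf_eq_left.1 e) (finrank_map_equiv _ M).symm
  have := Submodule.finrank_mono (h.mx M m1.sing (fun v hv => e'.ge ⟨v, hv, rfl⟩)
    ((h.tv c).iv m2 m4) m2)
  omega

theorem typeE (c : Cx p Q x S) (hP : IsPlus Q) (d : finrank F V = 2 * n + 4) :
    ∃ A M, A ≤ M ∧ TS Q M ∧ finrank F A = n ∧ finrank F M = n + 2 ∧ Tv S A M := by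
  obtain ⟨W, h⟩ := exists_mx Q x S
  have d0 := c.dim
  have d1 := fr_pp c.nd W
  have d2 := Submodule.finrank_mono h.ts.le
  have d3 := ne_pred c hP h
  by_cases k : finrank F W ≤ n
  · obtain ⟨A, a1, a2, a3⟩ := h.ll c k (by omega)
    obtain ⟨B, b1, b2, b3⟩ := ext c.nd a1 (j := n + 1) (by omega) (by omega)
    obtain ⟨M, m1, m2⟩ := exists_max c.nd hP b2 (by omega)
    have := m1.dim
    exact ⟨A, M, b1.trans m2, m1.sing, a2, by omega,
      a3.mono le_rfl ((le_perp_of_totally_singular m1.sing).trans (perp_anti (b1.trans m2)))⟩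
  have e : W = pp Q W := Submodule.eq_of_le_of_finrank_eq h.ts.le (by omega)
  have kw := cm_le_self h.is
  by_cases k' : finrank F (cm S W) ≤ n
  · obtain ⟨A, a1, a2, a3⟩ := mid kw k' (by omega)
    exact ⟨A, W, a2, h.ts, a3, by omega, cm_le.1 a1⟩
  have ne : ∀ Z : Submodule F V, (∀ s ∈ S, Iv s Z) → 0 < finrank F Z → ¬ Z ≤ cm S Z := fun Z h1 h2 h3 => by
    rw [cm_lt c.nd c.pg c.o h1 h3, finrank_bot] at h2
    omega
  have n1 := ne W h.is (by omega)
  have d4 := Submodule.finrank_lt_finrank_of_lt (lt_of_le_not_ge kw n1)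
  obtain ⟨v, v1, v2⟩ := SetLike.not_le_iff_exists.1 n1
  have e2 := eq_of_le_of_finrank_le_succ kw (by omega) v1 v2
  obtain ⟨w, hw, l, hl⟩ := dec (e2.ge (h.ix v v1))
  have g := c.gen h.ix h.is (l := l) fun u hu => by
    obtain ⟨w', hw', l', rfl⟩ := dec (e2.ge hu)
    convert add_mem (sub_mem (c.iv h.ix _ hw') (Submodule.smul_mem _ l hw')) (Submodule.smul_mem _ l' hw)
      using 1
    rw [map_add, map_smul, hl]
    module
  have l2 : l ^ 2 ≠ 1 := fun l2 => c.sc h.ts l2 (e ▸ g)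
  have l0 : l ≠ 0 := fun l0 => v2 (by
    rw [show v = 0 from x.map_eq_zero_iff.1 (by rw [g v v1, l0, zero_smul])]
    exact zero_mem _)
  obtain ⟨y, -, y2⟩ := SetLike.not_le_iff_exists.1 fun k : ⊤ ≤ W => by
    have := Submodule.finrank_mono k
    rw [finrank_top] at this
    omega
  obtain ⟨y', y3, y4⟩ := lift_eig c.ord h.ix (c := l⁻¹) (z := y) (by
    rw [e]
    refine mem_pp.2 fun u hu => ?_
    rw [polar_sub_right, polar_smul_right, smul_eq_mul, ← eig_pol c.ox (g u hu) y, inv_mul_cancel_left₀ l0,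
      sub_self])
  obtain ⟨f, f1, f0, f2⟩ := exists_fix (D := LinearMap.ker (x.toLinearMap - l⁻¹ • LinearMap.id)) c.pg
    (fun s hs u hu => by
      have hu : x u = l⁻¹ • u := sub_eq_zero.1 hu
      change x (s u) - l⁻¹ • s u = 0
      rw [← c.cm s hs, hu, map_smul, sub_self])
    fun k => y2 (by rwa [sub_eq_zero.1 (k.le (x := y - y') (sub_eq_zero.2 y4))])
  have f1 : x f = l⁻¹ • f := sub_eq_zero.1 f1
  have f3 : Q f = 0 := by
    have := qm c.ox f
    rw [f1, quad_smul, mul_left_eq_self₀, inv_pow, inv_eq_one] at this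
    exact this.resolve_left l2
  have f4 : f ∉ cm S W := fun k => l2 (by
    have := smul_left_injective F f0 ((g f (kw k)).symm.trans f1)
    rw [pow_two]
    nth_rw 1 [this]
    exact inv_mul_cancel₀ l0)
  have ki := (cm_le.1 le_rfl : Tv S (cm S W) W).iv le_rfl kw
  obtain ⟨A, a1, a2, a3⟩ := exists_hyp (cm_le_self ki) (ne _ ki (by omega)) (j := n) (by omega)
  refine ⟨A, cm S W ⊔ F ∙ f, a2.trans le_sup_left, TS.sup (fun u hu => h.ts u (kw hu)) (mem_pp.2 fun u hu => ?_)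
    f3, a3, by rw [Submodule.finrank_sup_span_singleton f4]; omega, fun s hs u hu => ?_⟩
  · rw [polar_comm]
    exact orth (W := ⊥) (Z := W) c.o (by simp [perp_bot]) (by simp [perp_bot]) (by simpa [sub_eq_zero] using f2)
      (Submodule.mem_sup_left hu)
  · obtain ⟨w', hw', l', rfl⟩ := dec hu
    simpa [f2 s hs] using a1 (mem_cm hs hw')

theorem plus_rr (h : Fz p Q a b S T) (hP : IsPlus Q) (d : finrank F V = 2 * n + 4) (r : RR Q b T l) :
    False := by
  obtain ⟨A, M, a1, a2, a3, a4, a5⟩ := typeE h.ca hP d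
  obtain ⟨W, m⟩ := exists_mx Q b T
  have d1 := fr_pp h.ca.nd W
  have d2 := Submodule.finrank_mono m.ts.le
  have d3 := ne_pred h.cb hP m
  have k : finrank F W ≤ n := by
    by_contra k
    have e : W = pp Q W := Submodule.eq_of_le_of_finrank_eq m.ts.le (by omega)
    exact rg_ne h.cb (eq_bot_iff.2 fun z hz =>
      r.an z hz (m.ts z (e.ge (rr_pp h.cb r (rr_eig r m.ts m.ix) hz))))
  obtain ⟨B, b1, b2, b3⟩ := m.ll h.cb k (by omega)
  obtain ⟨b, T, k1, k2⟩ := h.move (fun v hv => a2 v (a1 hv)) b1 (by omega) (by omega) b3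
  exact k1.noT a1 a2 (by omega) a5 (k2.mono le_rfl (a2.le.trans (perp_anti a1)))

theorem aniso_nd (d : finrank F Z = 2) (h : ∀ w ∈ Z, Q w = 0 → w = 0) :
    Disjoint Z (perp (polarBilin Q) Z) := Submodule.disjoint_def.2 fun z h1 h2 => by
  by_contra z0
  have q : Q z ≠ 0 := mt (h z h1) z0
  have t0 : (2 : F) = 0 := by simpa [polar_self', q] using mem_pp.1 h2 z h1
  obtain ⟨y, y1, y2⟩ := SetLike.not_le_iff_exists.1 fun k : Z ≤ F ∙ z => by
    have := Submodule.finrank_mono k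
    rw [finrank_span_singleton z0] at this
    omega
  obtain ⟨l, hl⟩ := isSquare_of_two_eq_zero t0 (Q y / Q z)
  refine y2 (Submodule.mem_span_singleton.2 ⟨l, (sub_eq_zero.1 (h _ (sub_mem y1 (Z.smul_mem l h1)) ?_)).symm⟩)
  rw [quad_sub, quad_smul, polar_smul_right, mem_pp.1 h2 y y1, pow_two, ← hl, div_mul_cancel₀ _ q]
  simp only [smul_zero]
  linear_combination Q y * t0

/-- Two orthogonal anisotropic planes span a space of plus type. -/
theorem two_aniso (hW : TS Q W) (d : finrank F Z = 2) (d' : finrank F Z' = 2) (h : ∀ w ∈ Z, Q w = 0 → w = 0)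
    (h' : ∀ w ∈ Z', Q w = 0 → w = 0) (o1 : W ≤ pp Q Z) (o2 : Z' ≤ pp Q Z) (o3 : Z' ≤ pp Q W) :
    ∃ A, TS Q A ∧ finrank F A = finrank F W + 2 := by
  have h'' : ∀ w ∈ Z', (-Q) w = 0 → w = 0 := fun w hw e => h' w hw (neg_eq_zero.1 e)
  have n1 := aniso_nd d h
  obtain ⟨ζ, h0, k⟩ := exists_aniso_pair n1 d h
  obtain ⟨-, -, k'⟩ := exists_aniso_pair (aniso_nd d' h'') d' h''
  obtain ⟨x, hx, y, hy, li, x1, x2, x3⟩ := k ζ h0
  obtain ⟨x', hx', y', hy', -, x1', x2', x3'⟩ := k' ζ h0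
  have x1' : Q x' = -1 := neg_eq_iff_eq_neg.1 x1'
  have x3' : Q y' = -ζ := neg_eq_iff_eq_neg.1 x3'
  have x2' : polar Q x' y' = -1 := neg_eq_iff_eq_neg.1 ((polar_neg Q x' y').symm.trans x2')
  have o4 : Z ≤ pp Q W := fun z hz => mem_pp.2 fun u hu => by rw [polar_comm]; exact mem_pp.1 (o1 hu) z hz
  have p1 := fun u hu v hv => mem_pp.1 (o2 (x := v) hv) u hu
  have t1 := hW.sup (add_mem (o4 hx) (o3 hx')) (by rw [quad_add, x1, x1', p1 x hx x' hx']; simp)
  have n2 : x + x' ∉ W := fun e => by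
    simpa [polar_comm Q y x, x2, p1 y hy x' hx'] using mem_pp.1 (o1 e) y hy
  have n3 : y + y' ∉ W ⊔ F ∙ (x + x') := fun e => by
    obtain ⟨w, hw, l, hl⟩ := dec e
    have e : y - l • x = w + l • x' - y' := by linear_combination (norm := module) hl
    have := Submodule.disjoint_def.1 n1 _ (sub_mem hy (Z.smul_mem l hx))
      (e ▸ sub_mem (add_mem (o1 hw) (Submodule.smul_mem _ l (o2 hx'))) (o2 hy'))
    exact one_ne_zero (LinearIndependent.pair_iff.1 li (-l) 1 (by linear_combination (norm := module) this)).2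
  refine ⟨_, t1.sup (v := y + y') ?_ (by rw [quad_add, x3, x3', p1 y hy y' hy']; simp), by
    rw [Submodule.finrank_sup_span_singleton n3, Submodule.finrank_sup_span_singleton n2]⟩
  rw [pp, perp_sup]
  exact ⟨add_mem (o4 hy) (o3 hy'), mem_perp_singleton.2 (by
    simp [x2, x2', p1 x hx y' hy', polar_comm Q x' y, p1 y hy x' hx'])⟩

theorem rr_ker (c : Cx p Q x S) (r : RR Q x S l) {v : V} (hv : v ∈ pp Q (rg x l)) : x v = l • v :=
  sub_eq_zero.1 (c.nd.2 _ fun u => by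
    obtain ⟨u, rfl⟩ := x.surjective u
    have := mem_pp.1 hv _ (mem_rg.2 ⟨u, rfl⟩)
    rw [polar_sub_left, polar_smul_left, smul_eq_mul] at this
    rw [polarBilin_apply_apply, polar_sub_right, polar_smul_right, smul_eq_mul, pol c.ox]
    linear_combination (-l) * this - polar Q u v * r.sq)

theorem rr_dim (c : Cx p Q x S) (r : RR Q x S l) (d : Even (finrank F V)) : finrank F (rg x l) = 2 := by
  have d1 : finrank F (rg x l) ≤ 2 := by
    by_contra k
    obtain ⟨v, h1, h2, h3⟩ := exists_singular_mem Q (U := rg x l) (by omega)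
    exact h2 (r.an v h1 h3)
  obtain ⟨z, hz, z0⟩ := (rg x l).ne_bot_iff.1 (rg_ne c)
  by_contra d2
  have e : (F ∙ z) = rg x l := Submodule.eq_of_le_of_finrank_le
    ((Submodule.span_singleton_le_iff_mem _ _).2 hz) (by rw [finrank_span_singleton z0]; omega)
  have q : Q z ≠ 0 := mt (r.an z hz) z0
  obtain ⟨m, hm⟩ := Submodule.mem_span_singleton.1 (e.ge (x := x z) (by
    obtain ⟨v, rfl⟩ := mem_rg.1 hz
    exact mem_rg.2 ⟨x v, by simp⟩))
  have m2 := qm c.ox z
  rw [← hm, quad_smul, mul_left_eq_self₀] at m2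
  have ml : m ≠ l := fun k => z0 (c.rg_eig hz (k ▸ hm.symm))
  have ml' : m = -l := eq_neg_of_add_eq_zero_left ((mul_eq_zero.1 (by
    linear_combination m2.resolve_right q - r.sq : (m - l) * (m + l) = 0)).resolve_left (sub_ne_zero.2 ml))
  have t0 : (2 : F) ≠ 0 := fun t0 => ml (by linear_combination ml' - l * t0)
  have ex : x.toLinearMap = l • (oRefl Q z).1.toLinearMap := LinearMap.ext fun v => by
    have := rr_ker c r (v := v - ((2 * Q z)⁻¹ * polar Q z v) • z) (by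
      rw [← e]
      refine mem_perp_singleton.2 ?_
      rw [polarBilin_apply_apply, polar_sub_right, polar_smul_right, polar_self', smul_eq_mul]
      field_simp
      ring)
    rw [map_sub, map_smul, ← hm, ml', sub_eq_iff_eq_add] at this
    change x v = l • (oRefl Q z).1 v
    rw [this, oRefl_apply]
    match_scalars
    · rfl
    · field_simp
      ring
  have d3 : LinearMap.det x.toLinearMap = 1 := mem_SOG.1 (commutator_le_SOG ((mem_Om c.ox).1 c.mem))
  obtain ⟨k, hk⟩ := d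
  rw [ex, LinearMap.det_smul, det_oRefl q, hk, ← two_mul, pow_mul, r.sq, one_pow] at d3
  exact t0 (by linear_combination -d3)

theorem ts_le (hP : ¬ IsPlus Q) (hQ : (polarBilin Q).Nondegenerate) (d : finrank F V = 2 * n + 2)
    (h : TS Q W) : finrank F W ≤ n := by
  have d1 := fr_pp hQ W
  have d2 := Submodule.finrank_mono h.le
  by_contra k
  exact hP ⟨W, by omega, h⟩

theorem minus_W (c : Cx p Q x S) (hP : ¬ IsPlus Q) (d : finrank F V = 2 * n + 2) (r : RR Q x S l)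
    (m : Mx Q x S W) : finrank F W = n ∧ ∀ v ∈ pp Q W, ∃ z, (∀ s ∈ S, s z = z) ∧ v - z ∈ W := by
  have d1 := rr_dim c r ⟨n + 1, by omega⟩
  have e1 := rr_eig r m.ts m.ix
  have o1 := rr_pp c r e1
  have o2 : W ≤ pp Q (rg x l) := c.w.le_perp_comm.1 o1
  have d2 := Submodule.finrank_sup_add_finrank_inf_eq W (rg x l)
  rw [show W ⊓ rg x l = ⊥ from eq_bot_iff.2 fun z hz => r.an z hz.2 (m.ts z hz.1), finrank_bot] at d2
  have d3 := fr_pp c.nd (W ⊔ rg x l)
  have d4 := ts_le hP c.nd d m.ts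
  have y : pp Q (W ⊔ rg x l) = pp Q W ⊓ pp Q (rg x l) := perp_sup _ _
  have wy : W ≤ pp Q (W ⊔ rg x l) := y ▸ le_inf m.ts.le o2
  have an : ∀ v ∈ pp Q (W ⊔ rg x l), Q v = 0 → v ∈ W := fun v hv q => by
    rw [y] at hv
    refine m.mx _ (m.ts.sup hv.1 q) (m.ix.sup fun u hu => ?_) ((m.tv c).iv le_sup_left
      (sup_le m.ts.le ((Submodule.span_singleton_le_iff_mem _ _).2 hv.1))) le_sup_left
      (Submodule.mem_sup_right (Submodule.mem_span_singleton_self v))
    obtain ⟨k, rfl⟩ := Submodule.mem_span_singleton.1 hu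
    rw [map_smul, rr_ker c r hv.2]
    exact Submodule.smul_mem _ _ (Submodule.smul_mem _ _ (Submodule.mem_span_singleton_self v))
  have d5 : finrank F W = n := by
    by_contra k
    by_cases k' : finrank F W + 1 = n
    · obtain ⟨U, hU⟩ := W.exists_isCompl
      have e1 := Submodule.finrank_sup_add_finrank_inf_eq W (U ⊓ pp Q (W ⊔ rg x l))
      rw [← sup_inf_assoc_of_le _ wy, hU.sup_eq_top, top_inf_eq, ← inf_assoc, hU.inf_eq_bot, bot_inf_eq,
        finrank_bot] at e1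
      obtain ⟨A, a1, a2⟩ := two_aniso (Z' := U ⊓ pp Q (W ⊔ rg x l)) m.ts d1 (by omega) r.an
        (fun w hw q => hU.inf_eq_bot.le ⟨an w hw.2 q, hw.1⟩) o2
        (inf_le_right.trans (perp_anti le_sup_right)) (inf_le_right.trans (perp_anti le_sup_left))
      have := ts_le hP c.nd d a1
      omega
    · obtain ⟨v, v1, v2, v3⟩ := ext1 m.ts wy (by omega)
      exact v2 (an v v1 v3)
  have d6 := fr_pp c.nd W
  refine ⟨d5, fun v hv => ?_⟩
  obtain ⟨w, hw, z, hz, rfl⟩ := Submodule.mem_sup.1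
    ((Submodule.eq_of_le_of_finrank_eq (sup_le m.ts.le o1) (by omega)).ge hv)
  exact ⟨z, fun s hs => r.fix s hs z hz, by simpa using hw⟩

theorem pw {v : V} (h : g (g v - v) = g v - v) : (g ^ p) v = v := by
  have : ∀ k : ℕ, (g ^ k) v = v + (k : F) • (g v - v) := fun k => by
    induction k with
    | zero => simp
    | succ k ih =>
      rw [pow_succ', LinearEquiv.mul_apply, ih, map_add, map_smul, h, Nat.cast_succ]
      module
  simp [this]

theorem mixed (h : Fz p Q a b S T) (hW : TS Q W) (i1 : Iv a W) (i2 : ∀ s ∈ S, Iv s W) (i3 : ∀ s ∈ T, Iv s W)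
    (d0 : 0 < finrank F W) (d : 2 * finrank F W < finrank F V)
    (sp : ∀ v ∈ pp Q W, ∃ z, (∀ s ∈ T, s z = z) ∧ v - z ∈ W) : False := by
  have c := h.ca
  have := fin (OQ.Om Q)
  have := fin (NN Q ⊥ W ⊓ NN Q W (pp Q W))
  obtain ⟨n, hn, k⟩ := rad (N := NN Q W ⊥) (Q := NN Q ⊥ W ⊓ NN Q W (pp Q W)) h.fac (.refl _ _) (.refl _ _)
    h.sa h.sb (fun g hg => hg.1) (fun s hs => ⟨c.le hs, i2 s hs, by simp⟩)
    (fun s hs => ⟨h.cb.le hs, i3 s hs, by simp⟩) (isPGroup_iff_forall.2 fun g hg => ⟨2, by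
      have f1 : ∀ v ∈ pp Q W, (g ^ p) v = v := fun v hv => pw (sub_eq_zero.1 (hg.1.2.2 _ (hg.2.2.2 v hv)))
      have f2 : g ^ p ∈ OG Q := pow_mem (Om_le hg.1.1) p
      ext v
      rw [pow_two, pow_mul]
      refine pw (f1 _ (hW.le ?_))
      rw [← pp_pp c.nd W]
      refine mem_pp.2 fun u hu => ?_
      rw [polar_sub_right, ← pol f2 u v, f1 u hu, sub_self]⟩) (fun g hg => hg.1.1)
    fun g hg => mem_normalizer_of_conj_mem fun t ht => ⟨NN_conj hg.1 (by simp [Iv]) hg.2.1 ht.1,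
      NN_conj hg.1 hg.2.1 (hg.2.1.pp (Om_le hg.1)) ht.2⟩
  have k1 : ∀ w ∈ W, ∀ y ∈ pp Q W, ∀ v ∈ pp Q W, polar Q y v • a w - polar Q y (a v) • w ∈ cm S W := by
    intro w hw y hy
    have ap : ∀ v ∈ pp Q W, (eichler (hW w hw) (mem_pp.1 hy w hw)).1 v = v - polar Q y v • w := fun v hv =>
      eichler_apply_of_perp _ _ (mem_pp.1 hv w hw)
    have y0 : ∀ u ∈ W, polar Q y u = 0 := fun u hu => by rw [polar_comm]; exact mem_pp.1 hy u hu
    have m := eich_mem c.nd c.dim (hW w hw) (mem_pp.1 hy w hw)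
    obtain ⟨s, hs, t, ht, e⟩ := k _ ⟨⟨m, by simp [Iv], fun u hu => by simp [ap u (hW.le hu), y0 u hu]⟩, m,
      fun u hu => by simpa [ap u (hW.le hu), y0 u hu] using hu, fun u hu => by
        simpa [ap u hu] using W.smul_mem _ hw⟩
    have k2 : ∀ v ∈ pp Q W, s v - v + polar Q y v • w ∈ cm S W := fun v hv => by
      obtain ⟨z, z1, z2⟩ := sp _ ((hn.2.1.pp (Om_le hn.1)).inv v hv)
      have z3 : v - n z ∈ W := by simpa using hn.2.1 _ z2
      have z4 := ap (n z) (by simpa using sub_mem hv (hW.le z3))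
      have z5 := y0 _ z3
      rw [e] at z4
      simp only [LinearEquiv.mul_apply, LinearEquiv.coe_inv, LinearEquiv.symm_apply_apply, z1 t ht] at z4
      rw [polar_sub_right, sub_eq_zero] at z5
      convert mem_cm hs z3 using 1
      rw [map_sub, z4, z5]
      abel
    intro v hv
    convert sub_mem (c.iv i1 _ (k2 v hv)) (k2 _ (i1.pp c.ox v hv)) using 1
    rw [map_add, map_sub, map_smul, c.cm s hs]
    abel
  have d1 := fr_pp c.nd W
  obtain ⟨y, y1, y2⟩ := SetLike.not_le_iff_exists.1 fun k : pp Q W ≤ W => by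
    have := Submodule.finrank_mono k
    omega
  obtain ⟨v, v1, v2⟩ := c.w.exists_dual_vec y2
  have v1 : polar Q y v = 1 := v1
  have v2 : v ∈ pp Q W := mem_pp.2 v2
  have g1 := c.gen i1 i2 (l := polar Q y (a v)) fun w hw => by simpa [v1] using k1 w hw y y1 v v2
  generalize polar Q y (a v) = μ at g1
  obtain ⟨w, w1, w2⟩ := SetLike.not_le_iff_exists.1 fun k : W ≤ cm S W => by
    rw [cm_lt c.nd c.pg c.o i2 k, finrank_bot] at d0
    omega
  have g2 : ∀ u ∈ pp Q W, a u = μ • u := fun u hu => eig_of_mod c.ord g1 (by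
    rw [← pp_pp c.nd W]
    refine mem_pp.2 fun z hz => ?_
    have := k1 w w1 z hz u hu
    rw [g1 w w1, smul_smul, ← sub_smul] at this
    by_contra n
    refine w2 ((Submodule.smul_mem_iff _ fun e => n ?_).1 this)
    rw [polar_sub_right, polar_smul_right, smul_eq_mul]
    linear_combination -e)
  refine c.sc hW ?_ g2
  have := pol c.ox y v
  rw [g2 y y1, g2 v v2, polar_smul_left, polar_smul_right, v1] at this
  simpa [pow_two] using this

theorem minus_rr (h : Fz p Q a b S T) (hP : ¬ IsPlus Q) (d : finrank F V = 2 * n + 4) (r : RR Q b T l) :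
    False := by
  obtain ⟨W, m⟩ := exists_mx Q a S
  obtain ⟨W', m'⟩ := exists_mx Q b T
  obtain ⟨d1, sp⟩ := minus_W (n := n + 1) h.cb hP d r m'
  have d2 := ts_le (n := n + 1) hP h.ca.nd d m.ts
  by_cases k : finrank F W ≤ n
  · refine h.ll (by omega) (m.ll h.ca k (by omega)) (m'.ll' h.cb d1 fun k => ?_)
    rw [cm_lt h.cb.nd h.cb.pg h.cb.o m'.is (k.trans (cm_le.2 fun s hs v hv => ?_)), finrank_bot] at d1
    · omega
    obtain ⟨z, z1, z2⟩ := sp v hv
    simpa [z1 s hs] using mem_cm hs z2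
  obtain ⟨g, hg, rfl⟩ := witt h.ca m'.ts m.ts (by omega) (by omega)
  refine mixed (h.cj hg) m.ts m.ix m.is ?_ (by omega) (by omega) fun v hv => ?_
  · rintro _ ⟨t, ht, rfl⟩ _ ⟨v, hv, rfl⟩
    exact ⟨_, m'.is t ht v hv, by simp⟩
  · rw [pp, ← map_perp (Om_le hg).1] at hv
    obtain ⟨v, hv, rfl⟩ := hv
    obtain ⟨z, z1, z2⟩ := sp v hv
    refine ⟨g z, ?_, _, z2, by simp⟩
    rintro _ ⟨t, ht, rfl⟩
    simp [z1 t ht]

theorem main (h : Fz p Q a b S T) (d : finrank F V = 2 * n + 4) : False := by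
  have key : ∀ {a b S T l}, Fz p Q a b S T → RR Q b T l → False := fun h r =>
    (em (IsPlus Q)).elim (fun k => plus_rr h k d r) fun k => minus_rr h k d r
  by_cases h1 : TT Q S
  · exact (h.cb.nt (h.tt h1)).elim fun _ r => key h r
  · exact (h.ca.nt h1).elim fun _ r => key h.symm r

end SO2

theorem s_Dp {X : Type*} [Group X] (h : IsPOmegaPlusChar p X) : NoS p X := by
  obtain ⟨F, _, _, _, m, hm, ⟨e⟩⟩ := h
  exact (noS_POmega (qPlus_nondegenerate m) (by simp; omega) fun a b S T k =>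
    SO2.main (n := m - 2) k (by simp; omega)).of_equiv e

theorem s_Dm {X : Type*} [Group X] (h : IsPOmegaMinusChar p X) : NoS p X := by
  obtain ⟨F, _, _, _, m, a, b, hm, hab, ⟨e⟩⟩ := h
  exact (noS_POmega (qMinus_nondegenerate (m - 1) hab) (by simp; omega) fun a b S T k =>
    SO2.main (n := m - 2) k (by simp; omega)).of_equiv e

end CF.Ah
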