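import Cfsg.Agent.Ah.SR0
import Cfsg.Agent.Ah.SV

/-! Products of semisimple classes in the Suzuki and Ree groups. -/

set_option autoImplicit false

namespace CF.Ah

open CF.BN CF.Chev CF.Loc Cfsg Cfsg.Lie

variable {X : Type*} [Group X]

theorem s_2F4 (h : Iso2F4 X) : NoS 2 X := by
  obtain ⟨K, _, _, m, -, hK, ⟨e⟩⟩ := h
  obtain ⟨_, θ, h1, h2⟩ := exists_theta Nat.prime_two hK
  exact noS_of (e.trans (packF4 h1 h2).e) fun a ma b mb na nb ha hb f => SR.f4 (isIs_twF4 θ) h1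
    ⟨ltF4 h1 h2, (packF4 h1 h2).center, ma, mb, na, nb⟩ ha hb (f.fu (ltF4 h1 h2) ha hb)

theorem s_Sz (h : IsoSuzuki X) : NoS 2 X := by
  obtain ⟨K, _, _, m, hm, hK, ⟨e⟩⟩ := h
  obtain ⟨_, θ, h1, h2⟩ := exists_theta Nat.prime_two hK
  have h3 := Suz.eight_le_card hm hK
  obtain ⟨e', -⟩ := ((tits h2).lieData (e := 2 ^ (m + 1)) fun x => by
    simp [tits, frobenius_def, h1, pow_succ, pow_mul]).nonempty_equiv (nonempty_szData h2).some
  have M := ltB2 h2 (by rw [Nat.card_eq_fintype_card]; omega)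
  exact noS_of (e.trans e') fun a ma b mb na nb ha hb f => SR.rank1 ⟨M, linkB2.center_group K, ma, mb, na, nb⟩ (i := 0)
    (fun j => by rw [show (twB2 θ).p 0 = 1 from (isIs_twB2 θ).p_eq 0]; revert j; decide) ha hb (f.fu M ha hb)

theorem s_Ree (h : IsoRee X) : NoS 3 X := by
  obtain ⟨K, _, _, m, -, hK, ⟨e⟩⟩ := h
  obtain ⟨_, θ, h1, h2⟩ := exists_theta Nat.prime_three hK
  haveI := Fact.mk Nat.prime_three
  exact noS_of (e.trans (packG2 h1 h2).e) fun a ma b mb na nb ha hb f => SR.rank1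
    ⟨ltG2 h1 h2, (packG2 h1 h2).center, ma, mb, na, nb⟩ (i := 0)
    (fun j => by rw [show (twG2 θ).p 0 = 1 from (isIs_twG2 θ).p_eq 0]; revert j; decide) ha hb (f.fu (ltG2 h1 h2) ha hb)

end CF.Ah
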