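import Cfsg.Agent.Ah.SM
import Cfsg.Agent.Chev.LTS

/-! Products of semisimple classes in the Suzuki and Ree groups. -/

set_option autoImplicit false

namespace CF.Ah

open CF.BN CF.Chev CF.Loc Cfsg Cfsg.Lie

namespace SR

section

variable {B ι : Type} [Fintype B] [DecidableEq B] [Fintype ι] [DecidableEq ι]
  {C : ChevBasis B ι} {K : Type*} [Field K] {G : Type*} [Group G] {ρ : StRep C K G}
  {T : Tw ρ} {G1 : Subgroup G} {ω : ι → ℝ} {p : ℕ} [Fact p.Prime] {a b x y s : G} {i : B} {S S₀ : Set ι}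

/-- Rank one. -/
theorem rank1 (S : St p T G1 ω a b) (h : ∀ j, j = i ∨ j = T.p i) (ha : ¬ p ∣ orderOf a)
    (hb : ¬ p ∣ orderOf b) : ¬ FU T G1 a b := fun f => by
  have k : ∀ J, T.S.Stab J → J ≠ Set.univ → J = ∅ := fun J s n => Set.eq_empty_of_forall_notMem fun j hj => by
    have : i ∈ J := (h j).elim (· ▸ hj) fun e => (s i).1 (show T.p i ∈ J from e ▸ hj)
    exact n (Set.eq_univ_of_forall fun l => (h l).elim (· ▸ this) fun e => e ▸ (s i).2 this)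
  have c : ∀ x ∈ ρ.H ⊓ G1, Commute x (ρ.x (C.simple i) 1) → x = 1 := fun x hx e =>
    eq_one_of_cen S.lt S.center hx.1 fun j => (h j).elim (· ▸ e) fun q => by
      rw [q, ← T.π_simple]; exact (cen_π S.lt hx).2 e
  obtain ⟨J, x, hx, h1⟩ := exists_min S.lt S.ma ha
  obtain ⟨J', y, hy, h2⟩ := exists_min S.lt S.mb hb
  obtain rfl := k J h1.stab (f.ne_univ S hb hx h1)
  obtain rfl := k J' h2.stab (f.symm.ne_univ ⟨S.lt, S.center, S.mb, S.ma, S.nb, S.na⟩ ha hy h2)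
  exact (f.tor₂ S.lt hx hy h1.mem_H h2.mem_H i).elim (fun e => hx.ne_one S.na (c x h1.mem_H e))
    fun e => hy.ne_one S.nb (c y h2.mem_H e)

/-- Top vectors for a Levi subgroup of rank one. -/
theorem top (M : LT p T G1 ω) (h : Min T G1 (T.S.orb i) x) (hS : ρ.BSt S) (h0 : ρ.BSt S₀)
    (hw : ∀ r ∈ S, r ∉ S₀ → T.S.s i r ∉ S) (c : Commute s x) (h1 : s ∈ ρ.U S) : s ∈ ρ.U S₀ := by
  by_contra h2
  obtain ⟨w, w1, w2, w3, -⟩ := h.cell M
  rcases Sym.eq_one_or_eq_s w1 w2 with rfl | rfl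
  · exact h.subset M w3 (I := ∅) (one_mem _) (T.S.mem_orb_self i)
  · obtain ⟨r, r1, r2, r3⟩ := StRep.supp_of_conj T.faith hS h0 hS h1 h2 w3 (by rwa [← c.eq, mul_inv_cancel_right])
    exact hw r r1 r2 r3

theorem split (hS : ρ.BSt S) {r : ι} (e : ∀ a, a ∈ S ↔ a = r ∨ a ∈ S₀) (h : s ∈ ρ.U S) :
    ∃ t, ∃ d ∈ ρ.U S₀, s = ρ.x r t * d := by
  obtain rfl : S = {r} ∪ S₀ := Set.ext e
  obtain ⟨u, hu, d, hd, rfl⟩ := ρ.exists_mul_of_mem_U hS.closed hS.isNil h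
  obtain ⟨t, rfl⟩ := ρ.mem_X.1 (ρ.U_singleton r ▸ hu)
  exact ⟨t, d, hd, rfl⟩

end

/-- The simple reflections. -/
def rf (i : Fin 4) (r : Fin 48) : Fin 48 := ⟨chevF4.reflectRoot i r % 48, Nat.mod_lt _ (by decide)⟩

theorem wp_eq (l : List (Fin 4)) (r : Fin 48) : cF4.wp l r = l.foldr rf r := by
  induction l with
  | nil => rfl
  | cons i l ih =>
    rw [RootSys.wp_cons, Equiv.Perm.mul_apply, ih, List.foldr_cons]
    exact (Fin.ext ((congrArg (· % 48) (linkF4.reflectRoot_eq i _)).trans (Nat.mod_eq_of_lt (cF4.sref i _).2))).symm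

variable {K : Type*} [Field K] [Finite K] [CharP K 2] {G : Type*} [Group G] {ρ : StRep cF4 K G} {T : Tw ρ}
  {θ : K →+* K} {e : ℕ} {ω : Fin 48 → ℝ} {a b x y s : G} {J J' : Set (Fin 4)}
  (h : T.IsIs iF4 θ) (hθ : ∀ t, θ t = t ^ e)
include h

theorem move (S : St 2 T (gF4 ρ e) ω a b) (hy : y ∈ ρ.H ⊓ gF4 ρ e) (h1 : y ≠ 1) {i : Fin 4} (hi : i = 0 ∨ i = 1) :
    ∃ z ∈ ρ.H ⊓ gF4 ρ e, Cj (gF4 ρ e) y z ∧ ¬ Commute z (ρ.x (cF4.simple i) 1) := by
  by_contra! c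
  have D := dataF4 (pF4_eq h)
  have k : ∀ j r, (swF4 j).foldr rf r = cF4.simple i → Commute y (ρ.x r 1) := fun j r q => by
    obtain ⟨z, z1, z2, z3⟩ := exists_move S.lt hy (Sym.s_mem_Wf j)
    exact (z3 r).1 (by rw [D.s_eq, wp_eq, q]; exact c z z1 z2)
  have sub : ∀ r s u, cF4.vec u = cF4.vec r + cF4.vec (cF4.neg s) → Commute y (ρ.x r 1) → Commute y (ρ.x s 1) →
      Commute y (ρ.x u 1) := fun r s u q a b => cen_add T.faith hy.1 q a (cen_neg T.faith hy.1 b)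
  have pi : ∀ r s, iF4.f r = s → Commute y (ρ.x r 1) → Commute y (ρ.x s 1) := fun r s q a => by
    rw [← q, ← h.π_eq]; exact (cen_π S.lt hy).2 a
  have c0 := c y hy (.refl _ y)
  have key : Commute y (ρ.x 33 1) ∧ Commute y (ρ.x 27 1) := by
    rcases hi with rfl | rfl
    · rw [show cF4.simple 0 = 33 by decide +kernel] at c0 k
      have c1 := sub 37 33 30 (by decide +kernel) (k 1 37 (by decide +kernel)) c0
      exact ⟨c0, sub 30 28 27 (by decide +kernel) c1 (pi 30 28 (by decide +kernel) c1)⟩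
    · rw [show cF4.simple 1 = 27 by decide +kernel] at c0 k
      exact ⟨sub 34 27 33 (by decide +kernel) (k 0 34 (by decide +kernel)) c0, c0⟩
  refine h1 (eq_one_of_cen S.lt S.center hy.1 fun j => ?_)
  rcases (by decide +kernel : ∀ j, cF4.simple j = 33 ∨ cF4.simple j = 27 ∨ iF4.f 27 = cF4.simple j ∨
    iF4.f 33 = cF4.simple j) j with q | q | q | q
  exacts [q ▸ key.1, q ▸ key.2, pi _ _ q key.2, pi _ _ q key.1]

include hθ

theorem nat (M : LT 2 T (gF4 ρ e) ω) (hx : Min T (gF4 ρ e) (T.S.orb 0) x) (hs : s ∈ ρ.UJ (T.S.orb 0))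
    (c : Commute s x) : s ∈ ρ.Ui 1 := by
  have D := dataF4 (pF4_eq h)
  have b0 : ρ.BSt (cF4.up [25]) := StRep.bst_up (by decide +kernel)
  have b1 : ρ.BSt (cF4.up [34, 25]) := StRep.bst_up (by decide +kernel)
  have b2 : ρ.BSt (cF4.up [27, 25]) := StRep.bst_up (by decide +kernel)
  obtain ⟨α, _, h1, rfl⟩ := split b2 (r := 27) (S₀ := cF4.up [34, 25]) (by
    simp only [RootSys.up, Set.mem_ofPred_eq, Pi.le_def]; decide +kernel) (ρ.U_mono (by
      simp only [RootSys.up, Set.ofPred_subset_ofPred, Pi.le_def, RootSys.InSub, D.mem_orb]; decide +kernel) hs)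
  have h2 : _ ∈ ρ.Ui 1 := ρ.U_mono (by
    simp only [RootSys.up, Set.ofPred_subset_ofPred, Pi.le_def]; decide +kernel) h1
  by_cases a0 : α = 0
  · simpa [a0] using h2
  obtain ⟨β, d, hd, rfl⟩ := split b1 (r := 34) (S₀ := cF4.up [25]) (by
    simp only [RootSys.up, Set.mem_ofPred_eq, Pi.le_def]; decide +kernel) h1
  obtain ⟨t, ht⟩ := Finite.surjective_of_injective θ.injective (β / α)
  obtain ⟨n, n1, n2⟩ := M.form.exists_n_s 0
  have u1 : ρ.x 33 (θ t) * ρ.x 24 t ∈ ρ.LJ (T.S.orb 0) := mul_mem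
    (StRep.x_mem_LJ (by simp only [RootSys.InSub, D.mem_orb]; decide +kernel) _)
    (StRep.x_mem_LJ (by simp only [RootSys.InSub, D.mem_orb]; decide +kernel) _)
  have u2 : ρ.x 33 (θ t) * ρ.x 24 t ∈ ρ.Bo :=
    mul_mem (ρ.x_mem_Bo (by decide +kernel) _) (ρ.x_mem_Bo (by decide +kernel) _)
  have e1 : ρ.x 33 (θ t) * ρ.x 24 t * (ρ.x 27 α * ρ.x 34 β) = ρ.x 27 α * (ρ.x 33 (θ t) * ρ.x 24 t) := by
    have c1 := ρ.commute_of_none (r := 24) (s := 27) (by decide +kernel) (by decide +kernel) t α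
    have c2 := ρ.commute_of_none (r := 24) (s := 34) (by decide +kernel) (by decide +kernel) t β
    rw [mul_assoc, (c1.mul_right c2).eq, ← mul_assoc, ← mul_assoc (ρ.x 27 α), ρ.comm_single (r := 33) (s := 27) (v := 34)
      (by decide +kernel) (by decide +kernel) (by decide +kernel), show cF4.N 33 27 = -1 by decide +kernel, ht,
      ← mul_assoc]
    congr 3
    simp [a0]
  generalize ρ.x 33 (θ t) * ρ.x 24 t = u, mem_gF4₂ (ρ := ρ) f4L₂_pos hθ t = u3 at u1 u2 e1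
  have w1 : ∀ r ∈ cF4.up [25], T.S.s 0 r ∈ cF4.up [25] := by
    simp only [RootSys.up, Set.mem_ofPred_eq, Pi.le_def, D.s_eq, wp_eq]; decide +kernel
  have h3 := n2.acts.conj_mem_U w1 ((b0.conj_iff u2).2 hd)
  have e2 : n * u * (ρ.x 27 α * (ρ.x 34 β * d)) * (n * u)⁻¹ = n * ρ.x 27 α * n⁻¹ * (n * (u * d * u⁻¹) * n⁻¹) := by
    rw [← mul_assoc (ρ.x 27 α), mul_assoc n, ← mul_assoc u, e1]; group
  have h4 := top M (hx.conjL (k := n * u) ⟨mul_mem (n2.mem_LJ (lg_mem _)) u1, mul_mem n1 u3⟩) b1 b0 (by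
      simp only [RootSys.up, Set.mem_ofPred_eq, Pi.le_def, D.s_eq, wp_eq]; decide +kernel) (s := n * u * _ * (n * u)⁻¹)
    (c.map (MulAut.conj (n * u))) (by
    rw [e2]
    refine mul_mem (n2.acts.conj_mem_U (S := {27}) ?_ (ρ.x_mem_U (Set.mem_singleton 27) α)) (ρ.U_mono ?_ h3)
    · simp only [RootSys.up, Set.mem_ofPred_eq, Pi.le_def, D.s_eq, wp_eq, Set.mem_singleton_iff]; decide +kernel
    · simp only [RootSys.up, Set.ofPred_subset_ofPred, Pi.le_def]; decide +kernel)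
  rw [e2, mul_mem_cancel_right h3] at h4
  refine absurd (n2.acts.mem_of_conj_mem_U T.faith b0.closed b0.isNil a0 h4) ?_
  simp only [RootSys.up, Set.mem_ofPred_eq, Pi.le_def, D.s_eq, wp_eq]; decide +kernel

theorem f4 (S : St 2 T (gF4 ρ e) ω a b) (ha : ¬ 2 ∣ orderOf a) (hb : ¬ 2 ∣ orderOf b) : ¬ FU T (gF4 ρ e) a b := by
  have D := dataF4 (pF4_eq h)
  have st : ∀ {J : Set (Fin 4)}, T.S.Stab J → (3 ∈ J ↔ 0 ∈ J) ∧ (2 ∈ J ↔ 1 ∈ J) := fun s =>
    ⟨by simpa [pF4_eq h] using s 0, by simpa [pF4_eq h] using s 1⟩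
  have key : ∀ {a b x y J J'}, St 2 T (gF4 ρ e) ω a b → FU T (gF4 ρ e) a b → Cj (gF4 ρ e) a x → Cj (gF4 ρ e) b y →
      Min T (gF4 ρ e) J x → Min T (gF4 ρ e) J' y → 0 ∉ J' → (1 ∈ J' → 0 ∈ J) → False := by
    intro a b x y J J' S f hx hy h1 h2 n0 n1
    have s1 := st h1.stab
    have s2 := st h2.stab
    by_cases c : 1 ∈ J'
    · have c' := Set.disjoint_right.1 (f.disj S.lt hx hy h1 h2) c
      obtain rfl : J = T.S.orb 0 := Set.ext fun j => by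
        rw [D.mem_orb]; fin_cases j <;> simp [swF4, n1 c, c', s1.1, s1.2]
      obtain ⟨u, hu, q⟩ := SM.exists_notMem S.lt 1
      obtain ⟨s, hs, t, ht, c1, -, rfl⟩ := f _ _ x y hx hy h1 h2 u hu
      exact q (mul_mem (nat h hθ S.lt h1 hs.1 c1) (SM.UJ_le_Ui c ht.1))
    obtain rfl : J' = ∅ := Set.ext fun j => by fin_cases j <;> simp [n0, c, s2.1, s2.2]
    have t : ∀ i, i = 0 ∨ i = 1 → i ∉ J := fun i hi m => by
      obtain ⟨z, z1, z2, z3⟩ := move h S h2.mem_H (hy.ne_one S.nb) hi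
      exact z3 (f.tor S.lt hx (hy.trans z2) h1 z1.1 S.mb m)
    obtain rfl : J = ∅ := Set.ext fun j => by fin_cases j <;> simp [t, s1.1, s1.2]
    obtain ⟨z, z1, z2, z3⟩ := move h S h2.mem_H (hy.ne_one S.nb) (.inl rfl)
    obtain ⟨v, v1, v2, v3⟩ := move h S h1.mem_H (hx.ne_one S.na) (.inl rfl)
    exact (f.tor₂ S.lt (hx.trans v2) (hy.trans z2) v1 z1 0).elim v3 z3
  intro f
  obtain ⟨J, x, hx, h1⟩ := exists_min S.lt S.ma ha
  obtain ⟨J', y, hy, h2⟩ := exists_min S.lt S.mb hb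
  have S' : St 2 T (gF4 ρ e) ω b a := ⟨S.lt, S.center, S.mb, S.ma, S.nb, S.na⟩
  have d := Set.disjoint_left.1 (f.disj S.lt hx hy h1 h2)
  by_cases c : 0 ∈ J
  · exact key S f hx hy h1 h2 (d c) fun _ => c
  by_cases c' : 0 ∈ J'
  · exact key S' f.symm hy hx h2 h1 c fun _ => c'
  by_cases c1 : 1 ∈ J
  · exact key S f hx hy h1 h2 c' fun q => (d c1 q).elim
  · exact key S' f.symm hy hx h2 h1 c fun q => (c1 q).elim

end SR

end CF.Ah
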