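import Cfsg.Agent.Ah.SSp
import Cfsg.Agent.Geom.Polar
import Cfsg.Agent.Geom.Hyp
import Cfsg.Agent.S0279

/-! Semisimple classes of unitary groups. -/

set_option autoImplicit false
set_option linter.unusedSectionVars false

namespace CF.Ah

open CF.Loc CF.Geom Module Subgroup Cfsg

variable {p : ℕ} [hp : Fact p.Prime]

namespace SSU

open CL

variable {F V : Type*} [Field F] [Finite F] [CharP F p] [AddCommGroup V] [Module F V]
  [FiniteDimensional F V] {S T : Subgroup (V ≃ₗ[F] V)} {a b g : V ≃ₗ[F] V} {e f v v' x y y' : V}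
  {σ : F →+* F} {B : V →ₛₗ[σ] V →ₗ[F] F} {W : Submodule F V} {μ : F}

theorem pow_fix (p : ℕ) [CharP F p] (h : g (g v - v) = g v - v) : (g ^ p) v = v := by
  have k : ∀ n : ℕ, (g ^ n) v = v + (n : F) • (g v - v) := fun n => by
    induction n with
    | zero => simp
    | succ n ih => rw [pow_succ', LinearEquiv.mul_apply, ih, map_add, map_smul, h]; push_cast; module
  simp [k]

/-- The stabilizer of `W` and `v + W`. -/
def Nn (W : Submodule F V) (v : V) : Subgroup (V ≃ₗ[F] V) where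
  carrier := {g | g ∈ subStab W ∧ g v - v ∈ W}
  one_mem' := ⟨one_mem _, by simp⟩
  mul_mem' := fun {g k} h h' => ⟨mul_mem h.1 h'.1, by
    simpa using add_mem (subStab_apply h.1 h'.2) h.2⟩
  inv_mem' := fun {g} h => ⟨inv_mem h.1, by simpa using neg_mem (subStab_apply (inv_mem h.1) h.2)⟩

/-- The unipotent radical. -/
def Qq (B : V →ₛₗ[σ] V →ₗ[F] F) (W : Submodule F V) : Subgroup (V ≃ₗ[F] V) where
  carrier := {g | g ∈ UG B ∧ (∀ w ∈ W, g w = w) ∧ ∀ z ∈ perp B W, g z - z ∈ W}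
  one_mem' := ⟨one_mem _, by simp, by simp⟩
  mul_mem' := fun {g k} h h' => ⟨mul_mem h.1 h'.1, fun w hw => by simp [h.2.1 w hw, h'.2.1 w hw],
    fun z hz => by
      have := add_mem (h'.2.2 z hz) (h.2.2 z hz)
      rw [← h.2.1 _ (h'.2.2 z hz)] at this
      simpa using this⟩
  inv_mem' := fun {g} h => ⟨inv_mem h.1, fun w hw => g.symm_apply_eq.2 (h.2.1 w hw).symm, fun z hz => by
    have := neg_mem (h.2.2 z hz)
    rw [← g.symm_apply_eq.2 (h.2.1 _ this).symm] at this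
    simpa using this⟩

variable (hH : IsHerm B) (hB : B.Nondegenerate)
include hH hB

theorem Qq_pow (hg : g ∈ Qq B W) : g ^ p ^ 2 = 1 := by
  have k : ∀ z ∈ perp B W, (g ^ p) z = z := fun z hz => pow_fix p (hg.2.1 _ (hg.2.2 z hz))
  have u := mem_UG.1 (pow_mem hg.1 p)
  rw [sq, pow_mul]
  refine LinearEquiv.ext fun v => pow_fix p ((pow_mem hg p).2.1 _ ?_)
  rw [← (hH.wittPair hB).perp_perp W]
  exact mem_perp.2 fun z hz => by rw [map_sub, ← u z v, k z hz, sub_self]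

theorem Qq_le (p : ℕ) [Fact p.Prime] [CharP F p] : Qq B W ≤ SUG B := fun g hg => ⟨hg.1, by
  have := congrArg (fun g => (LinearEquiv.det g : F)) (Qq_pow (p := p) hH hB hg)
  simp only [map_pow, map_one, Units.val_pow_eq_pow_val, Units.val_one] at this
  exact Units.ext ((iterateFrobenius F p 2).injective (by simpa [iterateFrobenius_def] using this))⟩

theorem not_mem (w1 : W ≤ perp B W) (hv : B v v ≠ 0) : v ∉ W := fun k => hv (mem_perp.1 (w1 k) v k)

theorem mv (w1 : W ≤ perp B W) (w2 : perp B W ≤ W ⊔ F ∙ v) (hy : y - v ∈ W) (hy' : y' - v ∈ W)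
    (h0 : B y y ≠ 0) (h : B y' y' = B y y) : ∃ u ∈ Qq B W, u y = y' := by
  have d : y' - y ∈ W := by simpa using sub_mem hy' hy
  obtain ⟨u, u1, u2, u3, u4⟩ := (hH.wittPair hB).step W y y' (not_mem hH hB w1 h0)
    (not_mem hH hB w1 (h ▸ h0)) h fun x hx => by
      rw [← sub_eq_zero, ← map_sub]; exact mem_perp.1 (w1 d) x hx
  refine ⟨u, ⟨⟨u1, u2⟩, u3, fun z hz => ?_⟩, u4⟩
  obtain ⟨w, hw, _, hk, rfl⟩ := Submodule.mem_sup.1 (w2 hz)
  obtain ⟨k, rfl⟩ := Submodule.mem_span_singleton.1 hk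
  have : u v = y' - (y - v) := by rw [← u3 _ hy, map_sub, u4]; abel
  convert W.smul_mem k d using 1
  rw [map_add, map_smul, u3 w hw, this]
  module

theorem exists_refl (hv : B v v ≠ 0) (hμ : σ μ * μ = 1) : ∃ r ∈ UG B, LinearMap.det r.toLinearMap = μ ∧
    ∀ x, r x = x + ((μ - 1) / B v v * B v x) • v := by
  have h : (μ - 1) / B v v + σ ((μ - 1) / B v v) + σ ((μ - 1) / B v v) * ((μ - 1) / B v v) * B v v = 0 := by
    rw [map_div₀, hH.eq, map_sub, map_one]
    field_simp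
    linear_combination hμ
  exact ⟨_, (uRank1 hH v _ h).2, by rw [det_uRank1]; field_simp; ring, fun _ => rfl⟩

theorem move (hT : IsSyl p T (SUG B ⊓ centralizer {b})) (hv : B v v ≠ 0) (h : ∀ t ∈ T, t v = v)
    (w1 : W ≤ perp B W) (w2 : perp B W ≤ W ⊔ F ∙ v') (hv' : B v' v' ≠ 0) :
    ∃ g ∈ SUG B, ∀ t ∈ cj[g] T, t v' = v' ∧ ∀ w ∈ W, t w ∈ W := by
  have hW := hH.wittPair hB
  have iso : ∀ t ∈ T, ∀ x y, B (t x) (t y) = B x y := fun t ht => mem_UG.1 (hT.le ht).1.1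
  obtain ⟨ω, hω⟩ := DFunLike.ne_iff.1 hH.ne_id
  have ω0 : ω ≠ 0 := fun e => hω (by simp [e])
  have ω1 : σ ω ≠ 0 := by simpa using ω0
  obtain ⟨r, r1, -, r2⟩ := exists_refl hH hB (μ := σ ω / ω) hv (by rw [map_div₀, hH.invol]; field_simp)
  obtain ⟨A, a1, a2, a3, a4⟩ := exists_W (a := r) hW hT.isPGroup (fun t ht => LinearEquiv.ext fun x => by
    have := iso t ht v x
    rw [h t ht] at this
    simp [r2, h t ht, this]) iso (mem_UG.1 r1)
  have a5 : v ∈ perp B A := mem_perp.2 fun w hw => hH.refl (by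
    by_contra n
    have := sub_mem (a2 w hw) hw
    rw [r2, add_sub_cancel_left, Submodule.smul_mem_iff _ (mul_ne_zero (div_ne_zero (sub_ne_zero.2
      fun e => hω ((div_eq_one_iff_eq ω0).1 e)) hv) n)] at this
    exact not_mem hH hB a1 hv this)
  have d : finrank F A ≤ finrank F ↥(W ⊓ perp B (F ∙ v')) := by
    have h1 := Submodule.finrank_lt_finrank_of_lt (lt_of_le_of_ne a1 fun e => not_mem hH hB a1 hv (e ▸ a5))
    have h2 := hW.finrank_perp A
    have h3 := hW.finrank_perp W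
    have h4 := hW.finrank_perp (F ∙ v')
    have h5 := Submodule.finrank_sup_add_finrank_inf_eq W (perp B (F ∙ v'))
    have h6 := Submodule.finrank_le (W ⊔ perp B (F ∙ v'))
    have h7 := finrank_span_singleton (K := F) (show v' ≠ 0 from fun e => hv' (by simp [e]))
    by_cases k : perp B W ≤ W
    · have := Submodule.finrank_mono k
      omega
    · have h8 := Submodule.finrank_mono w2
      have h9 := Submodule.finrank_add_le_finrank_add_finrank W (F ∙ v')
      obtain ⟨z, z1, z2⟩ := SetLike.not_le_iff_exists.1 k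
      obtain ⟨w, hw, _, hk, rfl⟩ := Submodule.mem_sup.1 (w2 z1)
      obtain ⟨c, rfl⟩ := Submodule.mem_span_singleton.1 hk
      have c0 : c ≠ 0 := fun e => z2 (by simpa [e] using hw)
      have : v' ∈ perp B W := (Submodule.smul_mem_iff _ c0).1 (by simpa using sub_mem z1 (w1 hw))
      rw [inf_eq_left.2 (hW.le_perp_comm.1 ((Submodule.span_singleton_le_iff_mem _ _).2 this))]
      omega
  obtain ⟨D, d1, d2⟩ := exists_le_finrank_eq _ d
  have d3 : D ≤ perp B W := (d1.trans inf_le_left).trans w1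
  have d4 : D ≤ perp B D := d3.trans (perp_anti (d1.trans inf_le_left))
  obtain ⟨g, g1, g2⟩ := hW.exists_isom_totally_singular (fun u hu => by simpa using mem_perp.1 (a1 hu) u hu)
    (fun u hu => by simpa using mem_perp.1 (d4 hu) u hu) a1 d4 d2.symm
  obtain ⟨c, hc⟩ := exists_smul_norm_eq hH.ne_id hH.invol hH.symm hv' (hH.eq v v)
  obtain ⟨k, k1, k2, k3, k4⟩ := hW.step D (g v) (c • v') (not_mem hH hB d4 (by rwa [g1.1]))
    (not_mem hH hB d4 (by rwa [hc])) (by simp only [hc, g1.1]) fun x hx => by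
      have := hH.refl (mem_perp_singleton.1 (d1 hx).2)
      obtain ⟨y, hy, rfl⟩ := g2.ge hx
      simp only [LinearEquiv.coe_coe] at this ⊢
      rw [map_smul, this, g1.1, mem_perp.1 a5 y hy, smul_zero]
  have m : k * g ∈ UG B := mul_mem ⟨k1, k2⟩ g1
  have n := det_UG_norm hB ⟨_, m⟩
  obtain ⟨q, q1, q2, q3⟩ := exists_refl hH hB (μ := σ (LinearMap.det (k * g).toLinearMap)) hv (by
    rw [hH.invol, mul_comm, n])
  have m' := mul_mem m q1
  refine ⟨k * g * q, mem_SUG.2 ⟨mem_UG.1 m', by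
    rw [LinearEquiv.coe_toLinearMap_mul, map_mul, q2, mul_comm, n]⟩, ?_⟩
  have e1 : ∀ w ∈ A, (k * g * q) w ∈ D := fun w hw => by
    have : g w ∈ D := g2.le ⟨w, hw, rfl⟩
    simpa [q3, hH.refl (mem_perp.1 a5 w hw), k3 _ this] using this
  obtain ⟨l, e2⟩ : ∃ l : F, (k * g * q) v = l • v' :=
    ⟨(1 + (σ (LinearMap.det (k * g).toLinearMap) - 1) / B v v * B v v) * c, by
      simp only [LinearEquiv.mul_apply, q3, map_add, map_smul, k4]; module⟩
  generalize k * g * q = j at m' e1 e2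
  have l0 : l ≠ 0 := fun e => hv (by rw [← m'.1, e2, e, zero_smul, map_zero])
  rintro _ ⟨t, ht, rfl⟩
  refine ⟨smul_right_injective V l0 ?_, fun w hw => ?_⟩
  · simp only [← map_smul, ← e2]
    simp [h t ht]
  · obtain ⟨z, rfl⟩ := j.surjective w
    have : z ∈ perp B A := mem_perp.2 fun y hy => by
      rw [← m'.1]; exact hH.refl (mem_perp.1 (d3 (e1 y hy)) _ hw)
    simpa using add_mem (d1 (e1 _ (a4 t ht z this))).1 hw

theorem key (h : Fac p (SUG B) a b) (hS : IsSyl p S (SUG B ⊓ centralizer {a}))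
    (hT : IsSyl p T (SUG B ⊓ centralizer {b})) (hv : B v v ≠ 0) (h0 : ∀ t ∈ T, t v = v)
    (w1 : W ≤ perp B W) (w2 : perp B W ≤ W ⊔ F ∙ v') (hv' : B v' v' ≠ 0)
    (h1 : ∀ s ∈ S, ∀ w ∈ W, s w ∈ W) (h2 : ∀ s ∈ S, s v' - v' ∈ W) (hx : x ∈ W)
    (h3 : B x v' + B v' x = 0) : ∃ s ∈ S, s v' = v' + x := by
  have := fin (SUG B)
  obtain ⟨g, g1, g2⟩ := move hH hB hT hv h0 w1 w2 hv'
  obtain ⟨n, ⟨n1, -, n2⟩, hn⟩ := rad (N := SUG B ⊓ Nn W v') (Q := Qq B W) h (.refl _ _) (.of g1 b) hS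
    (syl_cj hT (le_normalizer g1)) inf_le_left
    (fun s hs => ⟨(hS.le hs).1, mem_subStab_iff_le.2 (h1 s hs), h2 s hs⟩)
    (fun t ht => ⟨cj_le_of_mem g1 (hT.le.trans inf_le_left) ht, mem_subStab_iff_le.2 (g2 t ht).2, by
      simp [(g2 t ht).1]⟩)
    (isPGroup_iff_forall.2 fun u hu => ⟨2, Qq_pow hH hB hu⟩) (Qq_le hH hB p) (le_normalizer_iff_cj.2 (by
      rintro k ⟨⟨k1, -⟩, k2, -⟩ _ ⟨u, hu, rfl⟩
      refine ⟨(UG B).mul_mem ((UG B).mul_mem k1 hu.1) ((UG B).inv_mem k1), fun w hw => ?_, fun z hz => ?_⟩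
      · show k (u (k⁻¹ w)) = w
        rw [hu.2.1 _ (subStab_apply (inv_mem k2) hw)]; simp
      · simpa using subStab_apply k2 (hu.2.2 _ (perp_inv (mem_UG.1 ((UG B).inv_mem k1))
          (fun w hw => subStab_apply (inv_mem k2) hw) z hz))))
  have e := mem_UG.1 n1.1 v' v'
  have k : ∀ y, y - v' ∈ W → B y y = B v' v' → ∃ s ∈ S, s (n v') = y := fun y y1 y2 => by
    obtain ⟨u, u1, u2⟩ := mv hH hB w1 w2 n2 y1 (e ▸ hv') (y2.trans e.symm)
    obtain ⟨s, hs, t, ht, rfl⟩ := hn u u1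
    exact ⟨s, hs, by simpa [(g2 t ht).1] using u2⟩
  obtain ⟨s, s1, s2⟩ := k v' (by simp) rfl
  obtain ⟨t, t1, t2⟩ := k (v' + x) (by simpa using hx) (by
    simp only [map_add, LinearMap.add_apply, mem_perp.1 (w1 hx) x hx]
    linear_combination h3)
  exact ⟨t * s⁻¹, mul_mem t1 (inv_mem s1), by rw [← t2, ← congrArg t (s.symm_apply_eq.2 s2.symm)]; rfl⟩

theorem exists_max (w1 : W ≤ perp B W) : ∃ D, W ≤ D ∧ D ≤ perp B D ∧
    finrank F (perp B D) ≤ finrank F D + 1 ∧ ∀ z ∈ perp B D, B z z = 0 → z ∈ D := by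
  obtain ⟨D, ⟨d1, d2⟩, mx⟩ := (set_has_maximal_iff_noetherian.2 (inferInstance : IsNoetherian F V))
    {D | W ≤ D ∧ D ≤ perp B D} ⟨W, le_rfl, w1⟩
  have k : ∀ z ∈ perp B D, B z z = 0 → z ∈ D := fun z hz h => by
    by_contra n
    have l := (Submodule.span_singleton_le_iff_mem z _).2 hz
    refine mx (D ⊔ F ∙ z) ⟨d1.trans le_sup_left, ?_⟩ (lt_of_le_of_ne le_sup_left fun e =>
      n (e.ge (Submodule.mem_sup_right (Submodule.mem_span_singleton_self z))))
    rw [perp_sup]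
    exact sup_le (le_inf d2 ((hH.wittPair hB).le_perp_comm.1 l))
      (le_inf l ((Submodule.span_singleton_le_iff_mem z _).2 (mem_perp_singleton.2 h)))
  refine ⟨D, d1, d2, ?_, k⟩
  by_contra n
  obtain ⟨C, hC⟩ := D.exists_isCompl
  have h1 := Submodule.finrank_add_eq_of_isCompl hC
  have h2 := Submodule.finrank_sup_add_finrank_inf_eq C (perp B D)
  have h3 := Submodule.finrank_le (C ⊔ perp B D)
  obtain ⟨z, z1, z0, z2⟩ := exists_isotropic_mem hH.ne_id hH.invol hH.symm (U := C ⊓ perp B D) (by omega)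
  exact z0 ((Submodule.disjoint_def.1 hC.disjoint) z (k z z1.2 z2) z1.1)

theorem scalar (ha : ¬ p ∣ orderOf a) (iso : ∀ x y, B (a x) (a y) = B x y) (w1 : W ≤ perp B W)
    (hμ : σ μ * μ = 1) (h : ∀ z ∈ perp B W, a z = μ • z) (z : V) : a z = μ • z :=
  eig_of_mod ha h (mem_perp.2 fun w hw => by
    have := iso w z
    rw [h w (w1 hw), LinearMap.map_smulₛₗ, LinearMap.smul_apply, smul_eq_mul] at this
    rw [map_sub, map_smul, smul_eq_mul]
    linear_combination μ * this - B w (a z) * hμ)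

theorem norm_eig (iso : ∀ x y, B (a x) (a y) = B x y) (h1 : a x = μ • x) (h2 : a y = μ • y)
    (h : B x y ≠ 0) : σ μ * μ = 1 := by
  have := iso x y
  simp only [h1, h2, LinearMap.map_smulₛₗ, LinearMap.smul_apply, smul_eq_mul, RingHom.id_apply] at this
  exact mul_right_cancel₀ h (by linear_combination this)

theorem exists_ni (he : B e e = 0) (h : B e f ≠ 0) : ∃ k : F, B (f + k • e) (f + k • e) ≠ 0 := by
  by_cases k : B f f = 0
  · obtain ⟨t, ht⟩ := exists_trace_ne_zero σ (.inl hH.ne_id)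
    have h' : B f e ≠ 0 := mt hH.refl h
    refine ⟨t / B f e, ?_⟩
    simp only [map_add, LinearMap.map_smulₛₗ, LinearMap.add_apply, LinearMap.smul_apply, smul_eq_mul,
      RingHom.id_apply, k, he, map_div₀, hH.eq, div_mul_cancel₀ _ h]
    simpa [add_comm, h'] using ht
  · exact ⟨0, by simpa using k⟩

theorem mixed (ha : ¬ p ∣ orderOf a) (ma : a ∈ SUG B) (h : Fac p (SUG B) a b)
    (hS : IsSyl p S (SUG B ⊓ centralizer {a})) (hT : IsSyl p T (SUG B ⊓ centralizer {b}))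
    (hv : B v v ≠ 0) (h0 : ∀ t ∈ T, t v = v) : ∃ c : F, ∀ z, a z = c • z := by
  have hW := hH.wittPair hB
  have iso := mem_UG.1 ma.1
  have isoS : ∀ s ∈ S, ∀ x y, B (s x) (s y) = B x y := fun t ht => mem_UG.1 (hS.le ht).1.1
  have cm : ∀ s ∈ S, ∀ v, s (a v) = a (s v) := fun s hs v => DFunLike.congr_fun (comm hS hs) v
  have K := fun W v' x => key (W := W) (v' := v') (x := x) hH hB h hS hT hv h0
  have E : ∀ {z x : V} {c : F}, a z = c • z → (∃ s ∈ S, s z = z + x) → a x = c • x :=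
    fun {z x c} e ⟨s, hs, k⟩ => by simpa [e, k] using (cm s hs z).symm
  obtain ⟨A, a1, a2, a3, a4⟩ := exists_W hW hS.isPGroup (fun _ => comm hS) isoS iso
  obtain ⟨W, w0, w1, w2, w3⟩ := exists_max hH hB a1
  have w4 : W ≤ perp B A := w1.trans (perp_anti w0)
  have w5 : ∀ s ∈ S, ∀ z ∈ perp B A, s z - z ∈ W := fun s hs z hz => w0 (a4 s hs z hz)
  have w6 : ∀ s ∈ S, ∀ w ∈ W, s w ∈ W := fun s hs w hw => by simpa using add_mem (w5 s hs w (w4 hw)) hw
  obtain ⟨t, t0, ht⟩ := exists_skew_ne_zero hH.ne_id hH.invol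
  by_cases k : perp B W ≤ W
  swap
  · have m : ∀ z ∈ perp B W, z ∉ W → (perp B W ≤ W ⊔ F ∙ z) ∧ ∀ x ∈ W, ∃ s ∈ S, s z = z + x :=
      fun z z1 z2 => by
      have l : perp B W ≤ W ⊔ F ∙ z := (Submodule.eq_of_le_of_finrank_le
        (sup_le w1 ((Submodule.span_singleton_le_iff_mem _ _).2 z1)) (w2.trans
          (Submodule.finrank_lt_finrank_of_lt (lt_of_le_of_ne le_sup_left fun e =>
            z2 (e.ge (Submodule.mem_sup_right (Submodule.mem_span_singleton_self z))))))).ge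
      exact ⟨l, fun x hx => K W z x w1 l (mt (w3 z z1) z2) w6
        (fun s hs => w5 s hs z (perp_anti w0 z1)) hx (by
          simp [mem_perp.1 z1 x hx, hH.refl (mem_perp.1 z1 x hx)])⟩
    obtain ⟨z, z1, z2⟩ := SetLike.not_le_iff_exists.1 k
    obtain rfl : W = A := le_antisymm (fun x hx => by
      obtain ⟨s, hs, e⟩ := (m z z1 z2).2 x hx
      simpa [e] using a4 s hs z (perp_anti w0 z1)) w0
    obtain ⟨w, hw, _, hk, e⟩ := Submodule.mem_sup.1 ((m z z1 z2).1 (perp_inv iso a2 z z1))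
    obtain ⟨c, rfl⟩ := Submodule.mem_span_singleton.1 hk
    obtain ⟨u, hu, e'⟩ := lift_eig ha a2 (c := c) (z := z) (by simpa [← e] using hw)
    have u1 : z - u ∈ perp B W := sub_mem z1 (w1 hu)
    have u2 : z - u ∉ W := fun n => z2 (by simpa using add_mem n hu)
    refine ⟨c, scalar hH hB ha iso w1 (norm_eig hH hB iso e' e' (mt (w3 _ u1) u2)) fun y hy => ?_⟩
    obtain ⟨w, hw, _, hk, rfl⟩ := Submodule.mem_sup.1 ((m _ u1 u2).1 hy)
    obtain ⟨d, rfl⟩ := Submodule.mem_span_singleton.1 hk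
    rw [map_add, map_smul, e', E e' ((m _ u1 u2).2 w hw), smul_add, smul_comm]
  replace K := fun z x => K W z x w1 (k.trans le_sup_left)
  obtain rfl : W = A := by
    refine le_antisymm (fun e he => ?_) w0
    by_contra n
    obtain ⟨x, x1, x2⟩ := SetLike.not_le_iff_exists.1 fun l : perp B A ≤ perp B (perp B A) =>
      n (hW.perp_perp A ▸ l (w4 he))
    obtain ⟨y, y1, y2⟩ : ∃ y ∈ perp B A, B y x ≠ 0 := by simpa [mem_perp] using x2
    obtain ⟨c, d, z0⟩ := exists_nonisotropic (.inl hH.ne_id) hH.symm y2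
    have z1 : c • y + d • x ∈ perp B A := add_mem (Submodule.smul_mem _ _ y1) (Submodule.smul_mem _ _ x1)
    generalize c • y + d • x = z at z0 z1
    obtain ⟨c, c0, hc⟩ : ∃ c : F, c ≠ 0 ∧ σ c * B e z + c * B z e = 0 := by
      by_cases q : B e z = 0
      · exact ⟨1, one_ne_zero, by simp [q, hH.refl q]⟩
      · exact ⟨t * B e z, mul_ne_zero t0 q, by rw [map_mul, ht, hH.eq]; ring⟩
    obtain ⟨s, hs, e'⟩ := K z (c • e) z0 w6 (fun s hs => w5 s hs z z1) (W.smul_mem c he) (by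
      simpa [LinearMap.map_smulₛₗ] using hc)
    exact n ((Submodule.smul_mem_iff _ c0).1 (by simpa [e'] using a4 s hs z z1))
  have ti : ∀ x ∈ W, ∀ y ∈ W, B x y = 0 := fun x hx y hy => mem_perp.1 (w1 hy) x hx
  have ex : ∀ z, z ∉ W → ∃ e ∈ W, B e z ≠ 0 := fun z hz => by simpa [mem_perp] using mt (@k z) hz
  have up : ∀ {z w : V}, w ∈ W → (∀ s ∈ S, s z - z ∈ W) → ∀ s ∈ S, s (z + w) - (z + w) ∈ W :=
    fun {z w} hw hz s hs => by
      rw [map_add, add_sub_add_comm]; exact add_mem (hz s hs) (sub_mem (w6 s hs w hw) hw)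
  obtain ⟨z, -, z1, z2⟩ := fix_mod (D := ⊤) hS.isPGroup w6 (by simp) fun l => hv (ti v (l trivial) v (l trivial))
  obtain ⟨e, he, e0⟩ := ex z z1
  obtain ⟨c, hc⟩ := exists_ni hH hB (ti e he e he) e0
  replace z2 := up (W.smul_mem c he) z2
  generalize z + c • e = y at hc z2
  have s1 : ∀ x ∈ W, B x y = 0 → B x (a y) + B y (a x) = 0 := fun x hx q => by
    obtain ⟨s, hs, e'⟩ := K y x hc w6 z2 hx (by simp [q, hH.refl q])
    have := isoS s hs y (a y)
    rw [cm s hs, e'] at this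
    simp only [map_add, LinearMap.add_apply, ti x hx _ (a2 x hx)] at this
    linear_combination this
  have s2 : a y ∈ W ⊔ F ∙ y := by
    refine (sup_le_sup_right k _) ?_
    rw [← hW.perp_perp (F ∙ y), ← hW.perp_inf]
    refine mem_perp.2 fun x hx => ?_
    have q := hH.refl (mem_perp_singleton.1 hx.2)
    obtain ⟨ω, hω⟩ := DFunLike.ne_iff.1 hH.ne_id
    have r1 := s1 x hx.1 q
    have r2 := s1 (ω • x) (W.smul_mem ω hx.1) (by simp [LinearMap.map_smulₛₗ, q])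
    simp only [LinearMap.map_smulₛₗ, LinearMap.smul_apply, smul_eq_mul, map_smul, RingHom.id_apply] at r2 hω
    exact (mul_eq_zero.1 (by linear_combination r2 - ω * r1 : (σ ω - ω) * B x (a y) = 0)).resolve_left
      (sub_ne_zero.2 hω)
  obtain ⟨w, hw, _, hk, e'⟩ := Submodule.mem_sup.1 s2
  obtain ⟨l, rfl⟩ := Submodule.mem_span_singleton.1 hk
  obtain ⟨u, hu, f1⟩ := lift_eig ha a2 (c := l) (z := y) (by simpa [← e'] using hw)
  have f2 : y - u ∉ W := fun n => not_mem hH hB w1 hc (by simpa using add_mem n hu)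
  have f3 := up (neg_mem hu) z2
  rw [← sub_eq_add_neg] at f3
  generalize y - u = f at f1 f2 f3
  obtain ⟨g, hg, g0, g1⟩ : ∃ g ∈ W, B g f ≠ 0 ∧ a g = l • g := by
    obtain ⟨e, he, e0⟩ := ex f f2
    obtain ⟨c, hc⟩ := exists_ni hH hB (ti e he e he) e0
    obtain ⟨s, hs, e'⟩ := K (f + c • e) ((t * B e f) • e) hc w6 (up (W.smul_mem c he) f3)
      (W.smul_mem _ he) (by simp [LinearMap.map_smulₛₗ, ti e he e he, ht, hH.eq]; ring)
    refine ⟨s f - f, f3 s hs, ?_, E f1 ⟨s, hs, by simp⟩⟩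
    have r1 : B (s e) f = B e f := by
      have := isoS s hs e f
      have := ti _ (w6 s hs e he) _ (f3 s hs)
      rw [map_sub] at this
      grind
    rw [map_add, map_smul] at e'
    have r2 := congrArg (B · f) e'
    simp only [map_add, LinearMap.map_smulₛₗ, LinearMap.add_apply, LinearMap.smul_apply, smul_eq_mul, r1] at r2
    rw [map_sub, LinearMap.sub_apply, show B (s f) f - B f f = σ (t * B e f) * B e f by linear_combination r2]
    simp [t0, e0]
  obtain ⟨c, hc⟩ := exists_ni hH hB (ti g hg g hg) g0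
  have v1 : a (f + c • g) = l • (f + c • g) := by rw [map_add, map_smul, f1, g1, smul_add, smul_comm]
  refine ⟨l, scalar hH hB ha iso w1 (norm_eig hH hB iso g1 f1 g0) fun w hw => ?_⟩
  have g2 : B f g ≠ 0 := mt hH.refl g0
  have x1 : w - (B f w / B f g) • g ∈ W := sub_mem (k hw) (W.smul_mem _ hg)
  have x2 : B (f + c • g) (w - (B f w / B f g) • g) = 0 := by
    rw [map_add, LinearMap.add_apply, ti _ (W.smul_mem c hg) _ x1]
    simp [g2]
  have := E v1 (K _ _ hc w6 (up (W.smul_mem c hg) f3) x1 (by rw [x2, hH.refl x2, add_zero]))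
  rw [map_sub, map_smul, g1, smul_sub, smul_comm, sub_left_inj] at this
  exact this

theorem not_fac (ha : ¬ p ∣ orderOf a) (hb : ¬ p ∣ orderOf b) (ma : a ∈ SUG B) (mb : b ∈ SUG B)
    (na : ∀ c : F, ∃ v, a v ≠ c • v) (nb : ∀ c : F, ∃ v, b v ≠ c • v) :
    ¬ Fac p (SUG B) a b := fun h => by
  have hW := hH.wittPair hB
  obtain ⟨S, hS⟩ := exists_isSyl p (SUG B ⊓ centralizer {a})
  obtain ⟨T, hT⟩ := exists_isSyl p (SUG B ⊓ centralizer {b})
  have ex : ∀ {a b : V ≃ₗ[F] V} {S T : Subgroup (V ≃ₗ[F] V)}, ¬ p ∣ orderOf a → ¬ p ∣ orderOf b →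
      a ∈ SUG B → (∀ c : F, ∃ v, a v ≠ c • v) → (∀ c : F, ∃ v, b v ≠ c • v) → Fac p (SUG B) a b →
      IsSyl p S (SUG B ⊓ centralizer {a}) → IsSyl p T (SUG B ⊓ centralizer {b}) →
      ∃ e f, e ≠ 0 ∧ f ∉ F ∙ e ∧ B e e = 0 ∧ B f f = 0 ∧ B e f = 0 ∧ ∀ s ∈ T, s e = e ∧ s f = f :=
    fun {a b S T} ha hb ma na nb h hS hT => by
    have k : ∀ v, (∀ t ∈ T, t v = v) → B v v = 0 := fun v hv => by
      by_contra n
      obtain ⟨c, hc⟩ := mixed hH hB ha ma h hS hT n hv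
      exact (na c).elim fun v e => e (hc v)
    obtain ⟨e, e0, he⟩ := two_fix hT.isPGroup (fun _ => comm hT) hb nb 0
    obtain ⟨f, f0, hf⟩ := two_fix hT.isPGroup (fun _ => comm hT) hb nb e
    refine ⟨e, f, by simpa using e0, f0, k e he, k f hf, ?_, fun s hs => ⟨he s hs, hf s hs⟩⟩
    by_contra n
    obtain ⟨c, hc⟩ := exists_ni hH hB (k e he) n
    exact hc (k _ fun t ht => by simp [he t ht, hf t ht])
  obtain ⟨e, f, e0, f0, e1, f1, k, h1⟩ := ex hb ha mb nb na h.symm hT hS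
  obtain ⟨e', f', e0', f0', e1', f1', k', h2⟩ := ex ha hb ma na nb h hS hT
  obtain ⟨g, hg, g1, g2⟩ := hW.exists_isom_pair (SSp.indep e0' f0') (SSp.indep e0 f0) (e1.trans e1'.symm)
    (f1.trans f1'.symm) (k.trans k'.symm)
  obtain ⟨y, y1, y2⟩ := hW.exists_dual_vec f0
  have y3 : B e (-y) = 0 := by simp [y2 e (Submodule.mem_span_singleton_self e)]
  have y4 : B (-y) f = -1 := by simp [hH.flip_one y1]
  obtain ⟨c, hc⟩ := hH.exists_trace (-y)
  have e2 : e ∉ F ∙ f := fun n => by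
    obtain ⟨c, rfl⟩ := Submodule.mem_span_singleton.1 n
    exact f0 (Submodule.mem_span_singleton.2 ⟨c⁻¹, inv_smul_smul₀ (left_ne_zero_of_smul e0) f⟩)
  obtain ⟨z, z1, z2, z3⟩ := hW.exists_partner e2 (by simpa using e1) fun x hx => by
    obtain ⟨c, rfl⟩ := Submodule.mem_span_singleton.1 hx
    simp [LinearMap.map_smulₛₗ, hH.refl k]
  replace z1 : B z z = 0 := by simpa using z1
  obtain ⟨l, hl⟩ := exists_uDil_mul_mem hH hB e1 z1 z2 ⟨g, hg⟩
  have m := mem_SUG_iff.2 hl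
  have j1 : (uDil hH e1 z1 z2 l * ⟨g, hg⟩).1 e' = (l : F) • e := by simp [g1, uDil_left]
  have j2 : (uDil hH e1 z1 z2 l * ⟨g, hg⟩).1 f' = f := by
    simpa [g2] using uDil_of_perp hH e1 z1 z2 l k (hH.refl (z3 f (Submodule.mem_span_singleton_self f)))
  generalize (uDil hH e1 z1 z2 l * ⟨g, hg⟩).1 = j at m j1 j2
  refine e0 (SSp.not_TT h (.refl _ _) (.of m b) hS (syl_cj hT (le_normalizer m)) h1 ?_
    (mem_SUG_iff.2 (mem_suSub.2 (det_uEich hH e1 y3 hc)))
    (by rw [uEich_apply_of_perp _ _ _ _ e1, hH.refl y3]; simp)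
    (by rw [uEich_apply_of_perp _ _ _ _ k, y4]; simp))
  rintro _ ⟨s, hs, rfl⟩
  refine ⟨smul_right_injective V l.ne_zero ?_, ?_⟩
  · simp only [← map_smul, ← j1]
    simp [h2 s hs]
  · simp [← j2, h2 s hs]

end SSU

theorem s_SU {X : Type*} [Group X] (h : IsPSUChar p X) : NoS p X := by
  obtain ⟨F, _, _, _, n, q, hq, hn, -, ⟨e⟩⟩ := h
  obtain ⟨σ, h1, h2, h3⟩ := exists_conj hq
  refine NoS.of_equiv (noS_quot (fun k => ?_) fun a b na nb ha hb h => ?_) e
  · rw [Cfsg.Agent.S0279.result hq n hn] at k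
    obtain ⟨m, -, hm⟩ := FiniteField.card F p
    have : p ∣ q := hp.out.dvd_of_dvd_pow (n := 2) (by rw [← hq, hm]; exact dvd_pow_self p m.ne_zero)
    exact hp.out.one_lt.ne' (Nat.dvd_one.1 ((Nat.dvd_add_right this).1 (k.trans (Nat.gcd_dvd_right _ _))))
  · exact SSU.not_fac (isHerm_hermSesq h2 h3) (hermSesq_nondegenerate σ) (by simpa using ha)
      (by simpa using hb) (suEquiv n h1 a).2 (suEquiv n h1 b).2 (CL.not_scalar (suEquiv n h1) na)
      (CL.not_scalar (suEquiv n h1) nb) (h.map (suEquiv n h1))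

end CF.Ah
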