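import Cfsg.Agent.Ah.CL
import Cfsg.Agent.Ah.FA
import Cfsg.Agent.Chev.ClsSp

/-! Semisimple classes of symplectic groups. -/

set_option autoImplicit false
set_option linter.unusedSectionVars false

namespace CF.Ah

open CF.Loc CF.Geom Module Subgroup Cfsg

variable {p : ℕ} [hp : Fact p.Prime]

namespace SSp

open CL

variable {F V : Type*} [Field F] [Finite F] [CharP F p] [AddCommGroup V] [Module F V]
  [FiniteDimensional F V] {H S T : Subgroup (V ≃ₗ[F] V)} {a b x y t : V ≃ₗ[F] V} {e f : V}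

/-- The two Sylow subgroups do not fix the same plane. -/
theorem not_TT (h : Fac p H a b) (hx : Cj H a x) (hy : Cj H b y)
    (hS : IsSyl p S (H ⊓ centralizer {x})) (hT : IsSyl p T (H ⊓ centralizer {y}))
    (h1 : ∀ s ∈ S, s e = e ∧ s f = f) (h2 : ∀ s ∈ T, s e = e ∧ s f = f) (ht : t ∈ H) (h3 : t e = e)
    (h4 : t f = f + e) : e = 0 := by
  have := fin H
  have k : ∀ n : ℕ, (t ^ n) e = e ∧ (t ^ n) f = f + (n : F) • e := fun n => by
    induction n with
    | zero => simp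
    | succ n ih => simp [pow_succ, h3, h4, ih.1, ih.2, add_smul, add_assoc]
  have h5 : t⁻¹ e = e := t.symm_apply_eq.2 h3.symm
  have h6 : t⁻¹ f = f - e := t.symm_apply_eq.2 (by simp [h3, h4])
  have := mem_of_fac (N := H ⊓ (MulAction.stabilizer _ e ⊓ MulAction.stabilizer _ f)) h hx hy hS hT inf_le_left
    (fun s hs => ⟨(hS.le hs).1, h1 s hs⟩) (fun s hs => ⟨(hT.le hs).1, h2 s hs⟩) ht
    (fun n ⟨n1, (n2 : n e = e), (n3 : n f = f)⟩ => ⟨H.mul_mem (H.mul_mem ht n1) (H.inv_mem ht),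
      show t (n (t⁻¹ e)) = e by rw [h5, n2, h3],
      show t (n (t⁻¹ f)) = f by simp [h6, n2, n3, h3, h4]⟩)
    ⟨pow_mem ht p, (k p).1, show (t ^ p) f = f by simp [(k p).2]⟩
  exact left_eq_add.1 ((this.2.2 : t f = f).symm.trans h4)

theorem indep (e0 : e ≠ 0) (h : f ∉ F ∙ e) : LinearIndependent F ![e, f] :=
  (LinearIndependent.pair_iff' e0).2 fun c k => h (Submodule.mem_span_singleton.2 ⟨c, k⟩)

variable {B : LinearMap.BilinForm F V}

theorem exists_T (hB : B.Nondegenerate) (hA : B.IsAlt) (h3 : 3 ≤ finrank F V) (ha : ¬ p ∣ orderOf a)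
    (hn : ∀ c : F, ∃ v, a v ≠ c • v) (hS : IsSyl p S (SpG B ⊓ centralizer {a})) :
    ∃ e f, e ≠ 0 ∧ f ∉ F ∙ e ∧ B e f = 0 ∧ ∀ s ∈ S, s e = e ∧ s f = f := by
  obtain ⟨e, e0, he⟩ := two_fix hS.isPGroup (fun _ => comm hS) ha hn 0
  obtain ⟨f, f0, hf⟩ := two_fix hS.isPGroup (fun _ => comm hS) ha hn e
  replace e0 : e ≠ 0 := by simpa using e0
  by_cases k : B e f = 0
  · exact ⟨e, f, e0, f0, k, fun s hs => ⟨he s hs, hf s hs⟩⟩
  obtain ⟨z, z1, z0, hz⟩ := exists_fix (D := perp B (Submodule.span F {e, f})) hS.isPGroup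
    (fun s hs v hv => mem_perp_pair.2 ⟨by
      rw [← he s hs, mem_SpG.1 (hS.le hs).1, (mem_perp_pair.1 hv).1], by
      rw [← hf s hs, mem_SpG.1 (hS.le hs).1, (mem_perp_pair.1 hv).2]⟩) fun n => by
      have := (isWittPair_alt B hB hA).finrank_perp (Submodule.span F {e, f})
      rw [n, finrank_bot, IsWittPair.finrank_span_hyperbolic (hA e) k] at this
      omega
  refine ⟨e, z, e0, fun n => ?_, (mem_perp_pair.1 z1).1, fun s hs => ⟨he s hs, hz s hs⟩⟩
  obtain ⟨c, rfl⟩ := Submodule.mem_span_singleton.1 n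
  have := (mem_perp_pair.1 z1).2
  rw [map_smul, smul_eq_zero] at this
  exact this.elim (left_ne_zero_of_smul z0) fun n => k (hA.isRefl _ _ n)

theorem not_fac (hB : B.Nondegenerate) (hA : B.IsAlt) (h3 : 3 ≤ finrank F V) (ha : ¬ p ∣ orderOf a)
    (hb : ¬ p ∣ orderOf b) (na : ∀ c : F, ∃ v, a v ≠ c • v) (nb : ∀ c : F, ∃ v, b v ≠ c • v) :
    ¬ Fac p (SpG B) a b := fun h => by
  obtain ⟨S, hS⟩ := exists_isSyl p (SpG B ⊓ centralizer {a})
  obtain ⟨T, hT⟩ := exists_isSyl p (SpG B ⊓ centralizer {b})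
  obtain ⟨e, f, e0, f0, k, h1⟩ := exists_T hB hA h3 ha na hS
  obtain ⟨e', f', e0', f0', k', h2⟩ := exists_T hB hA h3 hb nb hT
  have W := isWittPair_alt B hB hA
  obtain ⟨g, hg, g1, g2⟩ := W.exists_isom_pair (indep e0' f0') (indep e0 f0) rfl rfl (k.trans k'.symm)
  obtain ⟨t, ht, t1, t2⟩ := W.exists_isom_pair (indep e0 f0) (indep (f := f + e) e0 fun n =>
    f0 (by simpa using sub_mem n (Submodule.mem_span_singleton_self e))) rfl rfl (by simp [hA e])
  refine e0 (not_TT h (.refl _ _) (.of hg b) hS (syl_cj hT (le_normalizer hg)) h1 ?_ ht t1 t2)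
  rintro _ ⟨s, hs, rfl⟩
  subst g1 g2
  simp [h2 s hs]

end SSp

theorem s_Sp {X : Type*} [Group X] (h : IsPSpChar p X) : NoS p X := by
  obtain ⟨F, _, _, _, m, hm, -, ⟨e⟩⟩ := h
  refine NoS.of_equiv (noS_quot (fun n => ?_) fun a b na nb ha hb h => ?_) e
  · rw [CF.Chev.card_center_Sp (by omega), Nat.card_eq_fintype_card] at n
    obtain ⟨k, -, hk⟩ := FiniteField.card F p
    have := n.trans (Nat.gcd_dvd_right _ _)
    rw [hk] at this
    exact hp.out.one_lt.ne' (Nat.dvd_one.1 ((Nat.dvd_sub_iff_right (Nat.one_le_pow _ _ hp.out.pos)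
      (dvd_pow_self p k.ne_zero)).1 this))
  · exact SSp.not_fac (sympBilin_nondegenerate m) (sympBilin_isAlt m) (by simp; omega)
      (by simpa using ha) (by simpa using hb) (CL.not_scalar (spEquiv m F) na)
      (CL.not_scalar (spEquiv m F) nb) (h.map (spEquiv m F))

end CF.Ah
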