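import Cfsg.Agent.Ah.ST2a

/-! No factorization by centralizers of semisimple elements in `²E₆(q)`. -/

set_option autoImplicit false
set_option synthInstance.maxSize 1024

namespace CF.Ah

open CF.BN CF.Chev CF.Chev.StRep CF.Loc Cfsg Cfsg.Lie

namespace ST2

variable {K : Type*} [Field K] {G : Type*} [Group G] {ρ : StRep cE6 K G} {T : Tw ρ} {q : ℕ} {φ : K →+* K}
  {p : ℕ} [Fact p.Prime] {a b x y : G} {J : List (Fin 6)} {J' : Set (Fin 6)} {L : List (List (Fin 6))}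
  {S S₀ : List (Fin 72)}

theorem uj {g : G} {I : List (Fin 6)} (hρ : ρ.Faithful) (h : g ∈ ρ.UJ {j | j ∈ J}) (h' : g ∈ ρ.UJ {j | j ∈ I})
    (c : ∀ r, cE6.Pos r → ¬ cE6.InSub {j | j ∈ J} r → ¬ cE6.InSub {j | j ∈ I} r → r ∈ cE6.up S) :
    g ∈ ρ.U (cE6.up S) :=
  ρ.U_mono (fun r hr => c r hr.1.1 hr.1.2 hr.2.2) (mem_U_inter hρ (cE6.closed_rad _) (cE6.isNil_pos.mono fun _ h => h.1)
    (cE6.closed_rad _) (cE6.isNil_pos.mono fun _ h => h.1) h h')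

variable (h : T.IsGr pE6 φ)
include h

theorem move (S : St p T (gE6 ρ q) 1 a b) (hy : y ∈ ρ.H ⊓ gE6 ρ q) (h1 : y ≠ 1) {i : Fin 6} (hi : i = 0 ∨ i = 2) :
    ∃ z ∈ ρ.H ⊓ gE6 ρ q, Cj (gE6 ρ q) y z ∧ ¬ Commute z (ρ.x (cE6.simple i) 1) := by
  by_contra! c
  have k : ∀ v r, act v r = 42 → Commute y (ρ.x r 1) := fun v r e => by
    obtain ⟨u, hu⟩ : ∃ u, act (u ++ v) r = cE6.simple i := by
      rcases hi with rfl | rfl
      · exact ⟨[2, 0], by rw [act] at e; rw [act, List.flatMap_append, List.foldr_append, e]; decide +kernel⟩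
      · exact ⟨[], e.trans (by decide +kernel)⟩
    obtain ⟨z, z1, z2, z3⟩ := exists_move S.lt hy (wf h.p_eq (u ++ v))
    exact (z3 r).1 (by rw [wp_eq, ← act, hu]; exact c z z1 z2)
  have sub : ∀ r s u, cE6.vec u = cE6.vec r + cE6.vec (cE6.neg s) → Commute y (ρ.x r 1) → Commute y (ρ.x s 1) →
      Commute y (ρ.x u 1) := fun r s u q a b => cen_add T.faith hy.1 q a (cen_neg T.faith hy.1 b)
  have c0 := k [] 42 rfl
  have c1 := k [3] 43 (by decide +kernel)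
  have c2 := sub 57 42 56 (by decide +kernel) (k [0] 57 (by decide +kernel)) c0
  have c3 := sub 43 42 39 (by decide +kernel) c1 c0
  have c4 := sub 50 43 46 (by decide +kernel) (k [3, 1] 50 (by decide +kernel)) c1
  have c5 := (h.spec (r := 42) (s := 37) (by decide +kernel)).1 ▸ (cen_π S.lt hy).2 c0
  have c6 := (h.spec (r := 56) (s := 36) (by decide +kernel)).1 ▸ (cen_π S.lt hy).2 c2
  refine h1 (eq_one_of_cen S.lt S.center hy.1 fun j => ?_)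
  rcases (by decide +kernel : ∀ j, cE6.simple j = 56 ∨ cE6.simple j = 46 ∨ cE6.simple j = 42 ∨ cE6.simple j = 39 ∨
    cE6.simple j = 37 ∨ cE6.simple j = 36) j with e | e | e | e | e | e <;> rwa [e]

variable (hφ : ∀ t, φ t = t ^ q) (M : LT p T (gE6 ρ q) 1)
include hφ M

theorem blk (v : List (Fin 6)) (c : K) : ∃ d, ρ.x (act v 42) c * ρ.x (act v 37) d ∈ gE6 ρ q := by
  obtain ⟨n, h1, w, h2, h3, -⟩ := ex_n h.p_eq M v
  obtain ⟨e, he⟩ := h2.acts.exists_conj_x 42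
  obtain ⟨f, hf⟩ := h2.acts.exists_conj_x 37
  have := mul_mem (mul_mem h1 (mem_gE6₂ (ρ := ρ) (r := 42) (s := 37) (by decide) hφ (e⁻¹ * c))) (inv_mem h1)
  rw [← conj_mul, he, hf, h3, h3, Units.mul_inv_cancel_left] at this
  exact ⟨_, this⟩

theorem fin (e : En J L) (v : List (Fin 6)) (S₀ : List (Fin 72)) (f : FU T (gE6 ρ q) a b) (hx : Cj (gE6 ρ q) a x)
    (hy : Cj (gE6 ρ q) b y) (h1 : Min T (gE6 ρ q) {j | j ∈ J} x) (h2 : Min T (gE6 ρ q) J' y)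
    (c : ((∀ b ∈ act v 42 :: S₀, cE6.Pos b) ∧ (∀ b ∈ S₀, cE6.Pos b) ∧ ∀ l ∈ L, (∀ j ∈ J, j ∈ l.flatMap swE6) →
      ∀ r ∈ cE6.up (act v 42 :: S₀), act l r ∈ cE6.up (act v 42 :: S₀) → r ∈ cE6.up S₀) ∧
      act v 37 ∈ cE6.up S₀ ∧ act v 42 ∉ cE6.up S₀ ∧ ∀ r ∈ [act v 42, act v 37], cE6.Pos r ∧ ¬ cE6.InSub {j | j ∈ J} r)
    (H : ∀ t ∈ ρ.UJ {j | j ∈ J}, t ∈ ρ.UJ J' → Commute t y → t ∈ ρ.U (cE6.up S₀)) : False := by
  obtain ⟨d, hd⟩ := blk h hφ M v 1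
  have u1 : ρ.x (act v 42) 1 * ρ.x (act v 37) d ∈ ρ.UJ {j | j ∈ J} :=
    mul_mem (ρ.x_mem_U (c.2.2.2 _ (by simp)) _) (ρ.x_mem_U (c.2.2.2 _ (by simp)) _)
  obtain ⟨s, hs, t, ht, c1, c2, e1⟩ := f _ _ x y hx hy h1 h2 _ ⟨ρ.UJ_le_Up _ u1, hd⟩
  have t1 := H t ((mul_mem_cancel_left (il hs)).1 (e1 ▸ u1)) ht.1 c2
  have m : ρ.U (cE6.up S₀) ≤ ρ.U (cE6.up (act v 42 :: S₀)) :=
    ρ.U_mono fun r ⟨b, hb, e⟩ => ⟨b, List.mem_cons_of_mem _ hb, e⟩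
  have d1 := ρ.x_mem_U c.2.1 d
  have s1 := top h.p_eq M e c.1 x s h1 c1 ((mul_mem_cancel_right (m t1)).1
    (e1 ▸ mul_mem (ρ.x_mem_U (S := cE6.up (_ :: S₀)) ⟨_, List.mem_cons_self, le_rfl⟩ _) (m d1)))
  have b0 : ρ.BSt (cE6.up S₀) := bst_up c.1.2.1
  exact c.2.2.1 ((T.faith.x_mem_U_iff b0.closed b0.isNil one_ne_zero).1
    ((mul_mem_cancel_right d1).1 (e1 ▸ mul_mem s1 t1)))

theorem herm [Finite K] (h0 : ∃ t, φ t ≠ t) (f : FU T (gE6 ρ q) a b) (hx : Cj (gE6 ρ q) a x)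
    (hy : Cj (gE6 ρ q) b y) (h1 : Min T (gE6 ρ q) J' x) (h2 : Min T (gE6 ρ q) {j | j ∈ [0, 2, 4, 5]} y)
    (Z : ∀ s ∈ ρ.UJ J', s ∈ ρ.UJ {j | j ∈ [0, 2, 4, 5]} → Commute s x → s ∈ ρ.U (cE6.up [46, 41, 44])) : False := by
  have hρ := T.faith
  have b2 : ρ.BSt (cE6.up [46, 41, 44]) := bst_up (by decide +kernel)
  have b3 : ρ.BSt (cE6.up [46, 41, 58]) := bst_up (by decide +kernel)
  have pi : ∀ r i, cE6.vec (T.π r) (pE6 i) = cE6.vec r i := fun r i => by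
    simpa [h.p_eq] using! M.compat r i
  have p1 : T.π 44 = 44 := cE6.vec_inj (funext fun i => by
    rw [← pE6.apply_symm_apply i, pi]; revert i; decide +kernel)
  have p2 : ∀ r ∈ cE6.up [46, 41, 58], T.π r ∈ cE6.up [46, 41, 58] := fun r hr => by
    obtain ⟨b, hb, e⟩ := (by decide +kernel : ∀ r ∈ cE6.up [46, 41, 58], ∃ b ∈ [46, 41, 58],
      ∀ i, cE6.vec b i ≤ cE6.vec r (pE6.symm i)) r hr
    exact ⟨b, hb, fun i => by rw [← pE6.apply_symm_apply i, pi, pE6.apply_symm_apply]; exact e i⟩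
  have key : ∀ c, ∃ z t, Commute t y ∧ T.c 44 * φ z = z ∧ (ρ.x 44 z)⁻¹ * t ∈ ρ.U (cE6.up [46, 41, 58]) ∧
      (ρ.x 58 c)⁻¹ * t ∈ ρ.U (cE6.up [46, 41, 44]) := fun c => by
    obtain ⟨d, hd⟩ := blk h hφ M [3, 0] c
    rw [show act [3, 0] 42 = 58 by decide +kernel, show act [3, 0] 37 = 41 by decide +kernel] at hd
    have u1 : ρ.x 58 c * ρ.x 41 d ∈ ρ.UJ {j | j ∈ [0, 2, 4, 5]} :=
      mul_mem (ρ.x_mem_U (And.intro (by decide +kernel) (by decide +kernel)) _)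
        (ρ.x_mem_U (And.intro (by decide +kernel) (by decide +kernel)) _)
    obtain ⟨s, hs, t, ht, c1, c2, e1⟩ := f _ _ x y hx hy h1 h2 _ ⟨ρ.UJ_le_Up _ u1, hd⟩
    have s1 := Z s hs.1 ((mul_mem_cancel_right (il ht)).1 (e1 ▸ u1)) c1
    have t1 : (ρ.x 58 c)⁻¹ * t ∈ ρ.U (cE6.up [46, 41, 44]) := by
      rw [show (ρ.x 58 c)⁻¹ * t = (ρ.x 58 c)⁻¹ * s⁻¹ * (ρ.x 58 c)⁻¹⁻¹ * ρ.x 41 d by
        rw [inv_inv, mul_assoc, e1]; group]
      exact mul_mem ((b2.conj_iff (inv_mem (ρ.x_mem_Bo (by decide +kernel) c))).2 (inv_mem s1))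
        (ρ.x_mem_U (by decide +kernel) d)
    obtain ⟨z, g, hg, e2⟩ := SR.split (S₀ := cE6.up [46, 41, 58]) (r := 44)
      (bst_up (L := [44, 46, 41, 58]) (by decide +kernel)) (by decide +kernel) ((mul_mem_cancel_left (inv_mem
        (ρ.x_mem_U (r := 58) (by decide +kernel) c))).1 (ρ.U_mono (fun r => by revert r; decide +kernel) t1))
    have e3 := T.σ_mem_U p2 hg
    rw [← inv_mul_eq_iff_eq_mul] at e2
    rw [← e2, map_mul, map_inv, T.σ_x, p1, h.φ_eq, T.mem_Fix.1 (M.form.fix ht.2)] at e3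
    refine ⟨z, t, c2, by_contra fun n => absurd ((hρ.x_mem_U_iff b3.closed b3.isNil (r := 44) (sub_ne_zero.2 n)).1 ?_)
      (by decide +kernel), e2 ▸ hg, t1⟩
    rw [sub_eq_neg_add, ρ.x_add, ρ.x_neg]
    subst e2
    simpa [mul_assoc] using mul_mem hg (inv_mem e3)
  choose z t k1 k2 k3 k4 using key
  have k := step h.p_eq M e4 2 (S := [46, 41, 58]) (top h.p_eq M e4 (S := [46, 45, 59]) (S₀ := [46])
    (by decide +kernel)) (by decide +kernel)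
  have inj : Function.Injective z := fun c c' e => by_contra fun n => by
    have h3 := k y ((t c)⁻¹ * t c') h2 ((k1 c).inv_left.mul_left (k1 c'))
      (by simpa [mul_assoc, e] using mul_mem (inv_mem (k3 c)) (k3 c'))
    refine absurd ((hρ.x_mem_U_iff b2.closed b2.isNil (r := 58) (sub_ne_zero.2 (Ne.symm n))).1 ?_) (by decide +kernel)
    rw [sub_eq_neg_add, ρ.x_add, ρ.x_neg]
    simpa [mul_assoc] using mul_mem (mul_mem (k4 c) (ρ.U_mono (fun r => by revert r; decide +kernel) h3))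
      (inv_mem (k4 c'))
  have all : ∀ u, T.c 44 * φ u = u := fun u => by
    obtain ⟨c, rfl⟩ := Finite.surjective_of_injective inj u
    exact k2 c
  obtain ⟨u, hu⟩ := h0
  exact hu (by simpa [show (T.c 44 : K) = 1 by simpa using all 1] using all u)

omit h hφ M in
/-- The pairs of types that need an argument. -/
def Good (m m' : List (Fin 6)) : Prop := (m' = [] ∧ (m = [] ∨ 0 ∈ m ∨ 2 ∈ m)) ∨
  ((m = [3] ∨ m = [1, 3]) ∧ (m' = [] ∨ m' = [0, 5] ∨ m' = [0, 2, 4, 5]))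

omit M in
theorem core [Finite K] (h0 : ∃ t, φ t ≠ t) (S : St p T (gE6 ρ q) 1 a b) (f : FU T (gE6 ρ q) a b)
    (hx : Cj (gE6 ρ q) a x) (hy : Cj (gE6 ρ q) b y) {I : List (Fin 6)} (h1 : Min T (gE6 ρ q) {j | j ∈ J} x)
    (h2 : Min T (gE6 ρ q) {j | j ∈ I} y) (g : Good J I) : False := by
  have M := S.lt
  have hρ := T.faith
  have hp := h.p_eq
  have mv : ∀ {a b x : G}, St p T (gE6 ρ q) 1 a b → Cj (gE6 ρ q) b x → Min T (gE6 ρ q) {j | j ∈ []} x → ∀ i, i = 0 ∨ i = 2 →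
      ∃ z ∈ ρ.H ⊓ gE6 ρ q, Cj (gE6 ρ q) b z ∧ ¬ Commute z (ρ.x (cE6.simple i) 1) := fun S hx m i hi =>
    let ⟨z, z1, z2, z3⟩ := move h S (Min.mem_H (by simpa using m)) (hx.ne_one S.nb) hi
    ⟨z, z1, hx.trans z2, z3⟩
  have sub : ∀ {y} r s u, y ∈ ρ.H → cE6.vec u = cE6.vec r + cE6.vec (cE6.neg (cE6.simple s)) →
      Commute y (ρ.x (cE6.simple s) 1) → ¬ Commute y (ρ.x u 1) → ¬ Commute y (ρ.x r 1) :=
    fun r s u hy q b n a => n (cen_add hρ hy q a (cen_neg hρ hy b))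
  rcases g with ⟨rfl, rfl | m | m⟩ | ⟨rfl | rfl, rfl | rfl | rfl⟩
  · obtain ⟨z, z1, z2, z3⟩ := mv S hy h2 0 (.inl rfl)
    obtain ⟨v, v1, v2, v3⟩ := mv ⟨M, S.center, S.mb, S.ma, S.nb, S.na⟩ hx h1 0 (.inl rfl)
    exact (f.tor₂ M v2 z2 v1 z1 0).elim v3 z3
  · obtain ⟨z, z1, z2, z3⟩ := mv S hy h2 0 (.inl rfl)
    exact z3 (f.tor M hx z2 h1 z1.1 S.mb m)
  · obtain ⟨z, z1, z2, z3⟩ := mv S hy h2 2 (.inr rfl)
    exact z3 (f.tor M hx z2 h1 z1.1 S.mb m)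
  · obtain ⟨z, z1, z2, z3⟩ := mv S hy h2 2 (.inr rfl)
    have z4 := sub 43 3 _ z1.1 (by decide +kernel) (f.tor M hx z2 h1 z1.1 S.mb (by simp)) z3
    exact fin h hφ M e1 [3] [56, 46, 37, 36] f hx z2 h1 (min_empty z1) (by decide +kernel) fun t ht _ c =>
      ST3.tor hρ (cE6.closed_rad _) (fun _ h => h.1) z1.1 ht c fun r hr e =>
        (by decide +kernel : ∀ r, cE6.Pos r → ¬ cE6.InSub {j | j ∈ [3]} r → r ≠ cE6.simple 2 → r ≠ 43 →
          r ∈ cE6.up [56, 46, 37, 36]) r hr.1 hr.2 (by rintro rfl; exact z3 e) (by rintro rfl; exact z4 e)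
  · exact fin h hφ M e1 [3] [46, 37] f hx hy h1 h2 (by decide +kernel) fun t ht ht' c =>
      ((nat hp hφ M 42 57 (S := [43, 46, 37]) (by decide +kernel)).trans (nat hp hφ M 43 58 (by decide +kernel)))
        y t h2 c (uj hρ ht ht' (by decide +kernel))
  · exact herm h hφ M h0 f hx hy h1 h2 fun s hs hs' c => top hp M e1 (S := [46, 43, 40]) (by decide +kernel)
      x s h1 c (uj hρ hs hs' (by decide +kernel))
  · obtain ⟨z, z1, z2, z3⟩ := mv S hy h2 2 (.inr rfl)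
    have z4 := sub 43 3 _ z1.1 (by decide +kernel) (f.tor M hx z2 h1 z1.1 S.mb (by simp)) z3
    have z5 := sub 50 1 _ z1.1 (by decide +kernel) (f.tor M hx z2 h1 z1.1 S.mb (by simp)) z4
    exact fin h hφ M e2 [1, 3] [56, 37, 36] f hx z2 h1 (min_empty z1) (by decide +kernel) fun t ht _ c =>
      ST3.tor hρ (cE6.closed_rad _) (fun _ h => h.1) z1.1 ht c fun r hr e =>
        (by decide +kernel : ∀ r, cE6.Pos r → ¬ cE6.InSub {j | j ∈ [1, 3]} r → r ≠ cE6.simple 2 → r ≠ 43 → r ≠ 50 →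
          r ∈ cE6.up [56, 37, 36]) r hr.1 hr.2 (by rintro rfl; exact z3 e) (by rintro rfl; exact z4 e)
            (by rintro rfl; exact z5 e)
  · exact fin h hφ M e2 [1, 3] [37] f hx hy h1 h2 (by decide +kernel) fun t ht ht' c =>
      (((nat hp hφ M 42 57 (S := [43, 50, 37]) (by decide +kernel)).trans (nat hp hφ M 43 58 (by decide +kernel))).trans
        (nat hp hφ M 50 61 (by decide +kernel))) y t h2 c (uj hρ ht ht' (by decide +kernel))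
  · exact herm h hφ M h0 f hx hy h1 h2 fun s hs hs' c => ρ.U_mono (fun r => by revert r; decide +kernel)
      (step hp M e2 1 (S := [43, 40]) (top hp M e2 (S := [50, 48, 44]) (S₀ := [44]) (by decide +kernel))
        (by decide +kernel) x s h1 c (uj hρ hs hs' (by decide +kernel)))

omit h hφ M in
/-- Associated types. -/
def AT : List (List (Fin 6) × List (Fin 6) × List (Fin 6)) :=
  [([1], [1, 3], [3]), ([3], [3, 1], [1]), ([2, 4], [2, 0], [0, 5]), ([0, 5], [0, 2], [2, 4]),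
    ([1, 2, 4], [1, 3, 2, 0], [0, 3, 5]), ([0, 1, 5], [1, 3], [0, 3, 5])]

omit M in
theorem main [Finite K] (h0 : ∃ t, φ t ≠ t) (S : St p T (gE6 ρ q) 1 a b) (ha : ¬ p ∣ orderOf a) (hb : ¬ p ∣ orderOf b) :
    ¬ FU T (gE6 ρ q) a b := fun f => by
  have M := S.lt
  have nf : ∀ {a : G}, a ∈ gE6 ρ q → ¬ p ∣ orderOf a → ∃ l ∈ (List.finRange 6).sublists, (∀ i, pE6 i ∈ l ↔ i ∈ l) ∧
      ∀ e ∈ (l, [], l) :: AT, e.1 = l → ∃ x, Cj (gE6 ρ q) a x ∧ Min T (gE6 ρ q) {j | j ∈ e.2.2} x := fun m n => by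
    obtain ⟨J, x, hx, h1⟩ := exists_min M m n
    obtain ⟨l, hl, rfl⟩ : ∃ l ∈ (List.finRange 6).sublists, J = {j | j ∈ l} := by
      classical exact ⟨_, List.mem_sublists.2 (List.filter_sublist (p := (· ∈ J))), by simp⟩
    refine ⟨l, hl, h.p_eq ▸ h1.stab, fun e he e1 => ?_⟩
    rcases List.mem_cons.1 he with rfl | he
    · exact ⟨x, hx, h1⟩
    obtain ⟨c1, c2⟩ := (by decide +kernel : ∀ e ∈ AT, (∀ j ∈ e.1, ∃ j', act e.2.1 (cE6.simple j) = cE6.simple j') ∧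
      ∀ j', j' ∈ e.2.2 ↔ ∃ j ∈ e.1, act e.2.1 (cE6.simple j) = cE6.simple j') e he
    subst e1
    obtain ⟨x', a1, a2⟩ := SE.mv M hx h1 (wf h.p_eq e.2.1) (by simp only [wp_eq]; exact c1)
    simp only [wp_eq] at a2
    exact ⟨x', a1, (Set.ext c2 : {j | j ∈ e.2.2} = _) ▸ a2⟩
  obtain ⟨l, l1, l2, l3⟩ := nf S.ma ha
  obtain ⟨m, m1, m2, m3⟩ := nf S.mb hb
  obtain ⟨e, e1, e2, e', e3, e4, c⟩ := (by unfold Good; decide +kernel : ∀ l ∈ (List.finRange 6).sublists,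
    (∀ i, pE6 i ∈ l ↔ i ∈ l) → ∀ m ∈ (List.finRange 6).sublists, (∀ i, pE6 i ∈ m ↔ i ∈ m) →
      ∃ e ∈ (l, [], l) :: AT, e.1 = l ∧ ∃ e' ∈ (m, [], m) :: AT, e'.1 = m ∧
        ((∃ j ∈ e.2.2, j ∈ e'.2.2) ∨ Good e.2.2 e'.2.2 ∨ Good e'.2.2 e.2.2)) l l1 l2 m m1 m2
  obtain ⟨x, hx, h1⟩ := l3 e e1 e2
  obtain ⟨y, hy, h2⟩ := m3 e' e3 e4
  rcases c with ⟨j, c, c'⟩ | c | c
  · exact Set.disjoint_left.1 (f.disj M hx hy h1 h2) c c'
  · exact core h hφ h0 S f hx hy h1 h2 c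
  · exact core h hφ h0 ⟨M, S.center, S.mb, S.ma, S.nb, S.na⟩ f.symm hy hx h2 h1 c

end ST2

theorem s_2E6 {p : ℕ} [Fact p.Prime] (K : Type) [Field K] [Fintype K] [CharP K p] {q : ℕ} (hq : IsPrimePow q)
    (hK : Fintype.card K = q ^ 2) : NoS p (twistedE6 K q) := by
  obtain ⟨φ, h1, h2⟩ := exists_frobE6 hq hK
  have M := ltE6 (p := p) h1 h2
  refine noS_of (packE6 h1 h2).e fun a ha b hb a1 b1 pa pb h => ST2.main (isGr_twE6 φ) h1 ?_
    ⟨M, linkE6.center_group K, ha, hb, a1, b1⟩ pa pb (h.fu M pa pb)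
  by_contra! c
  have := card_fix hq.one_lt hK
  rw [Nat.card_congr (Equiv.subtypeUnivEquiv fun t => (h1 t).symm.trans (c t)), Nat.card_eq_fintype_card, hK] at this
  nlinarith [hq.one_lt]

end CF.Ah
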