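import Cfsg.Agent.Ah.ST3
import Cfsg.Agent.Ah.SR0
import Cfsg.Agent.Ah.SE

/-! Centralizers of anisotropic elements of Levi subgroups of `²E₆(q)`. -/

set_option autoImplicit false

namespace CF.Ah

open CF.BN CF.Chev CF.Chev.StRep CF.Loc Cfsg Cfsg.Lie

namespace ST2

/-- The simple reflections. -/
def rf (i : Fin 6) (r : Fin 72) : Fin 72 := ⟨chevE6.reflectRoot i r % 72, Nat.mod_lt _ (by decide)⟩

/-- The action of a word in the twisted generators. -/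
def act (v : List (Fin 6)) (r : Fin 72) : Fin 72 := (v.flatMap swE6).foldr rf r

theorem wp_eq (l : List (Fin 6)) (r : Fin 72) : cE6.wp l r = l.foldr rf r := by
  induction l with
  | nil => rfl
  | cons i l ih =>
    rw [RootSys.wp_cons, Equiv.Perm.mul_apply, ih, List.foldr_cons]
    exact (Fin.ext ((congrArg (· % 72) (linkE6.reflectRoot_eq i _)).trans (Nat.mod_eq_of_lt (cE6.sref i _).2))).symm

noncomputable instance decUp (L : List (Fin 72)) (r : Fin 72) : Decidable (r ∈ cE6.up L) :=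
  inferInstanceAs (Decidable (∃ b ∈ L, ∀ i, cE6.vec b i ≤ cE6.vec r i))

noncomputable instance decIn (J : List (Fin 6)) (r : Fin 72) : Decidable (cE6.InSub {j | j ∈ J} r) :=
  inferInstanceAs (Decidable (∀ i, i ∉ J → cE6.vec r i = 0))

/-- `L` lists the elements of the parabolic subgroup of type `J`. -/
def En (J : List (Fin 6)) (L : List (List (Fin 6))) : Prop :=
  [] ∈ L ∧ ∀ l ∈ L, ∀ k ∈ J, ∃ l' ∈ L, ∀ r, act (l ++ [k]) r = act l' r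

theorem e1 : En [3] [[], [3]] := by unfold En; decide +kernel
theorem e2 : En [1, 3] [[], [1], [3], [1, 3], [3, 1], [1, 3, 1]] := by unfold En; decide +kernel
theorem e3 : En [0, 5] [[], [0]] := by unfold En; decide +kernel
theorem e4 : En [0, 2, 4, 5] [[], [0], [2], [0, 2], [2, 0], [0, 2, 0]] := by unfold En; decide +kernel

variable {K : Type*} [Field K] {G : Type*} [Group G] {ρ : StRep cE6 K G} {T : Tw ρ} {G1 : Subgroup G}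
  {ω : Fin 72 → ℝ} {p : ℕ} [Fact p.Prime] {x s : G} {J : List (Fin 6)} {L : List (List (Fin 6))}
  {S S' S₀ : List (Fin 72)}

/-- The part of `U_S` centralizing an anisotropic element lies in `U_{S₀}`. -/
def Kill (T : Tw ρ) (G1 : Subgroup G) (J : List (Fin 6)) (S S₀ : List (Fin 72)) : Prop :=
  ∀ x s, Min T G1 {j | j ∈ J} x → Commute s x → s ∈ ρ.U (cE6.up S) → s ∈ ρ.U (cE6.up S₀)

theorem Kill.trans (h : Kill T G1 J S S') (h' : Kill T G1 J S' S₀) : Kill T G1 J S S₀ :=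
  fun x s a b c => h' x s a b (h x s a b c)

variable (hp : T.S.p = pE6)
include hp

theorem wf (v : List (Fin 6)) : cE6.wp (v.flatMap swE6) ∈ T.S.Wf := by
  induction v with
  | nil => exact one_mem _
  | cons i v ih =>
    rw [List.flatMap_cons, RootSys.wp_append, ← (dataE6 hp).s_eq]
    exact mul_mem (Sym.s_mem_Wf i) ih

theorem ex_n (M : LT p T G1 ω) (v : List (Fin 6)) :
    ∃ n ∈ G1, ∃ w, ρ.NW n w ∧ (∀ r, w r = act v r) ∧ ∀ J : List (Fin 6), (∀ i ∈ v.flatMap swE6, i ∈ J) →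
      n ∈ ρ.LJ {j | j ∈ J} :=
  let ⟨n, h1, h2⟩ := M.form.exists_n (wf hp v)
  ⟨n, h1, _, h2, wp_eq _, fun _ h => h2.mem_LJ (cE6.wp_mem_WJ h)⟩

theorem cell (M : LT p T G1 ω) (e : En J L) (h : Min T G1 {j | j ∈ J} x) :
    ∃ w ∈ cE6.WJ {j | j ∈ J}, x ∈ ρ.Cell w ∧ ∃ l ∈ L, (∀ j ∈ J, j ∈ l.flatMap swE6) ∧ ∀ r, w r = act l r := by
  obtain ⟨w, h1, h2, h3, -⟩ := h.cell M
  obtain ⟨l, h4, h5⟩ := h.stab.induction (q := fun w => ∃ l ∈ L, ∀ r, w r = act l r) ⟨[], e.1, fun _ => rfl⟩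
    (fun w _ _ k hk _ ⟨l, a, b⟩ => let ⟨l', a', b'⟩ := e.2 l a k hk; ⟨l', a', fun r => by
      rw [← b', Equiv.Perm.mul_apply, b, (dataE6 hp).s_eq, wp_eq]
      simp [act]⟩) h1 h2
  refine ⟨w, h2, h3, l, h4, fun j hj => h.subset M h3 (I := {j | j ∈ l.flatMap swE6}) ?_ hj, h5⟩
  rw [show w = cE6.wp (l.flatMap swE6) from Equiv.ext fun r => (h5 r).trans (wp_eq _ r).symm]
  exact cE6.wp_mem_WJ fun _ h => h

theorem top (M : LT p T G1 ω) (e : En J L) (c : (∀ b ∈ S, cE6.Pos b) ∧ (∀ b ∈ S₀, cE6.Pos b) ∧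
    ∀ l ∈ L, (∀ j ∈ J, j ∈ l.flatMap swE6) → ∀ r ∈ cE6.up S, act l r ∈ cE6.up S → r ∈ cE6.up S₀) :
    Kill T G1 J S S₀ := fun _ _ h a b =>
  let ⟨_, _, h1, l, h2, h3, h4⟩ := cell hp M e h
  ST3.top T.faith (bst_up c.1) (bst_up c.2.1) h1 b a fun r q q' => c.2.2 l h2 h3 r q (h4 r ▸ q')

theorem step (M : LT p T G1 ω) (e : En J L) (k : Fin 6) (h0 : Kill T G1 J S' S₀)
    (c : (∀ b ∈ S, cE6.Pos b) ∧ (∀ b ∈ S₀, cE6.Pos b) ∧ (∀ i ∈ [k].flatMap swE6, i ∈ J) ∧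
    (∀ r, act [k] r ∈ cE6.up S₀ → r ∈ cE6.up S₀) ∧ ∀ l ∈ L, (∀ j ∈ J, j ∈ l.flatMap swE6) →
      (∀ r ∈ cE6.up S, act l r ∈ cE6.up S → r ∈ cE6.up S') ∨
        ∀ r ∈ cE6.up S, act l r ∈ cE6.up S → act [k] r ∈ cE6.up S') :
    Kill T G1 J S S₀ := fun x s h a b => by
  obtain ⟨w, w1, h1, l, h2, h3, h4⟩ := cell hp M e h
  have hS : ρ.BSt (cE6.up S) := bst_up c.1
  obtain ⟨u, hu, n, -, hn, u', hu', e⟩ := M.form.bruhat h.mem.2 h1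
  have u1 := ρ.Uw_le_Up _ hu'.1
  have u2 : u' ∈ ρ.LJ {j | j ∈ J} ⊓ G1 := ⟨ρ.UL_le_LJ _ (ρ.U_mono (fun _ hr => And.intro hr.1
    (by_contra fun h => hr.2 (cE6.pos_WJ_of_not_inSub w1 hr.1 h))) hu'.1), M.form.Up_le ⟨u1, hu'.2⟩⟩
  have h5 : n * (u' * s * u'⁻¹) * n⁻¹ ∈ ρ.U (cE6.up S) := (hS.conj_iff (ρ.Up_le_Bo hu.1)).1 (by
    rwa [show u * (n * (u' * s * u'⁻¹) * n⁻¹) * u⁻¹ = x * s * x⁻¹ by rw [e]; group, ← a.eq, mul_inv_cancel_right])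
  have h6 := mem_U_inter T.faith hS.closed hS.isNil (hS.closed.preimage hn.mem_Aut) (hS.isNil.preimage hn.mem_Aut)
    ((hS.conj_iff (ρ.Up_le_Bo u1)).2 b) (by
      simpa [mul_assoc] using hn.acts.inv_conj_mem_U (T := w ⁻¹' cE6.up S) (fun s hs => by simpa using hs) h5)
  refine ((bst_up c.2.1).conj_iff (ρ.Up_le_Bo u1)).1 ?_
  have a' : Commute (u' * s * u'⁻¹) (u' * x * u'⁻¹) := a.map (MulAut.conj u')
  rcases c.2.2.2.2 l h2 h3 with q | q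
  · exact h0 _ _ (h.conjL u2) a' (ρ.U_mono (fun r hr => q r hr.1 (h4 r ▸ hr.2)) h6)
  · obtain ⟨m, m1, v, m2, m3, m4⟩ := ex_n hp M [k]
    have := h0 _ _ ((h.conjL u2).conjL ⟨m4 J c.2.2.1, m1⟩) (a'.map (MulAut.conj m))
      (m2.acts.conj_mem_U (fun r hr => m3 r ▸ q r hr.1 (h4 r ▸ hr.2)) h6)
    simpa [mul_assoc] using m2.acts.inv_conj_mem_U (T := cE6.up S₀)
      (fun r hr => c.2.2.2.1 _ (by simpa [← m3] using hr)) this

/-- The natural module of the node `0`. -/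
theorem nat {q : ℕ} {φ : K →+* K} (hφ : ∀ t, φ t = t ^ q) (M : LT p T (gE6 ρ q) ω) (a b : Fin 72)
    (c : ((∀ r ∈ b :: S, cE6.Pos r) ∧ (∀ r ∈ S, cE6.Pos r) ∧ ∀ l ∈ [[], [0]], (∀ j ∈ [0, 5], j ∈ l.flatMap swE6) →
      ∀ r ∈ cE6.up (b :: S), act l r ∈ cE6.up (b :: S) → r ∈ cE6.up S) ∧ (∀ r ∈ a :: S, cE6.Pos r) ∧
      (∀ r, r ∈ cE6.up (a :: S) ↔ r = a ∨ r ∈ cE6.up (b :: S)) ∧ (∀ r, r ∈ cE6.up (b :: S) ↔ r = b ∨ r ∈ cE6.up S) ∧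
      (∀ r ∈ cE6.up S, act [0] r ∈ cE6.up S) ∧ act [0] a = b ∧ b ∉ cE6.up S ∧ cE6.vec b = cE6.vec 56 + cE6.vec a ∧
      a ≠ cE6.neg 36 ∧ b ≠ cE6.neg 36 ∧ ∀ z, cE6.vec z ≠ cE6.vec b + cE6.vec a ∧ cE6.vec z ≠ cE6.vec b + cE6.vec 56 ∧
        cE6.vec z ≠ cE6.vec 56 - cE6.vec a ∧ cE6.vec z ≠ cE6.vec a + cE6.vec 36 ∧ cE6.vec z ≠ cE6.vec b + cE6.vec 36) :
    Kill T (gE6 ρ q) [0, 5] (a :: S) S := fun x s h c0 hs => by
  obtain ⟨k, p1, e1, e2, w1, w2, w3, v, n1, n2, z⟩ := c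
  have b0 : ρ.BSt (cE6.up S) := bst_up k.2.1
  have b1 : ρ.BSt (cE6.up (b :: S)) := bst_up k.1
  replace k := top hp M e3 k
  obtain ⟨α, _, h1, rfl⟩ := SR.split (bst_up p1) e1 hs
  by_cases a0 : α = 0
  · exact k x _ h c0 (by simpa [a0] using h1)
  obtain ⟨β, d, hd, rfl⟩ := SR.split b1 e2 h1
  have N0 : (cE6.N a 56 : K) ≠ 0 := cast_ne_zero_of_natAbs_one (cE6.N_abs_one a 56 b v fun y => (z y).2.2.1)
  obtain ⟨t, ht⟩ : ∃ t, cE6.N a 56 * (-α) * t + β = 0 := ⟨β / (cE6.N a 56 * α), by field_simp; ring⟩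
  obtain ⟨n, m1, w, m2, m3, m4⟩ := ex_n hp M [0]
  have u1 : ρ.x 56 t * ρ.x 36 (φ t) ∈ ρ.LJ {j | j ∈ [0, 5]} :=
    mul_mem (x_mem_LJ (by decide +kernel) _) (x_mem_LJ (by decide +kernel) _)
  have u2 : ρ.x 56 t * ρ.x 36 (φ t) ∈ ρ.Bo :=
    mul_mem (ρ.x_mem_Bo (by decide +kernel) _) (ρ.x_mem_Bo (by decide +kernel) _)
  have e3 : ρ.x 56 t * ρ.x 36 (φ t) * (ρ.x a α * ρ.x b β) = ρ.x a α * (ρ.x 56 t * ρ.x 36 (φ t)) := by
    have c1 := ρ.commute_of_none n1 (fun y => (z y).2.2.2.1) (φ t) α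
    have c2 := ρ.commute_of_none n2 (fun y => (z y).2.2.2.2) (φ t) β
    rw [mul_assoc, (c1.mul_right c2).eq, ← mul_assoc, ← mul_assoc, ρ.comm_single v (fun y => (z y).1)
      (fun y => (z y).2.1), mul_assoc _ _ (ρ.x b β), ← ρ.x_add, ht, ρ.x_zero, mul_one, mul_assoc]
  generalize ρ.x 56 t * ρ.x 36 (φ t) = u, mem_gE6₂ (ρ := ρ) (r := 56) (s := 36) (by decide) hφ t = u3 at u1 u2 e3
  have h3 := m2.acts.conj_mem_U (fun r hr => m3 r ▸ w1 r hr) ((b0.conj_iff u2).2 hd)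
  have e4 : n * u * (ρ.x a α * (ρ.x b β * d)) * (n * u)⁻¹ = n * ρ.x a α * n⁻¹ * (n * (u * d * u⁻¹) * n⁻¹) := by
    rw [← mul_assoc (ρ.x a α), mul_assoc n, ← mul_assoc u, e3]; group
  have h4 := k _ (n * u * _ * (n * u)⁻¹) (h.conjL (k := n * u) ⟨mul_mem (m4 _ (by decide)) u1, mul_mem m1 u3⟩)
    (c0.map (MulAut.conj (n * u))) (by
      rw [e4]
      refine mul_mem (m2.acts.conj_mem_U (S := {a}) ?_ (ρ.x_mem_U (Set.mem_singleton a) α))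
        (ρ.U_mono (fun r hr => (e2 r).2 (.inr hr)) h3)
      rintro _ rfl
      exact (e2 _).2 (.inl ((m3 _).trans w2)))
  rw [e4, mul_mem_cancel_right h3] at h4
  exact absurd (m2.acts.mem_of_conj_mem_U T.faith b0.closed b0.isNil a0 h4) (by rwa [m3, w2])

end ST2

end CF.Ah
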