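import Cfsg.Agent.Ah.SM
import Cfsg.Agent.Ah.SV

/-! No factorization by centralizers of semisimple elements in `³D₄(q)`. -/

set_option autoImplicit false
set_option linter.unusedSectionVars false

namespace CF.Ah

open CF.BN CF.Chev CF.Chev.StRep CF.Loc Cfsg Cfsg.Lie

namespace ST3

section

variable {B ι : Type} [Fintype B] [DecidableEq B] [Fintype ι] [DecidableEq ι]
  {C : ChevBasis B ι} {K : Type*} [Field K] {G : Type*} [Group G] {ρ : StRep C K G}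
  {T : Tw ρ} {G1 : Subgroup G} {ω : ι → ℝ} {p : ℕ} [Fact p.Prime] {x y s t : G} {w : Equiv.Perm ι} {i : B}
  {L L' : List ι}

theorem bst (ρ : StRep C K G) (h : ∀ r ∈ L, C.Pos r ∧ ∀ u, (∀ i, C.vec r i ≤ C.vec u i) → u ∈ L) :
    ρ.BSt {r | r ∈ L} :=
  bst_of_ideal (fun _ hr s hs u _ _ _ hj e => (h s hs).2 u (RootSys.le_of_comb hr (h s hs).1 hj e)) fun r hr => (h r hr).1

theorem cell_s (M : LT p T G1 ω) (h : Min T G1 (T.S.orb i) x) : x ∈ ρ.Cell (T.S.s i) := by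
  obtain ⟨w, h1, h2, h3, -⟩ := h.cell M
  rcases Sym.eq_one_or_eq_s h1 h2 with rfl | rfl
  exacts [(h.subset M h3 (I := ∅) (one_mem _) (T.S.mem_orb_self i)).elim, h3]

theorem top (hρ : ρ.Faithful) {S S' : Set ι} (hS : ρ.BSt S) (hS' : ρ.BSt S') (hx : x ∈ ρ.Cell w) (hs : s ∈ ρ.U S)
    (c : Commute s x) (e : ∀ r ∈ S, w r ∈ S → r ∈ S') : s ∈ ρ.U S' := by_contra fun n =>
  let ⟨r, h1, h2, h3⟩ := supp_of_conj hρ hS hS' hS hs n hx (by rwa [← c.eq, mul_inv_cancel_right])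
  h2 (e r h1 h3)

theorem tor (hρ : ρ.Faithful) {S S' : Set ι} (hS : C.Closed S) (hp : ∀ r ∈ S, C.Pos r) (hy : y ∈ ρ.H) (ht : t ∈ ρ.U S)
    (c : Commute t y) (e : ∀ r ∈ S, Commute y (ρ.x r 1) → r ∈ S') : t ∈ ρ.U S' := by
  obtain ⟨χ, -, hχ, -⟩ := exists_actsT_of_mem_H hy
  obtain ⟨L, h1, h2⟩ := PreSt.exists_list S
  obtain ⟨τ, -, rfl⟩ := ρ.exists_prodL hS (RootSys.isNil_of_pos hp) h1 h2 ht
  refine Subgroup.list_prod_mem _ fun g hg => ?_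
  obtain ⟨r, hr, rfl⟩ := List.mem_map.1 hg
  by_cases q : τ r = 0
  · simp [q]
  · exact ρ.x_mem_U (e r ((h1 r).1 hr) ((SM.commute_iff hρ hχ one_ne_zero).2
      (hχ.ev_eq_one hρ (fun a ha => hp a ((h1 a).1 ha)) h2 c.symm hr q))) _

theorem inter (hρ : ρ.Faithful) {S S' Z : Set ι} (hS : ρ.BSt S) (hS' : ρ.BSt S') (h : s ∈ ρ.U S) (h' : s ∈ ρ.U S')
    (e : ∀ r ∈ S, r ∈ S' → r ∈ Z) : s ∈ ρ.U Z :=
  ρ.U_mono (fun r hr => e r hr.1 hr.2) (mem_U_inter hρ hS.closed hS.isNil hS'.closed hS'.isNil h h')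

end

/-- the reflection in the fixed node -/
def fa : Fin 24 → Fin 24 := ![1, 0, 2, 3, 5, 4, 6, 10, 11, 14, 7, 8, 15, 16, 9, 12, 13, 17, 19, 18, 20, 21, 23, 22]
/-- the reflection in the other nodes -/
def fb : Fin 24 → Fin 24 := ![0, 9, 8, 7, 6, 18, 4, 3, 2, 1, 13, 12, 11, 10, 22, 21, 20, 19, 5, 17, 16, 15, 14, 23]

variable {K : Type*} [Field K] {G : Type*} [Group G] {ρ : StRep cD4 K G} {T : Tw ρ} {G1 : Subgroup G}
  {ω : Fin 24 → ℝ} {p : ℕ} [Fact p.Prime] {a b x y : G} {J : Set (Fin 4)}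

theorem bA : ρ.BSt {r | r ∈ [18, 13, 12, 15, 16, 19, 17, 20, 21, 22, 23]} := bst ρ (by decide +kernel)
theorem bB : ρ.BSt {r | r ∈ [14, 15, 16, 19, 17, 20, 21, 22, 23]} := bst ρ (by decide +kernel)
theorem b2 : ρ.BSt {r | r ∈ [15, 16, 19, 17, 20, 21, 22, 23]} := bst ρ (by decide +kernel)
theorem b3 : ρ.BSt {r | r ∈ [17, 20, 21, 22, 23]} := bst ρ (by decide +kernel)
theorem b5 : ρ.BSt {r | r ∈ [23]} := bst ρ (by decide +kernel)
theorem b0 : ρ.BSt {r | r ∈ []} := bst ρ (by simp)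

theorem cj (e c d : K) : ρ.x 14 e * (ρ.x 22 c * ρ.x 23 d) * (ρ.x 14 e)⁻¹ =
    ρ.x 22 c * ρ.x 23 (cD4.N 22 14 * (-c) * e + d) := by
  rw [← mul_assoc, ρ.comm_single (v := 23) (by decide +kernel) (by decide +kernel) (by decide +kernel), mul_assoc _ _ (ρ.x 23 d),
    ← ρ.x_add, mul_assoc (ρ.x 22 c), (ρ.commute_of_none (by decide +kernel) (by decide +kernel) e _).eq]
  simp [mul_assoc]

variable (hp : T.S.p = pD4)
include hp

theorem sa (r : Fin 24) : T.S.s 1 r = fa r := by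
  rw [(dataD4 hp).s_eq]; exact wp_apply_eq linkD4 (by revert r; decide +kernel)

theorem sb (r : Fin 24) : T.S.s 0 r = fb r := by
  rw [(dataD4 hp).s_eq]; exact wp_apply_eq linkD4 (by revert r; decide +kernel)

theorem pi : T.π 18 = 13 ∧ T.π 13 = 12 ∧ T.π 14 = 14 := by
  have h := T.π_simple
  rw [show T.p = pD4 from hp] at h
  exact ⟨(by decide +kernel : cD4.simple 0 = 18) ▸ (by decide +kernel : cD4.simple (pD4 0) = 13) ▸ h 0,
    (by decide +kernel : cD4.simple 2 = 13) ▸ (by decide +kernel : cD4.simple (pD4 2) = 12) ▸ h 2,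
    (by decide +kernel : cD4.simple 1 = 14) ▸ h 1⟩

theorem cases (h : T.S.Stab J) : J = ∅ ∨ J = T.S.orb 0 ∨ J = T.S.orb 1 ∨ J = Set.univ := by
  have h2 : 2 ∈ J ↔ 0 ∈ J := by simpa [hp] using! h 0
  have h3 : 3 ∈ J ↔ 2 ∈ J := by simpa [hp] using! h 2
  simp only [Set.ext_iff, (dataD4 hp).mem_orb, Fin.forall_fin_succ]
  simp [swD4]
  tauto

theorem uA : ρ.UJ (T.S.orb 1) ≤ ρ.U {r | r ∈ [18, 13, 12, 15, 16, 19, 17, 20, 21, 22, 23]} := ρ.U_mono fun r hr =>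
  (by decide +kernel : ∀ r, cD4.Pos r → r ∉ rlD4 1 → r ∈ [18, 13, 12, 15, 16, 19, 17, 20, 21, 22, 23]) r hr.1
    fun h => hr.2 (((dataD4 hp).mem_rl 1 r).1 h).2

theorem uB : ρ.UJ (T.S.orb 0) ≤ ρ.U {r | r ∈ [14, 15, 16, 19, 17, 20, 21, 22, 23]} := ρ.U_mono fun r hr =>
  (by decide +kernel : ∀ r, cD4.Pos r → r ∉ rlD4 0 → r ∈ [14, 15, 16, 19, 17, 20, 21, 22, 23]) r hr.1
    fun h => hr.2 (((dataD4 hp).mem_rl 0 r).1 h).2

theorem ex (M : LT p T G1 ω) (i : Fin 4) : ∃ u ∈ ρ.U {r | r ∈ rlD4 i} ⊓ G1, u ≠ 1 := by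
  obtain ⟨u, hu, h⟩ := M.form.exists_ne_one i
  exact ⟨u, ⟨(dataD4 hp).set_eq i ▸ Tw.Uw_lg (ρ := ρ) _ ▸ hu.1, M.form.Uw_le (T.S.s_mem_Wf i) hu⟩, h⟩

theorem move (S : St p T G1 ω a b) (hy : y ∈ ρ.H ⊓ G1) (h : y ≠ 1) :
    ∃ z ∈ ρ.H ⊓ G1, Cj G1 y z ∧ ¬ Commute z (ρ.x (cD4.simple 0) 1) := by
  by_contra! c
  simp only [show cD4.simple 0 = 18 by decide +kernel] at c
  have h1 := c y hy (.refl ..)
  obtain ⟨z, h2, h3, h4⟩ := exists_move S.lt hy (T.S.s_mem_Wf 1)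
  have h5 := (h4 19).1 (sa hp 19 ▸ c z h2 h3)
  have h6 := cen_add T.faith hy.1 (u := 14) (by decide +kernel) h5 (cen_neg T.faith hy.1 h1)
  have h7 := (pi hp).1 ▸ (cen_π S.lt hy).2 h1
  have h8 := (pi hp).2.1 ▸ (cen_π S.lt hy).2 h7
  refine h (eq_one_of_cen S.lt S.center hy.1 fun i => ?_)
  rcases (by decide +kernel : ∀ i, cD4.simple i = 18 ∨ cD4.simple i = 14 ∨ cD4.simple i = 13 ∨ cD4.simple i = 12) i with
    e | e | e | e <;> rwa [e]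

theorem caseA (S : St p T G1 ω a b) (h : FU T G1 a b) (hx : Cj G1 a x) (hy : Cj G1 b y)
    (h1 : Min T G1 (T.S.orb 1) x) (h2 : y ∈ ρ.H ⊓ G1) (m : ¬ Commute y (ρ.x (cD4.simple 0) 1)) : False := by
  have M := S.lt
  have hρ := T.faith
  have c := h.tor M hx hy h1 h2.1 S.mb (T.S.mem_orb_self 1)
  rw [show cD4.simple 0 = 18 by decide +kernel] at m
  rw [show cD4.simple 1 = 14 by decide +kernel] at c
  have m1 : ¬ Commute y (ρ.x 13 1) := fun e => m ((cen_π M h2).1 ((pi hp).1 ▸ e))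
  have m2 : ¬ Commute y (ρ.x 12 1) := fun e => m1 ((cen_π M h2).1 ((pi hp).2.1 ▸ e))
  have k : ∀ r u, cD4.vec u = cD4.vec r + cD4.vec (cD4.neg 14) → ¬ Commute y (ρ.x u 1) → ¬ Commute y (ρ.x r 1) :=
    fun r u e q q' => q (cen_add hρ h2.1 e q' (cen_neg hρ h2.1 c))
  have m3 := k 19 18 (by decide +kernel) m
  have m4 := k 16 13 (by decide +kernel) m1
  have m5 := k 15 12 (by decide +kernel) m2
  obtain ⟨v, hv, v1⟩ := ex hp M 0
  obtain ⟨n, n1, hn⟩ := M.form.exists_n_s 1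
  have u2 : n * v * n⁻¹ ∈ ρ.U {r | r ∈ [15, 16, 19, 17, 20, 21, 22, 23]} :=
    hn.acts.conj_mem_U (fun r hr => by rw [sa hp]; revert r; decide) hv.1
  obtain ⟨s, hs, t, ht, c1, c2, e⟩ := h _ _ x y hx hy h1 (min_empty h2) _
    (im (ρ.U_mono (b2 (ρ := ρ)).pos u2) (mul_mem (mul_mem n1 (ir hv)) (inv_mem n1)))
  have t1 : t ∈ ρ.U {r | r ∈ [14, 15, 16, 19, 17, 20, 21, 22, 23]} :=
    tor hρ cD4.closed_pos (fun _ h => h) h2.1 (ρ.UJ_le_Up _ ht.1) c2 fun r hr q =>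
      (by decide +kernel : ∀ r, cD4.Pos r → r ≠ 18 → r ≠ 13 → r ≠ 12 → r ∈ [14, 15, 16, 19, 17, 20, 21, 22, 23]) r hr
        (by rintro rfl; exact m q) (by rintro rfl; exact m1 q) (by rintro rfl; exact m2 q)
  have s2 : s ∈ ρ.U {r | r ∈ [15, 16, 19, 17, 20, 21, 22, 23]} := inter hρ bA bB (uA hp hs.1)
    ((mul_mem_cancel_right t1).1 (e ▸ ρ.U_mono (fun r => List.mem_cons_of_mem _) u2)) (by decide)
  have s3 := top hρ b2 b3 (cell_s M h1) s2 c1 fun r => by rw [sa hp]; revert r; decide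
  have t3 : t ∈ ρ.U {r | r ∈ [17, 20, 21, 22, 23]} :=
    tor hρ (b2 (ρ := ρ)).closed (b2 (ρ := ρ)).pos h2.1 ((mul_mem_cancel_left s2).1 (e ▸ u2)) c2 fun r hr q =>
      (by decide : ∀ r ∈ [15, 16, 19, 17, 20, 21, 22, 23], r ≠ 19 → r ≠ 16 → r ≠ 15 → r ∈ [17, 20, 21, 22, (23 : Fin 24)])
        r hr (by rintro rfl; exact m3 q) (by rintro rfl; exact m4 q) (by rintro rfl; exact m5 q)
  have v3 := hn.acts.inv_conj_mem_U (T := {r | r ∈ [17, 20, 21, 22, 23]}) (fun r hr => by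
    rw [Sym.s, lg_inv, ← Sym.s, sa hp]; revert r; decide) (e ▸ mul_mem s3 t3)
  have := ρ.U_mono (T := ∅) (by rintro r ⟨h, h'⟩; revert r; decide) (mem_U_inter hρ (Tw.closed_rl (dataD4 hp) 0)
    (Tw.isNil_rl (dataD4 hp) 0) (b3 (ρ := ρ)).closed (b3 (ρ := ρ)).isNil hv.1 (by simpa [mul_assoc] using v3))
  exact v1 (by simpa using this)

theorem caseB (S : St p T G1 ω a b) (h : FU T G1 a b) (hx : Cj G1 a x) (hy : Cj G1 b y)
    (h1 : Min T G1 (T.S.orb 1) x) (h2 : Min T G1 (T.S.orb 0) y) : False := by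
  have M := S.lt
  have hρ := T.faith
  obtain ⟨v, hv, v1⟩ := ex hp M 1
  obtain ⟨m, m1, hm⟩ := M.form.exists_n_s 0
  obtain ⟨n, n1, hn⟩ := M.form.exists_n_s 1
  have one : ∀ {r g}, g ∈ ρ.U {z | z ∈ [r]} → ∃ c, ρ.x r c = g := fun h => ρ.mem_X.1 (by
    simpa [← ρ.U_singleton] using h)
  obtain ⟨c, hc⟩ := one (r := 22) (hm.acts.conj_mem_U (fun r hr => by rw [sb hp]; revert r; decide) hv.1)
  have c0 : c ≠ 0 := by rintro rfl; exact v1 (by simpa using hc.symm)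
  have u1 : ρ.x 22 c ∈ G1 := hc ▸ mul_mem (mul_mem m1 hv.2) (inv_mem m1)
  obtain ⟨s, hs, t, ht, c1, c2, e⟩ := h _ _ x y hx hy h1 h2 _ ⟨ρ.x_mem_U (by decide +kernel : cD4.Pos 22) c, u1⟩
  have s2 : s ∈ ρ.U {r | r ∈ [15, 16, 19, 17, 20, 21, 22, 23]} := inter hρ bA bB (uA hp hs.1)
    ((mul_mem_cancel_right (uB hp ht.1)).1 (e ▸ ρ.x_mem_U (by decide) c)) (by decide)
  have s3 := top hρ b2 b3 (cell_s M h1) s2 c1 fun r => by rw [sa hp]; revert r; decide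
  obtain ⟨d, hd⟩ := one (inv_mem (top hρ b3 b5 (cell_s M h2) ((mul_mem_cancel_left s3).1 (e ▸ ρ.x_mem_U (by decide) c)) c2
    fun r => by rw [sb hp]; revert r; decide))
  obtain rfl : s = ρ.x 22 c * ρ.x 23 d := by rw [e, hd, mul_inv_cancel_right]
  have N0 : (cD4.N 22 14 : K) * (-c) ≠ 0 := by
    rcases Int.natAbs_eq_iff.1 (cD4.N_abs_one 22 14 23 (by decide +kernel) (by decide +kernel)) with h | h <;>
      simp [LieBasis.N, h, c0]
  have k : ∀ e, ρ.x 14 e * (ρ.x 22 c * ρ.x 23 d) * (ρ.x 14 e)⁻¹ = ρ.x 22 c ↔ e = -d / (cD4.N 22 14 * (-c)) := fun e => by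
    rw [cj, mul_eq_left, ← ρ.x_zero 23, (hρ.x_injective 23).eq_iff, eq_div_iff N0, mul_comm e, add_eq_zero_iff_eq_neg]
  have k1 := (k _).2 rfl
  have k2 : ρ.x 14 (-d / (cD4.N 22 14 * (-c))) ∈ G1 := M.form.Up_le (im (ρ.x_mem_U (by decide +kernel : cD4.Pos 14) _) (by
    have := congrArg T.σ k1
    rw [map_mul, map_mul, map_inv, T.mem_Fix.1 (M.form.fix hs.2), T.mem_Fix.1 (M.form.fix u1), T.σ_x, (pi hp).2.2, k] at this
    rw [T.mem_Fix, T.σ_x, (pi hp).2.2, this]))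
  have h3 := (h1.conjL ⟨x_mem_LJ (((dataD4 hp).mem_rl 1 14).1 (by decide)).2 _, k2⟩).conjL
    ⟨hn.mem_LJ (lg_mem _), n1⟩
  obtain ⟨f, hf⟩ := hn.acts.exists_conj_x 22
  have := top hρ b5 b0 (cell_s M h3) (s := ρ.x 23 (f * c)) (ρ.x_mem_U (by decide) _) (by
    rw [show (23 : Fin 24) = T.S.s 1 22 from (sa hp 22).symm, ← hf, ← k1]
    exact (c1.map (MulAut.conj _)).map (MulAut.conj n)) fun r => by rw [sa hp]; revert r; decide
  simp only [List.not_mem_nil, Set.ofPred_false, PreSt.U_empty, Subgroup.mem_bot] at this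
  exact mul_ne_zero f.ne_zero c0 (hρ.x_injective 23 (this.trans (ρ.x_zero 23).symm))

theorem main (S : St p T G1 ω a b) (ha : ¬ p ∣ orderOf a) (hb : ¬ p ∣ orderOf b) : ¬ FU T G1 a b := fun h => by
  have k : ∀ {a b x y J}, St p T G1 ω a b → FU T G1 a b → ¬ p ∣ orderOf b → Cj G1 a x → Cj G1 b y → Min T G1 J x →
      Min T G1 ∅ y → False := fun S h hb hx hy h1 h2 => by
    obtain ⟨z, z1, z2, z3⟩ := move hp S h2.mem_H (hy.ne_one S.nb)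
    rcases cases hp h1.stab with rfl | rfl | rfl | rfl
    · obtain ⟨v, v1, v2, v3⟩ := move hp S h1.mem_H (hx.ne_one S.na)
      exact (h.tor₂ S.lt (hx.trans v2) (hy.trans z2) v1 z1 0).elim v3 z3
    · exact z3 (h.tor S.lt hx (hy.trans z2) h1 z1.1 S.mb (T.S.mem_orb_self 0))
    · exact caseA hp S h hx (hy.trans z2) h1 z1 z3
    · exact h.ne_univ S hb hx h1 rfl
  have S' : St p T G1 ω b a := ⟨S.lt, S.center, S.mb, S.ma, S.nb, S.na⟩
  obtain ⟨J, x, hx, h1⟩ := exists_min S.lt S.ma ha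
  obtain ⟨J', y, hy, h2⟩ := exists_min S.lt S.mb hb
  have d := h.disj S.lt hx hy h1 h2
  have o : ∀ i, ¬ Disjoint (T.S.orb i) (T.S.orb i) := fun i e => Set.disjoint_left.1 e (T.S.mem_orb_self i) (T.S.mem_orb_self i)
  rcases cases hp h2.stab with rfl | rfl | rfl | rfl
  · exact k S h hb hx hy h1 h2
  · rcases cases hp h1.stab with rfl | rfl | rfl | rfl
    exacts [k S' h.symm ha hy hx h2 h1, o _ d, caseB hp S h hx hy h1 h2, h.ne_univ S hb hx h1 rfl]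
  · rcases cases hp h1.stab with rfl | rfl | rfl | rfl
    exacts [k S' h.symm ha hy hx h2 h1, caseB hp S' h.symm hy hx h2 h1, o _ d, h.ne_univ S hb hx h1 rfl]
  · exact h.symm.ne_univ S' ha hy h2 rfl

end ST3

theorem s_3D4 {p : ℕ} [Fact p.Prime] (K : Type) [Field K] [Fintype K] [CharP K p] {q : ℕ} (hq : IsPrimePow q)
    (hK : Fintype.card K = q ^ 3) : NoS p (twistedD4 K q) := by
  obtain ⟨φ, h1, h2⟩ := exists_frobD4 hq hK
  have M := ltD4 (p := p) h1 h2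
  exact noS_of (packD4 h1 h2).e fun a ha b hb a1 b1 pa pb h => ST3.main (isGr_twD4 φ).p_eq
    ⟨M, linkD4.center_group K, ha, hb, a1, b1⟩ pa pb (SM.fu_of M (fun _ _ => Min.syl M) h pa pb)

end CF.Ah
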