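import Cfsg.Agent.Ah.UO
import Cfsg.Agent.Ah.SM
import Cfsg.Agent.Chev.A1

/-! Products of classes: reduction to Levi subgroups and the rank one arguments. -/

set_option autoImplicit false

namespace CF.Ah

open CF.BN CF.Chev CF.Loc Cfsg Cfsg.Lie Matrix

variable {B ι : Type} [Fintype B] [DecidableEq B] [Fintype ι] [DecidableEq ι]
  {C : ChevBasis B ι} {K : Type*} [Field K] {G : Type*} [Group G] {ρ : StRep C K G}
  {T : Tw ρ} {G1 : Subgroup G} {ω : ι → ℝ} {p : ℕ} {J D : Set B} {a b x y u n k : G}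
  {w w' v v' m : Equiv.Perm ι} {i j : B} {θ δ : ι} {φ : K →+* K} {c : Kˣ}

namespace UL

/-- The Levi part of a `p`-element is a `p`-element. -/
theorem pe_levi (hρ : ρ.Faithful) {q l : G} (hq : q ∈ ρ.UJ J) (hl : l ∈ ρ.LJ J) (h : PE p (q * l)) :
    PE p l := by
  obtain ⟨e, he⟩ := h
  have key : ∀ e : ℕ, (q * l) ^ e * (l ^ e)⁻¹ ∈ ρ.UJ J := fun e => by
    induction e with
    | zero => simp
    | succ e ih =>
      have := mul_mem hq (StRep.PJ_conj_mem_UJ (ρ.LJ_le_PJ J hl) ih)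
      convert this using 1
      rw [pow_succ', pow_succ' l]; group
  have := key (p ^ e)
  rw [he, one_mul, inv_mem_iff] at this
  exact ⟨e, (StRep.UJ_inf_LJ hρ J).le ⟨this, pow_mem hl _⟩⟩

theorem conj_LJ (hw : ρ.NW n m) (h2 : ∀ j ∈ J, ∃ j' ∈ J, m (C.simple j) = C.simple j')
    (h : x ∈ ρ.LJ J) : n * x * n⁻¹ ∈ ρ.LJ J := by
  have key : ∀ r, C.InSub J (m r) → ρ.X r ≤ (ρ.LJ J).comap (MulAut.conj n).toMonoidHom :=
    fun r hr => StRep.X_le_iff.2 fun t => by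
      obtain ⟨c, e⟩ := hw.acts.exists_conj_x r
      change n * ρ.x r t * n⁻¹ ∈ ρ.LJ J
      rw [e]; exact StRep.x_mem_LJ hr _
  refine (sup_le (fun _ hg => StRep.H_mem_LJ (hw.acts.conj_mem_H hg))
    (StRep.U_inSub_le fun j hj => ?_) : ρ.LJ J ≤ (ρ.LJ J).comap (MulAut.conj n).toMonoidHom) h
  obtain ⟨j', h4, h5⟩ := h2 j hj
  exact ⟨key _ (h5 ▸ C.inSub_simple.2 h4), key _ (by
    rw [RootSys.neg_aut hw.mem_Aut, C.inSub_neg, h5]; exact C.inSub_simple.2 h4)⟩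

theorem s_inv (i : B) : (T.S.s i)⁻¹ = T.S.s i := lg_inv _

/-- An element of a minimal parabolic subgroup outside the Borel subgroup. -/
theorem cell_s (F : T.Form G1) (hx : x ∈ G1) (h1 : x ∈ ρ.PJ (T.S.orb i)) (h2 : x ∉ ρ.Bo) :
    x ∈ ρ.Cell (T.S.s i) := by
  obtain ⟨w, hw, hc⟩ := StRep.mem_PJ_iff.1 h1
  rcases Sym.eq_one_or_eq_s (Tw.mem_Wf_of_cell (F.fix hx) hc) hw with rfl | rfl
  · exact absurd (StRep.mem_cell_one.1 hc) h2
  · exact hc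

theorem mem_UJ (hρ : ρ.Faithful) (hn : ρ.NW n (T.S.s i)) (hu : u ∈ ρ.Up) (h : n * u * n⁻¹ ∈ ρ.Bo) :
    u ∈ ρ.UJ (T.S.orb i) := by
  obtain ⟨q, hq, l, hl, rfl⟩ := StRep.exists_UJ_mul_UL (T.S.orb i) hu
  have h1 := ρ.Up_le_Bo (ρ.UJ_le_Up _ (StRep.PJ_conj_mem_UJ (hn.mem_PJ (lg_mem _)) hq))
  have h2 : n * l * n⁻¹ = 1 := StRep.eq_one_of_mem_Bo_Um hρ
    (by simpa [mul_assoc] using mul_mem (inv_mem h1) h)
    (hn.acts.conj_mem_U (fun r hr => by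
      rw [Set.mem_ofPred_eq, pos_lg_iff hr.1, not_not]; exact hr.2) hl)
  rwa [conj_eq_one_iff.1 h2, mul_one]

theorem pe_up [Fact p.Prime] (M : LT p T G1 ω) (hu : u ∈ ρ.Up) : PE p u := .of_mem M.isPGroup_Up hu

/-- An element of the Borel subgroup whose torus part moves `α_i` acts on the panel of type `i`. -/
theorem moves [Fact p.Prime] (M : LT p T G1 ω) {h : G} (hu : u ∈ ρ.Up) (hh : h ∈ ρ.H)
    (hc : ¬ Commute h (ρ.x (C.simple i) 1)) :
    ∃ k ∈ ρ.PJ (T.S.orb i) ⊓ G1, k * (u * h) * k⁻¹ ∉ ρ.Bo := by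
  by_contra! H
  obtain ⟨n, n1, hn⟩ := M.form.exists_n_s i
  obtain ⟨z, hz, h0⟩ := SM.exists_notMem M i
  have hB := ρ.Up_le_Bo.trans (ρ.Bo_le_PJ (T.S.orb i))
  obtain ⟨q, hq, l, hl, rfl⟩ := SM.levi M.form (T.S.stab_orb i) ⟨hB hz.1, hz.2⟩
  have h1 : l ∈ ρ.Up := (mul_mem_cancel_left (ρ.UJ_le_Up _ hq.1)).1 hz.1
  have key : ∀ z ∈ ρ.Up, z ∈ G1 → z * u * (h * z⁻¹ * h⁻¹) ∈ ρ.UJ (T.S.orb i) := fun z hz hz' =>
    mem_UJ T.faith hn (mul_mem (mul_mem hz hu) (StRep.H_conj_mem_U hh (inv_mem hz))) (by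
      simpa [mul_assoc] using mul_mem (H (n * z) ⟨mul_mem (hn.mem_PJ (lg_mem _)) (hB hz),
        mul_mem n1 hz'⟩) (ρ.H_le_Bo (hn.acts.conj_mem_H (inv_mem hh))))
  have h2 : u ∈ ρ.UJ (T.S.orb i) := by simpa using key 1 (one_mem _) (one_mem _)
  have h3 : l * h * l⁻¹ * h⁻¹ = 1 := (StRep.UJ_inf_LJ T.faith _).le (im (by
      simpa [mul_assoc] using mul_mem (inv_mem (StRep.PJ_conj_mem_UJ (hB h1) h2)) (key l h1 hl.2))
    (mul_mem (mul_mem (mul_mem (il hl) (StRep.H_mem_LJ hh)) (inv_mem (il hl)))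
      (StRep.H_mem_LJ (inv_mem hh))))
  exact hc (SM.commute_of_notMem T.faith hh h1 (fun e => h0
    (mul_mem (SM.UJ_le_Ui (T.S.mem_orb_self i) hq.1) e)) (commutatorElement_eq_one_iff_commute.1 h3))

/-- A torus element commuting with `n` takes the same value at `r` and `w r`. -/
theorem ev_eq (hρ : ρ.Faithful) {h : G} {r : ι} {s t : K} (hn : ρ.NW n w) (hc : Commute n h)
    (h1 : ∀ u, h * ρ.x r u * h⁻¹ = ρ.x r (s * u))
    (h2 : ∀ u, h * ρ.x (w r) u * h⁻¹ = ρ.x (w r) (t * u)) : s = t := by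
  obtain ⟨d, e⟩ := hn.acts.exists_conj_x r
  have h3 := h2 (d * 1)
  rw [← e, show h * (n * ρ.x r 1 * n⁻¹) * h⁻¹ = n * (h * ρ.x r 1 * h⁻¹) * n⁻¹ by
    rw [← mul_assoc, ← mul_assoc, ← hc.eq, mul_assoc _ n⁻¹, hc.inv_inv.eq]; group, h1, e] at h3
  simpa [mul_comm] using hρ.x_injective _ h3

theorem orb_fix (h1 : T.p i = i) : T.S.orb i = {i} :=
  Set.eq_singleton_iff_unique_mem.2 ⟨T.S.mem_orb_self i, fun _ hj =>
    T.S.orb_induction (q := (· = i)) rfl (fun _ h => h ▸ h1) hj⟩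

theorem s_fix (h1 : T.p i = i) : T.S.s i = C.sref i := by
  refine (congrArg (lg C.toRootSys) (orb_fix h1)).trans
    (eq_lg (C.sref_mem_WJ (Set.mem_singleton i)) fun j hj => ?_).symm
  obtain rfl : j = i := hj
  rw [RootSys.sref_simple_self]
  exact C.not_pos_neg_simple j

theorem exists_s [Fact p.Prime] (M : LT p T G1 ω) (g : Gr T φ c) (h1 : T.p i = i) :
    ∃ s : Kˣ, c * φ s = s := by
  obtain ⟨z, hz, h0⟩ := SM.exists_notMem M i
  obtain ⟨d, hd, s, rfl⟩ := StRep.exists_Ui_mul_x i hz.1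
  have hs : s ≠ 0 := fun e => h0 (by simpa [e] using hd)
  have e := T.mem_Fix.1 (M.form.fix hz.2)
  rw [map_mul, T.σ_x, T.π_simple, h1, g.c_eq, g.φ_eq] at e
  have h2 : T.σ d ∈ ρ.Ui i := T.σ_mem_U (fun r hr => And.intro (T.pos_π_iff.2 hr.1)
    fun e' => hr.2 (T.π.injective (e'.trans (by rw [T.π_simple, h1])))) hd
  refine ⟨Units.mk0 s hs, sub_eq_zero.1 (eq_zero_of_mem_Ui T.faith (i := i) ?_)⟩
  rw [ρ.x_sub, Units.val_mk0, eq_inv_mul_iff_mul_eq.2 e]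
  simpa [mul_assoc] using mul_mem (inv_mem h2) hd

theorem x_mem (F : T.Form G1) (g : Gr T φ c) (h1 : T.p i = i) {t : K} (ht : c * φ t = t) :
    ρ.x (C.simple i) t ∈ G1 :=
  F.Up_le ⟨ρ.x_mem_U (S := {r | C.Pos r}) (C.pos_simple i) t, T.mem_Fix.2 (by
    rw [T.σ_x, T.π_simple, h1, g.c_eq, g.φ_eq, ht])⟩

theorem n_mem (F : T.Form G1) (g : Gr T φ c) (h1 : T.p i = i) {t : Kˣ} (ht : c * φ t = t) :
    ρ.n (C.simple i) t ∈ G1 := by
  refine mul_mem (mul_mem (x_mem F g h1 ht) (F.Um_le ⟨ρ.x_mem_U (S := {r | ¬ C.Pos r})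
    (C.not_pos_neg_simple i) _, T.mem_Fix.2 ?_⟩)) (x_mem F g h1 ht)
  rw [T.σ_x, T.π_neg, T.π_simple, h1, T.c_neg, g.c_eq, g.φ_eq]
  nth_rw 2 [← inv_inv t]
  simp [← mul_inv, ht]

theorem h_mem [Fact p.Prime] (M : LT p T G1 ω) (g : Gr T φ c) (h1 : T.p i = i) {t : Kˣ} (ht : φ t = t) :
    ρ.h (C.simple i) t ∈ G1 := by
  obtain ⟨s, hs⟩ := exists_s M g h1
  have := mul_mem (n_mem M.form g h1 (t := s * t) (by simp [← mul_assoc, hs, ht]))
    (n_mem M.form g h1 (t := -s) (by simp [hs]))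
  rwa [ρ.n_mul_n, neg_neg, M.r3.h_inv, M.r3, mul_right_comm, mul_inv_cancel, one_mul] at this

theorem unit_sq {t : Kˣ} (h : t * t = 1) : t = 1 ∨ t = -1 :=
  (mul_self_eq_one_iff.1 (by rw [← Units.val_mul, h, Units.val_one])).imp Units.ext Units.ext

theorem trace_eq [Fact p.Prime] [CharP K p] {A : SpecialLinearGroup (Fin 2) K} (h : PE p A) :
    A 0 0 + A 1 1 = 2 := by
  obtain ⟨e, he⟩ := h
  have h1 : IsNilpotent (A.1 - 1) := ⟨p ^ e, by
    rw [sub_pow_char_pow_of_commute _ _ (Commute.one_right _), one_pow,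
      ← Matrix.SpecialLinearGroup.coe_pow, he]
    simp⟩
  have := (Matrix.isNilpotent_trace_of_isNilpotent h1).eq_zero
  rw [trace_sub, trace_fin_two, trace_one] at this
  simpa [sub_eq_zero] using this

section
variable {f : SpecialLinearGroup (Fin 2) K →* G} {r : ι} (hρ : ρ.Faithful) (hr : C.Pos r)
  (f1 : ∀ t, f (sl2x K true t) = ρ.x r t) (f2 : ∀ t, f (sl2x K false t) = ρ.x (C.neg r) t)
  (f3 : ∀ t, f ((sl2Rep K).h true t) = ρ.h r t)

theorem upper {A : SpecialLinearGroup (Fin 2) K} (h : A 1 0 = 0) :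
    ∃ t : Kˣ, ∃ s, A = sl2x K true s * (sl2Rep K).h true t := by
  have hd := A.2
  rw [det_fin_two, h, mul_zero, sub_zero] at hd
  refine ⟨Units.mk0 (A 0 0) (left_ne_zero_of_mul_eq_one hd), A 0 1 * A 0 0, ?_⟩
  ext s t
  rw [Matrix.SpecialLinearGroup.coe_mul, val_sl2_h_true, val_sl2x_true]
  fin_cases s <;> fin_cases t <;>
    simp [h, left_ne_zero_of_mul_eq_one hd, eq_inv_of_mul_eq_one_right hd]

include hρ hr f1 f2 f3

omit hρ f2 in
theorem mem_Bo {A : SpecialLinearGroup (Fin 2) K} (h : A 1 0 = 0) : f A ∈ ρ.Bo := by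
  obtain ⟨t, s, rfl⟩ := upper h
  rw [map_mul, f1, f3]
  exact mul_mem (ρ.x_mem_Bo hr s) (ρ.H_le_Bo (ρ.h_mem_H r t))

theorem inj (h : ρ.h r (-1) ≠ 1) : Function.Injective f := by
  refine (injective_iff_map_eq_one _).2 fun A hA => ?_
  by_cases h0 : A 1 0 = 0
  · obtain ⟨t, s, rfl⟩ := upper h0
    rw [map_mul, f1, f3, ← mul_one 1] at hA
    obtain ⟨h1, h2⟩ := StRep.eq_of_Up_mul_H hρ (ρ.x_mem_U (S := {r | C.Pos r}) hr s) (one_mem _)
      (ρ.h_mem_H r t) (one_mem _) hA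
    obtain rfl : s = 0 := hρ.x_injective r (h1.trans (ρ.x_zero r).symm)
    have h3 := ρ.h_conj_x r t r 1
    rw [h2, one_mul, inv_one, mul_one] at h3
    have h4 : t * t = 1 := Units.ext (by simpa [zpow_ofNat, sq] using (hρ.x_injective r h3).symm)
    rcases unit_sq h4 with rfl | rfl
    · exact Subtype.ext (by simp [val_sl2x_true, Matrix.one_fin_two])
    · exact absurd h2 h
  · have hd := A.2
    rw [det_fin_two] at hd
    have : A = sl2x K true ((A 0 0 - 1) / A 1 0) * sl2x K false (A 1 0) *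
        sl2x K true ((A 1 1 - 1) / A 1 0) := by
      ext i j
      fin_cases i <;> fin_cases j <;>
        simp [val_sl2x_true, val_sl2x_false, mul_div_cancel₀, h0]
      field_simp
      linear_combination -hd
    rw [this, map_mul, map_mul, f1, f1, f2] at hA
    have h1 := (mul_mem_cancel_left (ρ.x_mem_Bo hr _)).1
      ((mul_mem_cancel_right (ρ.x_mem_Bo hr _)).1 (hA ▸ one_mem ρ.Bo))
    exact absurd hr ((C.pos_neg_iff r).1 ((StRep.x_mem_Bo_iff hρ h0).1 h1))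

end

theorem not_mem_Bo (hρ : ρ.Faithful) (h : x ∈ ρ.Cell w) (hw : w ≠ 1) : x ∉ ρ.Bo := fun e =>
  hw (StRep.cell_unique hρ h (StRep.mem_cell_one.2 e))

/-- The norm along an orbit. -/
def nm (T : Tw ρ) (d : ℕ) (g : G) : G := ((List.range d).map fun k => T.σ^[k] g).prod

theorem nm_succ (d : ℕ) (g : G) : nm T (d + 1) g = g * T.σ (nm T d g) := by
  simp only [nm, List.range_succ_eq_map, map_list_prod, List.map_cons, List.prod_cons, List.map_map,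
    Function.comp_def, Function.iterate_succ_apply', Function.iterate_zero_apply]

theorem nm_succ' (d : ℕ) (g : G) : nm T (d + 1) g = nm T d g * T.σ^[d] g := by
  simp [nm, List.range_succ]

theorem it_mem (e : ℕ) (h : x ∈ ρ.U {C.simple i, C.neg (C.simple i)}) :
    T.σ^[e] x ∈ ρ.U {C.simple ((T.p ^ e) i), C.neg (C.simple ((T.p ^ e) i))} := by
  induction e with
  | zero => exact h
  | succ e ih =>
    rw [Function.iterate_succ_apply', pow_succ', Equiv.Perm.mul_apply]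
    refine T.σ_mem_U ?_ ih
    rintro _ (rfl | rfl) <;> simp [T.π_neg, T.π_simple]

theorem it_of {Z : Subgroup G} (hZ : ∀ g ∈ Z, T.σ g ∈ Z) (h : x ∈ Z) (d : ℕ) : nm T d x ∈ Z := by
  induction d with
  | zero => exact one_mem _
  | succ d ih => rw [nm_succ]; exact mul_mem h (hZ _ ih)

theorem it_x (g : Gr T φ c) (e : ℕ) (t : K) :
    T.σ^[e] (ρ.x (C.simple i) t) = ρ.x (C.simple ((T.p ^ e) i)) ((c ^ e : Kˣ) * (φ ^ e) t) ∧
    T.σ^[e] (ρ.x (C.neg (C.simple i)) t) =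
      ρ.x (C.neg (C.simple ((T.p ^ e) i))) ((c ^ e)⁻¹ * (φ ^ e) t) := by
  have hc : φ c = c := by
    rcases unit_sq g.sq with h | h <;> simp [h]
  induction e with
  | zero => simp
  | succ e ih =>
    rw [Function.iterate_succ_apply', Function.iterate_succ_apply', ih.1, ih.2, T.σ_x, T.σ_x, T.π_neg,
      T.π_simple, T.c_neg, g.c_eq, g.φ_eq, g.φ_eq]
    simp [pow_succ', hc, mul_assoc, mul_left_comm]

end UL

open UL

variable [Fact p.Prime]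

theorem Om.levi (S : St p T G1 ω a b) (hU : PU p G1 a b) (hJ : T.S.Stab J) (hw : w ∈ C.WJ J ⊓ T.S.Wf)
    (hm : m ∈ T.S.Wf) (hm' : ∀ j ∈ J, ∃ j' ∈ J, m (C.simple j) = C.simple j') (h : Om ρ G1 a b (w * m)) :
    ∃ n ∈ G1, ρ.NW n m ∧ ∃ l₁ ∈ ρ.LJ J ⊓ G1, ∃ l₂ ∈ ρ.LJ J ⊓ G1, l₁ ∈ ρ.Cell w ∧ l₂ ∈ ρ.Cell w⁻¹ ∧
      ∀ g ∈ ρ.LJ J ⊓ G1, PE p (l₁ * (n * g * n⁻¹) * l₂ * g⁻¹) := by
  obtain ⟨u, hu, n', n1, hn', z, hz, hx, hy⟩ := h.form S hU
  obtain ⟨n, n2, hn⟩ := S.lt.form.exists_n hm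
  have h1 : ρ.NW (n' * n⁻¹) w := by simpa using hn'.mul hn.inv
  have hB := ρ.Up_le_Bo.trans (ρ.Bo_le_PJ J)
  have h2 : u * (n' * n⁻¹) ∈ ρ.PJ J ⊓ G1 :=
    im (mul_mem (hB hu.1) (h1.mem_PJ hw.1)) (mul_mem (ir hu) (mul_mem n1 (inv_mem n2)))
  have h3 := StRep.cell_mul_left (ρ.Up_le_Bo hu.1) h1.mem_cell
  have h4 := StRep.cell_mul_right (StRep.cell_inv h3) (ρ.Up_le_Bo hz.1)
  obtain ⟨q₁, hq₁, l₁, hl₁, e₁⟩ := SM.levi S.lt.form hJ h2
  obtain ⟨q₂, hq₂, l₂, hl₂, e₂⟩ := SM.levi S.lt.form hJ (mul_mem (inv_mem h2) (im (hB (il hz)) (ir hz)))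
  have hQ := (ρ.UJ_le_Up J).trans ρ.Up_le_Bo
  refine ⟨n, n2, hn, l₁, hl₁, l₂, hl₂, ?_, ?_, fun g hg => ?_⟩
  · simpa [e₁] using StRep.cell_mul_left (inv_mem (hQ hq₁.1)) h3
  · simpa only [e₂, inv_mul_cancel_left] using StRep.cell_mul_left (inv_mem (hQ hq₂.1)) h4
  have h5 := mul_mem hl₁.1 (conj_LJ hn hm' hg.1)
  refine pe_levi T.faith (mul_mem hq₁.1 (StRep.PJ_conj_mem_UJ (ρ.LJ_le_PJ J h5) hq₂.1))
    (mul_mem (mul_mem h5 hl₂.1) (inv_mem hg.1)) ?_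
  convert hU _ _ hx (hy.conj hg.2) using 1
  calc _ = q₁ * l₁ * (n * g * n⁻¹) * (q₂ * l₂) * g⁻¹ := by group
    _ = _ := by rw [← e₁, ← e₂]; group

theorem om_s (S : St p T G1 ω a b) (_hU : PU p G1 a b) (hx : Cj G1 a x) (hy : Cj G1 b y)
    (h1 : x ∈ ρ.PJ (T.S.orb i)) (h2 : y ∈ ρ.PJ (T.S.orb i))
    (h3 : ∃ k ∈ ρ.PJ (T.S.orb i) ⊓ G1, k * x * k⁻¹ ∉ ρ.Bo)
    (h4 : ∃ k ∈ ρ.PJ (T.S.orb i) ⊓ G1, k * y * k⁻¹ ∉ ρ.Bo) : Om ρ G1 a b (T.S.s i) := by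
  obtain ⟨k, hk, h3⟩ := h3
  obtain ⟨l, hl, h4⟩ := h4
  exact ⟨⟨_, hx.conj hk.2, cell_s S.lt.form ((hx.conj hk.2).mem S.ma)
    (mul_mem (mul_mem hk.1 h1) (inv_mem hk.1)) h3⟩, _, hy.conj hl.2, by
      rw [s_inv]
      exact cell_s S.lt.form ((hy.conj hl.2).mem S.mb) (mul_mem (mul_mem hl.1 h2) (inv_mem hl.1)) h4⟩

theorem pe_of_om (S : St p T G1 ω a b) (hU : PU p G1 a b) (h : ∀ w, Om ρ G1 a b w → w = 1) :
    PE p a ∧ PE p b := by
  obtain ⟨w, hw⟩ := exists_om S hU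
  obtain rfl := h w hw
  obtain ⟨u, hu, n, n1, hn, z, hz, hx, hy⟩ := hw.form S hU
  have hH := hn.mem_H
  by_cases e : n = 1
  · subst e
    rw [mul_one] at hx hy
    exact ⟨(pe_up S.lt hu.1).cj hx.symm, (pe_up S.lt (mul_mem (inv_mem hu.1) hz.1)).cj hy.symm⟩
  obtain ⟨i, hi⟩ := not_forall.1 (mt (eq_one_of_cen S.lt S.center hH) e)
  have hB := ρ.Bo_le_PJ (T.S.orb i)
  have h1 := StRep.H_conj_mem_U (inv_mem hH) (mul_mem (inv_mem hu.1) hz.1)
  have e1 : (u * n)⁻¹ * z = n⁻¹ * (u⁻¹ * z) * n⁻¹⁻¹ * n⁻¹ := by group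
  rw [e1] at hy
  exact absurd (h _ (om_s S hU hx hy (hB (mul_mem (ρ.Up_le_Bo hu.1) (ρ.H_le_Bo hH)))
    (hB (mul_mem (ρ.Up_le_Bo h1) (ρ.H_le_Bo (inv_mem hH)))) (moves S.lt hu.1 hH hi)
    (moves S.lt h1 (inv_mem hH) fun h => hi (by simpa using h.inv_left))))
    (lg_ne_one (T.S.mem_orb_self i))

/-- The frame of every family: no `D`, and every nontrivial `p`-element is opposite. -/
theorem not_pu (S : St p T G1 ω a b) (h : C.Top θ)
    (h1 : PU p G1 a b → ∀ D, T.S.Stab D → D.Nonempty → Om ρ G1 a b (lg C.toRootSys D) →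
      (∀ i ∈ D, Neg T (lg C.toRootSys D) i) → False)
    (h2 : ∀ x ∈ G1, PE p x → ∀ i, WA ρ G1 x (T.S.s i) → Opp p ρ G1 θ x) : ¬ PU p G1 a b := fun hU => by
  have h3 : ∀ w, Om ρ G1 a b w → w = 1 := fun w hw => by_contra fun e => by
    obtain ⟨D, d1, d2, d3, d4⟩ := hw.min S hU e
    exact h1 hU D d1 d2 d3 d4
  obtain ⟨ha, hb⟩ := pe_of_om S hU h3
  obtain ⟨i, hi⟩ := exists_wa_s S.lt S.ma ha S.na
  obtain ⟨j, hj⟩ := exists_wa_s S.lt S.mb hb S.nb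
  obtain ⟨w, hw, e⟩ := om_opp S hU h.pos (fun u hu t => (StRep.commute_top h hu t).symm)
    (h2 a S.ma ha i hi) (h2 b S.mb hb j hj)
  rw [h3 w hw] at e
  exact h.pos.ne_neg h.pos e

omit [Fact p.Prime] in
theorem h_neg_one (hρ : ρ.Faithful) (h2 : (2 : K) ≠ 0) (h : ρ.h (C.simple i) (-1) = 1) (j : B) :
    Even (C.car i j) := by
  have h3 := ρ.h_conj_x (C.simple i) (-1) (C.simple j) 1
  rw [h, one_mul, inv_one, mul_one, C.A_simple_simple] at h3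
  by_contra h4
  have := hρ.x_injective _ h3
  rw [(Int.not_even_iff_odd.1 h4).neg_one_zpow] at this
  exact h2 (by linear_combination (by simpa using this : (1 : K) = -1))

theorem r2 (S : St p T G1 ω a b) (hU : PU p G1 a b) (g : Gr T φ c) (h1 : T.p i = i)
    (h2 : ∃ j, C.car i j = -1 ∨ C.car j i = -1 ∧ T.p j = j) (h : Om ρ G1 a b w)
    (hw : w (C.simple i) = C.neg (C.simple i)) :
    Nat.card {t : K // φ t = t} = 2 ∨
      Nat.card {t : K // φ t = t} = 3 ∧ ρ.h (C.simple i) (-1) = 1 := by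
  have M := S.lt
  have := M.fin
  have := M.char
  have hW := h.1.mem_Wf M S.ma
  have h3 : ∀ t, φ t = t → t = 0 ∨ t = 1 ∨ t = -1 := fun t ht => or_iff_not_imp_left.2 fun h0 => by
    lift t to Kˣ using Ne.isUnit h0
    obtain ⟨n, n1, hn⟩ := M.form.exists_n hW
    suffices (t : K)⁻¹ = t from mul_self_eq_one_iff.1 (by nth_rw 1 [← this]; simp)
    obtain ⟨j, hj | ⟨hj, hj'⟩⟩ := h2
    · have := ev_eq T.faith hn (h.kw S hU n n1 hn _ ⟨ρ.h_mem_H _ t, h_mem M g h1 ht⟩)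
        (ρ.h_conj_x _ t (C.simple j)) (ρ.h_conj_x _ t _)
      rw [← C.neg_neg (C.simple i), ← hw, ← RootSys.neg_aut hn.mem_Aut, RootSys.A_aut hn.mem_Aut,
        RootSys.neg_aut hn.mem_Aut, hw, C.neg_neg] at this
      simpa [C.A_simple_simple, hj] using this
    · simpa [hw, C.A_simple_simple, hj] using ev_eq T.faith hn
        (h.kw S hU n n1 hn _ ⟨ρ.h_mem_H _ t, h_mem M g hj' ht⟩)
        (ρ.h_conj_x _ t (C.simple i)) (ρ.h_conj_x _ t _)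
  have h4 : {t : K | φ t = t} = {0, 1, -1} := Set.ext fun t => ⟨h3 t, by
    rintro (rfl | rfl | rfl) <;> simp⟩
  change Set.ncard {t : K | φ t = t} = 2 ∨ Set.ncard {t : K | φ t = t} = 3 ∧ _
  rw [h4]
  by_cases h5 : (2 : K) = 0
  · rw [show (-1 : K) = 1 by linear_combination -h5, Set.pair_eq_singleton]
    exact .inl (Set.ncard_pair zero_ne_one)
  refine .inr ⟨Set.ncard_eq_three.2 ⟨_, _, _, zero_ne_one, by simp,
    fun e => h5 (by linear_combination e), rfl⟩, by_contra fun h6 => ?_⟩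
  have e0 := s_fix h1
  have hs : T.S.Stab {i} := orb_fix h1 ▸ T.S.stab_orb i
  have hm : (T.S.s i * w) (C.simple i) = C.simple i := by
    rw [Equiv.Perm.mul_apply, hw, e0, RootSys.neg_aut (C.W_le_Aut (C.WJ_le_W _
      (C.sref_mem_WJ (J := {i}) rfl))), RootSys.sref_simple_self, C.neg_neg]
  obtain ⟨n, -, hn, l₁, hl₁, l₂, hl₂, c1, c2, H⟩ := Om.levi S hU hs (w := T.S.s i)
    ⟨e0 ▸ C.sref_mem_WJ rfl, Sym.s_mem_Wf i⟩ (mul_mem (Sym.s_mem_Wf i) hW)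
    (fun j hj => ⟨i, rfl, hj ▸ hm⟩) (by rwa [← mul_assoc, lg_mul_self, one_mul])
  obtain ⟨f, f0, f1, f2, -, f3⟩ := M.r3.exists_hom_sl2 (C.simple i)
  have hf := inj T.faith (C.pos_simple i) f1 f2 f3 h6
  have hR : ρ.U {r | C.InSub {i} r} ≤ f.range := StRep.U_inSub_le fun j hj =>
    hj ▸ f0 ▸ ⟨le_sup_left, le_sup_right⟩
  obtain ⟨s, hs⟩ := exists_s M g h1
  obtain ⟨_, h7, z, hz, rfl⟩ := StRep.mem_U_sup_H.1 ((sup_comm ρ.H _).le (il hl₁))
  obtain ⟨A, rfl⟩ := hR h7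
  obtain ⟨Z, hZ⟩ : f A * z * l₂ ∈ f.range := by
    obtain ⟨e, he⟩ := H 1 (one_mem _)
    obtain ⟨y, hy, h8⟩ := StRep.exists_conj_mem_UL T.faith (mul_mem hl₁.1 hl₂.1) (by simpa using he)
    exact hR ((Subgroup.mem_normalizer_iff.1 ((sup_le (ρ.H_le_normalizer_U _)
      Subgroup.le_normalizer : ρ.LJ {i} ≤ _) hy) _).2 (ρ.U_mono (fun _ h => h.2) h8))
  obtain ⟨d, hd⟩ := ((StRep.acts_of_mem_H hz).mul hn.acts).exists_conj_x (C.simple i)
  rw [one_mul, hm] at hd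
  have h8 : ∀ t, c * φ t = t → PE p (A * sl2x K true (d * t) * (A⁻¹ * Z) * sl2x K true (-t)) :=
    fun t ht => by
      obtain ⟨e, he⟩ := H (ρ.x (C.simple i) t)
        (im (StRep.x_mem_LJ (C.inSub_simple.2 (Set.mem_singleton i)) t) (x_mem M.form g h1 ht))
      refine ⟨e, hf ?_⟩
      rw [map_pow, map_one, ← he]
      simp only [map_mul, map_inv, f1, hZ, ← hd, ρ.x_neg]
      congr 1
      group
  have hne := lg_ne_one (R := C.toRootSys) (T.S.mem_orb_self i)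
  have a1 : A 1 0 ≠ 0 := fun e => not_mem_Bo T.faith c1 hne
    (mul_mem (mem_Bo (C.pos_simple i) f1 f3 e) (ρ.H_le_Bo hz))
  have a2 : (A⁻¹ * Z) 1 0 ≠ 0 := fun e => not_mem_Bo T.faith c2 (inv_ne_one.2 hne) (by
    simpa [hZ, mul_assoc] using mul_mem (inv_mem (ρ.H_le_Bo hz)) (mem_Bo (C.pos_simple i) f1 f3 e))
  generalize A⁻¹ * Z = Y at h8 a2
  have t0 := trace_eq (h8 0 (by simp))
  have t1 := trace_eq (h8 s hs)
  have t2 := trace_eq (h8 (-s) (by simp [hs]))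
  simp only [Matrix.SpecialLinearGroup.coe_mul, val_sl2x_true, Matrix.mul_apply, Fin.sum_univ_two,
    of_apply, cons_val', cons_val_zero, cons_val_one, cons_val_fin_one] at t0 t1 t2
  exact mul_ne_zero (mul_ne_zero (mul_ne_zero (mul_ne_zero h5 d.ne_zero) (pow_ne_zero 2 s.ne_zero)) a1) a2
    (by linear_combination 2 * t0 - t1 - t2)

omit [Fact p.Prime] in
theorem ko (M : LT p T G1 ω) (g : Gr T φ c) (h1 : T.p i ≠ i)
    (h2 : ∀ j ∈ T.S.orb i, j ≠ i → C.car i j = 0) (hw : w ∈ T.S.Wf) (h : Kw ρ G1 w) :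
    w (C.simple i) ≠ C.neg (C.simple i) := fun hi => by
  have := M.fin
  obtain ⟨e, he⟩ : ∃ e, MulAction.period T.p i = e + 1 := Nat.exists_eq_succ_of_ne_zero
    (MulAction.period_pos_of_orderOf_pos (orderOf_pos _) i).ne'
  have e1 : (T.p ^ (e + 1)) i = i := he ▸ MulAction.pow_period_smul T.p i
  have e2 := g.ord' i h1 _ e1
  have so : ∀ k l, k < l → l < e + 1 → SO C (C.simple ((T.p ^ k) i)) (C.simple ((T.p ^ l) i)) :=
    fun k l h3 h4 => by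
      obtain ⟨l, rfl⟩ := Nat.exists_eq_add_of_le h3.le
      have h5 : (T.p ^ l) i ≠ i := MulAction.pow_smul_ne_of_lt_period (m := T.p) (a := i) (by omega)
        (by omega)
      have h6 : C.car ((T.p ^ k) i) ((T.p ^ (k + l)) i) = 0 := by
        rw [← h2 _ ⟨l, by simp [Tw.S]⟩ h5, pow_add, Equiv.Perm.mul_apply]
        clear h3 h4
        induction k with
        | zero => rfl
        | succ k ih => rw [pow_succ', Equiv.Perm.mul_apply, Equiv.Perm.mul_apply, g.car, ih]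
      exact so_of_orth (by rw [pow_add, Equiv.Perm.mul_apply]; simpa using h5.symm) h6
        ((C.car_eq_zero_comm _ _).1 h6)
  have mul : ∀ x ∈ ρ.U {C.simple i, C.neg (C.simple i)}, ∀ y ∈ ρ.U {C.simple i, C.neg (C.simple i)},
      nm T (e + 1) (x * y) = nm T (e + 1) x * nm T (e + 1) y := fun x hx y hy => by
    simp only [nm, iterate_map_mul]
    exact (prod_map_mul_of_pairwise (List.pairwise_lt_range.imp_of_mem fun {k l} _ h3 h4 =>
      (so k l h4 (List.mem_range.1 h3)).commute_U (it_mem _ hy) (it_mem _ hx))).symm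
  have cm : ∀ x ∈ ρ.U {C.simple i, C.neg (C.simple i)}, ∀ y ∈ ρ.U {C.simple i, C.neg (C.simple i)},
      Commute y (T.σ (nm T e x)) := fun x hx y hy => by
    rw [nm, map_list_prod, List.map_map]
    refine Commute.list_prod_right _ _ (List.forall_mem_map.2 fun k hk => ?_)
    simpa [Function.iterate_succ_apply'] using (so 0 (k + 1) (by omega)
      (by simpa using hk)).commute_U hy (it_mem (k + 1) hx)
  have fx : ∀ x ∈ ρ.U {C.simple i, C.neg (C.simple i)}, T.σ^[e + 1] x = x →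
      nm T (e + 1) x ∈ T.Fix := fun x hx h3 => by
    rw [Tw.mem_Fix]
    nth_rw 1 [nm_succ']
    rw [map_mul, ← Function.iterate_succ_apply' T.σ, h3, nm_succ, (cm x hx x hx).eq]
  have x1 : ∀ t, ρ.x (C.simple i) t ∈ ρ.U {C.simple i, C.neg (C.simple i)} := fun t =>
    ρ.x_mem_U (by simp) t
  have x2 : ∀ t, ρ.x (C.neg (C.simple i)) t ∈ ρ.U {C.simple i, C.neg (C.simple i)} := fun t =>
    ρ.x_mem_U (by simp) t
  have x3 : ∀ t, ρ.n (C.simple i) t ∈ ρ.U {C.simple i, C.neg (C.simple i)} := fun t =>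
    ρ.n_mem_U (by simp) (by simp) t
  have g1 : ∀ t, nm T (e + 1) (ρ.x (C.simple i) t) ∈ G1 := fun t => M.form.Up_le
    ⟨it_of (fun _ => T.σ_mem_Up) (ρ.x_mem_U (S := {r | C.Pos r}) (C.pos_simple i) t) _,
      fx _ (x1 t) (by simp only [(it_x g _ t).1, e1, e2, (g.ord _ e2).2]; simp)⟩
  have g2 : ∀ t, nm T (e + 1) (ρ.x (C.neg (C.simple i)) t) ∈ G1 := fun t => M.form.Um_le
    ⟨it_of (fun _ => T.σ_mem_U fun _ => mt T.pos_π_iff.1)
      (ρ.x_mem_U (S := {r | ¬ C.Pos r}) (C.not_pos_neg_simple i) t) _,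
      fx _ (x2 t) (by simp only [(it_x g _ t).2, e1, e2, (g.ord _ e2).2]; simp)⟩
  have g3 : ∀ t, nm T (e + 1) (ρ.n (C.simple i) t) ∈ G1 := fun t => by
    rw [PreSt.n, mul _ (mul_mem (x1 _) (x2 _)) _ (x1 _), mul _ (x1 _) _ (x2 _)]
    exact mul_mem (mul_mem (g1 _) (g2 _)) (g1 _)
  obtain ⟨n, n1, hn⟩ := M.form.exists_n hw
  have h4 : ∀ t : Kˣ, t ^ 4 = 1 := fun t => by
    have h5 := cm _ (mul_mem (x3 t) (x3 (-1)))
    have h6 : ∀ y ∈ ρ.U {C.simple i, C.neg (C.simple i)}, nm T (e + 1) (ρ.h (C.simple i) t) * y *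
        (nm T (e + 1) (ρ.h (C.simple i) t))⁻¹ = ρ.h (C.simple i) t * y * (ρ.h (C.simple i) t)⁻¹ :=
      fun y hy => by
        rw [nm_succ, mul_assoc _ _ y, PreSt.h, ← (h5 y hy).eq]; group
    have := ev_eq T.faith hn (h n n1 hn _ ⟨it_of (fun _ => T.σ_mem_H) (ρ.h_mem_H _ t) _, by
      rw [PreSt.h, mul _ (x3 _) _ (x3 _)]; exact mul_mem (g3 _) (g3 _)⟩)
      (fun u => (h6 _ (x1 u)).trans (ρ.h_conj_x _ t _ u))
      (fun u => by rw [hi]; exact (h6 _ (x2 u)).trans (ρ.h_conj_x _ t _ u))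
    rw [RootSys.A_neg_right, RootSys.A_self, Units.val_inj, _root_.zpow_neg, eq_inv_iff_mul_eq_one] at this
    simpa [zpow_ofNat, ← pow_add] using this
  have := Fintype.ofFinite K
  have h5 := (FiniteField.forall_pow_eq_one_iff K 4).1 h4
  have h6 : (Fintype.card K).Prime := by
    have h7 := Nat.le_of_dvd (by norm_num) h5
    have h8 := Fintype.one_lt_card (α := K)
    obtain h | h | h | h : Fintype.card K = 2 ∨ Fintype.card K = 3 ∨ Fintype.card K = 4 ∨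
      Fintype.card K = 5 := by omega
    all_goals rw [h] at h5 ⊢; revert h5; norm_num
  have f := ZMod.ringEquivOfPrime K h6 rfl
  have h7 : φ = 1 := RingHom.ext fun t => by
    obtain ⟨s, rfl⟩ := f.surjective t
    exact RingHom.congr_fun (RingHom.ext_zmod (φ.comp f.toRingHom) f.toRingHom) s
  exact h1 (by rw [← pow_one T.p, (g.ord 1 (by simp [h7])).1]; rfl)

end CF.Ah
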