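import Cfsg.Agent.Ah.UF
import Cfsg.Agent.BN.TwMax

/-! Products of conjugacy classes: rank two lemmas for `p`-elements. -/

set_option autoImplicit false

namespace CF.Ah

open CF.BN CF.Chev CF.Loc Cfsg

variable {B ι : Type} [Fintype B] [DecidableEq B] [Fintype ι] [DecidableEq ι]
  {C : ChevBasis B ι} {K : Type*} [Field K] {G : Type*} [Group G] {ρ : StRep C K G}
  {T : Tw ρ} {G1 : Subgroup G} {ω : ι → ℝ} {p : ℕ} [Fact p.Prime] {J : Set B} {a x y u n k : G}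
  {w : Equiv.Perm ι} {i j : B} {θ δ ε r : ι} {φ : K →+* K} {c : Kˣ}

namespace UR

theorem lg_orth (hj : j ∈ J) (ho : ∀ k ∈ J, k ≠ j → C.car k j = 0)
    (hr : ∀ k ∈ J, k ≠ j → C.A (C.simple k) r = 0) : lg C.toRootSys J r = C.sref j r := by
  have f : ∀ r, (∀ k ∈ J, k ≠ j → C.A (C.simple k) r = 0) → lg C.toRootSys (J \ {j}) r = r := fun r h =>
    C.vec_inj (by
      rw [RootSys.vec_aut (lg_mem_Aut _), RootSys.lin_eq_of_mem_WJ (fun k hk => (C.A_simple k r).symm.trans (h k hk.1 hk.2)) (lg_mem _)])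
  rw [← eq_lg (w := C.sref j * lg C.toRootSys (J \ {j})) (mul_mem (C.sref_mem_WJ hj)
    (C.WJ_mono Set.sdiff_subset (lg_mem _))) fun k hk => ?_, Equiv.Perm.mul_apply, f r hr]
  rw [Equiv.Perm.mul_apply]
  by_cases e : k = j
  · rw [e, f _ fun k h1 h2 => by rw [C.A_simple_simple, ho k h1 h2], C.sref_simple_self]
    exact C.not_pos_neg_simple j
  · have h1 : C.InSub (J \ {j}) (lg C.toRootSys (J \ {j}) (C.simple k)) := inSub_lg.2 (C.inSub_simple.2 ⟨hk, e⟩)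
    rw [C.pos_sref_iff (fun e => (C.inSub_simple.1 (e ▸ h1)).2 rfl)
      (fun e => (C.inSub_simple.1 (C.inSub_neg.1 (e ▸ h1))).2 rfl), pos_lg_iff (C.pos_simple k), not_not]
    exact C.inSub_simple.2 ⟨hk, e⟩

theorem orth (g : Gr T φ c) (h : ∀ l ∈ T.S.orb i, l ≠ i → C.car i l = 0) :
    ∀ k ∈ T.S.orb i, ∀ l ∈ T.S.orb i, k ≠ l → C.car k l = 0 := fun k hk =>
  T.S.orb_induction (q := fun k => ∀ l ∈ T.S.orb i, k ≠ l → C.car k l = 0) (fun l a b => h l a b.symm)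
    (fun k ih l hl e => by
      obtain ⟨l, rfl⟩ := T.S.p.surjective l
      exact (g.car k l).trans (ih l ((T.S.stab_orb i l).1 hl) fun e' => e (congrArg _ e'))) hk

theorem mem_UJ (ho : ∀ k ∈ T.S.orb i, ∀ l ∈ T.S.orb i, k ≠ l → C.car k l = 0) (hx : x ∈ T.Fix)
    (h : x ∈ ρ.Ui i) : x ∈ ρ.UJ (T.S.orb i) := by
  have h1 : ∀ k ∈ T.S.orb i, x ∈ ρ.Ui k := fun k hk => T.S.orb_induction (q := fun k => x ∈ ρ.Ui k) h
    (fun k ih => T.mem_Fix.1 hx ▸ T.σ_mem_U (fun r hr => And.intro (T.pos_π_iff.2 hr.1) fun e =>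
      hr.2 (T.π.injective (e.trans (T.π_simple k).symm))) ih) hk
  have cl : ∀ s : Set B, C.Closed {r | C.Pos r ∧ ∀ k ∈ s, r ≠ C.simple k} := fun s r hr v hv u a b ha hb e =>
    ⟨hr.1.of_add hv.1 e, fun k _ e' => by
      have := congrArg RootSys.ht e
      rw [e', C.ht_simple, map_add, map_smul, map_smul, smul_eq_mul, smul_eq_mul] at this
      nlinarith [hr.1.ht_pos, hv.1.ht_pos]⟩
  suffices ∀ s : Finset B, (∀ k ∈ s, k ∈ T.S.orb i) → x ∈ ρ.U {r | C.Pos r ∧ ∀ k ∈ (s : Set B), r ≠ C.simple k} by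
    classical
    refine ρ.U_mono (fun r hr => And.intro hr.1 fun e => ?_) (this (T.S.orb i).toFinset (by simp))
    obtain ⟨k, hk, e'⟩ := RootSys.eq_simple_of_orth ho hr.1 e
    exact hr.2 k (by simpa using hk) e'
  intro s
  induction s using Finset.induction_on with
  | empty => exact fun _ => ρ.U_mono (fun r hr => And.intro hr.1 (by simp)) h
  | insert k s _ ih =>
    intro hs
    refine ρ.U_mono (fun r hr => And.intro hr.1.1 ?_) (StRep.mem_U_inter T.faith (cl _)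
      (C.isNil_of_pos fun _ h => h.1) (cl {k}) (C.isNil_of_pos fun _ h => h.1) (ih fun l hl => hs l (by simp [hl]))
      (ρ.U_mono (fun r hr => And.intro hr.1 (by simpa using hr.2)) (h1 k (hs k (by simp)))))
    simpa using And.intro (hr.2.2 k rfl) hr.1.2

theorem UJ_le_Ui (h : i ∈ J) : ρ.UJ J ≤ ρ.Ui i :=
  ρ.U_mono fun _ hr => ⟨hr.1, fun e => hr.2 (e ▸ C.inSub_simple.2 h)⟩

theorem eq_one_of (hρ : ρ.Faithful) (h1 : x ∈ ρ.UL J) (h2 : x ∈ ρ.UJ J) : x = 1 :=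
  (StRep.UJ_inf_LJ hρ J).le ⟨h2, ρ.UL_le_LJ J h1⟩

theorem split (M : LT p T G1 ω) (hJ : T.S.Stab J) (hx : x ∈ ρ.Up ⊓ G1) :
    ∃ y ∈ ρ.UL J ⊓ T.Fix, y⁻¹ * x ∈ ρ.UJ J := by
  have e : {r | C.Pos r ∧ C.InSub J r} ∪ {r | C.Pos r ∧ ¬ C.InSub J r} = {r | C.Pos r} := by
    ext r; simp only [Set.mem_union, Set.mem_setOf_eq]; tauto
  obtain ⟨y, hy, z, hz, rfl⟩ := Tw.split (T := T) (S := {r | C.Pos r ∧ C.InSub J r})
    (C.closed_pos.inter (C.closed_inSub J)) (C.closed_rad J) (e.symm ▸ C.closed_pos) (e.symm ▸ C.isNil_pos) (Set.disjoint_left.2 fun r a b => b.2 a.2)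
    (fun r h => ⟨T.pos_π_iff.2 h.1, hJ.inSub_π.2 h.2⟩) (fun r h => ⟨T.pos_π_iff.2 h.1, hJ.inSub_π.not.2 h.2⟩)
    (g := x) (by rw [e]; exact ⟨hx.1, M.form.fix hx.2⟩)
  exact ⟨y, hy, by simpa using hz.1⟩

theorem comm_notMem (hρ : ρ.Faithful) (hij : i ≠ j) (e : C.vec r = C.vec (C.simple i) + C.vec (C.simple j))
    (hx : x ∈ ρ.Ui j) (hx' : x ∉ ρ.Ui i) (hk : k ∈ ρ.Up) (hk' : k ∉ ρ.Ui j) :
    x⁻¹ * k⁻¹ * x * k ∉ ρ.U {s | C.Pos s ∧ s ≠ r ∧ s ≠ C.simple j} := fun h => by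
  have ci : ∀ l, C.Closed {s | C.Pos s ∧ s ≠ C.simple l} := fun l =>
    (C.ideal_pos_ne_simple l).mono fun _ h => Or.inl h.1
  have key : ∀ s v, C.Pos s → C.Pos v → s ≠ C.simple j → v ≠ C.simple j → ¬ C.vec s + C.vec v ≤ C.vec r :=
    fun s v hs hv h1 h2 l => by
      have h3 : RootSys.ht (C.vec s + C.vec v) ≤ RootSys.ht (C.vec r) := Finset.sum_le_sum fun i _ => l i
      rw [e, map_add, map_add, C.ht_simple, C.ht_simple] at h3
      have h4 := hs.ht_pos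
      have h5 := hv.ht_pos
      obtain ⟨a, rfl⟩ := hs.eq_simple_of_ht (by omega)
      obtain ⟨b, rfl⟩ := hv.eq_simple_of_ht (by omega)
      have ha : a ≠ j := fun e => h1 (congrArg _ e)
      have hb : b ≠ j := fun e => h2 (congrArg _ e)
      have la := l a
      have lb := l b
      simp only [e, C.vec_simple, Pi.add_apply, Pi.single_apply, ha, hb] at la lb
      split_ifs at la lb <;> first | omega | simp_all
  have cz : C.Closed {s | C.Pos s ∧ s ≠ r ∧ s ≠ C.simple j} := fun s hs v hv z a b ha hb e' =>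
    ⟨hs.1.of_add hv.1 e', fun e'' => key s v hs.1 hv.1 hs.2.2 hv.2.2 (by
      rw [← e'', e']
      exact add_le_add (le_smul_of_one_le_left hs.1 (by exact_mod_cast ha))
        (le_smul_of_one_le_left hv.1 (by exact_mod_cast hb))),
      (ci j s ⟨hs.1, hs.2.2⟩ v ⟨hv.1, hv.2.2⟩ z a b ha hb e').2⟩
  have lo : ρ.U (C.nbl r) ≤ ρ.U {s | C.Pos s ∧ s ≠ r ∧ s ≠ C.simple j} := ρ.U_mono fun s hs =>
    ⟨hs.1, fun e' => hs.2 (e' ▸ le_rfl), fun e' => hs.2 (by rw [e', e]; exact le_add_of_nonneg_left (C.pos_simple i))⟩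
  obtain ⟨x', h1, t, rfl⟩ := StRep.exists_Ui_mul_x i (ρ.Ui_le_Up j hx)
  obtain ⟨k', h2, s, ek⟩ := StRep.exists_Ui_mul_x j (inv_mem hk)
  have ht : t ≠ 0 := by rintro rfl; exact hx' (by simpa using h1)
  have hs : s ≠ 0 := by rintro rfl; exact hk' (inv_mem_iff.1 (by simpa [ek] using h2))
  have h3 : x' ∈ ρ.U ({s | C.Pos s ∧ s ≠ C.simple i} ∩ {s | C.Pos s ∧ s ≠ C.simple j}) :=
    StRep.mem_U_inter hρ (ci i) (C.isNil_of_pos fun _ h => h.1) (ci j) (C.isNil_of_pos fun _ h => h.1) h1 (by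
      simpa using mul_mem hx (inv_mem (ρ.x_mem_U (And.intro (C.pos_simple i) (C.simple_injective.ne hij)) t)))
  have h4 : x'⁻¹ * k⁻¹ * x' * k ∈ ρ.U (C.nbl r) := StRep.comm_lo (fun _ h => h.1.1) (fun _ h => h) (fun a ha b hb l => by
    have h3 : RootSys.ht (C.vec a + C.vec b) ≤ RootSys.ht (C.vec r) := Finset.sum_le_sum fun i _ => l i
    rw [e, map_add, map_add, C.ht_simple, C.ht_simple] at h3
    have h4 := RootSys.Pos.ht_pos ha
    obtain ⟨b, rfl⟩ := hb.1.1.eq_simple_of_ht (by omega)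
    have lb := l b
    have := ha b
    simp only [e, C.vec_simple, Pi.add_apply, Pi.single_apply, Pi.zero_apply, show b ≠ i from fun e => hb.1.2 (congrArg _ e),
      show b ≠ j from fun e => hb.2.2 (congrArg _ e)] at lb this
    simp at lb; omega) h3 hk
  have h5 := StRep.coord_comm (ρ := ρ) (C.pos_simple j) (C.pos_simple i) e (v := k) (t := -s) (by
    rw [C.lo_simple, ρ.x_neg, inv_inv, ← inv_mem_iff]; simpa [ek] using h2) t
  have h6 := StRep.conj_lo (ρ.Up_le_Bo (ρ.x_mem_U (C.pos_simple i) t)) h4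
  have h7 := mul_mem (mul_mem (inv_mem (lo h6)) h) (inv_mem (lo h5))
  rw [show _ * _ = ρ.x r (C.N (C.simple j) (C.simple i) * - -s * t) by group, hρ.x_mem_U_iff cz
    (C.isNil_of_pos fun _ h => h.1) (mul_ne_zero (mul_ne_zero (cast_ne_zero_of_natAbs_one
      (C.N_abs_one _ _ _ e fun z e' => ?_)) (by simpa using hs)) ht)] at h7
  · exact h7.2.1 rfl
  · rcases C.pos_or_neg z with l | l
    · simpa [e', C.vec_simple, hij.symm] using l j
    · simpa [e', C.vec_simple, hij] using l i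

theorem frame (M : LT p T G1 ω) (g : Gr T φ c) (ht : C.Top θ) (hij : j ∉ T.S.orb i)
    (w1 : ¬ C.Pos (T.S.s i (T.S.s j (T.S.s i (T.S.s j (C.simple i))))))
    (w2 : ¬ C.Pos (T.S.s i (T.S.s j (T.S.s i (T.S.s j (C.simple j))))))
    (w3 : C.Pos (T.S.s i (T.S.s j (C.simple i))))
    (d0 : C.Pos ε) (d1 : C.InSub (T.S.orb j) ε) (d2 : T.S.s j ε = C.neg ε) (d3 : C.len ε = C.len θ) (d4 : T.π ε = ε)
    (d5 : T.S.s j (T.S.s i ε) = T.S.s i ε) (d6 : ∀ k ∈ T.S.orb i ∪ T.S.orb j, 0 ≤ C.A (C.simple k) (T.S.s i ε))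
    (hs : WA ρ G1 a (T.S.s j) → Opp p ρ G1 θ a)
    (key : ∀ y ∈ blk T i, y ≠ 1 → ∀ n, ρ.NW n (T.S.s j) → ∃ k ∈ blk T i, ∃ t ≠ 0,
      k⁻¹ * (n * y * n⁻¹) * k = n * y * n⁻¹ * ρ.x (T.S.s i ε) t)
    (ha : a ∈ G1) (hp : PE p a) (h : WA ρ G1 a (T.S.s i)) : Opp p ρ G1 θ a := by
  by_contra hn
  have hji : i ∉ T.S.orb j := fun e => hij (T.S.orb_eq_of_mem e ▸ T.S.mem_orb_self j)
  have hJ : T.S.Stab (T.S.orb i ∪ T.S.orb j) := fun k => or_congr (T.S.stab_orb i k) (T.S.stab_orb j k)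
  have fi := T.S.s_mem_Wf i
  have fj := T.S.s_mem_Wf j
  have mi : T.S.s i ∈ C.WJ (T.S.orb i ∪ T.S.orb j) := C.WJ_mono Set.subset_union_left (lg_mem _)
  have mj : T.S.s j ∈ C.WJ (T.S.orb i ∪ T.S.orb j) := C.WJ_mono Set.subset_union_right (lg_mem _)
  have ii : T.S.s i * T.S.s i = 1 := lg_mul_self _
  have jj : T.S.s j * T.S.s j = 1 := lg_mul_self _
  have i' : (T.S.s i)⁻¹ = T.S.s i := lg_inv _
  have j' : (T.S.s j)⁻¹ = T.S.s j := lg_inv _
  have pi : C.Pos (T.S.s i (C.simple j)) := (pos_lg_iff (C.pos_simple j)).2 (C.inSub_simple.not.2 hij)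
  have pj : C.Pos (T.S.s j (C.simple i)) := (pos_lg_iff (C.pos_simple i)).2 (C.inSub_simple.not.2 hji)
  have W : T.S.s i * T.S.s j * T.S.s i * T.S.s j = lg C.toRootSys (T.S.orb i ∪ T.S.orb j) :=
    eq_lg (mul_mem (mul_mem (mul_mem mi mj) mi) mj) fun k hk => hk.elim
      (fun e => (Sym.pos_simple_iff (mul_mem (mul_mem (mul_mem fi fj) fi) fj) e).not.2 w1)
      fun e => (Sym.pos_simple_iff (mul_mem (mul_mem (mul_mem fi fj) fi) fj) e).not.2 w2
  have br : T.S.s j * T.S.s i * T.S.s j * T.S.s i = T.S.s i * T.S.s j * T.S.s i * T.S.s j := by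
    rw [W, ← lg_inv, ← W]; simp only [mul_inv_rev, i', j', mul_assoc]
  have ni : ¬ C.InSub (T.S.orb i) ε := fun e => by
    obtain ⟨k, hk⟩ := Function.ne_iff.1 (C.vec_ne_zero ε)
    exact hij (T.S.orb_eq_of_mem (e.mem hk) ▸ T.S.orb_eq_of_mem (d1.mem hk) ▸ T.S.mem_orb_self j)
  have p0 : C.Pos (T.S.s i ε) := (pos_lg_iff d0).2 ni
  have l0 : C.len (T.S.s i ε) = C.len θ := (RootSys.len_aut (Sym.mem_Aut fi) ε).trans d3
  have nd : ∀ w, w (T.S.s i ε) = C.neg (T.S.s i ε) → ¬ WA ρ G1 a w := fun w e hw => by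
    obtain ⟨v, v1, v2⟩ := exists_Wf_top M g ht (δ := T.S.s i ε)
      ((Sym.apply_π fi ε).symm.trans (congrArg _ d4)) l0
    refine hn (v2 ▸ (opp_of_neg M ha hw p0 ((C.inSub_WJ mi ε).2 fun k hk => d1 k fun e => hk (Or.inr e))
      (fun u hu t => ?_) e).move M v1)
    refine Subgroup.mem_centralizer_singleton_iff.1 (ρ.U_le_iff.2 (fun r hr s =>
      Subgroup.mem_centralizer_singleton_iff.2 (ρ.commute_of_none (hr.1.ne_neg p0) (fun z e => ?_) s t)) hu)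
    have h1 := RootSys.A_le_one_of_long (r := T.S.s i ε) (s := z) (fun z => l0 ▸ ht.len_le z) (C.add_ne_left e)
    have h2 := RootSys.A_nonneg d6 hr.1 hr.2
    have h3 := C.A_neg_iff (T.S.s i ε) r
    rw [RootSys.A_add e, C.A_self] at h1
    omega
  have e0 : T.S.s i (T.S.s j (T.S.s i (T.S.s i ε))) = C.neg (T.S.s i ε) := by
    rw [lg_lg, d2, RootSys.neg_aut (Sym.mem_Aut fi)]
  have N1 : ¬ WA ρ G1 a (T.S.s j) := fun e => hn (hs e)
  have N2 : ¬ WA ρ G1 a (T.S.s j * T.S.s i) := fun e => nd _ e0 (e.ascL M ha (by simpa [i', j'] using w3)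
    ((Sym.pos_mul_s_iff fj i).not.2 (not_not.2 pj)))
  have N3 : ¬ WA ρ G1 a (T.S.s j * T.S.s i * T.S.s j * T.S.s i) := nd _ (by
    rw [br]; simpa only [Equiv.Perm.mul_apply, d5] using e0)
  have p3 : C.Pos ((T.S.s j * T.S.s i * T.S.s j) (C.simple i)) := by_contra fun e =>
    w1 (by simpa only [br, Equiv.Perm.mul_apply] using (Sym.pos_mul_s_iff (mul_mem (mul_mem fj fi) fj) i).2 e)
  obtain ⟨u, hu, n, n1, n2, cu⟩ := (h.asc M ha (i := j) (Or.inr pi)).form M ha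
  have q1 : T.S.s j * (T.S.s j * T.S.s i * T.S.s j) * T.S.s j = T.S.s i := by
    simp only [← mul_assoc, jj, one_mul]; rw [mul_assoc, jj, mul_one]
  have q2 : T.S.s j * T.S.s i * T.S.s j * T.S.s j = T.S.s j * T.S.s i := by rw [mul_assoc, jj, mul_one]
  have q3 : T.S.s i * (T.S.s j * T.S.s i * T.S.s j) * T.S.s i = T.S.s j * T.S.s i * T.S.s j := by
    simp only [← mul_assoc]; rw [← br, mul_assoc, ii, mul_one]
  have hf := fold M hu n1 n2 (L := [[j], [i, j]]) (by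
    simp only [List.forall_mem_cons]
    refine ⟨⟨?_, ?_, trivial⟩, ⟨?_, (WA.cj cu).not.2 N3, ?_, ?_, trivial⟩, by simp⟩
    · rwa [q1, i']
    · rwa [q2, WA.cj cu]
    · rw [q3]; simpa only [mul_inv_rev, i', j', ← mul_assoc] using p3
    · rwa [q3, q1, i']
    · rwa [q3, q2, WA.cj cu])
  obtain ⟨mi', i1, i2⟩ := M.form.exists_n_s i
  obtain ⟨mj', j1, j2⟩ := M.form.exists_n_s j
  have m1 := mul_mem j1 i1
  have m2 := j2.mul i2
  have cu' : Cj G1 a (mj' * mi' * u * (mj' * mi')⁻¹ * (mj' * mi' * n * (mj' * mi')⁻¹)) := by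
    simpa [mul_assoc] using cu.conj m1
  obtain ⟨y, y1, y2, q, hq, cy⟩ := blk_of M hJ (Or.inl (T.S.mem_orb_self i)) (mul_mem (mul_mem m1 hu.2) (inv_mem m1))
    (m2.acts.conj_mem_U (fun r hr => by
      have a1 : C.Pos (T.S.s j r) := by simpa using hr.2 [j] (by simp)
      have a2 : C.Pos ((T.S.s j * T.S.s i) r) := by simpa using hr.2 [i, j] (by simp)
      refine ⟨a2, by_contra fun e => ?_⟩
      rw [not_or, not_not] at e
      have a3 := (pos_lg_iff a1).not.2 (not_not.2 ((C.inSub_WJ mj r).2 ((C.inSub_WJ (mul_mem mj mi) r).1 e.2)))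
      rw [← W, Equiv.Perm.mul_apply, lg_lg, mul_assoc, Equiv.Perm.mul_apply, pos_lg_iff a2] at a3
      exact a3 e.1) hf) (mul_mem (mul_mem m1 n1) (inv_mem m1)) (by
      convert (m2.mul n2).mul m2.inv using 1
      rw [mul_inv_rev, i', j', mul_assoc (T.S.s j), ← mul_assoc _ (T.S.s i), mul_assoc (T.S.s j) _ (T.S.s i), q3, q1])
    (hp.cj cu')
  obtain ⟨k, k1, t, t0, ek⟩ := key y y1 y2 mj' j2
  obtain ⟨d, hd⟩ := i2.acts.exists_conj_x (T.S.s i ε)
  have k2 := M.form.pos i k1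
  have cz := (((cu'.trans cy).conj j1).conj (inv_mem k2)).conj i1
  have a1 : mi' * (mj' * y * mj'⁻¹) * mi'⁻¹ ∈ ρ.UJ (T.S.orb j) := by
    have := (i2.mul j2).acts.conj_mem_U (T := {r | C.Pos r ∧ ¬ C.InSub (T.S.orb j) r}) (fun r hr => by
      have b1 := Sym.pos_of_orb (mul_mem fi fj) w3 hr.1 hr.2
      exact ⟨b1, (pos_lg_iff b1).1 (Sym.pos_of_orb (mul_mem (mul_mem fj fi) fj) p3 hr.1 hr.2)⟩) y1.1
    simpa [mul_assoc] using this
  have a2 : mi' * (k⁻¹ * (mj' * q * mj'⁻¹) * k⁻¹⁻¹) * mi'⁻¹ ∈ ρ.UJ (T.S.orb j) :=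
    ρ.U_mono (fun r hr => And.intro hr.1 fun e => hr.2 fun l hl => e l fun e => hl (Or.inr e))
      (StRep.PJ_conj_mem_UJ (i2.mem_PJ mi) (StRep.PJ_conj_mem_UJ (inv_mem (ρ.Bo_le_PJ _ (ρ.Up_le_Bo
        (ρ.UL_le_Up _ k1.1)))) (StRep.PJ_conj_mem_UJ (j2.mem_PJ mj) hq.1)))
  have ez : mi' * (k⁻¹ * (mj' * (y * q) * mj'⁻¹) * k⁻¹⁻¹) * mi'⁻¹ = mi' * (mj' * y * mj'⁻¹) * mi'⁻¹ * ρ.x ε (d * t) *
      (mi' * (k⁻¹ * (mj' * q * mj'⁻¹) * k⁻¹⁻¹) * mi'⁻¹) := by
    have := hd t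
    rw [lg_lg] at this
    calc _ = mi' * (k⁻¹ * (mj' * y * mj'⁻¹) * k) * (k⁻¹ * (mj' * q * mj'⁻¹) * k⁻¹⁻¹) * mi'⁻¹ := by group
      _ = _ := by rw [ek, ← this]; group
  refine N1 ((WA.cj cz).1 (wa_s M ⟨?_, cz.mem ha⟩ fun e => ?_))
  · exact ez ▸ mul_mem (mul_mem (ρ.UJ_le_Up _ a1) (ρ.x_mem_U d0 _)) (ρ.UJ_le_Up _ a2)
  · rw [ez, mul_mem_cancel_right a2, mul_mem_cancel_left a1, T.faith.x_mem_U_iff (C.closed_rad _) (C.isNil_rad _)
      (mul_ne_zero d.ne_zero t0)] at e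
    exact e.2 d1

theorem orb2 (h : T.p (T.p i) = i) : T.S.orb i = {i, T.p i} := by
  refine Set.Subset.antisymm (fun k hk => T.S.orb_induction (q := fun k => k = i ∨ k = T.p i) (Or.inl rfl) ?_ hk) ?_
  · rintro _ (rfl | rfl)
    exacts [Or.inr rfl, Or.inl h]
  · rintro _ (rfl | rfl)
    exacts [T.S.mem_orb_self _, (T.S.stab_orb i i).2 (T.S.mem_orb_self i)]

theorem orb1 (h : T.p i = i) : T.S.orb i = {i} := by rw [orb2 (by rw [h, h]), h, Set.pair_eq_singleton]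

theorem s1 (h : T.p i = i) : T.S.s i = C.sref i :=
  Equiv.ext fun _ => lg_orth (T.S.mem_orb_self i) (by simp [orb1 h]) (by simp [orb1 h])

theorem s2 (h : T.p (T.p i) = i) (h0 : C.car i (T.p i) = 0) : T.S.s i = C.sref i * C.sref (T.p i) := by
  have h1 := (C.car_eq_zero_comm _ _).1 h0
  refine (eq_lg (mul_mem (C.sref_mem_WJ (by simp [orb2 h])) (C.sref_mem_WJ (by simp [orb2 h]))) ?_).symm
  simp [orb2 h, -RootSys.sref_simple_self, -zsmul_eq_mul, C.pos_iff_ht, C.vec_sref, C.A_simple, C.vec_simple, C.sp_single,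
    RootSys.ht_single, C.car_self, h0, h1]

theorem s3 (h : T.p (T.p i) = i) (h0 : C.car i (T.p i) = -1) (h1 : C.car (T.p i) i = -1) :
    T.S.s i = C.sref i * C.sref (T.p i) * C.sref i := by
  refine (eq_lg (mul_mem (mul_mem (C.sref_mem_WJ (by simp [orb2 h])) (C.sref_mem_WJ (by simp [orb2 h])))
    (C.sref_mem_WJ (by simp [orb2 h]))) ?_).symm
  simp [orb2 h, -RootSys.sref_simple_self, -zsmul_eq_mul, C.pos_iff_ht, C.vec_sref, C.A_simple, C.vec_simple, C.sp_single,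
    RootSys.ht_single, C.car_self, h0, h1]

theorem cm (hl : C.SameLen) {s : ι} (h : 0 ≤ C.A r s) (t u : K) : Commute (ρ.x r t) (ρ.x s u) :=
  ρ.commute_of_none (RootSys.ne_neg_of_A_nonneg h) (fun _ e => by have := A_of_add hl e; omega) t u

theorem key2 (g : Gr T φ c) (hl : C.SameLen) (h0 : T.p i ≠ i) (h1 : T.p (T.p i) = i) (h4 : C.car i (T.p i) = 0)
    (e1 : C.vec δ = C.vec (w (C.simple i)) + C.vec (C.simple (T.p i)))
    (e2 : C.vec δ = C.vec (w (C.simple (T.p i))) + C.vec (C.simple i))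
    (e3 : 0 ≤ C.A (C.simple i) (w (C.simple i))) (e4 : 0 ≤ C.A (C.simple (T.p i)) (w (C.simple (T.p i)))) :
    ∀ y ∈ blk T i, y ≠ 1 → ∀ n, ρ.NW n w → ∃ k ∈ blk T i, ∃ t ≠ 0,
      k⁻¹ * (n * y * n⁻¹) * k = n * y * n⁻¹ * ρ.x δ t := fun y hy hy' n hn => by
  have oi := orth (i := i) g (by simp +contextual [orb2 h1, h4])
  have m1 : C.Pos (C.simple i) ∧ C.InSub (T.S.orb i) (C.simple i) := ⟨C.pos_simple _, by simp [C.inSub_simple, orb2 h1]⟩
  have m2 : C.Pos (C.simple (T.p i)) ∧ C.InSub (T.S.orb i) (C.simple (T.p i)) :=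
    ⟨C.pos_simple _, by simp [C.inSub_simple, orb2 h1]⟩
  obtain ⟨t, -, rfl⟩ := ρ.exists_prodL (C.closed_pos.inter (C.closed_inSub _)) (C.isNil_of_pos fun _ h => h.1)
    (L := [C.simple i, C.simple (T.p i)]) (fun r => ⟨by
      simp only [List.mem_cons, List.not_mem_nil, or_false]
      rintro (rfl | rfl)
      exacts [m1, m2], fun hr => by
      obtain ⟨k, hk, rfl⟩ := RootSys.eq_simple_of_orth oi hr.1 hr.2
      simpa [C.simple_injective.eq_iff, orb2 h1] using hk⟩) (by simp [C.simple_injective.eq_iff, h0.symm]) hy.1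
  simp only [PreSt.prodL_cons, PreSt.prodL_nil, mul_one] at hy hy' ⊢
  have t0 : t (C.simple i) ≠ 0 := fun e => hy' (eq_one_of T.faith hy.1 (mem_UJ oi hy.2 (by
    rw [e, ρ.x_zero, one_mul]; exact ρ.x_mem_U (And.intro (C.pos_simple _) (C.simple_injective.ne h0)) _)))
  obtain ⟨d, hd⟩ := hn.acts.exists_conj_x (C.simple i)
  obtain ⟨d', hd'⟩ := hn.acts.exists_conj_x (C.simple (T.p i))
  obtain ⟨f, f0, hf⟩ := comm_sl (ρ := ρ) hl e1
  obtain ⟨f', -, hf'⟩ := comm_sl (ρ := ρ) hl e2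
  obtain ⟨s, hs⟩ : ∃ s, f * (c * φ s) * (d * t (C.simple i)) + f' * s * (d' * t (C.simple (T.p i))) ≠ 0 := by
    by_contra! e
    refine h0 (congrArg (fun q : Equiv.Perm B => q i) ((pow_one _).symm.trans (g.ord 1 (RingHom.ext fun s => ?_)).1))
    have := e 1
    rw [map_one] at this
    exact mul_left_cancel₀ (mul_ne_zero (mul_ne_zero f0 c.ne_zero) (mul_ne_zero d.ne_zero t0))
      (by rw [pow_one, RingHom.coe_one, id]; linear_combination e s - s * this)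
  have cc : (c : K) * c = 1 := by rw [← Units.val_mul, g.sq, Units.val_one]
  have c1 : φ c = c := by rcases mul_self_eq_one_iff.1 cc with e | e <;> simp [e]
  have c2 : φ (φ s) = s := congrArg (fun ψ : K →+* K => ψ s) ((sq φ).symm.trans (g.ord' i h0 2 h1))
  refine ⟨ρ.x (C.simple i) s * ρ.x (C.simple (T.p i)) (c * φ s), im (mul_mem (ρ.x_mem_U m1 _) (ρ.x_mem_U m2 _)) ?_,
    _, hs, ?_⟩
  · rw [T.mem_Fix, map_mul, T.σ_x, T.σ_x, T.π_simple, T.π_simple, h1, g.c_eq, g.c_eq, g.φ_eq, g.φ_eq,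
      map_mul, c1, c2, ← mul_assoc, cc, one_mul]
    exact (cm hl (by rw [C.A_simple_simple, h4]) _ _).eq.symm
  rw [← conj_mul, hd, hd', ρ.x_add, ← hf, ← hf']
  have k1 := (cm (ρ := ρ) hl e3 s (d * t (C.simple i))).eq
  have k2 := (cm (ρ := ρ) hl e4 (c * φ s) (d' * t (C.simple (T.p i)))).eq
  have k3 := (cm (ρ := ρ) hl (r := C.simple (T.p i)) (s := δ) (by
    have := hl.n3.ge (C.simple (T.p i)) (w (C.simple i))
    rw [RootSys.A_add e1, C.A_self]; omega) (c * φ s) (f' * s * (d' * t (C.simple (T.p i))))).eq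
  have k4 := (cm (ρ := ρ) hl (r := w (C.simple (T.p i))) (s := δ) (by
    have := hl.n3.ge (w (C.simple (T.p i))) (C.simple i)
    rw [RootSys.A_add e2, C.A_self]; omega) (d' * t (C.simple (T.p i))) (f * (c * φ s) * (d * t (C.simple i)))).eq
  rw [← hf'] at k3
  rw [← hf] at k4
  generalize ρ.x (C.simple i) s = a at *
  generalize ρ.x (C.simple (T.p i)) (c * φ s) = a' at *
  generalize ρ.x (w (C.simple i)) (d * t (C.simple i)) = b at *
  generalize ρ.x (w (C.simple (T.p i))) (d' * t (C.simple (T.p i))) = b' at *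
  calc _ = a'⁻¹ * a⁻¹ * (b * a) * b' * ((b'⁻¹ * a⁻¹ * b' * a) * a') := by group
    _ = a'⁻¹ * b * (b' * a') * (b'⁻¹ * a⁻¹ * b' * a) := by rw [← k1, ← k3]; group
    _ = b * ((b⁻¹ * a'⁻¹ * b * a') * b') * (b'⁻¹ * a⁻¹ * b' * a) := by rw [← k2]; group
    _ = _ := by rw [← k4]; group

end UR

open UR

theorem a2 (M : LT p T G1 ω) (g : Gr T φ c) (h1 : C.car i j = -1) (h2 : C.car j i = -1)
    (h3 : ∀ i' ∈ T.S.orb i, i' ≠ i → C.car i i' = 0 ∧ C.car j i' = 0)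
    (h4 : ∀ j' ∈ T.S.orb j, j' ≠ j → C.car j j' = 0 ∧ C.car i j' = 0)
    (ha : a ∈ G1) (hp : PE p a) (h : WA ρ G1 a (T.S.s i)) : WA ρ G1 a (T.S.s j) := by
  by_contra hn
  have := M.finite
  have hQ : ∀ x ∈ ρ.Up, Cj G1 a x → x ∈ ρ.UJ (T.S.orb j) := fun x hx c => by_contra fun e =>
    hn ((WA.cj c).1 (wa_s M ⟨hx, c.mem ha⟩ e))
  have oi := orth g fun l a b => (h3 l a b).1
  have oj := orth g fun l a b => (h4 l a b).1
  have hij : i ≠ j := by rintro rfl; rw [C.car_self] at h1; omega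
  have e1 : T.S.s j (C.simple i) = C.sref j (C.simple i) := lg_orth (T.S.mem_orb_self j)
    (fun k a b => (C.car_eq_zero_comm _ _).1 (h4 k a b).1) fun k a b => by
      rw [C.A_simple_simple, (C.car_eq_zero_comm _ _).1 (h4 k a b).2]
  have e2 : C.vec (T.S.s j (C.simple i)) = C.vec (C.simple i) + C.vec (C.simple j) := by
    rw [e1, C.vec_sref, C.A_simple_simple, h2]; simp
  have e3 : (T.S.s i * T.S.s j) (C.simple i) = C.simple j := by
    rw [Equiv.Perm.mul_apply, lg_orth (T.S.mem_orb_self i) (fun k a b => (C.car_eq_zero_comm _ _).1 (h3 k a b).1)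
      fun k a b => by rw [RootSys.A_add e2, C.A_simple_simple, C.A_simple_simple,
        (C.car_eq_zero_comm _ _).1 (h3 k a b).1, (C.car_eq_zero_comm _ _).1 (h3 k a b).2, add_zero]]
    refine C.vec_inj ?_
    rw [C.vec_sref, RootSys.A_add e2, e2, C.A_self, C.A_simple_simple, h1]; simp
  have hw := mul_mem (T.S.s_mem_Wf i) (T.S.s_mem_Wf j)
  obtain ⟨ni, i1, i2⟩ := M.form.exists_n_s i
  obtain ⟨nj, j1, j2⟩ := M.form.exists_n_s j
  obtain ⟨x, hx, cx, hx'⟩ := h.pos M ha hp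
  have cj : ∀ z ∈ blk T j, z * x * z⁻¹ ∈ ρ.UJ (T.S.orb j) ∧ z * x * z⁻¹ ∉ ρ.Ui i ∧ Cj G1 a (z * x * z⁻¹) := fun z hz => by
    have z1 : z ∈ ρ.Up := ρ.UL_le_Up _ hz.1
    refine ⟨hQ _ (mul_mem (mul_mem z1 hx.1) (inv_mem z1)) (cx.conj (M.form.pos j hz)), fun e => hx' (mem_UJ oi
      (M.form.fix hx.2) ?_), cx.conj (M.form.pos j hz)⟩
    exact (Subgroup.mem_normalizer_iff.1 (ρ.U_le_normalizer_Ui i (ρ.U_mono (fun _ h => Or.inl h) z1)) x).2 e
  have up : ∀ z : blk T j, nj * (z * x * z⁻¹) * nj⁻¹ ∈ ρ.Up ⊓ G1 := fun z =>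
    ⟨ρ.UJ_le_Up _ (StRep.PJ_conj_mem_UJ (j2.mem_PJ (lg_mem _)) (cj z z.2).1), ((cj z z.2).2.2.conj j1).mem ha⟩
  choose Y Y1 Y2 using fun z => split M (T.S.stab_orb i) (up z)
  have m1 : ∀ y ∈ blk T i, ni * nj * y * (ni * nj)⁻¹ ∈ blk T j := fun y hy => by
    have := M.form.fix (mul_mem i1 j1)
    refine im ((i2.mul j2).acts.conj_mem_U (fun r hr => ?_) hy.1) <| mul_mem (mul_mem this (ir hy)) (inv_mem this)
    obtain ⟨k, hk, rfl⟩ := RootSys.eq_simple_of_orth oi hr.1 hr.2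
    refine T.S.orb_induction (q := fun k => C.Pos ((T.S.s i * T.S.s j) (C.simple k)) ∧
      C.InSub (T.S.orb j) ((T.S.s i * T.S.s j) (C.simple k))) ?_ (fun k ih => ?_) hk
    · rw [e3]; exact ⟨C.pos_simple j, C.inSub_simple.2 (T.S.mem_orb_self j)⟩
    · rw [← T.S.π_simple, Sym.apply_π hw, T.S.pos_π_iff, (T.S.stab_orb j).inSub_π]; exact ih
  obtain ⟨z, ez⟩ := Finite.surjective_of_injective (f := fun z : blk T j => (⟨_, m1 _ (Y1 z)⟩ : blk T j))
    (fun z z' e => by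
      have e' : Y z = Y z' := by simpa using e
      by_contra ne
      have a1 := mul_mem (inv_mem (Y2 z)) (Y2 z')
      rw [← e'] at a1
      refine comm_notMem T.faith hij e2 (UJ_le_Ui (T.S.mem_orb_self j) (cj z z.2).1) (cj z z.2).2.1
        (k := (z * z'⁻¹ : blk T j).1) (ρ.UL_le_Up _ (z * z'⁻¹).2.1) (fun b => ne (mul_inv_eq_one.1 (Subtype.ext
          (eq_one_of T.faith (z * z'⁻¹).2.1 (mem_UJ oj (z * z'⁻¹).2.2 b))))) ?_
      have a2 := StRep.mem_U_inter T.faith (C.closed_rad _) (C.isNil_rad _) (C.closed_rad _) (C.isNil_rad _) a1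
        (by simpa [mul_assoc] using (StRep.PJ_conj_mem_UJ (j2.mem_PJ (lg_mem _))
          (mul_mem (inv_mem (cj z z.2).1) (cj z' z'.2).1)))
      have a3 := j2.acts.inv_conj_mem_U (T := {s | C.Pos s ∧ s ≠ T.S.s j (C.simple i) ∧ s ≠ C.simple j})
        (fun r hr => by
          rw [lg_inv]
          exact ⟨(pos_lg_iff hr.1.1).2 hr.2.2, fun e => hr.1.2 ((T.S.s j).injective e ▸
            C.inSub_simple.2 (T.S.mem_orb_self i)), fun e => hr.2.2 (inSub_lg.1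
              (e ▸ C.inSub_simple.2 (T.S.mem_orb_self j)))⟩) a2
      convert a3 using 1
      push_cast
      group) 1
  have a1 := Y2 z
  rw [show Y z = 1 from conj_eq_one_iff.1 (congrArg Subtype.val ez), inv_one, one_mul] at a1
  have a2 := UJ_le_Ui (T.S.mem_orb_self j) (hQ _ (ρ.UJ_le_Up _ (StRep.PJ_conj_mem_UJ (i2.mem_PJ (lg_mem _)) a1))
    (((cj z z.2).2.2.conj j1).conj i1))
  have a3 := (i2.mul j2).acts.inv_conj_mem_U (T := (T.S.s i * T.S.s j) ⁻¹' {r | C.Pos r ∧ r ≠ C.simple j})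
    (fun r hr => by simpa using hr) a2
  refine (cj z z.2).2.1 (ρ.U_mono (fun r hr => And.intro hr.1.1 fun e => hr.2.2 (e ▸ e3))
    (StRep.mem_U_inter T.faith (C.closed_rad _) (C.isNil_rad _) (RootSys.Closed.preimage
      ((C.ideal_pos_ne_simple j).mono fun _ h => Or.inl h.1) (Sym.mem_Aut hw))
      ((C.isNil_of_pos fun _ h => h.1).preimage (Sym.mem_Aut hw)) (cj z z.2).1 ?_))
  simpa [mul_assoc] using a3

theorem b2u (M : LT p T G1 ω) (g : Gr T φ c) (h0 : T.p = 1) (ht : C.Top θ) (h2 : (2 : K) ≠ 0)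
    (h1 : C.car i j = -2) (h3 : C.len (C.simple j) = C.len θ) (ha : a ∈ G1) (hp : PE p a)
    (h : WA ρ G1 a (T.S.s i)) : Opp p ρ G1 θ a := by
  have fx : ∀ k, T.p k = k := fun k => by rw [h0]; rfl
  obtain ⟨u, v, b⟩ := RootSys.exists_b2' (a := C.simple j) (b := C.simple i) ((C.A_simple_simple i j).trans h1)
    (C.simple_ne_neg j i)
  have h4 : C.car j i = -1 := (C.A_simple_simple j i).symm.trans b.ab
  have hij : j ≠ i := by rintro rfl; rw [C.car_self] at h1; omega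
  have e1 : C.sref j (C.simple i) = u := C.refl_simple j ▸ b.refl_ab
  have e2 : C.sref i (C.simple j) = v := C.refl_simple i ▸ b.refl_ba
  refine frame M g ht (ε := C.simple j) (by simpa [orb1 (fx i)] using hij) ?_ ?_ ?_ (C.pos_simple j)
    (C.inSub_simple.2 (T.S.mem_orb_self j)) (by simp [s1 (fx j)]) h3 (by rw [T.π_simple, fx]) (C.vec_inj ?_) ?_
    (opp_long M g ht ha (fx j) h3) (fun y hy hy' n hn => ?_) ha hp h
  iterate 5 simp [orb1 (fx _), s1 (fx _), -RootSys.sref_simple_self, -zsmul_eq_mul, C.pos_iff_ht, C.vec_sref, C.A_simple, C.vec_simple,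
    C.sp_single, RootSys.ht_single, C.car_self, h1, h4]
  have m1 : C.Pos (C.simple i) ∧ C.InSub (T.S.orb i) (C.simple i) :=
    ⟨C.pos_simple _, C.inSub_simple.2 (T.S.mem_orb_self i)⟩
  obtain ⟨t, rfl⟩ := ρ.mem_X.1 (ρ.U_singleton (C.simple i) ▸ ρ.U_mono (T := {C.simple i}) (fun r hr => by
    obtain ⟨k, hk, rfl⟩ := RootSys.eq_simple_of_orth (by simp [orb1 (fx i)]) hr.1 hr.2
    simpa [C.simple_injective.eq_iff, orb1 (fx i)] using hk) hy.1)
  obtain ⟨d, hd⟩ := hn.acts.exists_conj_x (C.simple i)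
  rw [s1 (fx j), e1] at hd
  refine ⟨ρ.x (C.simple i) 1, im (ρ.x_mem_U m1 _) ?_, C.N (C.simple i) u * (-1) * (d * t), ?_, ?_⟩
  · rw [T.mem_Fix, T.σ_x, T.π_simple, fx, g.c_eq, (g.triv h0).2, map_one]; simp
  · refine mul_ne_zero (mul_ne_zero ?_ (by simp)) (mul_ne_zero d.ne_zero fun e => hy' (by simp [e]))
    rcases Int.natAbs_eq_iff.1 (C.N_b2' b) with e | e <;> simpa [e] using h2
  · rw [hd, s1 (fx i), e2, mul_assoc, ρ.comm_single b.hr b.not_rb b.not_rc]; group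

theorem b2t3 (M : LT p T G1 ω) (g : Gr T φ c) (hl : C.SameLen) (ht : C.Top θ) (h0 : T.p i ≠ i)
    (h1 : T.p (T.p i) = i) (h2 : T.p j = j) (h3 : C.car i j = -1) (h4 : C.car i (T.p i) = 0)
    (ha : a ∈ G1) (hp : PE p a) (h : WA ρ G1 a (T.S.s i)) : Opp p ρ G1 θ a := by
  have sy : ∀ k l, C.car k l = C.car l k := fun k l => by
    rw [← C.A_simple_simple, ← C.A_simple_simple, RootSys.A_symm_of_len (hl _ _)]
  have c1 : C.car (T.p i) j = -1 := by rw [← h2, g.car, h3]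
  have c2 := (sy _ _).trans h3
  have c3 := (sy _ _).trans c1
  have c4 := (sy _ _).trans h4
  refine frame M g ht (ε := C.simple j) ?_ ?_ ?_ ?_ (C.pos_simple j)
    (C.inSub_simple.2 (T.S.mem_orb_self j)) (by simp [s1 h2]) (hl _ _) (by rw [T.π_simple, h2]) (C.vec_inj ?_) ?_
    (opp_long M g ht ha h2 (hl _ _)) (key2 g hl h0 h1 h4 ?_ ?_ ?_ ?_) ha hp h
  · rw [orb2 h1]
    rintro (rfl | rfl)
    · exact h0 h2
    · omega
  all_goals simp [orb2 h1, orb1 h2, s1 h2, s2 h1 h4, -RootSys.sref_simple_self, -zsmul_eq_mul, C.pos_iff_ht, C.vec_sref, C.A_simple,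
    C.vec_simple, C.sp_single, RootSys.ht_single, C.car_self, h3, h4, c1, c2, c3, c4]
  all_goals module

theorem b2t4 (M : LT p T G1 ω) (g : Gr T φ c) (hl : C.SameLen) (ht : C.Top θ) (h0 : T.p i ≠ i)
    (h1 : T.p (T.p i) = i) (h2 : C.car j (T.p j) = -1) (h3 : C.car i j = -1) (h4 : C.car i (T.p i) = 0)
    (h5 : C.car i (T.p j) = 0) (ha : a ∈ G1) (hp : PE p a) (h : WA ρ G1 a (T.S.s i)) :
    Opp p ρ G1 θ a := by
  have sy : ∀ k l, C.car k l = C.car l k := fun k l => by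
    rw [← C.A_simple_simple, ← C.A_simple_simple, RootSys.A_symm_of_len (hl _ _)]
  have h6 : T.p (T.p j) = j := congrArg (fun q : Equiv.Perm B => q j) ((sq T.p).symm.trans (g.ord 2 (g.ord' i h0 2 h1)).1)
  have c1 : C.car (T.p i) (T.p j) = -1 := by rw [g.car, h3]
  have c2 : C.car (T.p i) j = 0 := by rw [← h6, g.car, h5]
  have c3 := (sy _ _).trans h2
  have c4 := (sy _ _).trans h3
  have c5 := (sy _ _).trans h4
  have c6 := (sy _ _).trans h5
  have c7 := (sy _ _).trans c1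
  have c8 := (sy _ _).trans c2
  have e : C.vec (C.sref j (C.simple (T.p j))) = C.vec (C.simple (T.p j)) + C.vec (C.simple j) := by
    simp [C.vec_sref, C.A_simple_simple, h2]
  refine frame M g ht (ε := C.sref j (C.simple (T.p j))) ?_ ?_ ?_ ?_ ?_ ((C.inSub_WJ (C.sref_mem_WJ
    (T.S.mem_orb_self j)) _).2 (by simp [C.inSub_simple, orb2 h6])) (C.vec_inj ?_) (hl _ _) ?_ (C.vec_inj ?_) ?_
    (opp_su3 M g ht hl ha h6 h2) (key2 g hl h0 h1 h4 ?_ ?_ ?_ ?_) ha hp h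
  · rw [orb2 h1]
    rintro (rfl | rfl)
    · omega
    · omega
  rotate_left 5
  · rw [← C.refl_simple, T.π_refl, T.π_simple, T.π_simple, h6, C.refl_simple]
    exact C.vec_inj (by simp [C.vec_sref, C.A_simple_simple, h2, c3, add_comm])
  all_goals simp [orb2 h1, orb2 h6, s3 h6 h2 c3, s2 h1 h4, -RootSys.sref_simple_self, -zsmul_eq_mul, -RootSys.sref_sref, C.pos_iff_ht,
    C.vec_sref, C.A_simple, C.vec_neg, C.vec_simple, C.sp_single, RootSys.ht_single, C.car_self, h2, h3, h4, h5, c1, c2,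
    c3, c4, c5, c6, c7, c8]
  all_goals module

end CF.Ah
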