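import Cfsg.Agent.Ah.U3a
import Cfsg.Agent.Ah.UL
import Cfsg.Agent.Ah.UR

/-! The short node of `B_n(3)`. -/

set_option autoImplicit false

namespace CF.Ah

open CF.BN CF.Chev CF.Loc Cfsg Cfsg.Lie

variable {B ι : Type} [Fintype B] [DecidableEq B] [Fintype ι] [DecidableEq ι]
  {C : ChevBasis B ι} {K : Type*} [Field K] {G : Type*} [Group G] {ρ : StRep C K G}
  {T : Tw ρ} {G1 : Subgroup G} {ω : ι → ℝ} {a b : G} {i j : B} {θ : ι} {φ : K →+* K} {c : Kˣ}

theorem U3.eq_top (F : T.Form G1) (g : Gr T φ c) (h0 : T.p = 1) : G1 = ⊤ := by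
  obtain ⟨rfl, rfl⟩ := g.triv h0
  have e : T.Fix = ⊤ := top_unique (T.top.ge.trans (ρ.U_simple.ge.trans (ρ.U_le_iff.2 (by
    rintro _ ⟨i, rfl | rfl⟩ t <;> simp [T.mem_Fix, T.σ_x, T.π_neg, T.π_simple, h0, g.φ_eq, T.c_neg, g.c_eq]))))
  exact top_unique (T.top.ge.trans (ρ.Up_sup_Um.ge.trans (sup_le (fun _ h => F.Up_le (im h (e.ge trivial)))
    fun _ h => F.Um_le (im h (e.ge trivial)))))

theorem b3 (S : St 3 T G1 ω a b) (hU : PU 3 G1 a b) (g : Gr T φ c) (h0 : T.p = 1) (hq : Nat.card K = 3)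
    (ht : C.Top θ) (h1 : C.car i j = -2) (h3 : C.len (C.simple j) = C.len θ)
    (h2 : ρ.h (C.simple i) (-1) = 1) (h4 : ∀ k ≠ i, ρ.h (C.simple k) (-1) ≠ 1) :
    ¬ Om ρ G1 a b (T.S.s i) := fun h => by
  have M := S.lt
  obtain rfl := U3.eq_top M.form g h0
  haveI := M.char
  haveI := M.fin
  have c3 : (3 : K) = 0 := by exact_mod_cast CharP.cast_eq_zero K 3
  have n2 : (2 : K) ≠ 0 := fun e => one_ne_zero (by linear_combination c3 - e : (1 : K) = 0)
  have H : U3.Hy ρ i := ⟨T.faith, M.r3, fun t => by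
    haveI := Fintype.ofFinite K
    have := FiniteField.pow_card t
    rw [← Nat.card_eq_fintype_card, hq] at this
    have : t * (t - 1) * (t + 1) = 0 := by linear_combination this
    simpa [sub_eq_zero, add_eq_zero_iff_eq_neg, or_assoc] using this, c3, h2⟩
  have f : ∀ k, T.p k = k := fun k => by rw [h0]; rfl
  have s := UE.s_fix (S := T.S) (f i)
  obtain ⟨v, hv, ev⟩ := exists_Wf_top M g ht ((T.π_simple j).trans (congrArg _ (f j))) h3
  have k : ∀ {a b}, PU 3 ⊤ a b → WA ρ ⊤ a (T.S.s i) → WA ρ ⊤ b (T.S.s i) → Opp 3 ρ ⊤ θ a := fun hU ha hb => by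
    rcases H.core T.top S.center M.isPGroup_Up h1 h4 hU (s ▸ ha) (s ▸ hb) with e | ⟨w, e, e'⟩
    · exact b2u M g h0 ht n2 h1 h3 trivial e ha
    · refine ev ▸ (opp_of_neg (J := {j}) M trivial e (C.pos_simple j) (C.inSub_simple.2 rfl) (fun u hu t => ?_)
        e').move M hv
      obtain ⟨r, rfl⟩ := ρ.mem_X.1 ((ρ.U_singleton (C.simple j)).le (ρ.U_mono (fun r hr => C.neg_injective
        (UE.eq_neg_of (C.inSub_neg.2 hr.2) fun q => (C.pos_neg_iff r).1 q hr.1)) hu))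
      exact ρ.x_comm_self _ _ _
  have hb : WA ρ ⊤ b (T.S.s i) := by simpa only [Sym.s, lg_inv] using h.2
  obtain ⟨w, o, e⟩ := om_opp S hU ht.pos (fun u hu t => (StRep.commute_top ht hu t).symm) (k hU h.1 hb)
    (k hU.symm hb h.1)
  obtain ⟨d, r, D⟩ := RootSys.exists_b2' ((C.A_simple_simple i j).trans h1) (C.simple_ne_neg j i)
  rcases r2 S hU g (f j) ⟨i, .inl ((C.A_simple_simple j i).symm.trans D.ab)⟩ (o.conj S hU (inv_mem hv)) (by
    rw [inv_inv, Equiv.Perm.mul_apply, Equiv.Perm.mul_apply, ev, e, ← ev, ← RootSys.neg_aut (Sym.mem_Aut hv)]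
    exact v.symm_apply_apply _) with q | q
  · rw [(g.triv h0).1, Nat.card_congr (Equiv.subtypeUnivEquiv (p := fun t : K => (1 : K →+* K) t = t) fun _ => rfl),
      hq] at q
    omega
  · exact h4 j (by rintro rfl; rw [C.car_self] at h1; omega) q.2

end CF.Ah
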