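import Cfsg.Agent.Ah.UE0

/-! The short node of `B_n(3)`: computations in the minimal parabolic subgroup. -/

set_option autoImplicit false

namespace CF.Ah.U3

open CF.BN CF.Chev CF.Loc Cfsg Cfsg.Lie

section
variable {Γ : Type*} [Group Γ] {Q : Subgroup Γ} {q l : Γ}

theorem pe_mod (hl : l ∈ Subgroup.normalizer (Q : Set Γ)) (hq : q ∈ Q) (h : PE 3 (q * l)) (h2 : l * l = 1) :
    l ∈ Q := by
  obtain ⟨k, e⟩ := h
  have a : ∀ m : ℕ, (q * l) ^ m * (l ^ m)⁻¹ ∈ Q := fun m => by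
    induction m with
    | zero => simp
    | succ m ih =>
      simpa only [pow_succ', mul_inv_rev, mul_assoc] using
        mul_mem hq ((Subgroup.mem_normalizer_iff.1 hl _).1 ih)
  obtain ⟨j, hj⟩ : Odd (3 ^ k) := Odd.pow (by decide)
  have := a (3 ^ k)
  rwa [e, one_mul, inv_mem_iff, hj, pow_succ, pow_mul, sq, h2, one_pow, one_mul] at this

theorem aux {X y c d r s W : Γ} (e : X * y * X * c * (X * y * X)⁻¹ = d) (e1 : d * X = X * (s * d))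
    (e2 : c * X⁻¹ = X⁻¹ * (r * c)) (e3 : r * y = y * r * W) : s⁻¹ * r = d * y * c⁻¹ * W * y⁻¹ := by
  rw [← inv_mul_eq_iff_eq_mul] at e3
  rw [← inv_mul_eq_iff_eq_mul, ← mul_inv_eq_iff_eq_mul] at e1 e2
  subst e3 e1 e2 e
  group

/-- products of classes in the symmetric group of degree four -/
theorem s4 {X n h a b : Γ} (mX : X ∈ Q) (mn : n ∈ Q) (x3 : X * X = X⁻¹) (n2 : n * n = 1)
    (br : n * X * n = X⁻¹ * n * X⁻¹) (h2 : h * h = 1) (hn : h * n = n * h) (ha : a = 1 ∨ a = X ∨ a = X⁻¹)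
    (hb : b = 1 ∨ b = X ∨ b = X⁻¹) (H : h * X = X⁻¹ * h ∨ h * X = X * h ∧ a = 1 ∧ b = 1) :
    ∃ g ∈ Q, ∃ c ∈ Q, a * n * h * (g * (b * n * h) * g⁻¹) = c * n * c⁻¹ := by
  have ni := inv_eq_of_mul_eq_one_right n2
  have r1 : ∀ z, X * (X * z) = X⁻¹ * z := fun z => by rw [← mul_assoc, x3]
  have r2 : ∀ z, X⁻¹ * (X⁻¹ * z) = X * z := fun z => by rw [← mul_assoc, ← mul_inv_rev, x3, inv_inv]
  have r3 : ∀ z, n * (n * z) = z := fun z => by rw [← mul_assoc, n2, one_mul]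
  have r4 : ∀ z, n * (X * (n * z)) = X⁻¹ * (n * (X⁻¹ * z)) := fun z => by simp only [← mul_assoc, br]
  have r5 : ∀ z, n * (X⁻¹ * (n * z)) = X * (n * (X * z)) := fun z => by
    simpa only [mul_inv_rev, ni, inv_inv, mul_assoc] using congrArg (·⁻¹ * z) br
  have r6 : ∀ z, h * (h * z) = z := fun z => by rw [← mul_assoc, h2, one_mul]
  have r7 : ∀ z, h * (n * z) = n * (h * z) := fun z => by rw [← mul_assoc, hn, mul_assoc]
  have mY := inv_mem mX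
  suffices ∃ g ∈ Q, ∃ c ∈ Q, ∀ z, a * n * h * (g * (b * n * h) * g⁻¹) * z = c * n * c⁻¹ * z from
    let ⟨g, hg, c, hc, e⟩ := this; ⟨g, hg, c, hc, mul_right_cancel (e 1)⟩
  rcases H with H | ⟨H, rfl, rfl⟩
  · have r8 : ∀ z, h * (X * z) = X⁻¹ * (h * z) := fun z => by rw [← mul_assoc, H, mul_assoc]
    have r9 : ∀ z, h * (X⁻¹ * z) = X * (h * z) := fun z => by rw [← r1, r8, r8, r2]
    rcases ha with rfl | rfl | rfl <;> rcases hb with rfl | rfl | rfl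
    on_goal 1 => refine ⟨_, mul_mem (mul_mem mX mn) mY, 1, one_mem _, ?_⟩
    on_goal 2 => refine ⟨_, mX, _, mY, ?_⟩
    on_goal 3 => refine ⟨_, mY, _, mX, ?_⟩
    on_goal 4 => refine ⟨_, mY, 1, one_mem _, ?_⟩
    on_goal 5 => refine ⟨1, one_mem _, _, mY, ?_⟩
    on_goal 6 => refine ⟨_, mul_mem mn mX, _, mY, ?_⟩
    on_goal 7 => refine ⟨_, mX, 1, one_mem _, ?_⟩
    on_goal 8 => refine ⟨_, mul_mem mn mY, _, mX, ?_⟩
    on_goal 9 => refine ⟨1, one_mem _, _, mX, ?_⟩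
    all_goals simp [mul_assoc, ni, r1, r2, r3, r4, r5, r6, r7, r8, r9]
  · have r8 : ∀ z, h * (X * z) = X * (h * z) := fun z => by rw [← mul_assoc, H, mul_assoc]
    have r9 : ∀ z, h * (X⁻¹ * z) = X⁻¹ * (h * z) := fun z => by rw [← r1, r8, r8, r1]
    exact ⟨_, mX, _, mY, by simp [mul_assoc, r2, r4, r6, r7, r8, r9]⟩

end

variable {B ι : Type} [Fintype B] [DecidableEq B] [Fintype ι] [DecidableEq ι]
  {C : ChevBasis B ι} {K : Type*} [Field K] {G : Type*} [Group G] {ρ : StRep C K G} {i j : B}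
  {a b g h q u y : G} {s : K}

theorem eta_b2 (hρ : ρ.Faithful) (h2 : (2 : K) ≠ 0) {a b c r : ι} (D : C.B2 a b c r) : (C.eta b c : K) = -1 := by
  have D' : C.B2 r (C.neg b) c a := ⟨by rw [C.A_neg_left, D.br], by rw [C.vec_neg, D.hr]; abel,
    by rw [C.vec_neg, D.hc]; abel⟩
  refine eq_neg_of_add_eq_zero_left ?_
  have e := ρ.n_conj b 1 c 1
  have e1 := fun t u => (ρ.comm_single D.hr D.not_rb D.not_rc t u).trans
    ((mul_assoc _ _ _).trans (congrArg _ (ρ.commute_rc D _ _).eq))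
  rw [C.refl_of_A_eq_zero D.bc, one_zpow, Units.val_one, mul_one, mul_one, PreSt.n, Units.val_one] at e
  have m : ∀ {s} t, C.A b s ≤ 0 → ρ.x s t ∈ ρ.U {s | C.A b s ≤ 0} := fun t h => ρ.x_mem_U h t
  generalize (-_ : K) = t at e
  have my := m t (show C.A b (C.neg b) ≤ 0 by rw [C.A_neg_right, C.A_self]; omega)
  have e3 := StRep.b2_comm (ρ := ρ) D' t (C.N b c * -(-1) * 1)
  have mW := mul_mem (m (C.N (C.neg b) r * -t * (C.N b c * -(-1) * 1)) D.bc.le)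
    (m (C.M (C.neg b) r 2 * t ^ 2 * (C.N b c * -(-1) * 1)) (show C.A b a ≤ 0 by rw [D.ba]; omega))
  have e2 := aux e (e1 1 _) (by simpa only [ρ.x_neg b] using e1 (-1) 1) e3
  have : (ρ.x r (C.N b c * -1 * C.eta b c))⁻¹ * ρ.x r (C.N b c * -(-1) * 1) ∈
      (ρ.U {s | C.A b s ≤ 0} ⊔ ρ.H) ⊓ ρ.U {r} := im (Subgroup.mem_sup_left (by
    rw [e2]
    exact mul_mem (mul_mem (mul_mem (mul_mem (m _ D.bc.le) my) (inv_mem (m _ D.bc.le))) mW) (inv_mem my)))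
      (mul_mem (inv_mem (ρ.x_mem_U (Set.mem_singleton r) _)) (ρ.x_mem_U (Set.mem_singleton r) _))
  rw [StRep.U_sup_H_inf_U hρ (φ := -C.cor b) (fun s hs => by simpa [← C.A_def] using hs) (by
    simp [← C.A_def, D.br]) (C.closed_singleton r), Subgroup.mem_bot, inv_mul_eq_one] at this
  have e3 := hρ.x_injective _ this
  have n : (C.N b c : K) ≠ 0 := by rcases Int.natAbs_eq_iff.1 (C.N_b2' D) with e | e <;> simpa [e]
  exact mul_left_cancel₀ n (by linear_combination -e3)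

theorem big (hρ : ρ.Faithful) (c3 : (3 : K) = 0) (h1 : C.car i j = -2) (hq : q ∈ ρ.Ui i) :
    ∃ w, WA ρ ⊤ (q * ρ.ns i) w ∧ w (C.simple j) = C.neg (C.simple j) := by
  have h2 : (2 : K) ≠ 0 := fun e => one_ne_zero (by linear_combination c3 - e : (1 : K) = 0)
  obtain ⟨c, r, D⟩ := RootSys.exists_b2' ((C.A_simple_simple i j).trans h1) (C.simple_ne_neg j i)
  have ij : i ≠ j := by rintro rfl; rw [C.car_self] at h1; omega
  have vc : C.vec c = Pi.single j 1 + Pi.single i 1 := by rw [D.hc, C.vec_simple, C.vec_simple]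
  have pc : C.Pos c := C.pos_of_coord (i := i) (by simp [vc, ij])
  have pa := C.pos_simple j
  have lo : ∀ s, C.Pos s → s ≠ C.simple i → s ≠ C.simple j → s ≠ c → s ∈ C.nbl c := fun s p n1 n2 n3 => ⟨p, fun l => by
    have e : C.vec s = C.vec s i • Pi.single i 1 + C.vec s j • Pi.single j 1 := funext fun k => by
      have := l k
      have := p k
      by_cases k = i <;> by_cases k = j <;> simp_all [Pi.single_apply]; omega
    have l1 := l i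
    have l2 := l j
    have p1 := p i
    have p2 := p j
    simp [vc, ij, ij.symm] at l1 l2 p1 p2
    obtain a | a : C.vec s i = 0 ∨ C.vec s i = 1 := by omega
    all_goals obtain b | b : C.vec s j = 0 ∨ C.vec s j = 1 := by omega
    all_goals simp only [a, b, zero_smul, one_smul, add_zero, zero_add] at e
    exacts [C.vec_ne_zero s e, n2 (C.vec_inj (e.trans (C.vec_simple j).symm)),
      n1 (C.vec_inj (e.trans (C.vec_simple i).symm)), n3 (C.vec_inj (by rw [e, vc, add_comm]))]⟩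
  have cl : ∀ {g y}, g ∈ ρ.Up → y ∈ ρ.U (C.nbl c) → g * y * g⁻¹ ∈ ρ.U (C.nbl c) := fun hg hy => by
    simpa using StRep.conj_lo (inv_mem (ρ.Up_le_Bo hg)) hy
  have up : ∀ α γ, ρ.x (C.simple j) α * ρ.x c γ ∈ ρ.Up := fun α γ => mul_mem (ρ.x_mem_U pa _) (ρ.x_mem_U pc _)
  obtain ⟨v, hv, α, γ, rfl⟩ : ∃ v ∈ ρ.U (C.nbl c), ∃ α γ, q = v * (ρ.x (C.simple j) α * ρ.x c γ) := by
    refine ρ.U_induction (p := fun q => ∃ v ∈ ρ.U (C.nbl c), ∃ α γ, q = v * (ρ.x (C.simple j) α * ρ.x c γ))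
      ⟨1, one_mem _, 0, 0, by simp [ρ.x_zero]⟩ ?_ hq
    rintro _ s t - hs ⟨v, hv, α, γ, rfl⟩
    by_cases e1 : s = C.simple j
    · exact ⟨v, hv, α + t, γ, by rw [e1, ρ.x_add, mul_assoc, mul_assoc, (ρ.commute_ca D γ t).eq, mul_assoc]⟩
    by_cases e2 : s = c
    · exact ⟨v, hv, α, γ + t, by rw [e2, ρ.x_add, mul_assoc, mul_assoc]⟩
    exact ⟨_, mul_mem hv (cl (up α γ) (ρ.x_mem_U (lo s hs.1 hs.2 e1 e2) t)), α, γ, by group⟩
  have e1 := ρ.n_conj (C.simple i) 1 c (1 - γ)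
  have e2 := ρ.n_conj (C.simple i) 1 (C.simple j) α
  rw [C.refl_of_A_eq_zero D.bc, eta_b2 hρ h2 D, one_zpow, Units.val_one] at e1
  rw [D.refl_ba] at e2
  generalize (_ : K) * α = δ at e2
  have mr : ρ.x r δ ∈ ρ.U (C.nbl c) := ρ.x_mem_U (show r ∈ C.nbl c from ⟨C.pos_of_coord (i := i)
    (by simp [D.hr, vc, ij, C.vec_simple]), fun l => by simpa [D.hr, vc, ij, C.vec_simple] using l i⟩) δ
  have e3 : ρ.x (C.simple j) (-α) * ρ.x c (γ - 1) * (v * (ρ.x (C.simple j) α * ρ.x c γ) * ρ.ns i) *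
      (ρ.x (C.simple j) (-α) * ρ.x c (γ - 1))⁻¹ = ρ.x (C.simple j) (-α) * ρ.x c (γ - 1) * v *
      (ρ.x (C.simple j) (-α) * ρ.x c (γ - 1))⁻¹ * ρ.x r δ * ρ.x c 1 * ρ.ns i := by
    have f1 : ρ.x (C.simple j) (-α) * ρ.x c (γ - 1) * (ρ.x (C.simple j) α * ρ.x c γ) = ρ.x c (γ - 1) * ρ.x c γ := by
      rw [← (ρ.commute_ca D _ _).eq, ρ.x_neg, mul_assoc, inv_mul_cancel_left]
    have f2 : ρ.ns i * (ρ.x (C.simple j) (-α) * ρ.x c (γ - 1))⁻¹ = ρ.x c (γ - 1) * ρ.x r δ * ρ.ns i := by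
      rw [mul_inv_rev, ← ρ.x_neg, ← ρ.x_neg, neg_neg, neg_sub, ← e2, show γ - 1 = -1 * 1 * (1 - γ) by ring, ← e1]
      simp only [mul_assoc, inv_mul_cancel_left, inv_mul_cancel, mul_one]
    have f3 : ρ.x c (γ - 1) * ρ.x c γ * ρ.x c (γ - 1) = ρ.x c 1 := by
      rw [← ρ.x_add, ← ρ.x_add]; congr 1; linear_combination (γ - 1) * c3
    generalize ρ.x (C.simple j) (-α) * ρ.x c (γ - 1) = g at f1 f2
    calc _ = g * v * g⁻¹ * (g * (ρ.x (C.simple j) α * ρ.x c γ)) * (ρ.ns i * g⁻¹) := by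
          simp only [mul_assoc, inv_mul_cancel_left]
      _ = _ := by rw [f1, f2, mul_assoc _ (ρ.x r δ) (ρ.x c 1), ← (ρ.commute_rc D 1 δ).eq, ← f3]; simp only [mul_assoc]
  have hm := (ρ.nW_ns i).mul (ρ.nW_ns j)
  have s1 : C.sref j (C.simple i) = c := by rw [← C.refl_simple, D.refl_ab]
  have s2 : C.sref i c = c := by rw [← C.refl_simple, C.refl_of_A_eq_zero D.bc]
  have s3 : C.sref j c = C.simple i := by rw [← s1, C.sref_sref]
  obtain ⟨k, e4⟩ := hm.acts.exists_conj_x c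
  have hn := (hm.mul (ρ.nW_n (C.simple i) 1)).mul hm.inv
  rw [C.conj_refl hm.mem_Aut, Equiv.Perm.mul_apply, s1, s2] at hn
  refine ⟨C.sref i * C.refl c, ⟨_, ((Cj.of (Subgroup.mem_top (ρ.x (C.simple j) (-α) * ρ.x c (γ - 1))) _).conj
    (Subgroup.mem_top (ρ.ns i * ρ.ns j))), ?_⟩, ?_⟩
  · rw [e3]
    generalize ρ.ns i * ρ.ns j = m at hm e4 hn
    have := StRep.cell_mul_left (ρ.Up_le_Bo (hm.acts.conj_mem_U (fun s hs => ?_) (mul_mem (cl (up (-α) (γ - 1)) hv) mr)))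
      (StRep.mul_mem_cell_of_pos (ρ.x_neg_simple_mem_cell i (mul_ne_zero k.ne_zero one_ne_zero)) hn.mem_cell (by
        rw [C.refl_inv, C.refl_of_A_eq_zero D.cb]; exact C.pos_simple i))
    · rw [Equiv.Perm.mul_apply, s3, C.sref_simple_self] at e4
      rw [← e4] at this
      simpa only [mul_assoc, inv_mul_cancel_left] using this
    · refine (hs.1.sref fun e => hs.2 ?_).sref fun e => hs.2 ?_
      · rw [e, D.hc]; exact le_add_of_nonneg_right (C.pos_simple i)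
      · rw [← C.sref_sref j s, e, s1]
  · rw [Equiv.Perm.mul_apply, ← C.neg_neg (C.simple j), RootSys.neg_aut (C.refl_mem_Aut c), D.swap.refl_ba,
      RootSys.neg_aut (C.sref_mem_Aut i), ← D.refl_ba, C.refl_simple, C.sref_sref, C.neg_neg]

/-- the standing assumptions -/
structure Hy (ρ : StRep C K G) (i : B) : Prop where
  fa : ρ.Faithful
  r3 : ρ.R3
  tri : ∀ t : K, t = 0 ∨ t = 1 ∨ t = -1
  c3 : (3 : K) = 0
  hi : ρ.h (C.simple i) (-1) = 1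

/-- the subgroup generated by the unipotent elements of the minimal parabolic subgroup -/
abbrev PP (ρ : StRep C K G) (i : B) : Subgroup G := ρ.U {r | C.Pos r ∨ r = C.neg (C.simple i)}

theorem Up_le : ρ.Up ≤ PP ρ i := ρ.U_mono fun _ => .inl
theorem ns_mem : ρ.ns i ∈ PP ρ i := ρ.n_mem_U (.inl (C.pos_simple i)) (.inr rfl) 1
theorem x_mem (s : K) : ρ.x (C.simple i) s ∈ PP ρ i := ρ.x_mem_U (.inl (C.pos_simple i)) s

theorem form (ha : WA ρ ⊤ a (C.sref i)) :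
    ∃ q ∈ ρ.Ui i, ∃ s, ∃ h ∈ ρ.H, Cj ⊤ a (q * (ρ.x (C.simple i) s * ρ.ns i * h)) := by
  obtain ⟨x, e, m⟩ := ha
  obtain ⟨b, hb, u, hu, rfl⟩ := (ρ.nW_ns i).mem_cell_iff_sharp.1 m
  obtain ⟨v, hv, h, hh, e1⟩ := StRep.mem_Bo.1 (mul_mem (ρ.Up_le_Bo (ρ.Uw_le_Up _ hu)) hb)
  obtain ⟨q, hq, s, rfl⟩ := StRep.exists_Ui_mul_x i hv
  refine ⟨q, hq, s, _, (ρ.acts_ns i).inv_conj_mem_H hh, ?_⟩
  convert e.conj (Subgroup.mem_top u) using 1
  rw [← mul_assoc, ← mul_assoc, ← mul_assoc u, ← mul_assoc u, e1]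
  group

namespace Hy

variable (H : Hy ρ i)
include H

theorem unit (t : Kˣ) : t = 1 ∨ t = -1 :=
  ((H.tri t).resolve_left t.ne_zero).imp (fun e => Units.ext e) fun e => Units.ext e

theorem n_eq (t : Kˣ) : ρ.n (C.simple i) t = ρ.ns i := by
  rcases H.unit t with rfl | rfl
  exacts [rfl, by rw [ρ.n_eq_h_mul, H.hi, one_mul]]

theorem n2 : ρ.ns i * ρ.ns i = 1 := by simpa only [H.n_eq] using ρ.n_mul_neg (C.simple i) 1

theorem nx (t : K) : ρ.ns i * ρ.x (C.simple i) t * ρ.ns i = ρ.x (C.neg (C.simple i)) (-t) := by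
  simpa [inv_eq_of_mul_eq_one_right H.n2] using ρ.nrel (C.simple i) 1 t

theorem br (hs : s ≠ 0) : ρ.ns i * ρ.x (C.simple i) s * ρ.ns i =
    (ρ.x (C.simple i) s)⁻¹ * ρ.ns i * (ρ.x (C.simple i) s)⁻¹ := by
  have := ρ.x_neg_eq (C.simple i) (-Units.mk0 s hs)
  rw [H.n_eq, show (-Units.mk0 s hs)⁻¹ = -Units.mk0 s hs by rcases H.unit (Units.mk0 s hs) with e | e <;> simp [e]]
    at this
  rw [H.nx, ← ρ.x_neg]
  exact this

theorem x3 (r : ι) (s : K) : ρ.x r s * ρ.x r s = (ρ.x r s)⁻¹ := by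
  rw [← ρ.x_add, ← ρ.x_neg]; congr 1; linear_combination s * H.c3

theorem h2 (hh : h ∈ ρ.H) : h * h = 1 := by
  obtain ⟨c, rfl⟩ := H.r3.range_tor.ge hh
  rw [← map_mul, show c * c = 1 from funext fun k => by rcases H.unit (c k) with e | e <;> simp [e], map_one]

theorem hn (hh : h ∈ ρ.H) : h * ρ.ns i = ρ.ns i * h := by
  obtain ⟨χ, -, e, -⟩ := StRep.exists_actsT_of_mem_H hh
  exact mul_inv_eq_iff_eq_mul.1 ((e.conj_n _ 1).trans (H.n_eq _))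

theorem PH (hh : h ∈ ρ.H) (m : h ∈ PP ρ i) : h = 1 := by
  have k : ∀ {u g}, u ∈ ρ.Up → (g ∈ ρ.Up ∨ ∃ v ∈ ρ.Up, ∃ w ∈ ρ.Up, g = v * ρ.ns i * w) →
      u * g ∈ ρ.Up ∨ ∃ v ∈ ρ.Up, ∃ w ∈ ρ.Up, u * g = v * ρ.ns i * w := fun hu => Or.imp (mul_mem hu)
    fun ⟨v, hv, w, hw, e⟩ => ⟨_, mul_mem hu hv, w, hw, by rw [e, mul_assoc, mul_assoc, mul_assoc]⟩
  have mx : ∀ t, ρ.x (C.simple i) t ∈ ρ.Up := ρ.x_mem_U (C.pos_simple i)
  have k' : ∀ {g}, (g ∈ ρ.Up ∨ ∃ v ∈ ρ.Up, ∃ w ∈ ρ.Up, g = v * ρ.ns i * w) →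
      ρ.ns i * g ∈ ρ.Up ∨ ∃ v ∈ ρ.Up, ∃ w ∈ ρ.Up, ρ.ns i * g = v * ρ.ns i * w := by
    rintro _ (hg | ⟨v, hv, w, hw, rfl⟩)
    · exact .inr ⟨1, one_mem _, _, hg, by rw [one_mul]⟩
    obtain ⟨q, hq, t, rfl⟩ := StRep.exists_Ui_mul_x i hv
    rw [show ρ.ns i * (q * ρ.x (C.simple i) t * ρ.ns i * w) = ρ.ns i * q * (ρ.ns i)⁻¹ *
      (ρ.ns i * ρ.x (C.simple i) t * ρ.ns i * w) by group]
    refine k (ρ.Ui_le_Up i ((ρ.acts_ns i).conj_Ui hq)) ?_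
    by_cases t0 : t = 0
    · exact .inl (by rwa [t0, ρ.x_zero, mul_one, H.n2, one_mul])
    · exact .inr ⟨_, inv_mem (mx t), _, mul_mem (inv_mem (mx t)) hw, by rw [H.br t0, mul_assoc]⟩
  rcases ρ.U_induction_left (p := fun g => g ∈ ρ.Up ∨ ∃ v ∈ ρ.Up, ∃ w ∈ ρ.Up, g = v * ρ.ns i * w)
    (.inl (one_mem _)) (by
      rintro g r t - (hr | rfl) e
      · exact k (ρ.x_mem_U hr t) e
      · rw [← neg_neg t, ← H.nx, mul_assoc, mul_assoc]
        exact k' (k (mx _) (k' e))) m with e | ⟨v, hv, w, hw, e⟩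
  · exact Subgroup.mem_bot.1 ((StRep.Up_inf_H H.fa).le (im e hh))
  · exact absurd (StRep.cell_unique H.fa (e ▸ StRep.cell_mul_right (StRep.cell_mul_left (ρ.Up_le_Bo hv)
      (ρ.nW_ns i).mem_cell) (ρ.Up_le_Bo hw)) (StRep.nW_of_mem_H hh).mem_cell) (RootSys.sref_ne_one i)

theorem tor {v k : G} (hu : u ∈ PP ρ i) (hv : v ∈ PP ρ i) (hh : h ∈ ρ.H) (hk : k ∈ ρ.H)
    (e : PE 3 (u * h * (v * k))) : h = k := by
  have m := mul_mem hh hk
  rw [← mul_one h, ← H.h2 hk, ← mul_assoc, H.PH m (pe_mod (ρ.H_le_normalizer_U _ m)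
    (mul_mem hu (StRep.H_conj_mem_U hh hv)) (by convert e using 1; group) (H.h2 m)), one_mul]

theorem noV (hq : q ∈ ρ.Ui i) (hg : g ∈ PP ρ i) : ¬ PE 3 (q * (g * ρ.ns i * g⁻¹)) := fun e => by
  have n := ρ.U_le_normalizer_Ui i
  have := pe_mod (n (mul_mem (mul_mem hg ns_mem) (inv_mem hg))) hq e (by rw [conj_mul, H.n2]; simp)
  exact RootSys.sref_ne_one i ((ρ.nW_ns i).eq_one_of_mem_Bo H.fa
    (ρ.Up_le_Bo (ρ.Ui_le_Up i ((Subgroup.mem_normalizer_iff.1 (n hg) _).2 this))))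

theorem pos (hq : q ∈ ρ.Ui i) (hs : s ≠ 0) (hh : h ∈ ρ.H) (c : Commute h (ρ.x (C.simple i) s)) :
    ∃ u ∈ ρ.Up, Cj ⊤ (q * (ρ.x (C.simple i) s * ρ.ns i * h)) (u * h) := by
  have b := H.br hs
  have x3 := H.x3 (C.simple i) s
  have m := x_mem (ρ := ρ) (i := i) s
  have mu : ρ.x (C.simple i) s ∈ ρ.Up := ρ.x_mem_U (C.pos_simple i) s
  generalize ρ.x (C.simple i) s = Y at *
  have c' : Commute h (Y⁻¹ * ρ.ns i * Y) := (c.inv_right.mul_right (H.hn hh)).mul_right c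
  refine ⟨_, mul_mem (ρ.Ui_le_Up i ((Subgroup.mem_normalizer_iff.1 (ρ.U_le_normalizer_Ui i
    (mul_mem (mul_mem (inv_mem m) ns_mem) m)) _).1 hq)) mu, Y⁻¹ * ρ.ns i * Y, trivial, ?_⟩
  have e : Y⁻¹ * ρ.ns i * Y * (Y * ρ.ns i) * (Y⁻¹ * ρ.ns i * Y)⁻¹ = Y := by
    rw [mul_assoc (Y⁻¹ * ρ.ns i), ← mul_assoc Y, x3, ← mul_assoc, ← b, mul_assoc _ (ρ.ns i) (ρ.ns i), H.n2]; group
  have e' := mul_inv_eq_iff_eq_mul.2 c'.symm.eq
  generalize Y⁻¹ * ρ.ns i * Y = v at e e'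
  exact (congrArg₂ (v * q * v⁻¹ * · * ·) e e').symm.trans (by group)

theorem h_one (hG : ρ.Gp = ⊤) (hZ : Subgroup.center G = ⊥) (h4 : ∀ k ≠ i, ρ.h (C.simple k) (-1) ≠ 1)
    (hU : PU 3 ⊤ a b) (hh : h ∈ ρ.H) (hy : y ∈ PP ρ i) (e : Cj ⊤ b (y * h)) (hu : u ∈ ρ.Up) (e' : Cj ⊤ a (u * h))
    (c : Commute h (ρ.x (C.simple i) 1)) : h = 1 := by
  obtain ⟨χ, -, t, -⟩ := StRep.exists_actsT_of_mem_H hh
  refine Subgroup.mem_bot.1 (hZ.le ((StRep.mem_center_iff_actsT hG).2 (C.char_eq_one_of_simple (χ := χ) (fun k => ?_) ▸ t)))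
  refine (H.unit _).resolve_right fun q => ?_
  have t1 := t (C.simple k)
  have t2 := t.conj_n (C.simple k) 1
  rw [q] at t1 t2
  by_cases ki : k = i
  · have := H.fa.x_injective _ ((mul_inv_eq_iff_eq_mul.2 c.eq).symm.trans (ki ▸ t1 1))
    exact one_ne_zero (by simp only [Units.val_neg, Units.val_one] at this; linear_combination H.c3 - this : (1 : K) = 0)
  obtain ⟨v, hv, s, rfl⟩ := StRep.exists_Ui_mul_x k hu
  have m := (Subgroup.mem_normalizer_iff.1 (ρ.U_le_normalizer_Ui k (x_mem s)) _).1 hv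
  have e2 := (e'.conj (Subgroup.mem_top (ρ.x (C.simple k) s))).conj (Subgroup.mem_top (ρ.ns k))
  have e3 : ρ.x (C.simple k) s * (v * ρ.x (C.simple k) s * h) * (ρ.x (C.simple k) s)⁻¹ =
      ρ.x (C.simple k) s * v * (ρ.x (C.simple k) s)⁻¹ * h := by
    have := t1 (-s)
    rw [Units.val_neg, Units.val_one, neg_mul_neg, one_mul, ρ.x_neg, mul_inv_eq_iff_eq_mul] at this
    rw [mul_assoc, mul_assoc, this, ← mul_assoc, ← mul_assoc, ← mul_assoc, mul_assoc _ _ (ρ.x _ s), H.x3]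
  rw [e3, ← conj_mul] at e2
  have := H.tor (Up_le (ρ.Ui_le_Up k ((ρ.acts_ns k).conj_Ui m))) hy ((ρ.acts_ns k).conj_mem_H hh) hh (hU _ _ e2 e)
  rw [mul_inv_eq_iff_eq_mul.1 this |>.symm, mul_inv_cancel_right, mul_one, ρ.n_eq_h_mul _ (-1)] at t2
  exact h4 k ki (right_eq_mul.1 t2)

theorem core (hG : ρ.Gp = ⊤) (hZ : Subgroup.center G = ⊥) (hp : IsPGroup 3 ρ.Up) (h1 : C.car i j = -2)
    (h4 : ∀ k ≠ i, ρ.h (C.simple k) (-1) ≠ 1) (hU : PU 3 ⊤ a b) (ha : WA ρ ⊤ a (C.sref i))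
    (hb : WA ρ ⊤ b (C.sref i)) : PE 3 a ∨ ∃ w, WA ρ ⊤ a w ∧ w (C.simple j) = C.neg (C.simple j) := by
  obtain ⟨q, hq, s, h, hh, ea⟩ := form ha
  obtain ⟨v, hv, r, k, hk, eb⟩ := form hb
  have m : ∀ {q} s, q ∈ ρ.Ui i → q * (ρ.x (C.simple i) s * ρ.ns i) ∈ PP ρ i := fun s hq =>
    mul_mem (Up_le (ρ.Ui_le_Up i hq)) (mul_mem (x_mem s) ns_mem)
  obtain rfl := H.tor (m s hq) (m r hv) hh hk (by simpa only [mul_assoc] using hU _ _ ea eb)
  have t : ∀ s, ρ.x (C.simple i) s = 1 ∨ ρ.x (C.simple i) s = ρ.x (C.simple i) 1 ∨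
      ρ.x (C.simple i) s = (ρ.x (C.simple i) 1)⁻¹ := fun s => by
    rcases H.tri s with rfl | rfl | rfl <;> simp [ρ.x_zero, ρ.x_neg]
  have n := fun c => (s4 (x_mem 1) ns_mem (H.x3 _ 1) H.n2 (H.br one_ne_zero) (H.h2 hh) (H.hn hh) (t s) (t r) c).elim
    fun g ⟨hg, c, hc, e⟩ => H.noV (mul_mem hq ((Subgroup.mem_normalizer_iff.1 (mul_mem (mul_mem
      (ρ.U_le_normalizer_Ui i (mul_mem (x_mem s) ns_mem)) (ρ.H_le_normalizer_U _ hh)) (ρ.U_le_normalizer_Ui i hg)) _).1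
      hv)) hc (by rw [← e]; convert hU _ _ ea (eb.conj (Subgroup.mem_top g)) using 1; group)
  obtain ⟨χ, -, e, -⟩ := StRep.exists_actsT_of_mem_H hh
  have c : ∀ s, Commute h (ρ.x (C.simple i) s) := fun s => by
    have := e (C.simple i)
    rcases H.unit (χ.ev (C.vec (C.simple i))) with f | f <;> rw [f] at this
    · exact mul_inv_eq_iff_eq_mul.1 (by simpa using this s)
    · exact (n (.inl (mul_inv_eq_iff_eq_mul.1 (by simpa [ρ.x_neg] using this 1)))).elim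
  obtain rfl : h = 1 := by
    by_cases s0 : s = 0
    · by_cases r0 : r = 0
      · exact (n (.inr ⟨c 1, by rw [s0, ρ.x_zero], by rw [r0, ρ.x_zero]⟩)).elim
      · obtain ⟨u, hu, f⟩ := H.pos hv r0 hh (c r)
        exact H.h_one hG hZ h4 hU.symm hh (m s hq) (by simpa only [mul_assoc] using ea) hu (eb.trans f) (c 1)
    · obtain ⟨u, hu, f⟩ := H.pos hq s0 hh (c s)
      exact H.h_one hG hZ h4 hU hh (m r hv) (by simpa only [mul_assoc] using eb) hu (ea.trans f) (c 1)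
  by_cases s0 : s = 0
  · obtain ⟨w, ⟨x, f, m⟩, e⟩ := big H.fa H.c3 h1 hq
    rw [s0, ρ.x_zero, one_mul, mul_one] at ea
    exact .inr ⟨w, ⟨x, ea.trans f, m⟩, e⟩
  · obtain ⟨u, hu, f⟩ := H.pos hq s0 hh (c s)
    exact .inl ((PE.of_mem hp (mul_mem hu (one_mem _))).cj (ea.trans f).symm)

end Hy

end CF.Ah.U3
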