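import Cfsg.Agent.Ah.B
import Cfsg.Agent.BN.TwInv

/-! Levi subgroups over the field with two elements: the frame. -/

set_option autoImplicit false

namespace CF.Ah.UA

open CF.BN CF.Chev CF.Loc Cfsg Cfsg.Lie

variable {B ι : Type} [Fintype B] [DecidableEq B] [Fintype ι] [DecidableEq ι]
  {C : ChevBasis B ι} {K : Type*} [Field K] {G : Type*} [Group G] {ρ : StRep C K G}
  {T : Tw ρ} {G1 Y : Subgroup G} {ω : ι → ℝ} {J : Set B} {n g : G}
  {w m : Equiv.Perm ι} {i j : B} {r : ι} {φ : K →+* K} {c : Kˣ}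

/-- The simple roots of `J` and their negatives. -/
def Rt (C : ChevBasis B ι) (J : Set B) (r : ι) : Prop :=
  ∃ j ∈ J, r = C.simple j ∨ r = C.neg (C.simple j)

theorem rt_pos (h : j ∈ J) : Rt C J (C.simple j) := ⟨j, h, .inl rfl⟩

theorem rt_neg (h : j ∈ J) : Rt C J (C.neg (C.simple j)) := ⟨j, h, .inr rfl⟩

/-- The nodes of `J` are fixed and defined over `F₂`. -/
structure Q2 (T : Tw ρ) (G1 : Subgroup G) (J : Set B) : Prop where
  form : T.Form G1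
  char : CharP K 2
  fix : ∀ j ∈ J, T.p j = j
  mem : ∀ r, Rt C J r → ∀ t, ρ.x r t ∈ G1 ↔ t = 0 ∨ t = 1

theorem q2 (M : LT 2 T G1 ω) (g : Gr T φ c) (hq : Nat.card {t : K // φ t = t} = 2)
    (h : ∀ j ∈ J, T.p j = j) : Q2 T G1 J := by
  have := M.char
  have hc : c = 1 := Units.ext (CharTwo.sq_injective (by simpa [sq] using congrArg Units.val g.sq))
  have h2 (t : K) : φ t = t ↔ t = 0 ∨ t = 1 := by
    refine ⟨fun e => or_iff_not_imp_left.2 fun h0 => ?_, by rintro (rfl | rfl) <;> simp⟩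
    obtain ⟨y, -, hy⟩ := (Nat.card_eq_two_iff' (⟨0, map_zero φ⟩ : {t : K // φ t = t})).1 hq
    exact congrArg Subtype.val ((hy ⟨t, e⟩ (by simpa using h0)).trans (hy ⟨1, map_one φ⟩ (by simp)).symm)
  refine ⟨M.form, this, h, ?_⟩
  rintro _ ⟨j, hj, rfl | rfl⟩ t
  · rw [M.form.x_mem (by rw [T.π_simple, h j hj]) (by rw [g.c_eq, hc]), g.φ_eq, h2]
  · rw [M.form.x_mem (by rw [T.π_neg, T.π_simple, h j hj]) (by rw [T.c_neg, g.c_eq, hc, inv_one]),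
      g.φ_eq, h2]

theorem s_eq (h : T.p j = j) : T.S.s j = C.sref j := by
  have : T.S.orb j = {j} := Set.ext fun k => ⟨fun hk => T.S.orb_induction (q := (· = j)) rfl
    (fun a e => (congrArg T.S.p e).trans h) hk, fun e => e ▸ T.S.mem_orb_self _⟩
  refine (congrArg (lg C.toRootSys) this).trans (eq_lg (C.sref_mem_WJ (J := {j}) rfl) ?_).symm
  intro k hk
  rw [show k = j from hk, C.sref_simple_self, C.pos_neg_iff]
  exact not_not.2 (C.pos_simple _)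

namespace Q2

variable (Q : Q2 T G1 J)
include Q

theorem stab : T.S.Stab J := fun k => by
  refine ⟨fun h => ?_, fun h => (Q.fix k h).symm ▸ h⟩
  have : T.p k = k := T.p.injective (Q.fix _ h)
  exact this ▸ h

theorem wf (hw : w ∈ C.WJ J) : w ∈ C.WJ J ⊓ T.S.Wf := by
  refine ⟨hw, Sym.mem_Wf.2 ⟨C.WJ_le_W J hw, ?_⟩⟩
  obtain ⟨l, hl, rfl⟩ := C.mem_WJ_iff.1 hw
  rw [Sym.conj_wp]
  congr 1
  exact (List.map_congr_left fun k hk => Q.fix k (hl k hk)).trans (List.map_id _)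

theorem one (h : Rt C J r) : ρ.x r 1 ∈ G1 := (Q.mem r h 1).2 (.inr rfl)

theorem conj (hn : n ∈ G1) (h : ρ.Acts n w) (h1 : Rt C J r) (h2 : Rt C J (w r)) :
    n * ρ.x r 1 * n⁻¹ = ρ.x (w r) 1 := by
  obtain ⟨d, hd⟩ := h.exists_conj_x r
  have := (Q.mem _ h2 _).1 (hd 1 ▸ mul_mem (mul_mem hn (Q.one h1)) (inv_mem hn))
  rw [hd, this.resolve_left (by simp)]

theorem nw_mem (hY : ∀ r, Rt C J r → ρ.x r 1 ∈ Y) {l : List B} (hl : ∀ k ∈ l, k ∈ J) : ρ.nw l ∈ Y := by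
  have := Q.char
  induction l with
  | nil => exact one_mem _
  | cons k l ih =>
    rw [ρ.nw_cons]
    refine mul_mem ?_ (ih fun k hk => hl k (by simp [hk]))
    have hk := hl k (by simp)
    simpa [PreSt.n, CharTwo.neg_eq] using mul_mem (mul_mem (hY _ (rt_pos hk)) (hY _ (rt_neg hk)))
      (hY _ (rt_pos hk))

theorem UL_le (hY : ∀ r, Rt C J r → ρ.x r 1 ∈ Y) : ρ.UL J ⊓ G1 ≤ Y := by
  have := Q.stab.induction (q := fun w => ρ.Uw w ⊓ T.Fix ≤ Y) (by simp [StRep.Uw])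
    (fun w hw _ k hk h1 ih g hg => ?_) Q.stab.lg_mem_Wf (lg_mem J)
  · rw [Tw.Uw_lg] at this
    exact (inf_le_inf_left _ Q.form.fix).trans this
  have h2 : ∀ a ∈ [k], a ∈ J := by simpa using hk
  obtain ⟨a, ha, b, hb, rfl⟩ := Tw.split_Uw hw h1 (n := ρ.nw [k])
    (by simpa [s_eq (Q.fix k hk)] using StRep.nW_ns (ρ := ρ) k)
    (Q.form.fix (Q.nw_mem (fun _ => Q.one) h2)) hg
  refine mul_mem ?_ (mul_mem (mul_mem (inv_mem (Q.nw_mem hY h2)) (ih hb)) (Q.nw_mem hY h2))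
  have h3 := Q.form.Uw_le (Sym.s_mem_Wf k) ha
  have h4 : a ∈ ρ.X (C.simple k) := ρ.U_singleton _ ▸ ρ.U_mono (fun r hr => by_contra fun e =>
    hr.2 (by rw [s_eq (Q.fix k hk)]; exact hr.1.sref e)) ha.1
  obtain ⟨t, rfl⟩ := ρ.mem_X.1 h4
  rcases (Q.mem _ (rt_pos hk) t).1 h3 with rfl | rfl
  · simp
  · exact hY _ (rt_pos hk)

theorem dec (hY : ∀ r, Rt C J r → ρ.x r 1 ∈ Y) (hg : g ∈ ρ.LJ J ⊓ G1) :
    ∃ a ∈ Y, ∃ h ∈ ρ.H ⊓ G1, g = a * h := by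
  obtain ⟨u, hu, n, hn, w, -, h1, h2, u', hu', rfl⟩ := Q.form.bruhat_LJ hg
  obtain ⟨l, hl, rfl⟩ := C.mem_WJ_iff.1 h2
  have h3 := (StRep.nW_nw l).inv_mul_mem_H h1
  have h4 := mul_mem (inv_mem (Q.nw_mem (fun _ => Q.one) hl)) hn
  set h := (ρ.nw l)⁻¹ * n with e
  refine ⟨u * ρ.nw l * (h * u' * h⁻¹), mul_mem (mul_mem (Q.UL_le hY hu) (Q.nw_mem hY hl)) (Q.UL_le hY
    (im ((StRep.acts_of_mem_H h3).conj_mem_U (fun _ h => h) (il hu'))
      (mul_mem (mul_mem h4 (ir hu')) (inv_mem h4)))), h, ⟨h3, h4⟩, by rw [e]; group⟩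

end Q2

end CF.Ah.UA
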