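import Cfsg.Agent.Ah.B
import Cfsg.Agent.Chev.Mult

/-! Frames for the families and some Weyl group lemmas. -/

set_option autoImplicit false

namespace CF.Ah

open CF.BN CF.Chev CF.Loc Cfsg Cfsg.Lie

section

variable {B ι : Type} [Fintype B] [DecidableEq B] [Fintype ι] [DecidableEq ι]
  {C : ChevBasis B ι} {K : Type*} [Field K] {G : Type*} [Group G] {ρ : StRep C K G}
  {T : Tw ρ} {G1 : Subgroup G} {ω : ι → ℝ} {p : ℕ} {φ : K →+* K} {c : Kˣ}

theorem gr_triv (hρ : ρ.Faithful) (hG : ρ.Gp = ⊤) : Gr (trivTw hρ hG) 1 1 ∧ (trivTw hρ hG).p = 1 :=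
  ⟨⟨fun _ => rfl, fun _ => rfl, mul_one _, fun _ _ => rfl, fun k _ => ⟨one_pow k, one_pow k⟩,
    fun _ h => absurd rfl h, fun _ => ⟨rfl, rfl⟩⟩, rfl⟩

theorem Gr.quot [Finite K] (g : Gr T φ c) : Gr (twQuot T) φ c ∧ (twQuot T).p = T.p :=
  ⟨⟨g.φ_eq, g.c_eq, g.sq, g.car, g.ord, g.ord', g.triv⟩, rfl⟩

namespace UE

/-- a model with trivial centre -/
theorem noU₁ (M : LT p T G1 ω) (h : Subgroup.center G = ⊥) (H : ∀ a b, St p T G1 ω a b → ¬ SC p G1 a b) :
    NoU p G1 := noU_of (.refl _) fun a ha b hb h1 h2 => H a b ⟨M, h, ha, hb, h1, h2⟩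

/-- the central quotient of a model -/
theorem noU₀ [Finite K] (M : LT0 p T G1 ω) (h : G1 ≤ T.Gen ⊔ Subgroup.center G) {X : Type*} [Group X] (e : G1 ≃* X)
    (H : ∀ a b, St p (twQuot T) (G1.map (QuotientGroup.mk' _)) ω a b →
      ¬ SC p (G1.map (QuotientGroup.mk' (Subgroup.center G))) a b) : NoU p (X ⧸ Subgroup.center X) :=
  (noU₁ (M.quot h) (StRep.center_quot T.faith T.top) H).of_equiv (M.nonempty_equiv e).some

/-- untwisted groups -/
theorem noU_st [CharP K p] [Finite K] [Nonempty B] (hρ : ρ.Faithful) (hG : ρ.Gp = ⊤) (hC : C.Conn)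
    (H : ∀ (T : Tw ρ.quot) G1 a b, St p T G1 1 a b → Gr T 1 1 → T.p = 1 → ¬ SC p G1 a b) :
    NoU p (G ⧸ Subgroup.center G) :=
  noU₀ (lt_triv hρ hG hC ρ.r3_of_finite).lt0 (le_sup_of_le_left (lt_triv hρ hG hC ρ.r3_of_finite).gen)
    Subgroup.topEquiv fun a b S => H _ _ a b S (gr_triv hρ hG).1.quot.1 rfl

/-- the exceptional untwisted groups -/
theorem noU_good {D : ChevalleyDatum} {C : ChevBasis (Fin D.rank) (Fin D.nroots)} (h : Good D C)
    (K : Type) [Field K] [Finite K] [CharP K p] (H : ∀ (ρ : StRep C K (D.group K)) (T : Tw ρ) a b,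
      St p T ⊤ 1 a b → Gr T 1 1 → T.p = 1 → ¬ SC p ⊤ a b) : NoU p (D.group K) :=
  (noU₁ (h.lt K) (h.link.center_group K) fun a b S => H _ _ a b S (gr_triv _ _).1 rfl).of_equiv
    Subgroup.topEquiv.symm

variable {R : RootSys B ι} {S : Sym R} {i j k : B} {J D : Set B} {w : Equiv.Perm ι} {r : ι}

theorem orb_fix (h : S.p i = i) : S.orb i = {i} :=
  Set.ext fun _ => ⟨fun q => S.orb_induction (q := (· = i)) rfl (fun _ e => e ▸ h) q,
    fun q => q ▸ S.mem_orb_self _⟩

theorem stab_fix (h : ∀ i ∈ J, S.p i = i) : S.Stab J := fun i =>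
  ⟨fun q => S.p.injective (h _ q) ▸ q, fun q => (h i q).symm ▸ q⟩

theorem lg_single (i : B) : lg R {i} = R.sref i :=
  (eq_lg (R.sref_mem_WJ (Set.mem_singleton i)) fun j e => by
    rw [show j = i from e, R.sref_simple_self]; exact R.not_pos_neg_simple i).symm

theorem s_fix (h : S.p i = i) : S.s i = R.sref i := by rw [Sym.s, orb_fix h, lg_single]

theorem sref_Wf (h : S.p i = i) : R.sref i ∈ S.Wf := s_fix h ▸ S.s_mem_Wf i

theorem eq_neg_of (h : R.InSub {i} r) (h' : ¬ R.Pos r) : r = R.neg (R.simple i) := by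
  obtain ⟨j, rfl, e⟩ := RootSys.eq_simple_of_orth (J := {i}) (fun _ a _ b c => (c (a.trans b.symm)).elim)
    ((R.pos_neg_iff r).2 h') (R.inSub_neg.2 h)
  exact R.neg_eq_iff.1 e

theorem neg_fix (h : T.p i = i) (n : Neg T w i) : w (C.simple i) = C.neg (C.simple i) :=
  eq_neg_of (orb_fix (S := T.S) h ▸ n.1) n.2

theorem fix_WJ (hw : w ∈ R.WJ J) (h : ∀ j ∈ J, R.A (R.simple j) r = 0) : w r = r := by
  refine Subgroup.closure_induction (p := fun w _ => w r = r) ?_ rfl (fun a b _ _ h1 h2 => ?_)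
    (fun a _ h1 => ?_) hw
  · rintro _ ⟨j, hj, rfl⟩
    rw [← R.refl_simple, R.refl_of_A_eq_zero (h j hj)]
  · rw [Equiv.Perm.mul_apply, h2, h1]
  · rw [Equiv.Perm.inv_eq_iff_eq, h1]

theorem car_zero (h : R.car i j = 0) : R.car j i = 0 := by
  rwa [← R.A_simple_simple, R.A_eq_zero_iff, R.A_simple_simple] at h

/-- the longest element of an orthogonal union -/
theorem lg_split (h : J ⊆ D) (o : ∀ j ∈ D, j ∉ J → ∀ i ∈ J, R.car j i = 0) : lg R D = lg R J * lg R (D \ J) := by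
  refine (eq_lg (mul_mem (R.WJ_mono h (lg_mem J)) (R.WJ_mono Set.diff_subset (lg_mem _))) fun i hi => ?_).symm
  rw [Equiv.Perm.mul_apply]
  by_cases q : i ∈ J
  · rw [fix_WJ (lg_mem (D \ J)) fun j hj => by rw [R.A_simple_simple, o j hj.1 hj.2 i q]]
    exact fun e => (pos_lg_iff (R.pos_simple i)).1 e (R.inSub_simple.2 q)
  · rw [fix_WJ (lg_mem J) fun j hj => ?_]
    · exact fun e => (pos_lg_iff (R.pos_simple i)).1 e (R.inSub_simple.2 ⟨hi, q⟩)
    · rw [← fix_WJ (lg_mem (D \ J)) (r := R.simple j) fun k hk => by rw [R.A_simple_simple, o k hk.1 hk.2 j hj],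
        RootSys.A_aut (lg_mem_Aut _), R.A_simple_simple, car_zero (o i hi q j hj)]

theorem sref_orth (h : R.car i j = 0) : R.sref i (R.simple j) = R.simple j := by
  rw [← R.refl_simple, R.refl_of_A_eq_zero (by rwa [R.A_simple_simple])]

theorem sref_adj (h1 : R.car i j = -1) (h2 : R.car j i = -1) : R.sref i (R.simple j) = R.sref j (R.simple i) :=
  R.vec_inj (by rw [R.vec_sref, R.vec_sref, R.A_simple_simple, R.A_simple_simple, h1, h2]; module)

theorem a2_apply (h1 : R.car i j = -1) (h2 : R.car j i = -1) :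
    (R.sref i * R.sref j * R.sref i) (R.simple i) = R.neg (R.simple j) ∧
      (R.sref i * R.sref j * R.sref i) (R.simple j) = R.neg (R.simple i) := by
  simp only [Equiv.Perm.mul_apply]
  refine ⟨?_, by rw [sref_adj h1 h2, R.sref_sref, R.sref_simple_self]⟩
  rw [R.sref_simple_self, RootSys.neg_aut (R.sref_mem_Aut _), RootSys.neg_aut (R.sref_mem_Aut _), ← sref_adj h1 h2,
    R.sref_sref]

theorem car_sl (hl : R.len (R.simple i) = R.len (R.simple j)) (h : i ≠ j) (h0 : R.car i j ≠ 0) :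
    R.car i j = -1 ∧ R.car j i = -1 := by
  have e := RootSys.A_symm_of_len hl
  have b := (RootSys.abs_A_le_of_len hl (R.simple_injective.ne h.symm) (R.simple_ne_neg _ _)).1
  have n := R.car_nonpos h
  rw [R.A_simple_simple] at e b
  rw [R.A_simple_simple] at e
  omega

theorem exists_nb [Nontrivial B] (h : R.Conn) (i : B) : ∃ j, j ≠ i ∧ R.car i j ≠ 0 := by
  obtain ⟨_, rfl, j, a, b⟩ := h {i} ⟨i, rfl⟩ (exists_ne i)
  exact ⟨j, a, b⟩

theorem A_sref (u : ι) (i : B) (s : ι) : R.A u (R.sref i s) = R.A u s - R.A (R.simple i) s * R.A u (R.simple i) := by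
  rw [← R.refl_simple, R.A_refl_right]

theorem aut_sref (hw : w ∈ R.Aut) (h : w (R.simple i) = R.simple j) : w (R.sref i r) = R.sref j (w r) := by
  rw [← R.refl_simple, R.refl_aut hw, h, R.refl_simple]

variable {l n : B}

theorem lg_three (ik : R.car i k = 0) (il : R.car i l = 0) (kl : R.car k l = 0) :
    lg R {i, k, l} = R.sref i * R.sref k * R.sref l := by
  refine (eq_lg (mul_mem (mul_mem (R.sref_mem_WJ (by simp)) (R.sref_mem_WJ (by simp))) (R.sref_mem_WJ (by simp)))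
    ?_).symm
  rintro _ (rfl | rfl | rfl) <;>
    simp [sref_orth, ik, il, kl, car_zero ik, car_zero il, car_zero kl, RootSys.neg_aut (R.sref_mem_Aut _),
      R.not_pos_neg_simple]

theorem d4_apply (ik : R.car i k = 0) (il : R.car i l = 0) (kl : R.car k l = 0) (ij : R.car i j = -1 ∧ R.car j i = -1)
    (kj : R.car k j = -1 ∧ R.car j k = -1) (lj : R.car l j = -1 ∧ R.car j l = -1) :
    R.sref l (R.sref k (R.sref j (R.sref i (R.sref k (R.sref l (R.sref j (R.simple i))))))) = R.simple j :=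
  R.vec_inj (by
    simp [R.vec_sref, A_sref, R.A_simple_simple, R.car_self, ik, il, kl, car_zero ik, car_zero il, car_zero kl, ij, kj,
      lj]
    abel)

/-- no node has four neighbours -/
theorem no_four (ik : R.car i k = 0) (il : R.car i l = 0) (kl : R.car k l = 0) (ni : R.car i n = 0)
    (nk : R.car k n = 0) (nl : R.car l n = 0) (ij : R.car i j = -1 ∧ R.car j i = -1)
    (kj : R.car k j = -1 ∧ R.car j k = -1) (lj : R.car l j = -1 ∧ R.car j l = -1)
    (nj : R.car n j = -1 ∧ R.car j n = -1) : False := by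
  have ne : ∀ {d}, R.car d j = -1 ∧ R.car j d = -1 → j ≠ d := fun h e => by
    have := h.1
    rw [e, R.car_self] at this
    omega
  have a := R.sref_mem_Aut
  have := (RootSys.abs_A_le_of_len (r := R.simple j) (s := R.sref i (R.sref k (R.sref l (R.sref n (R.simple j)))))
    (by simp only [RootSys.len_aut (a _)]) (RootSys.ne_of_A_ne (R := R) (by
      simp [A_sref, R.A_simple_simple, R.car_self, ik, il, kl, ni, nk, nl, ij, kj, lj, nj]))
    ((R.pos_simple j).ne_neg (R.pos_of_coord (i := j) (by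
      simp [R.vec_sref_of_ne, ne ij, ne kj, ne lj, ne nj, R.vec_simple])))).1
  simp [A_sref, R.A_simple_simple, R.car_self, ik, il, kl, ni, nk, nl, ij, kj, lj, nj] at this

end UE

end

end CF.Ah
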