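import Cfsg.Agent.Ah.U3
import Cfsg.Agent.Ah.UE0
import Cfsg.Agent.Chev.FusS

/-! Products of classes: types `B`, `C`, `F₄` in odd characteristic. -/

set_option autoImplicit false

namespace CF.Ah

open CF.BN CF.Chev CF.Loc Cfsg Cfsg.Lie

namespace UB

/-- Joined by simple bonds. -/
abbrev RT {B ι : Type} [Fintype B] [DecidableEq B] [Fintype ι] [DecidableEq ι] (R : RootSys B ι) :
    B → B → Prop := Relation.ReflTransGen fun a b => R.car a b = -1 ∧ R.car b a = -1

variable {B ι : Type} [Fintype B] [DecidableEq B] [Fintype ι] [DecidableEq ι]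
  {C : ChevBasis B ι} {K : Type*} [Field K] {G : Type*} [Group G] {ρ : StRep C K G}
  {T : Tw ρ} {G1 : Subgroup G} {ω : ι → ℝ} {p : ℕ} [Fact p.Prime] {a b : G} {i j : B}

theorem RT.len {R : RootSys B ι} (h : RT R i j) : R.len (R.simple i) = R.len (R.simple j) := by
  induction h with
  | refl => rfl
  | @tail b c _ h ih => simpa [ih, h.1, h.2] using R.car_symm b c

theorem main (S : St p T G1 ω a b) (g : Gr T 1 1) (h0 : T.p = 1) (hp : p ≠ 2) (h1 : C.car i j = -2)
    (h2 : C.car j i = -1) (h3 : ∀ k, RT C.toRootSys k i ∨ RT C.toRootSys k j) : ¬ PU p G1 a b := by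
  have M := S.lt
  have := M.fin
  have := M.char
  have := M.ne
  have hK : (2 : K) ≠ 0 := fun e => hp ((Nat.prime_dvd_prime_iff_eq Fact.out Nat.prime_two).1
    ((CharP.cast_eq_zero_iff K p 2).1 (by exact_mod_cast e)))
  obtain ⟨θ, ht⟩ := M.conn.exists_top
  have f : ∀ k, T.p k = k := fun k => by rw [h0]; rfl
  have o : ∀ k, T.S.orb k = {k} := fun k => UE.orb_fix (f k)
  have hl : C.len (C.simple j) = C.len θ := len_top ht fun k => by
    have := C.car_symm i j
    have := C.len_pos (C.simple i)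
    rcases h3 k with h | h <;> rw [h.len]
    rw [h1, h2] at *
    omega
  have h4 : ∀ k ≠ i, ∃ l, C.car k l = -1 := fun k hk => by
    rcases h3 k with h | h
    · exact (h.cases_head.resolve_left hk).imp fun _ h => h.1.1
    · exact h.cases_head.elim (fun e => ⟨i, e ▸ h2⟩) fun h => h.imp fun _ h => h.1.1
  have h5 : ∀ k ≠ i, ρ.h (C.simple k) (-1) ≠ 1 := fun k hk e => by
    obtain ⟨l, h⟩ := h4 k hk
    exact absurd (h ▸ h_neg_one T.faith hK e l) (by decide)
  refine not_pu S ht (fun hU D _ d2 d3 d4 => ?_) fun x hx hx' k hk => ?_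
  · have key : ∀ k ∈ D, Nat.card K = 3 ∧ ρ.h (C.simple k) (-1) = 1 := fun k hk => by
      have := r2 S hU g (f k) (by
        by_cases e : k = i
        · exact ⟨j, .inr ⟨e ▸ h2, f j⟩⟩
        · exact (h4 k e).imp fun _ => .inl) d3 (UE.neg_fix (f k) (d4 k hk))
      rw [Nat.card_congr (Equiv.subtypeUnivEquiv (p := fun t : K => (1 : K →+* K) t = t)
        fun _ => rfl)] at this
      refine this.resolve_left fun e => hK ?_
      have := Fintype.ofFinite K
      have h6 := FiniteField.cast_card_eq_zero K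
      rw [← Nat.card_eq_fintype_card, e] at h6
      exact_mod_cast h6
    have e : D = {i} := (Set.Nonempty.subset_singleton_iff d2).1 fun k hk =>
      by_contra fun e => h5 k e (key k hk).2
    obtain ⟨h6, h7⟩ := key i (e ▸ rfl)
    obtain rfl : p = 3 := by
      have := Fintype.ofFinite K
      have h8 := FiniteField.cast_card_eq_zero K
      rw [← Nat.card_eq_fintype_card, h6] at h8
      exact (Nat.prime_dvd_prime_iff_eq Fact.out Nat.prime_three).1 ((CharP.cast_eq_zero_iff K p 3).1 h8)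
    exact b3 S hU g h0 h6 ht h1 hl h7 h5 (by rwa [Sym.s, o, ← e])
  have mv : ∀ {l}, RT C.toRootSys k l → WA ρ G1 x (T.S.s l) := fun h => by
    induction h with
    | refl => exact hk
    | tail _ h ih => exact a2 M g h.1 h.2 (by simp [o]) (by simp [o]) hx hx' ih
  rcases h3 k with h | h
  · exact b2u M g h0 ht hK h1 hl hx hx' (mv h)
  · exact opp_long M g ht hx (f j) hl (mv h)

theorem chain {n : ℕ} {ι : Type} [Fintype ι] [DecidableEq ι] (R : RootSys (Fin n) ι) (l : Fin n)
    (h : ∀ a b : Fin n, b.val = a + 1 → b ≤ l → R.car a b = -1 ∧ R.car b a = -1) (k : Fin n)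
    (hk : k ≤ l) : RT R k l := by
  obtain ⟨d, hd⟩ := Nat.exists_eq_add_of_le hk
  induction d generalizing k with
  | zero => exact (Fin.ext hd : l = k) ▸ .refl
  | succ d ih =>
    exact .head (h k ⟨k + 1, by omega⟩ rfl (by rw [Fin.le_def]; dsimp only; omega))
      (ih _ (by rw [Fin.le_def]; dsimp only; omega) (by dsimp only; omega))

end UB

variable {p : ℕ} [Fact p.Prime] {X : Type*} [Group X]

theorem u_Sp (h : IsPSpChar p X) (h2 : p ≠ 2) : NoU p X := by
  obtain ⟨K, _, _, _, n, h1, -, ⟨e⟩⟩ := h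
  have : Nonempty (Fin n) := ⟨⟨0, by omega⟩⟩
  refine (UE.noU_st (faithful_spRep n K (by omega)) (spRep_Gp n K) connC fun T G1 a b S g h0 h =>
    UB.main S g h0 h2 (i := ⟨n - 2, by omega⟩) (j := ⟨n - 1, by omega⟩) ?_ ?_ (fun k => ?_)
      h.pu).of_equiv e
  · simp only [cbC_car, Fin.ext_iff]; omega
  · simp only [cbC_car, Fin.ext_iff]; omega
  by_cases hk : k.val ≤ n - 2
  · refine .inl (UB.chain _ _ (fun a b h1 h2 => ?_) k hk)
    simp only [cbC_car, Fin.ext_iff, Fin.le_def] at h2 ⊢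
    omega
  · exact .inr ((Fin.ext (by dsimp only; omega) : k = ⟨n - 1, by omega⟩) ▸ .refl)

theorem u_B (h : IsPOmegaOddChar p X) : NoU p X := by
  obtain ⟨K, _, _, _, n, h1, h2, ⟨e⟩⟩ := h
  have : Nonempty (Fin n) := ⟨⟨0, by omega⟩⟩
  have h3 : ∃ a : K, a ≠ 0 ∧ a ≠ 1 := Suz.exists_ne_zero_ne_one (by
    have := Fintype.one_lt_card (α := K); obtain ⟨k, hk⟩ := h2; omega)
  have h4 : p ≠ 2 := fun e => by
    subst e
    exact (Nat.not_even_iff_odd.2 h2) (FiniteField.even_card_iff_char_two.1 (ringChar.eq K 2) |>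
      Nat.even_iff.2)
  refine (UE.noU_st (faithful_omRepB (by omega) h3) (omRepB_Gp (by omega) h3) connB
    fun T G1 a b S g h0 h => UB.main S g h0 h4 (i := ⟨n - 1, by omega⟩) (j := ⟨n - 2, by omega⟩)
      ?_ ?_ (fun k => ?_) h.pu).of_equiv e
  · simp only [cbB_car, Fin.ext_iff]; omega
  · simp only [cbB_car, Fin.ext_iff]; omega
  by_cases hk : k.val ≤ n - 2
  · refine .inr (UB.chain _ _ (fun a b h1 h2 => ?_) k hk)
    simp only [cbB_car, Fin.ext_iff, Fin.le_def] at h2 ⊢
    omega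
  · exact .inl ((Fin.ext (by dsimp only; omega) : k = ⟨n - 1, by omega⟩) ▸ .refl)

theorem u_F4 (K : Type) [Field K] [Fintype K] [CharP K p] (h2 : p ≠ 2) : NoU p (chevF4.group K) := by
  refine UE.noU_good goodF4 K fun ρ T a b S g h0 h => UB.main S g h0 h2 (i := (1 : Fin 4))
    (j := (2 : Fin 4)) (carF4 _ _) (carF4 _ _) (fun k : Fin 4 => ?_) h.pu
  fin_cases k
  exacts [.inl (.single ⟨carF4 _ _, carF4 _ _⟩), .inl .refl, .inr .refl,
    .inr (.single ⟨carF4 _ _, carF4 _ _⟩)]

end CF.Ah
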