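import Cfsg.Agent.Ah.UW
import Cfsg.Agent.Ah.UL
import Cfsg.Agent.Ah.ST3
import Cfsg.Agent.BN.TwInv

/-! Products of conjugacy classes: unipotent products in `³D₄(q)`. -/

set_option autoImplicit false
set_option linter.unusedSectionVars false

namespace CF.Ah

open CF.BN CF.Chev CF.Chev.StRep CF.Loc Cfsg Cfsg.Lie UW

namespace UD

/-- The generators of the Weyl group. -/
def sg (i : Fin 4) : Fin 24 → Fin 24 := if i = 1 then ST3.fa else ST3.fb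

theorem top : cD4.Top 23 := by unfold RootSys.Top; simp only [Pi.le_def]; decide +kernel

variable {K : Type*} [Field K] {G : Type*} [Group G] {ρ : StRep cD4 K G} {T : Tw ρ} {G1 : Subgroup G}
  {ω : Fin 24 → ℝ} {p : ℕ} [Fact p.Prime] {φ : K →+* K} {a b u n : G} {w : Equiv.Perm (Fin 24)}

theorem hs (h : T.IsGr pD4 φ) (i : Fin 4) (r : Fin 24) : T.S.s i r = sg i r := by
  rw [(dataD4 h.p_eq).s_eq]; exact wp_apply_eq linkD4 (by revert i r; decide +kernel)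

theorem cm (r s : Fin 24) (h : s ≠ cD4.neg r ∧ ∀ v, cD4.vec v ≠ cD4.vec s + cD4.vec r) (t u : K) :
    Commute (ρ.x r t) (ρ.x s u) := ρ.commute_of_none h.1 h.2 t u

theorem k0 (r s : Fin 24) (h : s ≠ cD4.neg r ∧ ∀ v, cD4.vec v ≠ cD4.vec s + cD4.vec r) (t u : K) :
    MulAut.conj (ρ.x s u) (ρ.x r t) = ρ.x r t := by
  rw [MulAut.conj_apply, ← (cm r s h t u).eq, mul_inv_cancel_right]

theorem k1 (r s : Fin 24) (h : cD4.vec 14 = cD4.vec s + cD4.vec r ∧ (∀ z, cD4.vec z ≠ cD4.vec 14 + cD4.vec r) ∧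
    14 ≠ cD4.neg s ∧ ∀ z, cD4.vec z ≠ cD4.vec 14 + cD4.vec s) (t u : K) :
    MulAut.conj (ρ.x s u) (ρ.x r t) = ρ.x r t * ρ.x 14 (cD4.N r s * (-t) * u) := by
  rw [MulAut.conj_apply, ρ.comm_single h.1 h.2.1 h.2.2.2, mul_assoc _ (ρ.x s u), (cm s 14 h.2.2 _ _).eq, ← mul_assoc,
    mul_inv_cancel_right]

theorem cj3 (t₁ t₂ t₃ s u v : K) : MulAut.conj (ρ.x 5 s * (ρ.x 10 u * ρ.x 11 v))
    (ρ.x 19 t₁ * (ρ.x 16 t₂ * ρ.x 15 t₃)) = ρ.x 19 t₁ * (ρ.x 16 t₂ * (ρ.x 15 t₃ *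
      ρ.x 14 (cD4.N 19 5 * (-t₁) * s + (cD4.N 16 10 * (-t₂) * u + cD4.N 15 11 * (-t₃) * v)))) := by
  simp only [map_mul, MulAut.mul_apply, k0 19 10 (by decide +kernel), k0 19 11 (by decide +kernel),
    k0 16 5 (by decide +kernel), k0 16 11 (by decide +kernel), k0 15 5 (by decide +kernel),
    k0 15 10 (by decide +kernel), k0 14 5 (by decide +kernel), k0 14 10 (by decide +kernel),
    k1 19 5 (by decide +kernel), k1 16 10 (by decide +kernel), k1 15 11 (by decide +kernel), mul_assoc, ρ.x_add,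
    (cm 14 16 (by decide +kernel) _ _).left_comm, (cm 14 15 (by decide +kernel) _ _).left_comm]

theorem gr (h : T.IsGr pD4 φ) (h3 : ∀ t, φ (φ (φ t)) = t) (h1 : ∃ t, φ t ≠ t) : Gr T φ 1 := by
  have hp : T.p = pD4 := h.p_eq
  have e3 : φ ^ 3 = 1 := RingHom.ext h3
  have e4 : pD4 ^ 3 = 1 := by decide
  refine ⟨h.φ_eq, h.c_eq, one_mul _, hp ▸ by decide +kernel, fun k hk => ⟨?_, one_pow k⟩, fun i hi k hk => ?_,
    fun e => absurd (hp ▸ e) (by decide)⟩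
  · have : Fact (Nat.Prime 3) := ⟨Nat.prime_three⟩
    obtain ⟨m, rfl⟩ := orderOf_eq_prime e3 (fun e => h1.elim fun t ht => ht (by simp [e])) ▸ orderOf_dvd_of_pow_eq_one hk
    rw [hp, pow_mul, e4, one_pow]
  · rw [hp] at hi hk
    rw [← Nat.div_add_mod k 3, pow_add, pow_mul] at hk ⊢
    rw [e4, one_pow, one_mul] at hk
    rw [(by decide : ∀ i, pD4 i ≠ i → ∀ j < 3, (pD4 ^ j) i = i → j = 0) i hi _ (Nat.mod_lt _ three_pos) hk, e3]
    simp

variable (M : LT p T G1 ω) (h : T.IsGr pD4 φ)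
include M h

theorem opp23 (ha : a ∈ G1) {l : List (Fin 4)} (e : WA ρ G1 a (wd T l)) (hl : ev sg l 23 = cD4.neg 23) :
    Opp p ρ G1 23 a :=
  opp (hs h) M ha e top.pos (cD4.inSub_univ _) (fun _ hu t =>
    (commute_top top (ρ.U_mono (fun _ h => h.1) hu) t).symm) hl [] rfl

theorem wa5 (ha : a ∈ G1) (e : WA ρ G1 a (T.S.s 1)) : WA ρ G1 a (wd T [1, 0, 1, 0, 1]) :=
  ch (hs h) M ha [(0, [0, 1, 0]), (1, [1, 0, 1, 0, 1])] (wd_one (T := T) 1 ▸ e) (by decide +kernel)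

theorem short (ha : a ∈ G1) (hp : PE p a) (e : WA ρ G1 a (T.S.s 0)) (ho : ¬ Opp p ρ G1 23 a) :
    ∃ y ∈ blk T 0, y ≠ 1 ∧ Cj G1 a y := by
  refine blk1 (hs h) M ha hp (bad := [[0, 1, 0, 1], [1, 0], [0, 1, 0, 1, 0, 1]]) ?_
    (ch (hs h) M ha [(1, [1, 0, 1]), (0, [0, 1, 0, 1, 0])] (wd_one (T := T) 0 ▸ e)
      (l' := [0, 1, 0, 1, 0]) (by decide +kernel)) [[0, 1], [1, 0, 1], [0], [1], [1, 0]]
    (by decide +kernel) [1, 0] (by decide +kernel) fun r h1 h2 => ((dataD4 h.p_eq).mem_rl 0 _).1 ?_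
  · simp only [List.forall_mem_cons]
    exact ⟨fun e => ho (opp23 M h ha (ch (hs h) M ha [(1, [1, 0, 1, 0, 1])] e (l' := [1, 0, 1, 0, 1])
        (by decide +kernel)) (by decide +kernel)),
      fun e => ho (opp23 M h ha (ch (hs h) M ha [(0, [0, 1, 0]), (1, [1, 0, 1, 0, 1])] e (l' := [1, 0, 1, 0, 1])
        (by decide +kernel)) (by decide +kernel)), fun e => ho (opp23 M h ha e (by decide +kernel)), by simp⟩
  · revert r; decide +kernel

theorem opp_all (h3 : ∀ t, φ (φ (φ t)) = t) (h1 : ∃ t, φ t ≠ t) (ha : a ∈ G1) (hp : PE p a) (i : Fin 4)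
    (e : WA ρ G1 a (T.S.s i)) : Opp p ρ G1 23 a := by
  by_contra ho
  have k : ¬ WA ρ G1 a (T.S.s 1) := fun e => ho (opp23 M h ha (wa5 M h ha e) (by decide +kernel))
  by_cases hi : i = 1
  · exact k (hi ▸ e)
  rw [show T.S.s i = T.S.s 0 from Equiv.ext fun r => by rw [hs h, hs h, sg, if_neg hi]; rfl] at e
  obtain ⟨y, hy, y1, c⟩ := short M h ha hp e ho
  obtain ⟨t, rfl⟩ := (memD4₃ h h3 (g := y)).1 (by rw [← (dataD4 h.p_eq).set_eq 0]; exact hy)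
  have t0 : t ≠ 0 := by rintro rfl; simp at y1
  obtain ⟨n, n1, hn⟩ := M.form.exists_n_s 1
  obtain ⟨c₁, e₁⟩ := hn.acts.exists_conj_x 18
  obtain ⟨c₂, e₂⟩ := hn.acts.exists_conj_x 13
  obtain ⟨c₃, e₃⟩ := hn.acts.exists_conj_x 12
  have c' := c.conj n1
  rw [← conj_mul, ← conj_mul, e₁, e₂, e₃, hs h, hs h, hs h] at c'
  have R : ∀ s, (cD4.N 19 5 : K) * (-(c₁ * t)) * s + (cD4.N 16 10 * (-(c₂ * φ t)) * φ s +
      cD4.N 15 11 * (-(c₃ * φ (φ t))) * φ (φ s)) = 0 := fun s => by_contra fun z => by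
    have g1 : ρ.x 5 s * (ρ.x 10 (φ s) * ρ.x 11 (φ (φ s))) ∈ G1 := M.form.Um_le (im (mul_mem
      (ρ.x_mem_U (by decide +kernel : ¬ cD4.Pos 5) _) (mul_mem (ρ.x_mem_U (by decide +kernel : ¬ cD4.Pos 10) _)
        (ρ.x_mem_U (by decide +kernel : ¬ cD4.Pos 11) _))) ((fixD4₃ h (.inr rfl)).2 ⟨h3 s, rfl, rfl⟩))
    have c2 := c'.conj g1
    rw [← MulAut.conj_apply, show sg 1 18 = 19 from rfl, show sg 1 13 = 16 from rfl, show sg 1 12 = 15 from rfl,
      cj3] at c2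
    have q : ∀ r, r ∈ [19, 16, 15] → ∀ t, ρ.x r t ∈ ρ.UJ (T.S.orb 1) := fun r hr t =>
      have := (by decide +kernel : ∀ r ∈ [19, 16, 15], cD4.Pos r ∧ r ∉ rlD4 1) r hr
      ρ.x_mem_U (And.intro this.1 fun z => this.2 (((dataD4 h.p_eq).mem_rl 1 r).2 ⟨this.1, z⟩)) t
    refine k ((WA.cj c2).1 (wa_s M (im (mul_mem (ρ.UJ_le_Up _ (q _ (by simp) _)) (mul_mem (ρ.UJ_le_Up _ (q _ (by simp) _))
      (mul_mem (ρ.UJ_le_Up _ (q _ (by simp) _)) (ρ.x_mem_U (by decide +kernel : cD4.Pos 14) _)))) (c2.mem ha)) fun d => ?_))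
    rw [mul_mem_cancel_left (q _ (by simp) _), mul_mem_cancel_left (q _ (by simp) _),
      mul_mem_cancel_left (q _ (by simp) _)] at d
    exact absurd ((T.faith.x_mem_U_iff (ST3.bA (ρ := ρ)).closed (ST3.bA (ρ := ρ)).isNil z).1 (ST3.uA h.p_eq d)) (by decide)
  obtain ⟨s, hs⟩ := h1
  have r1 := R 1
  have r2 := R s
  have r3 := R (s * s)
  simp only [map_one, map_mul] at r1 r3
  have N0 : (cD4.N 19 5 : K) ≠ 0 := by
    rcases Int.natAbs_eq_iff.1 (cD4.N_abs_one 19 5 14 (by decide +kernel) (by decide +kernel)) with h | h <;>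
      simp [LieBasis.N, h]
  refine mul_ne_zero (mul_ne_zero (mul_ne_zero N0 (mul_ne_zero c₁.ne_zero t0)) (sub_ne_zero.2 hs))
    (sub_ne_zero.2 fun z : φ (φ s) = s => hs (by rw [← z, h3, z])) ?_
  linear_combination (-1 : K) * r3 + (φ s + φ (φ s)) * r2 - φ s * φ (φ s) * r1

omit M in
theorem ko' (g : Gr T φ 1) (S : St p T G1 ω a b) (hU : PU p G1 a b) (e : Om ρ G1 a b w) : w 18 ≠ 5 := by
  have := ko S.lt g (i := 0) (by rw [show T.p = pD4 from h.p_eq]; decide) (fun j hj => by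
    rw [(dataD4 h.p_eq).mem_orb] at hj; revert j; decide +kernel) (e.1.mem_Wf S.lt S.ma) (e.kw S hU)
  rwa [show cD4.simple 0 = 18 by decide +kernel, show cD4.neg 18 = 5 by decide +kernel] at this

omit M h in
variable (T G1) in
/-- The class meets a cell of the big double coset. -/
def MO (a : G) : Prop := ∃ v ∈ cD4.WJ (T.S.orb 1) ⊓ T.S.Wf, WA ρ G1 a (wd T [0, 1, 0, 1, 0] * v)

omit M in
theorem not_both (g : Gr T φ 1) (S : St p T G1 ω a b) (hU : PU p G1 a b) : MO T G1 a → ¬ MO T G1 b := by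
  rintro ⟨v, hv, h1⟩ ⟨v', hv', h2⟩
  obtain ⟨t, ht, t', ht', e⟩ := om_J S hU (T.S.stab_orb 1) h1 h2 (inv_mem hv') (inv_mem hv) (by
    rw [mul_inv_rev, ← wd_rev, mul_assoc, mul_inv_cancel_right]; rfl)
  have k : ∀ t ∈ cD4.WJ (T.S.orb 1) ⊓ T.S.Wf, t 17 = 17 ∧ t 6 = 6 := fun t ht => by
    rcases Sym.eq_one_or_eq_s ht.2 ht.1 with rfl | rfl
    exacts [⟨rfl, rfl⟩, ⟨hs h 1 17, hs h 1 6⟩]
  refine ko' h g S hU (e.conj S hU (wd_mem [1, 0])) ?_
  simp only [Equiv.Perm.mul_apply, wd_inv_ev (hs h), wd_ev (hs h)]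
  rw [show ev sg [1, 0].reverse 18 = 17 from rfl, (k _ ht').1, (k _ hv).1, show ev sg [0, 1, 0, 1, 0] 17 = 6 from rfl,
    (k _ ht).2]
  rfl

theorem fold23 (ha : a ∈ G1) (ho : ¬ MO T G1 a) (hu : u ∈ ρ.Up) (hn : n ∈ G1) (hw : ρ.NW n (wd T [1, 0, 1, 0, 1]))
    (c : Cj G1 a (u * n)) : u ∈ ρ.U {r | r ∈ [23]} := by
  have o : ¬ WA ρ G1 a (wd T [0, 1, 0, 1, 0]) := fun e => ho ⟨1, one_mem _, by rwa [mul_one]⟩
  refine ρ.U_mono (fun r hr => ?_) (fold M ⟨hu, (mul_mem_cancel_right hn).1 (c.mem ha)⟩ hn hw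
    (L := [[1, 0], [0, 1, 0], [1], [0], [0, 1]]) fun m hm => foldOK (hs h)
      (bad := [[1, 0, 1, 0], [0, 1], [0, 1, 0, 1, 0, 1]]) ?_ ?_)
  · exact (by decide +kernel : ∀ r, cD4.Pos r → (∀ m ∈ [[1, 0], [0, 1, 0], [1], [0], [0, 1]],
      cD4.Pos (ev sg m.reverse r)) → r ∈ [23]) r hr.1 fun m hm => wd_ev (hs h) m.reverse r ▸ hr.2 m hm
  · simp only [List.forall_mem_cons, WA.cj c]
    exact ⟨fun e => o (ch (hs h) M ha [(0, [0, 1, 0, 1, 0])] e (by decide +kernel)),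
      fun e => o (ch (hs h) M ha [(1, [1, 0, 1]), (0, [0, 1, 0, 1, 0])] e (by decide +kernel)),
      fun e => ho ⟨_, ⟨lg_mem _, T.S.s_mem_Wf 1⟩, by rw [← Sym.s, ← wd_one, ← wd_append]; exact e⟩, by simp⟩
  · revert m; decide +kernel

variable (g : Gr T φ 1) (hc : ∀ r, T.c r = 1) (hq : ∀ t, φ t = t → t = 0 ∨ t = 1)
include g hc hq

theorem fx {r : Fin 24} (hr : r ∈ [14, 22, 23, 9, 1, 0]) {t : K} : ρ.x r t ∈ G1 ↔ t = 0 ∨ t = 1 := by
  have e : T.π r = r := cD4.vec_inj (funext fun i => by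
    obtain ⟨i, rfl⟩ := T.p.surjective i
    rw [g.vec_π, show T.p = pD4 from h.p_eq]
    revert r i; decide +kernel)
  have e' : ρ.x r t ∈ T.Fix ↔ φ t = t := by rw [Tw.fix₁ e (hc r), h.φ_eq]
  refine ⟨fun z => hq t (e'.1 (M.form.fix z)), fun z => ?_⟩
  have : ρ.x r t ∈ T.Fix := e'.2 (by rcases z with rfl | rfl <;> simp)
  by_cases q : cD4.Pos r
  exacts [M.form.Up_le ⟨ρ.x_mem_U q t, this⟩, M.form.Um_le ⟨ρ.x_mem_U q t, this⟩]

theorem cjn (hn : n ∈ G1) (hw : ρ.NW n w) {r s : Fin 24} (hr : r ∈ [14, 22, 23, 9, 1, 0])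
    (hs : s ∈ [14, 22, 23, 9, 1, 0]) (e : w r = s) : n * ρ.x r 1 * n⁻¹ = ρ.x s 1 := by
  obtain ⟨c, d⟩ := hw.acts.exists_conj_x r
  have := mul_mem (mul_mem hn ((fx M h g hc hq hr).2 (.inr rfl))) (inv_mem hn)
  rw [d, e] at this ⊢
  rw [((fx M h g hc hq hs).1 this).resolve_left (by simp)]

theorem two : (2 : K) = 0 := (hq 2 (map_ofNat φ 2)).resolve_right fun e =>
  one_ne_zero (by linear_combination e : (1 : K) = 0)

theorem xx (r : Fin 24) : ρ.x r 1 * ρ.x r 1 = 1 := by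
  rw [← ρ.x_add, one_add_one_eq_two, two M h g hc hq, ρ.x_zero]

theorem neg1 : (-1 : K) = 1 := by linear_combination (-1 : K) * two M h g hc hq

theorem n_mem {r : Fin 24} (hr : r ∈ [14, 22, 23, 9, 1, 0]) (hs : cD4.neg r ∈ [14, 22, 23, 9, 1, 0]) :
    ρ.n r 1 = ρ.x r 1 * ρ.x (cD4.neg r) 1 * ρ.x r 1 ∧ ρ.n r 1 ∈ G1 := by
  have e : ρ.n r 1 = ρ.x r 1 * ρ.x (cD4.neg r) 1 * ρ.x r 1 := by simp [PreSt.n, neg1 M h g hc hq]
  have := (fx M h g hc hq hr).2 (.inr rfl)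
  exact ⟨e, e ▸ mul_mem (mul_mem this ((fx M h g hc hq hs).2 (.inr rfl))) this⟩

/-- A class that does not meet the big double coset consists of long root elements. -/
theorem long (Z : Subgroup.center G = ⊥) (ha : a ∈ G1) (ho : ¬ MO T G1 a) (e : WA ρ G1 a (T.S.s 1)) :
    Cj G1 a (ρ.x 0 1) := by
  have hρ := T.faith
  have hp := h.p_eq
  obtain ⟨u, hu, n, hn, hw, c⟩ := (wa5 M h ha e).form M ha
  obtain ⟨d, rfl⟩ : ∃ d, ρ.x 23 d = u := ρ.mem_X.1 (by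
    simpa [← ρ.U_singleton] using fold23 M h ha ho hu.1 hn hw c)
  have c1 := c.conj (mul_mem ((fx M h g hc hq (r := 14) (by decide)).2 (.inr rfl))
    ((fx M h g hc hq (r := 1) (by decide)).2 (.inr rfl)))
  rw [show ∀ A B u n : G, A * B * (u * n) * (A * B)⁻¹ = A * MulAut.conj B u * (B * (n * B * n⁻¹)⁻¹ * (n * A * n⁻¹)⁻¹) * n
      from fun A B u n => by simp [mul_assoc], cjn M h g hc hq hn hw (s := 14) (by decide) (by decide) (wd_ev (hs h) _ _),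
    cjn M h g hc hq hn hw (s := 1) (by decide) (by decide) (wd_ev (hs h) _ _), k1 23 1 (by decide +kernel),
    (cm 1 14 (by decide +kernel) 1 1).inv_right.eq, mul_inv_cancel_right,
    ((cm 14 23 (by decide +kernel) 1 d).mul_right (ρ.x_comm_self _ _ _)).eq, mul_inv_cancel_right] at c1
  have c2 := fold23 M h ha ho (mul_mem hu.1 (ρ.x_mem_U (by decide +kernel : cD4.Pos 14) _)) hn hw c1
  rw [mul_mem_cancel_left (ρ.x_mem_U (by decide) _)] at c2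
  obtain rfl : d = 0 := by_contra fun z => absurd ((hρ.x_mem_U_iff (ST3.b5 (ρ := ρ)).closed (ST3.b5 (ρ := ρ)).isNil (by
    rcases Int.natAbs_eq_iff.1 (cD4.N_abs_one 23 1 14 (by decide +kernel) (by decide +kernel)) with h | h <;>
      simp [LieBasis.N, h, z])).1 c2) (by decide)
  rw [ρ.x_zero, one_mul] at c
  obtain ⟨v, hv, v1⟩ := ST3.ex hp M 0
  have v2 : v * (n * v * n⁻¹)⁻¹ ∈ ρ.U {r | r ∈ rlD4 0} := mul_mem hv.1 (inv_mem
    (hw.acts.conj_mem_U (fun r hr => by rw [wd_ev (hs h)]; revert r; decide) hv.1))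
  have pos : ∀ r ∈ {r | r ∈ rlD4 0}, cD4.Pos r := fun r hr => (((dataD4 hp).mem_rl 0 r).1 hr).1
  have v3 := ρ.U_mono (T := ∅) (by rintro r ⟨h, h'⟩; revert r; decide) (mem_U_inter hρ (Tw.closed_rl (dataD4 hp) 0)
    (Tw.isNil_rl (dataD4 hp) 0) (ST3.b5 (ρ := ρ)).closed (ST3.b5 (ρ := ρ)).isNil v2
    (fold23 M h ha ho (ρ.U_mono pos v2) hn hw (by simpa [mul_assoc] using c.conj hv.2)))
  rw [PreSt.U_empty, Subgroup.mem_bot, mul_inv_eq_one, eq_mul_inv_iff_mul_eq] at v3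
  obtain ⟨m1, m2⟩ := n_mem M h g hc hq (r := 23) (by decide) (by decide +kernel)
  rw [show cD4.neg 23 = 0 by decide +kernel] at m1
  have y1 : n * (ρ.n 23 1)⁻¹ ∈ ρ.H ⊓ G1 := im (hw.mul_inv_mem_H (by
    rw [show wd T [1, 0, 1, 0, 1] = cD4.refl 23 from Equiv.ext fun r => cD4.vec_inj (by
      rw [wd_ev (hs h), RootSys.vec_refl]; revert r; decide +kernel)]
    exact nW_n 23 1)) (mul_mem hn (inv_mem m2))
  have v4 : Commute v (ρ.n 23 1) := Subgroup.mem_centralizer_singleton_iff.1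
    (ρ.U_le_iff (H := Subgroup.centralizer {ρ.n 23 1}).2 (fun r hr t => Subgroup.mem_centralizer_singleton_iff.2 (by
      have k1 := cm (ρ := ρ) r 23 (by revert r; decide +kernel) t 1
      rw [m1]
      exact (k1.mul_right (cm r 0 (by clear k1; revert r; decide +kernel) t 1)).mul_right k1)) hv.1)
  have y2 := (cen_π M y1 (r := 18)).symm
  have y3 := (cen_π M y1 (r := 13)).symm
  rw [(ST3.pi hp).1] at y2
  rw [(ST3.pi hp).2.1] at y3
  have y4 : Commute (n * (ρ.n 23 1)⁻¹) (ρ.x 18 1) := by_contra fun z => v1 (by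
    simpa using ST3.tor (S' := ∅) hρ (Tw.closed_rl (dataD4 hp) 0) pos y1.1 hv.1
      (Commute.mul_right v3 v4.inv_right) fun r hr q => by
        rcases (by decide : ∀ r ∈ rlD4 0, r = 18 ∨ r = 13 ∨ r = 12) r hr with rfl | rfl | rfl
        exacts [z q, z (y2.2 q), z (y2.2 (y3.2 q))])
  have y5 := eq_one_of_cen M Z y1.1 fun i => by
    rcases (by decide +kernel : ∀ i, cD4.simple i = 18 ∨ cD4.simple i = 13 ∨ cD4.simple i = 12 ∨ cD4.simple i = 14) i with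
      e | e | e | e <;> rw [e]
    exacts [y4, y2.1 y4, y3.1 (y2.1 y4), mul_inv_eq_iff_eq_mul.1
      (cjn M h g hc hq y1.2 (nW_of_mem_H y1.1) (by decide) (by decide) rfl)]
  have c3 := c.conj ((fx M h g hc hq (r := 23) (by decide)).2 (.inr rfl))
  rwa [mul_inv_eq_one.1 y5, m1, mul_assoc, mul_inv_cancel_right, ← mul_assoc, xx M h g hc hq, one_mul] at c3

theorem root (hU : PU p G1 a b) (hb : b ∈ G1) (c : Cj G1 a (ρ.x 0 1)) : ¬ WA ρ G1 b (T.S.s 1) := by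
  rintro ⟨z, z1, z2⟩
  have hp := h.p_eq
  obtain ⟨n, hn, hw⟩ := M.form.exists_n (wd_mem (T := T) [1, 0, 1, 0, 1])
  obtain ⟨m, hm, hw'⟩ := M.form.exists_n (wd_mem (T := T) [0, 1])
  have c1 := c.conj hn
  have c2 := c.conj hm
  rw [cjn M h g hc hq hn hw (s := 23) (by decide) (by decide) (wd_ev (hs h) _ _)] at c1
  rw [cjn M h g hc hq hm hw' (s := 9) (by decide) (by decide) (wd_ev (hs h) _ _)] at c2
  have u1 : ρ.x 23 1 ∈ ρ.UJ (T.S.orb 1) :=
    ρ.x_mem_U (And.intro top.pos fun z => absurd (((dataD4 hp).mem_rl 1 23).2 ⟨top.pos, z⟩) (by decide)) 1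
  have z3 : z ∈ ρ.PJ (T.S.orb 1) := (UM.mem_P M.form (z1.mem hb)).2 (.inr z2)
  obtain ⟨k, hk, k1⟩ := UM.exists_conj_Up M (L := ρ.PJ (T.S.orb 1) ⊓ G1)
    (inf_le_inf_right _ (ρ.Up_le_Bo.trans (ρ.Bo_le_PJ _))) inf_le_right
    (im (mul_mem (ρ.UJ_le_PJ _ u1) z3) (mul_mem ((fx M h g hc hq (by decide)).2 (.inr rfl)) (z1.mem hb))) (hU _ _ c1 z1)
  have k2 := il k1
  rw [← conj_mul, mul_mem_cancel_left (ρ.UJ_le_Up _ (PJ_conj_mem_UJ hk.1 u1))] at k2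
  have z4 := z1.conj hk.2
  obtain ⟨q, q1, l, l1, e⟩ := SM.levi M.form (T.S.stab_orb 1) ⟨ρ.Bo_le_PJ _ (ρ.Up_le_Bo k2), z4.mem hb⟩
  rw [e, mul_mem_cancel_left (ρ.UJ_le_Up _ q1.1)] at k2
  obtain ⟨t, rfl⟩ := (memD4₁ h (g := l)).1 (by
    rw [← (dataD4 hp).set_eq 1]; exact im (mem_UL T.faith k2 l1.1) (M.form.fix l1.2))
  rcases hq t t.2 with t0 | t1
  · rw [t0, ρ.x_zero, mul_one] at e
    exact UM.not_mem_Bo z2 (ρ.Up_le_Bo (ρ.UJ_le_Up _ (by
      simpa [mul_assoc] using PJ_conj_mem_UJ (inv_mem hk.1) (e ▸ q1.1 : k * z * k⁻¹ ∈ _))))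
  have p1 := (hU _ _ c2 z4).swap
  rw [e, t1, mul_assoc] at p1
  have i1 := (((dataD4 hp).mem_rl 1 14).1 (by decide)).2
  obtain ⟨j, p2⟩ := UM.pe_levi T.faith q1.1 (mul_mem (x_mem_LJ i1 1) (x_mem_LJ (by
    rw [show (9 : Fin 24) = cD4.neg 14 by decide +kernel]; exact cD4.inSub_neg.2 i1) 1)) p1
  obtain ⟨m1, m2⟩ := n_mem M h g hc hq (r := 14) (by decide) (by decide +kernel)
  have p3 := cjn M h g hc hq m2 (nW_n 14 1) (r := 14) (s := 9) (by decide) (by decide)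
    (by rw [RootSys.refl_self]; decide +kernel)
  rw [m1, show cD4.neg 14 = 9 by decide +kernel] at p3
  have p4 : (ρ.x 14 1 * ρ.x 9 1) ^ 3 = 1 := by
    rw [← xx M h g hc hq 9]
    nth_rw 2 [← p3]
    simp only [mul_inv_rev, inv_eq_of_mul_eq_one_right (xx M h g hc hq _), pow_succ, pow_zero, one_mul, mul_assoc]
    rw [← mul_assoc (ρ.x 14 1) (ρ.x 14 1), xx M h g hc hq, one_mul]
  have := M.char
  obtain rfl : p = 2 := (Nat.prime_dvd_prime_iff_eq Fact.out Nat.prime_two).1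
    ((CharP.cast_eq_zero_iff K p 2).1 (two M h g hc hq))
  have p5 := pow_gcd_eq_one.2 ⟨p2, p4⟩
  rw [Nat.Coprime.pow_left j (by decide), pow_one, ← xx M h g hc hq 9, mul_left_inj] at p5
  exact absurd (Tw.eq_of_x_eq T.faith one_ne_zero p5) (by decide)

omit M in
theorem not_om (S : St p T G1 ω a b) (hU : PU p G1 a b) : ¬ Om ρ G1 a b (T.S.s 1) := fun e => by
  have e2 := UM.s_inv (T := T) 1 ▸ e.2
  by_cases o : MO T G1 a
  · exact root S.lt h g hc hq hU.symm S.ma (long S.lt h g hc hq S.center S.mb (not_both h g S hU o) e2) e.1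
  · exact root S.lt h g hc hq hU S.mb (long S.lt h g hc hq S.center S.ma o e.1) e2

end UD

theorem u_3D4 {p : ℕ} [Fact p.Prime] (K : Type) [Field K] [Fintype K] [CharP K p] {q : ℕ} (hq : IsPrimePow q)
    (hK : Fintype.card K = q ^ 3) : NoU p (twistedD4 K q) := by
  obtain ⟨φ, h1, h2⟩ := exists_frobD4 hq hK
  have M := ltD4 (p := p) h1 h2
  have h := isGr_twD4 φ
  have c : Nat.card {t : K // φ t = t} = q := by simp only [h1]; exact card_fix hq.one_lt hK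
  have h3 : ∃ t, φ t ≠ t := by_contra fun e => by
    rw [Nat.card_congr (Equiv.subtypeUnivEquiv fun t => not_not.1 fun z => e ⟨t, z⟩), Nat.card_eq_fintype_card, hK] at c
    exact (lt_self_pow₀ hq.one_lt (by decide)).ne' c
  have g := UD.gr h h2 h3
  refine noU_of (packD4 h1 h2).e fun a ha b hb a1 b1 e => ?_
  have S : St p (twD4 φ) _ 1 a b := ⟨M, linkD4.center_group K, ha, hb, a1, b1⟩
  refine not_pu S UD.top (fun hU D d1 d2 d3 _ => ?_) (fun x hx hp i => UD.opp_all M h h2 h3 hx hp i) e.pu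
  rcases ST3.cases h.p_eq d1 with rfl | rfl | rfl | rfl
  · exact d2.ne_empty rfl
  · exact UD.ko' h g S hU d3 (UD.hs h 0 18)
  · rcases r2 S hU g (i := 1) rfl ⟨0, .inl (by decide +kernel)⟩ d3 (by
      rw [← Sym.s, UD.hs h]; decide +kernel) with z | ⟨z, z'⟩
    · obtain rfl : q = 2 := c ▸ z
      have k : ∀ t, φ t = t → t = 0 ∨ t = 1 := fun t ht => by
        rw [h1, sq] at ht
        exact or_iff_not_imp_left.2 fun t0 => mul_left_cancel₀ t0 (ht.trans (mul_one t).symm)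
      have : CharP K 2 := CharTwo.of_one_ne_zero_of_two_eq_zero one_ne_zero ((k 2 (map_ofNat φ 2)).resolve_right fun e =>
        one_ne_zero (by linear_combination e : (1 : K) = 0))
      exact UD.not_om h g (c_ofEmb _) k S hU d3
    · obtain rfl : q = 3 := c ▸ z
      refine absurd (h_neg_one (twD4 φ).faith (fun e => ?_) z' 0) (by decide +kernel)
      have := FiniteField.cast_card_eq_zero K
      rw [hK] at this
      exact one_ne_zero (by linear_combination (exp := 1) this - 13 * e : (1 : K) = 0)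
  · refine UD.ko' h g S hU d3 ?_
    rw [← eq_lg (w := wd (twD4 φ) [0, 1, 0, 1, 0, 1]) (cD4.WJ_univ ▸ (wd_mem _).1) fun i _ => by
      rw [wd_ev (UD.hs h)]; revert i; decide +kernel]
    exact wd_ev (UD.hs h) _ _

end CF.Ah
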