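import Cfsg.Agent.Ah.UM

/-! Folding: the unipotent part of an element whose class avoids certain cells. -/

set_option autoImplicit false

namespace CF.Ah

open CF.BN CF.Chev CF.Loc Cfsg UM

variable {B ι : Type} [Fintype B] [DecidableEq B] [Fintype ι] [DecidableEq ι]
  {C : ChevBasis B ι} {K : Type*} [Field K] {G : Type*} [Group G] {ρ : StRep C K G}
  {T : Tw ρ} {G1 : Subgroup G} {ω : ι → ℝ} {p : ℕ} [Fact p.Prime] {J : Set B} {a u n : G}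
  {w : Equiv.Perm ι} {i : B}

/-- the folding condition along a word -/
def FoldOK (T : Tw ρ) (G1 : Subgroup G) (a : G) : Equiv.Perm ι → List B → Prop
  | _, [] => True
  | w, k :: l => C.Pos ((T.S.s k * w * T.S.s k)⁻¹ (C.simple k)) ∧ ¬ WA ρ G1 a (w * T.S.s k) ∧
      FoldOK T G1 a (T.S.s k * w * T.S.s k) l

theorem FoldOK.cj {x : G} (h : Cj G1 a x) {l : List B} : FoldOK T G1 a w l → FoldOK T G1 x w l := by
  induction l generalizing w with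
  | nil => exact id
  | cons k l ih => exact fun h' => ⟨h'.1, mt (WA.cj h).1 h'.2.1, ih h'.2.2⟩

theorem UF.fold1 (M : LT p T G1 ω) {l : List B} (hu : u ∈ ρ.Up ⊓ G1) (hn : n ∈ G1) (hw : ρ.NW n w)
    (h : FoldOK T G1 (u * n) w l) : ∃ m, ρ.NW m (l.reverse.map T.S.s).prod ∧ m * u * m⁻¹ ∈ ρ.Up := by
  induction l generalizing u n w with
  | nil => exact ⟨1, StRep.nW_one, by simpa using hu.1⟩
  | cons k l ih =>
    obtain ⟨h1, h2, h3⟩ := h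
    obtain ⟨m, hm, hs⟩ := M.form.exists_n_s k
    have h4 := (hs.mul hw).mul (nw_inv hs)
    have h5 := mul_mem (mul_mem hm hn) (inv_mem hm)
    have h6 := Cj.of hm (u * n)
    rw [show m * (u * n) * m⁻¹ = m * u * m⁻¹ * (m * n * m⁻¹) by group] at h6
    have h7 : u ∈ ρ.UJ (T.S.orb k) := by_contra fun h7 => h2 ⟨_, h6, by
      have := cell_s_mul (Tw.mem_Wf_of_cell (M.form.fix h5) h4.mem_cell) h1
        (conj_cell_s M.form hm hs hu h7) h4.mem_cell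
      rwa [← mul_assoc (T.S.s k), ← mul_assoc (T.S.s k), s_mul_s, one_mul] at this⟩
    obtain ⟨m', h8, h9⟩ := ih (im (ρ.UJ_le_Up _ (StRep.PJ_conj_mem_UJ (hs.mem_PJ (lg_mem _)) h7))
      (mul_mem (mul_mem hm (ir hu)) (inv_mem hm))) h5 h4 (h3.cj h6)
    exact ⟨m' * m, by simpa using h8.mul hs, by simpa [mul_assoc] using h9⟩

theorem fold (M : LT p T G1 ω) (hu : u ∈ ρ.Up ⊓ G1) (hn : n ∈ G1) (hw : ρ.NW n w) {L : List (List B)}
    (h : ∀ l ∈ L, FoldOK T G1 (u * n) w l) :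
    u ∈ ρ.U {r | C.Pos r ∧ ∀ l ∈ L, C.Pos ((l.reverse.map T.S.s).prod r)} := by
  have hA : ∀ l : List B, (l.reverse.map T.S.s).prod ∈ C.Aut := fun l =>
    list_prod_mem (by simp +contextual [eq_comm, lg_mem_Aut])
  induction L with
  | nil => simpa using hu.1
  | cons l L ih =>
    obtain ⟨m, h1, h2⟩ := UF.fold1 M hu hn hw (h l (by simp))
    have h3 : C.Closed {r | C.Pos r ∧ ∀ l ∈ L, C.Pos ((l.reverse.map T.S.s).prod r)} :=
      fun r hr s hs v i j hi hj e => ⟨hr.1.of_add hs.1 e, fun l hl => (RootSys.closed_pos_pos (hA l)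
        r ⟨hr.1, hr.2 l hl⟩ s ⟨hs.1, hs.2 l hl⟩ v i j hi hj e).2⟩
    exact ρ.U_mono (fun r hr => And.intro hr.1.1 (List.forall_mem_cons.2 ⟨hr.1.2, hr.2.2⟩))
      (StRep.mem_U_inter T.faith (RootSys.closed_pos_pos (hA l)) (RootSys.isNil_of_pos fun _ h => h.1)
        h3 (RootSys.isNil_of_pos fun _ h => h.1) (mem_Uw' T.faith h1 hu.1 (ρ.Up_le_Bo h2))
        (ih fun l hl => h l (by simp [hl])))

/-- after folding down to a simple node -/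
theorem blk_of (M : LT p T G1 ω) (hJ : T.S.Stab J) (hi : i ∈ J) (hu : u ∈ G1)
    (hu' : u ∈ ρ.U {r | C.Pos r ∧ (C.InSub (T.S.orb i) r ∨ ¬ C.InSub J r)}) (hn : n ∈ G1)
    (hw : ρ.NW n (T.S.s i)) (hp : PE p (u * n)) :
    ∃ y ∈ blk T i, y ≠ 1 ∧ ∃ q ∈ ρ.UJ J ⊓ G1, Cj G1 (u * n) (y * q) := by
  have hI := hJ.orb_subset hi
  obtain ⟨⟨u, hP⟩, h1, rfl⟩ : u ∈ ((ρ.UL (T.S.orb i)).comap (pr T.faith J)).map (ρ.PJ J).subtype := by
    refine SetLike.le_def.1 (ρ.U_le_iff.2 fun r hr t => ?_) hu'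
    refine ⟨⟨_, StRep.x_mem_PJ (.inl hr.1) t⟩, Subgroup.mem_comap.2 ?_, rfl⟩
    rcases hr.2 with h | h
    · rw [pr_eq T.faith (one_mem _) (StRep.LJ_mono hI (StRep.x_mem_LJ h t)) (one_mul _).symm]
      exact ρ.x_mem_U (And.intro hr.1 h) t
    · rw [pr_eq T.faith (ρ.x_mem_U (And.intro hr.1 h) t) (one_mem _) (mul_one _).symm]
      exact one_mem _
  obtain ⟨-, h2⟩ := pr_spec T.faith (J := J) ⟨u, hP⟩
  have h3 := ir (pr_mem M.form hJ (g := ⟨u, hP⟩) hu)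
  simp only [Subgroup.mem_comap, SetLike.mem_coe, Subgroup.coe_subtype] at *
  generalize pr T.faith J ⟨u, hP⟩ = l at *
  have h4 := mul_mem (ρ.UL_le_LJ _ h1) (hw.mem_LJ (lg_mem _))
  have h5 := pe_levi T.faith h2 (StRep.LJ_mono hI h4) (by simpa [mul_assoc] using hp)
  obtain ⟨k, hk, h6⟩ := exists_conj_Up M (L := ρ.PJ (T.S.orb i) ⊓ G1)
    (inf_le_inf_right _ (ρ.Up_le_Bo.trans (ρ.Bo_le_PJ _))) inf_le_right
    ⟨ρ.LJ_le_PJ _ h4, mul_mem h3 hn⟩ h5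
  have h7 := pr_Up T.faith (g := ⟨k, hk.1⟩ * ⟨_, ρ.LJ_le_PJ _ h4⟩ * ⟨k, hk.1⟩⁻¹) h6.1
  have h8 := pr_mem M.form (T.S.stab_orb i) (g := ⟨k, hk.1⟩) hk.2
  rw [map_mul, map_mul, map_inv, pr_of_LJ (g := ⟨_, _⟩) _ h4] at h7
  generalize pr T.faith _ ⟨k, hk.1⟩ = m at *
  have h9 := mul_mem (mul_mem (ir h8) (mul_mem h3 hn)) (inv_mem (ir h8))
  have h10 := ρ.LJ_le_PJ _ (StRep.LJ_mono hI (mul_mem (inv_mem h4) (one_mem _)))
  refine ⟨_, ⟨h7, M.form.fix h9⟩, fun e => not_mem_Bo (StRep.cell_mul_left (ρ.Up_le_Bo (ρ.UL_le_Up _ h1))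
    hw.mem_cell) (by simp [show l * n = 1 by simpa using e]), _, im (StRep.PJ_conj_mem_UJ (mul_mem
      (ρ.LJ_le_PJ _ (StRep.LJ_mono hI h8.1)) h10) h2) ?_, m, h8.2, by group⟩
  have h11 := mul_mem (ir h8) (mul_mem (inv_mem (mul_mem h3 hn)) (one_mem G1))
  exact mul_mem (mul_mem h11 (mul_mem hu (inv_mem h3))) (inv_mem h11)

end CF.Ah
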