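import Cfsg.Agent.Ah.UW
import Cfsg.Agent.Ah.UL
import Cfsg.Agent.BN.TwComb
import Cfsg.Agent.Chev.LTX

/-! Products of conjugacy classes: unipotent products in `G₂(q)`. -/

set_option autoImplicit false

namespace CF.Ah

open CF.BN CF.Chev CF.Loc Cfsg Cfsg.Lie UW

namespace UG

/-- The simple reflections of `G₂`. -/
def sg : Fin 2 → Fin 12 → Fin 12 :=
  ![![0, 5, 3, 2, 7, 1, 10, 4, 9, 8, 6, 11], ![1, 0, 2, 4, 3, 6, 5, 8, 7, 9, 11, 10]]

theorem sref_eq (i : Fin 2) (r : Fin 12) : cG2.sref i r = sg i r := cG2.vec_inj (by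
  rw [RootSys.vec_sref]; revert i r; decide +kernel)

theorem lg1 {B ι : Type} [Fintype B] [DecidableEq B] [Fintype ι] [DecidableEq ι] {R : RootSys B ι}
    (i : B) : lg R {i} = R.sref i := (eq_lg (R.sref_mem_WJ (J := {i}) rfl) fun j hj => by
  rw [show j = i from hj, R.sref_simple_self]; exact R.not_pos_neg_simple i).symm

theorem top : cG2.Top 11 := by unfold RootSys.Top; simp only [Pi.le_def]; decide +kernel

variable {K : Type*} [Field K] {G : Type*} [Group G] {ρ : StRep cG2 K G} {p : ℕ} [Fact p.Prime]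
  {hρ : ρ.Faithful} {hG : ρ.Gp = ⊤} {a b : G}

theorem hs (i : Fin 2) (r : Fin 12) : (trivTw hρ hG).S.s i r = sg i r := by
  rw [Sym.s, trivTw_orb, lg1, sref_eq]

theorem gr : Gr (trivTw hρ hG) 1 1 :=
  ⟨fun _ => rfl, fun _ => rfl, one_mul _, fun _ _ => rfl, fun k _ => ⟨one_pow k, one_pow k⟩,
    fun _ h => (h rfl).elim, fun _ => ⟨rfl, rfl⟩⟩

theorem central (h3 : (3 : K) = 0) : ∀ u ∈ ρ.Up, ∀ t, Commute u (ρ.x 9 t) := fun u hu t => by
  refine Subgroup.mem_centralizer_singleton_iff.1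
    (ρ.U_le_iff (H := Subgroup.centralizer {ρ.x 9 t}).2 (fun r hr s => ?_) hu)
  refine Subgroup.mem_centralizer_singleton_iff.2 ?_
  have k : ∀ r, cG2.Pos r → (r ≠ cG2.neg 9 ∧ ∀ v, cG2.vec v ≠ cG2.vec r + cG2.vec 9) ∨
      ∃ v, cG2.vec v = cG2.vec r + cG2.vec 9 ∧ (∀ z, cG2.vec z ≠ cG2.vec v + cG2.vec 9) ∧
        (∀ z, cG2.vec z ≠ cG2.vec v + cG2.vec r) ∧ (cG2.N 9 r = 3 ∨ cG2.N 9 r = -3) := by
    decide +kernel
  rcases k r hr with ⟨h1, h2⟩ | ⟨v, h1, h2, h4, h5⟩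
  · exact (ρ.commute_of_none h1 h2 t s).symm
  · rw [ρ.comm_single h1 h2 h4]
    rcases h5 with e | e <;> simp [e, h3]

variable (M : LT p (trivTw hρ hG) ⊤ 1)
include M

theorem opp11 (h : WA ρ ⊤ a (wd (trivTw hρ hG) [1, 0, 1, 0, 1])) : Opp p ρ ⊤ 11 a :=
  opp hs M trivial h top.pos (cG2.inSub_univ _) (fun u hu t =>
    (StRep.commute_top top (ρ.U_mono (fun _ h => h.1) hu) t).symm) (by decide +kernel) [] rfl

theorem opp11' (h : WA ρ ⊤ a ((trivTw hρ hG).S.s 1)) : Opp p ρ ⊤ 11 a :=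
  opp11 M (ch hs M trivial [(0, [0, 1, 0]), (1, [1, 0, 1, 0, 1])] (wd_one (T := trivTw hρ hG) 1 ▸ h)
    (by decide +kernel))

theorem opp9 (h3 : (3 : K) = 0) (h : WA ρ ⊤ a (wd (trivTw hρ hG) [0, 1, 0, 1, 0])) : Opp p ρ ⊤ 9 a :=
  opp hs M trivial h (by decide +kernel) (cG2.inSub_univ _) (fun u hu t =>
    central h3 u (ρ.U_mono (fun _ h => h.1) hu) t) (by decide +kernel) [] rfl

theorem opp9' (h3 : (3 : K) = 0) (h : WA ρ ⊤ a ((trivTw hρ hG).S.s 0)) : Opp p ρ ⊤ 9 a :=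
  opp9 M h3 (ch hs M trivial [(1, [1, 0, 1]), (0, [0, 1, 0, 1, 0])] (wd_one (T := trivTw hρ hG) 0 ▸ h)
    (by decide +kernel))

/-- Short root elements. -/
theorem short (hp : PE p a) (h : WA ρ ⊤ a ((trivTw hρ hG).S.s 0)) (ho : ¬ Opp p ρ ⊤ 11 a) :
    ∃ y ∈ blk (trivTw hρ hG) 0, y ≠ 1 ∧ Cj ⊤ a y := by
  refine blk1 hs M trivial hp (bad := [[0, 1, 0, 1], [1, 0], [0, 1, 0, 1, 0, 1]]) ?_
    (ch hs M trivial [(1, [1, 0, 1]), (0, [0, 1, 0, 1, 0])] (wd_one (T := trivTw hρ hG) 0 ▸ h)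
      (l' := [0, 1, 0, 1, 0]) (by decide +kernel)) [[0, 1], [1, 0, 1], [0], [1], [1, 0]]
    (by decide +kernel) [1, 0] (by decide +kernel) ?_
  · simp only [List.forall_mem_cons]
    refine ⟨fun e => ho (opp11 M (ch hs M trivial [(1, [1, 0, 1, 0, 1])] e (by decide +kernel))),
      fun e => ho (opp11 M (ch hs M trivial [(0, [0, 1, 0]), (1, [1, 0, 1, 0, 1])] e (by decide +kernel))),
      fun e => ho ?_, by simp⟩
    exact opp hs M trivial e top.pos (cG2.inSub_univ _) (fun u hu t =>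
      (StRep.commute_top top (ρ.U_mono (fun _ h => h.1) hu) t).symm) (by decide +kernel) [] rfl
  · rw [trivTw_orb]; unfold RootSys.InSub; decide +kernel

/-- Long root elements. -/
theorem long (h3 : (3 : K) = 0) (hp : PE p a) (h : WA ρ ⊤ a ((trivTw hρ hG).S.s 1))
    (ho : ¬ Opp p ρ ⊤ 9 a) : ∃ y ∈ blk (trivTw hρ hG) 1, y ≠ 1 ∧ Cj ⊤ a y := by
  refine blk1 hs M trivial hp (bad := [[1, 0, 1, 0], [0, 1], [0, 1, 0, 1, 0, 1]]) ?_
    (ch hs M trivial [(0, [0, 1, 0]), (1, [1, 0, 1, 0, 1])] (wd_one (T := trivTw hρ hG) 1 ▸ h)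
      (l' := [1, 0, 1, 0, 1]) (by decide +kernel)) [[1, 0], [0, 1, 0], [1], [0], [0, 1]]
    (by decide +kernel) [0, 1] (by decide +kernel) ?_
  · simp only [List.forall_mem_cons]
    refine ⟨fun e => ho (opp9 M h3 (ch hs M trivial [(0, [0, 1, 0, 1, 0])] e (by decide +kernel))),
      fun e => ho (opp9 M h3 (ch hs M trivial [(1, [1, 0, 1]), (0, [0, 1, 0, 1, 0])] e (by decide +kernel))),
      fun e => ho ?_, by simp⟩
    exact opp hs M trivial e (by decide +kernel) (cG2.inSub_univ _) (fun u hu t =>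
      central h3 u (ρ.U_mono (fun _ h => h.1) hu) t) (by decide +kernel) [] rfl
  · rw [trivTw_orb]; unfold RootSys.InSub; decide +kernel

theorem opp_all (h3 : (3 : K) ≠ 0) (hp : PE p a) (i : Fin 2) (h : WA ρ ⊤ a ((trivTw hρ hG).S.s i)) :
    Opp p ρ ⊤ 11 a := by
  by_contra ho
  fin_cases i
  swap
  · exact ho (opp11' M h)
  obtain ⟨y, hy, h1, e⟩ := short M hp h ho
  obtain ⟨t, rfl⟩ : y ∈ ρ.X 7 := ρ.U_singleton 7 ▸ ρ.U_mono (by
    rw [trivTw_orb]; unfold RootSys.InSub; intro r; revert r; decide +kernel) hy.1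
  obtain ⟨c, hc⟩ := (ρ.acts_ns 1).exists_conj_x 7
  have e1 := e.conj (g := ρ.ns 1) trivial
  have e2 := ρ.comm_single (r := 8) (s := 4) (v := 6) (by decide +kernel) (by decide +kernel)
    (by decide +kernel) (c * t.toAdd) 1
  rw [show ρ.xHom 7 t = ρ.x 7 t.toAdd from rfl, hc, sref_eq, show sg 1 7 = 8 from rfl] at e1
  have e3 := e1.conj (g := (ρ.x 4 1)⁻¹) trivial
  rw [inv_inv, show (ρ.x 4 1)⁻¹ * ρ.x 8 (c * t.toAdd) * ρ.x 4 1 = ρ.x 8 (c * t.toAdd) *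
    (ρ.x 6 (cG2.N 8 4 * -(c * t.toAdd) * 1))⁻¹ by
      rw [eq_mul_inv_iff_mul_eq, mul_assoc, mul_assoc, ← mul_assoc (ρ.x 8 _), ← e2]; simp] at e3
  refine ho (opp11' M ((WA.cj e3).1 (wa_s M (im (mul_mem (ρ.x_mem_U (by decide +kernel) _)
    (inv_mem (ρ.x_mem_U (by decide +kernel) _))) trivial) fun d => ?_)))
  rw [mul_mem_cancel_left (ρ.x_mem_U (by
    rw [trivTw_orb]; unfold RootSys.InSub; decide +kernel) _), inv_mem_iff] at d
  have d1 := StRep.eq_zero_of_lo hρ (ρ.U_mono (T := cG2.nbl 6) (by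
    rw [trivTw_orb]; unfold RootSys.InSub RootSys.nbl; simp only [Pi.le_def]; intro r; revert r
    decide +kernel) d)
  have d2 : cG2.N 8 4 = 3 ∨ cG2.N 8 4 = -3 := by decide +kernel
  have d3 : t.toAdd ≠ 0 := fun z => h1 (by
    rw [show ρ.xHom 7 t = ρ.x 7 t.toAdd from rfl, z, ρ.x_zero])
  rcases d2 with z | z <;> simp [z, h3, d3] at d1

omit M in
theorem noD [Fintype K] (hq : 3 ≤ Fintype.card K) (S : St p (trivTw hρ hG) ⊤ 1 a b) (hU : PU p ⊤ a b)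
    (D : Set (Fin 2)) (h1 : D.Nonempty) (h2 : Om ρ ⊤ a b (lg cG2.toRootSys D))
    (h3 : ∀ i ∈ D, Neg (trivTw hρ hG) (lg cG2.toRootSys D) i) : False := by
  obtain ⟨i, hi⟩ := h1
  have k1 : ∀ i r, (∀ j, j ≠ i → cG2.vec r j = 0) → ¬ cG2.Pos r → r = cG2.neg (cG2.simple i) := by
    decide +kernel
  have k2 : ∀ i, ∃ j, (cG2.car i j = -1 ∨ cG2.car j i = -1) ∧ ¬ Even (cG2.car i j) := by decide +kernel
  obtain ⟨j, k3, k4⟩ := k2 i
  have h4 := h3 i hi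
  rw [Neg, trivTw_orb] at h4
  have h5 := r2 S hU gr rfl ⟨j, k3.imp_right fun e => ⟨e, rfl⟩⟩ h2 (k1 _ _ h4.1 h4.2)
  rw [Nat.card_congr (Equiv.subtypeUnivEquiv (p := fun t : K => (1 : K →+* K) t = t) fun _ => rfl),
    Nat.card_eq_fintype_card] at h5
  rcases h5 with e | ⟨e, h6⟩
  · omega
  refine k4 (h_neg_one hρ (fun z => ?_) h6 j)
  have := FiniteField.cast_card_eq_zero K
  rw [e] at this
  exact one_ne_zero (by linear_combination (exp := 1) this - z : (1 : K) = 0)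

omit M in
theorem three [Fintype K] (hq : 3 ≤ Fintype.card K) (h3 : (3 : K) = 0) (S : St p (trivTw hρ hG) ⊤ 1 a b)
    (S' : St p (trivTw hρ hG) ⊤ 1 b a) (h : SC p ⊤ a b) : False := by
  have M := S.lt
  have h1 : ∀ w, Om ρ ⊤ a b w → w = 1 := fun w hw => by_contra fun e => by
    obtain ⟨D, -, d1, d2, d3⟩ := hw.min S h.pu e
    exact noD hq S h.pu D d1 d2 d3
  obtain ⟨pa, pb⟩ := pe_of_om S h.pu h1
  have h2 : ¬ (Opp p ρ ⊤ 11 a ∧ Opp p ρ ⊤ 11 b) := fun e => by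
    obtain ⟨w, d1, d2⟩ := om_opp S h.pu top.pos
      (fun u hu t => (StRep.commute_top top hu t).symm) e.1 e.2
    rw [h1 w d1] at d2
    exact absurd d2 (by decide +kernel)
  have h4 : ¬ (Opp p ρ ⊤ 9 a ∧ Opp p ρ ⊤ 9 b) := fun e => by
    obtain ⟨w, d1, d2⟩ := om_opp S h.pu (by decide +kernel) (central h3) e.1 e.2
    rw [h1 w d1] at d2
    exact absurd d2 (by decide +kernel)
  have key : ∀ {a b : G}, PE p a → PE p b → ¬ (Opp p ρ ⊤ 11 a ∧ Opp p ρ ⊤ 11 b) →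
      ¬ (Opp p ρ ⊤ 9 a ∧ Opp p ρ ⊤ 9 b) → WA ρ ⊤ a ((trivTw hρ hG).S.s 0) →
      WA ρ ⊤ b ((trivTw hρ hG).S.s 1) → ¬ SC p ⊤ a b := fun pa pb h2 h4 wa wb => by
    obtain ⟨x, hx, x1, cx⟩ := short M pa wa fun e => h2 ⟨e, opp11' M wb⟩
    obtain ⟨y, hy, y1, cy⟩ := long M h3 pb wb fun e => h4 ⟨opp9' M h3 wa, e⟩
    refine not_sc hs M trivial trivial hx x1 hy y1 ?_ ?_ ?_ cx cy
    · rw [trivTw_orb]; decide
    · simp only [trivTw_orb]; decide
    · rw [trivTw_orb]; unfold RootSys.InSub; decide +kernel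
  obtain ⟨i, wa⟩ := exists_wa_s M trivial pa S.na
  obtain ⟨j, wb⟩ := exists_wa_s M trivial pb S.nb
  fin_cases i <;> fin_cases j
  · exact h4 ⟨opp9' M h3 wa, opp9' M h3 wb⟩
  · exact key pa pb h2 h4 wa wb h
  · exact key pb pa (fun e => h2 e.symm) (fun e => h4 e.symm) wb wa (h.symm trivial)
  · exact h2 ⟨opp11' M wa, opp11' M wb⟩

end UG

theorem u_G2 {p : ℕ} [Fact p.Prime] (K : Type) [Field K] [Fintype K] [CharP K p]
    (h : 3 ≤ Fintype.card K) : NoU p (chevG2.group K) := fun a b ha hb e => by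
  have M : LT p (C := cG2) (trivTw (goodG2.link.faithful_gpRep K) (goodG2.link.gpRep_Gp K)) ⊤ 1 :=
    goodG2.lt K
  have Z := goodG2.link.center_group K
  have S : St p _ ⊤ 1 a b := ⟨M, Z, trivial, trivial, ha, hb⟩
  by_cases h3 : (3 : K) = 0
  · exact UG.three h h3 S ⟨M, Z, trivial, trivial, hb, ha⟩ e
  · exact not_pu S UG.top (fun hU D _ => UG.noD h S hU D)
      (fun x _ hp i hx => UG.opp_all M h3 hp i hx) e.pu

end CF.Ah
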