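import Cfsg.Agent.Ah.SM

/-! The Bruhat cells met by a conjugacy class. -/

set_option autoImplicit false

namespace CF.Ah

open CF.BN CF.Chev CF.Loc Cfsg

variable {B ι : Type} [Fintype B] [DecidableEq B] [Fintype ι] [DecidableEq ι]
  {C : ChevBasis B ι} {K : Type*} [Field K] {G : Type*} [Group G] {ρ : StRep C K G}
  {T : Tw ρ} {G1 : Subgroup G} {ω : ι → ℝ} {p : ℕ} [Fact p.Prime] {J D : Set B} {a b x y u n k g l : G}
  {w w' v v' m : Equiv.Perm ι} {i j : B} {θ δ : ι} {φ : K →+* K} {c : Kˣ}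

namespace UM

theorem s_inv (i : B) : (T.S.s i)⁻¹ = T.S.s i := lg_inv _

theorem s_mul_s (i : B) : T.S.s i * T.S.s i = 1 := lg_mul_self _

theorem s_ne_one (i : B) : T.S.s i ≠ 1 := lg_ne_one (T.S.mem_orb_self i)

theorem inSub_self (i : B) : C.InSub (T.S.orb i) (C.simple i) := C.inSub_simple.2 (T.S.mem_orb_self i)

theorem not_pos_s (i : B) : ¬ C.Pos (T.S.s i (C.simple i)) := fun h =>
  (pos_lg_iff (C.pos_simple i)).1 h (inSub_self i)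

theorem nw_inv (h : ρ.NW n (T.S.s i)) : ρ.NW n⁻¹ (T.S.s i) := s_inv (T := T) i ▸ h.inv

/-- Lengths add. -/
theorem cell_mul (hx : x ∈ ρ.Cell w) (hy : y ∈ ρ.Cell v)
    (h : ∀ r, C.Pos r → ¬ C.Pos (v⁻¹ r) → C.Pos (w r)) : x * y ∈ ρ.Cell (w * v) := by
  obtain ⟨n, hn⟩ := ρ.exists_nW (StRep.mem_W_of_mem_cell hx)
  obtain ⟨n', hn'⟩ := ρ.exists_nW (StRep.mem_W_of_mem_cell hy)
  obtain ⟨b, hb, b', hb', rfl⟩ := hn.mem_cell_iff.1 hx
  obtain ⟨u, hu, c, hc, e⟩ := hn'.mem_cell_iff_sharp'.1 (StRep.cell_mul_left hb' hy)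
  rw [show b * n * b' * y = b * (n * u * n⁻¹) * (n * n') * c by rw [mul_assoc (b * n), e]; group]
  exact (hn.mul hn').mem_cell_iff.2 ⟨_, mul_mem hb (ρ.Up_le_Bo
    (hn.acts.conj_mem_U (fun r hr => h r hr.1 hr.2) hu)), c, hc, rfl⟩

theorem cell_mul_s (hw : w ∈ T.S.Wf) (hi : C.Pos (w (C.simple i))) (hx : x ∈ ρ.Cell w)
    (hy : y ∈ ρ.Cell (T.S.s i)) : x * y ∈ ρ.Cell (w * T.S.s i) :=
  cell_mul hx hy fun r hr h => Sym.pos_of_orb hw hi hr (by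
    rw [s_inv, pos_lg_iff hr, not_not] at h; exact h)

theorem cell_s_mul (hw : w ∈ T.S.Wf) (hi : C.Pos (w⁻¹ (C.simple i))) (hx : x ∈ ρ.Cell (T.S.s i))
    (hy : y ∈ ρ.Cell w) : x * y ∈ ρ.Cell (T.S.s i * w) :=
  cell_mul hx hy fun _ hr h => (pos_lg_iff hr).2 fun h' => h (Sym.pos_of_orb (inv_mem hw) hi hr h')

/-- `n x n⁻¹` for `x` in the positive block. -/
theorem conj_blk (F : T.Form G1) (hn : n ∈ G1) (hs : ρ.NW n (T.S.s i)) (hx : x ∈ blk T i) (h1 : x ≠ 1) :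
    n * x * n⁻¹ ∈ ρ.Cell (T.S.s i) :=
  cell_s_of_neg F (mul_mem (mul_mem hn (F.pos i hx)) (inv_mem hn))
    (hs.acts.conj_mem_U (fun r hr => And.intro (fun h => (pos_lg_iff hr.1).1 h hr.2) (inSub_lg.2 hr.2)) hx.1)
    (by simpa using h1)

theorem cell_desc (F : T.Form G1) (hw : w ∈ T.S.Wf) (hi : ¬ C.Pos (w (C.simple i))) (hn : ρ.NW n w)
    (hk : k ∈ G1) (hs : ρ.NW k (T.S.s i)) (hx : x ∈ blk T i) (h1 : x ≠ 1) : n * x * k⁻¹ ∈ ρ.Cell w := by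
  have := cell_mul_s (mul_mem hw (T.S.s_mem_Wf i)) ((Sym.pos_mul_s_iff hw i).2 hi)
    (hn.mul (nw_inv hs)).mem_cell (conj_blk F hk hs hx h1)
  rwa [mul_assoc w, s_mul_s, mul_one, show n * k⁻¹ * (k * x * k⁻¹) = n * x * k⁻¹ by group] at this

theorem mem_Uw' (hρ : ρ.Faithful) (hn : ρ.NW n w) (hx : x ∈ ρ.Up) (h : n * x * n⁻¹ ∈ ρ.Bo) :
    x ∈ ρ.Uw' w := by
  obtain ⟨a, ha, b, hb, rfl⟩ := StRep.exists_Uw'_mul_Uw w hx
  have e : n * b * n⁻¹ = 1 := StRep.eq_one_of_mem_Bo_Um hρ (by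
    simpa [mul_assoc] using mul_mem (inv_mem (ρ.Up_le_Bo (hn.acts.conj_Uw' ha))) h) (hn.acts.conj_Uw hb)
  obtain rfl : b = 1 := by simpa using e
  simpa using ha

theorem Uw'_le (hw : w ∈ T.S.Wf) (hi : ¬ C.Pos (w (C.simple i))) : ρ.Uw' w ≤ ρ.UJ (T.S.orb i) :=
  ρ.U_mono fun _ hr => ⟨hr.1, fun h => Sym.neg_of_orb hw hi hr.1 h hr.2⟩

theorem mem_P (F : T.Form G1) (hx : x ∈ G1) :
    x ∈ ρ.PJ (T.S.orb i) ↔ x ∈ ρ.Bo ∨ x ∈ ρ.Cell (T.S.s i) := by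
  refine ⟨fun h => ?_, fun h => h.elim (fun h => ρ.Bo_le_PJ _ h) fun h =>
    StRep.mem_PJ_iff.2 ⟨_, lg_mem _, h⟩⟩
  obtain ⟨w, hw, hc⟩ := StRep.mem_PJ_iff.1 h
  rcases Sym.eq_one_or_eq_s (Tw.mem_Wf_of_cell (F.fix hx) hc) hw with rfl | rfl
  exacts [.inl (StRep.mem_cell_one.1 hc), .inr hc]

theorem not_mem_Bo (hx : x ∈ ρ.Cell (T.S.s i)) : x ∉ ρ.Bo := fun h =>
  s_ne_one i (StRep.cell_unique T.faith hx (StRep.mem_cell_one.2 h))

theorem conj_cell_s (F : T.Form G1) (hn : n ∈ G1) (hs : ρ.NW n (T.S.s i)) (hx : x ∈ ρ.Up ⊓ G1)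
    (h : x ∉ ρ.UJ (T.S.orb i)) : n * x * n⁻¹ ∈ ρ.Cell (T.S.s i) :=
  have h1 := hs.mem_PJ (lg_mem _)
  ((mem_P F (mul_mem (mul_mem hn hx.2) (inv_mem hn))).1 (mul_mem (mul_mem h1
    (ρ.Bo_le_PJ _ (ρ.Up_le_Bo hx.1))) (inv_mem h1))).resolve_left fun h2 =>
    h (Uw'_le (T.S.s_mem_Wf i) (not_pos_s i) (mem_Uw' T.faith hs hx.1 h2))

theorem exists_pr (g : ρ.PJ J) : ∃ l ∈ ρ.LJ J, g.1 * l⁻¹ ∈ ρ.UJ J := by
  obtain ⟨u, hu, l, hl, e⟩ := StRep.mem_PJ_iff_UJ_LJ.1 g.2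
  exact ⟨l, hl, by simpa [e] using hu⟩

/-- The projection of a parabolic subgroup onto its Levi complement. -/
noncomputable def pr (hρ : ρ.Faithful) (J : Set B) : ρ.PJ J →* G :=
  MonoidHom.mk' (fun g => (exists_pr g).choose) fun g g' => by
    obtain ⟨h1, h2⟩ := (exists_pr g).choose_spec
    obtain ⟨h3, h4⟩ := (exists_pr g').choose_spec
    obtain ⟨h5, h6⟩ := (exists_pr (g * g')).choose_spec
    refine StRep.eq_of_UJ_mul hρ (mul_mem (inv_mem h6) (mul_mem h2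
      (StRep.PJ_conj_mem_UJ (ρ.LJ_le_PJ J h1) h4))) (mul_mem h1 h3) h5 ?_
    generalize (exists_pr (g * g')).choose = a
    rw [Subgroup.coe_mul]
    group

theorem pr_spec (hρ : ρ.Faithful) (g : ρ.PJ J) : pr hρ J g ∈ ρ.LJ J ∧ g * (pr hρ J g)⁻¹ ∈ ρ.UJ J :=
  (exists_pr g).choose_spec

theorem pr_eq (hρ : ρ.Faithful) {g : ρ.PJ J} (hu : u ∈ ρ.UJ J) (hl : l ∈ ρ.LJ J) (e : g = u * l) :
    pr hρ J g = l :=
  StRep.eq_of_UJ_mul hρ (mul_mem (inv_mem (pr_spec hρ g).2) hu) hl (pr_spec hρ g).1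
    (by rw [mul_assoc, ← e]; group)

theorem pr_of_LJ (hρ : ρ.Faithful) {g : ρ.PJ J} (h : g.1 ∈ ρ.LJ J) : pr hρ J g = g :=
  pr_eq hρ (one_mem _) h (one_mul _).symm

theorem pr_eq_one (hρ : ρ.Faithful) {g : ρ.PJ J} : pr hρ J g = 1 ↔ g.1 ∈ ρ.UJ J :=
  ⟨fun h => by simpa [h] using (pr_spec hρ g).2, fun h => pr_eq hρ h (one_mem _) (mul_one _).symm⟩

theorem pr_mem (F : T.Form G1) (hJ : T.S.Stab J) {g : ρ.PJ J} (h : g.1 ∈ G1) :
    pr T.faith J g ∈ ρ.LJ J ⊓ G1 := by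
  obtain ⟨u, hu, l, hl, e⟩ := SM.levi F hJ ⟨g.2, h⟩
  rwa [pr_eq T.faith hu.1 hl.1 e]

theorem pr_cell (hρ : ρ.Faithful) {g : ρ.PJ J} (h : g.1 ∈ ρ.Cell w) : pr hρ J g ∈ ρ.Cell w := by
  simpa [mul_assoc] using StRep.cell_mul_left (inv_mem (ρ.Up_le_Bo (ρ.UJ_le_Up J (pr_spec hρ g).2))) h

theorem pr_Up (hρ : ρ.Faithful) {g : ρ.PJ J} (h : g.1 ∈ ρ.Up) : pr hρ J g ∈ ρ.UL J :=
  StRep.mem_UL hρ (by simpa [mul_assoc] using mul_mem (inv_mem (ρ.UJ_le_Up J (pr_spec hρ g).2)) h)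
    (pr_spec hρ g).1

/-- The Levi component of a `p`-element is a `p`-element. -/
theorem pe_levi (hρ : ρ.Faithful) (hu : u ∈ ρ.UJ J) (hl : l ∈ ρ.LJ J) (h : PE p (u * l)) : PE p l := by
  obtain ⟨k, hk⟩ := h
  let g : ρ.PJ J := ⟨u * l, mul_mem (ρ.UJ_le_PJ J hu) (ρ.LJ_le_PJ J hl)⟩
  exact ⟨k, by rw [← pr_eq hρ (g := g) hu hl rfl, ← map_pow, show g ^ p ^ k = 1 from Subtype.ext hk,
    map_one]⟩

theorem pe_inv (h : PE p x) : PE p x⁻¹ := h.imp fun k hk => by rw [inv_pow, hk, inv_one]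

theorem isPGroup_zpowers (h : PE p x) : IsPGroup p (Subgroup.zpowers x) := by
  obtain ⟨k, hk⟩ := h
  rintro ⟨_, m, rfl⟩
  exact ⟨k, Subtype.ext (by
    rw [Subgroup.coe_pow, ← zpow_natCast, zpow_comm, zpow_natCast, hk, one_zpow, Subgroup.coe_one])⟩

/-- Sylow's theorem in an overgroup of `U`. -/
theorem exists_conj_Up (M : LT p T G1 ω) {L : Subgroup G} (h1 : ρ.Up ⊓ G1 ≤ L) (h2 : L ≤ G1)
    (hx : x ∈ L) (hp : PE p x) : ∃ k ∈ L, k * x * k⁻¹ ∈ ρ.Up ⊓ G1 := by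
  have := M.finite
  obtain ⟨k, hk, h⟩ := (M.isSyl.mono h1 h2).exists_cj_le (isPGroup_zpowers hp)
    ((Subgroup.zpowers_le).2 hx)
  exact ⟨k, hk, h ⟨x, Subgroup.mem_zpowers x, rfl⟩⟩

/-- A `p`-element of `B` lies in `U`. -/
theorem mem_Up (M : LT p T G1 ω) (hx : x ∈ ρ.Bo ⊓ G1) (hp : PE p x) : x ∈ ρ.Up := by
  obtain ⟨k, hk, h⟩ := exists_conj_Up M (inf_le_inf_right _ ρ.Up_le_Bo) inf_le_right hx hp
  simpa [mul_assoc] using StRep.Bo_conj_mem_Up (inv_mem hk.1) h.1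

theorem pe_of_Up (M : LT p T G1 ω) (hx : x ∈ ρ.Up) : PE p x := PE.of_mem M.isPGroup_Up hx

/-- Opposite root subgroups do not lie in a `p`-group. -/
theorem not_pgroup (hρ : ρ.Faithful) [CharP K p] {Q : Subgroup G} (hQ : IsPGroup p Q)
    (h1 : ρ.x δ 1 ∈ Q) (h2 : ρ.x (C.neg δ) (-1) ∈ Q) : False := by
  have e0 : ρ.n δ 1 = ρ.x δ 1 * ρ.x (C.neg δ) (-1) * ρ.x δ 1 := by simp [PreSt.n]
  have hA := ρ.acts_n δ 1
  rcases (Fact.out : p.Prime).eq_two_or_odd' with rfl | hp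
  · obtain ⟨c, hc⟩ := hA.exists_conj_x (C.neg δ)
    have h3 : ∀ r (t : K), ρ.x r t * ρ.x r t = 1 := fun r t => by
      rw [← ρ.x_add, CharTwo.add_self_eq_zero, ρ.x_zero]
    have h4 : C.refl δ (C.neg δ) = δ := by simp [RootSys.neg_aut (C.refl_mem_Aut δ)]
    replace hc := h4 ▸ hc (-1)
    obtain ⟨k, hk⟩ := PE.of_mem hQ (mul_mem h1 h2)
    have h5 := h3 δ 1
    have h6 := h3 (C.neg δ) (-1)
    have h7 := h3 δ (c * -1 + 1)
    rw [ρ.x_add, ← hc, e0] at h7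
    rw [e0] at hc
    refine C.neg_ne_self δ (Tw.eq_of_x_eq hρ (neg_ne_zero.2 one_ne_zero) (Eq.trans ?_ hc))
    generalize ρ.x δ 1 = X at *
    generalize ρ.x (C.neg δ) (-1) = Y at *
    have h8 : (X * Y * X)⁻¹ = X * Y * X := by
      simp [mul_assoc, inv_eq_of_mul_eq_one_right h5, inv_eq_of_mul_eq_one_right h6]
    have h9 : (X * Y) ^ 6 = 1 := by
      rw [← h7, h8, show X * Y * X * Y * (X * Y * X) * X = (X * Y) ^ 3 * (X * X) by simp [pow_succ, mul_assoc],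
        h5, mul_one, ← pow_add]
    have h10 : (X * Y) ^ 2 = 1 := orderOf_dvd_iff_pow_eq_one.1 ((Nat.Coprime.pow_right k
      (by norm_num : Nat.Coprime 3 2)).gcd_mul_left_cancel 2 ▸ Nat.dvd_gcd (orderOf_dvd_of_pow_eq_one h9)
      (orderOf_dvd_of_pow_eq_one hk) |>.trans (Nat.gcd_dvd_left _ _))
    have h11 : X * Y * X = Y := by
      rw [← mul_left_inj Y, h6, ← h10]; simp [pow_succ, mul_assoc]
    simp [h11]
  · obtain ⟨k, hk⟩ := PE.of_mem hQ (e0 ▸ mul_mem (mul_mem h1 h2) h1 : ρ.n δ 1 ∈ Q)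
    have h3 : ∀ m : ℕ, ρ.Acts (ρ.n δ 1 ^ m) (C.refl δ ^ m) := fun m => by
      induction m with
      | zero => simpa using StRep.nW_one.acts
      | succ m ih => simpa only [pow_succ] using ih.mul hA
    have h4 := (hk ▸ h3 (p ^ k)).eq hρ StRep.nW_one.acts
    obtain ⟨m, hm⟩ := hp.pow (n := k)
    have h5 : C.refl δ ^ 2 = 1 := by ext r; simp [sq]
    rw [hm, pow_succ, pow_mul, h5, one_pow, one_mul] at h4
    simpa [C.neg_ne_self] using congrArg (· δ) h4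

theorem orb_single (h : T.p i = i) : T.S.orb i = {i} := Set.ext fun _ =>
  ⟨T.S.orb_induction (q := fun k => k = i) rfl fun k hk => by rw [hk]; exact h,
    fun e => e ▸ T.S.mem_orb_self i⟩

theorem orb_pair (h : T.p (T.p i) = i) : T.S.orb i = {i, T.p i} := Set.ext fun _ =>
  ⟨T.S.orb_induction (q := fun k => k = i ∨ k = T.p i) (.inl rfl) fun k hk => by
    rcases hk with rfl | rfl
    exacts [.inr rfl, .inl h], by
    rintro (rfl | rfl)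
    exacts [T.S.mem_orb_self _, ((T.S.stab_orb i) i).2 (T.S.mem_orb_self i)]⟩

theorem lg_single (R : RootSys B ι) (i : B) : lg R {i} = R.sref i :=
  (eq_lg (R.sref_mem_WJ (Set.mem_singleton i)) fun j hj => by
    obtain rfl : j = i := hj
    rw [R.sref_simple_self]
    exact R.not_pos_neg_simple j).symm

theorem s_single (h : T.p i = i) : T.S.s i = C.sref i := by
  rw [Sym.s, orb_single h, lg_single]

theorem eq_simple {r : ι} (hr : C.Pos r) (h : C.InSub {i} r) : r = C.simple i := by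
  by_contra e
  exact (pos_lg_iff hr).1 (lg_single C.toRootSys i ▸ hr.sref e) h

theorem UL_single (ρ : StRep C K G) (i : B) : ρ.UL {i} = ρ.X (C.simple i) :=
  le_antisymm (ρ.U_le_iff.2 fun _ hr t => eq_simple hr.1 hr.2 ▸ ρ.mem_X.2 ⟨t, rfl⟩) fun _ hx => by
    obtain ⟨t, rfl⟩ := ρ.mem_X.1 hx
    exact ρ.x_mem_U (And.intro (C.pos_simple i) (C.inSub_simple.2 (Set.mem_singleton i))) t

end UM

open UM

theorem Gr.vec_π (g : Gr T φ c) (r : ι) (i : B) : C.vec (T.π r) (T.p i) = C.vec r i := by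
  have := compat_one (S := T.S) g.car r i
  simp only [Pi.one_apply, mul_one] at this
  exact_mod_cast this

theorem Gr.len_p (g : Gr T φ c) (hC : C.Conn) (i : B) : C.len (C.simple (T.p i)) = C.len (C.simple i) := by
  have h3 : ∀ i, C.len (C.simple (T.p i)) ≤ C.len (C.simple i) := by
    by_contra! h3
    by_cases h4 : ∀ i, C.len (C.simple i) < C.len (C.simple (T.p i))
    · exact (Finset.sum_lt_sum_of_nonempty ⟨h3.choose, Finset.mem_univ _⟩ fun i _ => h4 i).ne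
        (Equiv.sum_comp T.p _).symm
    obtain ⟨i, hi, j, hj, e⟩ := hC {i | C.len (C.simple i) < C.len (C.simple (T.p i))} h3
      (not_forall.1 h4)
    have h5 := C.car_symm (T.p i) (T.p j)
    rw [g.car, g.car] at h5
    have h6 : C.len (C.simple (T.p i)) * C.len (C.simple j) =
        C.len (C.simple (T.p j)) * C.len (C.simple i) := mul_right_cancel₀ e (by
      linear_combination C.len (C.simple j) * h5 - C.len (C.simple (T.p j)) * C.car_symm i j)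
    have := C.len_pos (C.simple i)
    have := C.len_pos (C.simple j)
    simp only [Set.mem_ofPred_eq, not_lt] at hi hj
    nlinarith
  exact (Finset.sum_eq_sum_iff_of_le fun i _ => h3 i).1
    (Equiv.sum_comp T.p fun i => C.len (C.simple i)) i (Finset.mem_univ i)

theorem Gr.aut (g : Gr T φ c) (hC : C.Conn) : T.π ∈ C.Aut :=
  ⟨LinearEquiv.funCongrLeft ℤ ℤ T.p.symm, fun r => funext fun i => by
    simpa using g.vec_π r (T.p.symm i), fun v v' => by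
    simp only [RootSys.form_apply, RootSys.sp_apply]
    rw [← Equiv.sum_comp T.p]
    refine Finset.sum_congr rfl fun i _ => ?_
    rw [← Equiv.sum_comp T.p, g.len_p hC]
    simp [g.car]⟩

omit [Fintype B] [DecidableEq B] [Fintype ι] [DecidableEq ι] in
theorem Cj.inv (h : Cj G1 a x) : Cj G1 a⁻¹ x⁻¹ := by
  obtain ⟨g, hg, rfl⟩ := h
  exact ⟨g, hg, by group⟩

theorem WA.cj (h : Cj G1 a x) : WA ρ G1 x w ↔ WA ρ G1 a w :=
  ⟨fun ⟨y, h1, h2⟩ => ⟨y, h.trans h1, h2⟩, fun ⟨y, h1, h2⟩ => ⟨y, h.symm.trans h1, h2⟩⟩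

theorem WA.inv (h : WA ρ G1 a w) : WA ρ G1 a⁻¹ w⁻¹ :=
  let ⟨_, h1, h2⟩ := h
  ⟨_, h1.inv, StRep.cell_inv h2⟩

theorem WA.mem_Wf (M : LT p T G1 ω) (ha : a ∈ G1) (h : WA ρ G1 a w) : w ∈ T.S.Wf :=
  let ⟨_, h1, h2⟩ := h
  Tw.mem_Wf_of_cell (M.form.fix (h1.mem ha)) h2

theorem WA.form (M : LT p T G1 ω) (ha : a ∈ G1) (h : WA ρ G1 a w) :
    ∃ u ∈ ρ.Up ⊓ G1, ∃ n ∈ G1, ρ.NW n w ∧ Cj G1 a (u * n) := by
  obtain ⟨_, h1, h2⟩ := h
  obtain ⟨u, hu, n, hn, hw, u', hu', rfl⟩ := M.form.bruhat (h1.mem ha) h2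
  have h3 : u' ∈ ρ.Up ⊓ G1 := M.form.Up_inf ▸ ⟨ρ.Uw_le_Up _ hu'.1, hu'.2⟩
  exact ⟨u' * u, mul_mem h3 (M.form.Up_inf ▸ hu), n, hn, hw, by simpa [mul_assoc] using h1.conj h3.2⟩

theorem WA.asc' (M : LT p T G1 ω) (ha : a ∈ G1) (h : WA ρ G1 a w) (hi : C.Pos (w⁻¹ (C.simple i))) :
    WA ρ G1 a (T.S.s i * w * T.S.s i) := by
  have hw := h.mem_Wf M ha
  by_cases h1 : C.Pos (T.S.s i (w⁻¹ (C.simple i)))
  swap
  · rwa [Sym.s_mul_eq hw hi h1, mul_assoc, s_mul_s, mul_one]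
  obtain ⟨u, hu, n, hn, hw', e⟩ := h.form M ha
  obtain ⟨k, hk, hs⟩ := M.form.exists_n_s i
  refine ⟨_, e.conj hk, ?_⟩
  have := cell_s_mul (mul_mem hw (T.S.s_mem_Wf i)) (by rwa [mul_inv_rev, s_inv])
    (StRep.cell_mul_right hs.mem_cell (ρ.Up_le_Bo hu.1)) (hw'.mul (nw_inv hs)).mem_cell
  simpa only [mul_assoc] using this

/-- conjugation by `s i` unless `i` is a descent on both sides -/
theorem WA.asc (M : LT p T G1 ω) (ha : a ∈ G1) (h : WA ρ G1 a w)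
    (hi : C.Pos (w⁻¹ (C.simple i)) ∨ C.Pos (w (C.simple i))) : WA ρ G1 a (T.S.s i * w * T.S.s i) :=
  hi.elim (h.asc' M ha) fun hi => by
    simpa [s_inv, mul_assoc] using (h.inv.asc' M (inv_mem ha) hi).inv

theorem WA.ascL (M : LT p T G1 ω) (ha : a ∈ G1) (h : WA ρ G1 a w) (h1 : C.Pos (w⁻¹ (C.simple i)))
    (h2 : ¬ C.Pos (w (C.simple i))) : WA ρ G1 a (T.S.s i * w) := by
  have hw := h.mem_Wf M ha
  obtain ⟨u, hu, n, hn, hw', e⟩ := h.form M ha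
  obtain ⟨k, hk, hs⟩ := M.form.exists_n_s i
  obtain ⟨y, hy, h3⟩ := exists_block_ne_one M.form i
  refine ⟨_, (e.conj (inv_mem hy.2)).conj hk, ?_⟩
  have := cell_s_mul hw h1 (StRep.cell_mul_right hs.mem_cell (ρ.Up_le_Bo (mul_mem (inv_mem
    (ρ.UL_le_Up _ hy.1)) hu.1))) (cell_desc M.form hw h2 hw' hk hs ⟨hy.1, M.form.fix hy.2⟩ h3)
  simpa only [mul_assoc, inv_inv] using this

theorem WA.ascR (M : LT p T G1 ω) (ha : a ∈ G1) (h : WA ρ G1 a w) (h1 : ¬ C.Pos (w⁻¹ (C.simple i)))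
    (h2 : C.Pos (w (C.simple i))) : WA ρ G1 a (w * T.S.s i) := by
  simpa [s_inv] using (h.inv.ascL M (inv_mem ha) h2 h1).inv

theorem wa_s (M : LT p T G1 ω) (hx : x ∈ ρ.Up ⊓ G1) (h : x ∉ ρ.UJ (T.S.orb i)) :
    WA ρ G1 x (T.S.s i) :=
  let ⟨_, hk, hs⟩ := M.form.exists_n_s i
  ⟨_, .of hk x, conj_cell_s M.form hk hs hx h⟩

theorem WA.pos (M : LT p T G1 ω) (ha : a ∈ G1) (hp : PE p a) (h : WA ρ G1 a (T.S.s i)) :
    ∃ x ∈ ρ.Up ⊓ G1, Cj G1 a x ∧ x ∉ ρ.UJ (T.S.orb i) := by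
  obtain ⟨x, h1, h2⟩ := h
  obtain ⟨k, hk, h3⟩ := exists_conj_Up M (L := ρ.PJ (T.S.orb i) ⊓ G1)
    (inf_le_inf_right _ (ρ.Up_le_Bo.trans (ρ.Bo_le_PJ _))) inf_le_right
    ⟨(mem_P M.form (h1.mem ha)).2 (.inr h2), h1.mem ha⟩ (hp.cj h1)
  refine ⟨_, h3, h1.conj hk.2, fun h4 => not_mem_Bo h2 (ρ.Up_le_Bo (ρ.UJ_le_Up (T.S.orb i) ?_))⟩
  simpa [mul_assoc] using StRep.PJ_conj_mem_UJ (inv_mem hk.1) h4

theorem exists_wa_s (M : LT p T G1 ω) (ha : a ∈ G1) (hp : PE p a) (h : a ≠ 1) :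
    ∃ i, WA ρ G1 a (T.S.s i) := by
  by_contra! h0
  have h1 : ∀ x, Cj G1 a x → x ∈ ρ.Up → ∀ i, x ∈ ρ.UJ (T.S.orb i) := fun x h1 h2 i =>
    by_contra fun h3 => h0 i ((WA.cj h1).1 (wa_s M ⟨h2, h1.mem ha⟩ h3))
  have key : ∀ i, ∀ g ∈ ρ.PJ (T.S.orb i) ⊓ G1,
      g ∈ G1 ⊓ Subgroup.normalizer {x | Cj G1 a x ∧ x ∈ ρ.Up} := fun i g hg =>
    ⟨hg.2, fun x => ⟨fun hx => ⟨hx.1.conj hg.2, ρ.UJ_le_Up _ (StRep.PJ_conj_mem_UJ hg.1 (h1 x hx.1 hx.2 i))⟩,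
      fun hx => ⟨by simpa [mul_assoc] using hx.1.conj (inv_mem hg.2), ρ.UJ_le_Up (T.S.orb i) (by
        simpa [mul_assoc] using StRep.PJ_conj_mem_UJ (inv_mem hg.1) (h1 _ hx.1 hx.2 i))⟩⟩⟩
  obtain ⟨i₀⟩ := M.ne
  have h2 := PJ_inf_le M.form T.S.stab_univ inf_le_left
    (fun g hg => key i₀ g ⟨ρ.Bo_le_PJ _ hg.1, hg.2⟩) fun i _ =>
      let ⟨n, hn, hs⟩ := M.form.exists_n_s i
      ⟨n, key i n ⟨hs.mem_PJ (lg_mem _), hn⟩, hs⟩
  obtain ⟨k, hk, h3⟩ := exists_conj_Up M inf_le_right le_rfl ha hp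
  obtain ⟨n, hn, h4⟩ := M.form.exists_n0
  have h5 := ((h2 ⟨h4.mem_PJ (lg_mem _), hn⟩).2 _).1 ⟨.of hk a, h3.1⟩
  exact h5.1.ne_one h (StRep.eq_one_of_mem_Bo_Um T.faith (ρ.Up_le_Bo h5.2)
    (h4.acts.conj_mem_U (S := {r | C.Pos r}) (fun r hr => mt pos_lg_univ.1 (not_not.2 hr)) h3.1))

/-- a regular unipotent element lies in one Borel subgroup -/
theorem reg_unique (M : LT p T G1 ω) (hx : x ∈ ρ.Up ⊓ G1) (h : ∀ i, x ∉ ρ.UJ (T.S.orb i)) (hk : k ∈ G1)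
    (e : k * x * k⁻¹ ∈ ρ.Bo) : k ∈ ρ.Bo := by
  obtain ⟨w, hw, hc⟩ := M.form.exists_cell hk
  by_cases h1 : w = 1
  · exact StRep.mem_cell_one.1 (h1 ▸ hc)
  obtain ⟨i, hi⟩ := C.exists_descent (Sym.Wf_le_W hw) h1
  obtain ⟨u, hu, n, -, hn, u', hu', rfl⟩ := M.form.bruhat hk hc
  have h2 := ρ.Up_le_Bo (ρ.Uw_le_Up _ hu'.1)
  have h3 := Uw'_le hw hi (mem_Uw' T.faith hn (StRep.Bo_conj_mem_Up h2 hx.1) (by
    simpa [mul_assoc] using mul_mem (mul_mem (inv_mem (ρ.Up_le_Bo hu.1)) e) (ρ.Up_le_Bo hu.1)))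
  exact absurd (by simpa [mul_assoc] using StRep.PJ_conj_mem_UJ (inv_mem (ρ.Bo_le_PJ _ h2)) h3) (h i)

theorem opp_of_neg (M : LT p T G1 ω) (ha : a ∈ G1) (h : WA ρ G1 a w) (h1 : C.Pos δ) (h2 : C.InSub J δ)
    (h3 : ∀ u ∈ ρ.UL J, ∀ t, Commute u (ρ.x δ t)) (h4 : w δ = C.neg δ) : Opp p ρ G1 δ a := by
  classical
  have := M.char
  obtain ⟨u, hu, n, hn, hw, e⟩ := h.form M ha
  refine ⟨_, e, fun hQ => ?_⟩
  let U : ρ.PJ J := ⟨u, ρ.Bo_le_PJ _ (ρ.Up_le_Bo hu.1)⟩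
  let X : ι → K → ρ.PJ J := fun r t => if h : C.InSub J r then ⟨ρ.x r t, StRep.x_mem_PJ (.inr h) t⟩ else 1
  have hX : ∀ r t, C.InSub J r → (X r t : G) = ρ.x r t ∧ pr T.faith J (X r t) = ρ.x r t := fun r t h => by
    simp only [X, dif_pos h, true_and]
    exact pr_of_LJ (g := ⟨_, _⟩) _ (StRep.x_mem_LJ h t)
  refine not_pgroup T.faith ((((hQ.comap_subtype (K := ρ.PJ J)).map (pr T.faith J))).map
    (MulAut.conj (pr T.faith J U)⁻¹).toMonoidHom) (δ := δ)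
    ⟨_, ⟨X δ 1, Subgroup.mem_sup_left (ρ.mem_X.2 ⟨1, (hX δ 1 h2).1.symm⟩), (hX δ 1 h2).2⟩, by
      simp [mul_assoc, ← (h3 _ (pr_Up T.faith (g := U) hu.1) 1).eq]⟩
    ⟨_, ⟨U * X (C.neg δ) (-1) * U⁻¹, Subgroup.mem_sup_right ?_, rfl⟩, by
      simp [mul_assoc, (hX _ _ (C.inSub_neg.2 h2)).2]⟩
  obtain ⟨y, hy, e'⟩ : ρ.x (C.neg δ) (-1) ∈ (ρ.X δ).map (MulAut.conj n).toMonoidHom := by
    rw [hw.acts.map_X, h4]; exact ρ.mem_X.2 ⟨_, rfl⟩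
  exact ⟨y, hy, by simp [U, (hX _ _ (C.inSub_neg.2 h2)).1, ← e', mul_assoc]⟩

theorem Opp.move (M : LT p T G1 ω) (hw : w ∈ T.S.Wf) (h : Opp p ρ G1 δ a) : Opp p ρ G1 (w δ) a := by
  obtain ⟨x, h1, h2⟩ := h
  obtain ⟨n, hn, hw'⟩ := M.form.exists_n hw
  refine ⟨_, h1.conj hn, fun h => h2 ((h.map (MulAut.conj n⁻¹).toMonoidHom).to_le (sup_le ?_ ?_))⟩
  · exact fun y hy => ⟨n * y * n⁻¹, Subgroup.mem_sup_left (hw'.acts.map_X δ ▸ ⟨y, hy, rfl⟩), by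
      simp [mul_assoc]⟩
  · rintro _ ⟨y, hy, rfl⟩
    exact ⟨_, Subgroup.mem_sup_right ⟨n * y * n⁻¹, hw'.acts.map_X δ ▸ ⟨y, hy, rfl⟩, rfl⟩, by
      simp [mul_assoc]⟩

theorem Opp.cj (h : Cj G1 a x) : Opp p ρ G1 δ x ↔ Opp p ρ G1 δ a :=
  ⟨fun ⟨y, h1, h2⟩ => ⟨y, h.trans h1, h2⟩, fun ⟨y, h1, h2⟩ => ⟨y, h.symm.trans h1, h2⟩⟩

theorem len_top (h : C.Top θ) (h1 : ∀ k, C.len (C.simple k) ≤ C.len (C.simple j)) :
    C.len (C.simple j) = C.len θ :=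
  let ⟨k, hk⟩ := C.exists_len_simple θ
  (h.len_le _).antisymm (hk ▸ h1 k)

theorem exists_Wf_top (M : LT p T G1 ω) (g : Gr T φ c) (h : C.Top θ) (h1 : T.π δ = δ)
    (h2 : C.len δ = C.len θ) : ∃ w ∈ T.S.Wf, w δ = θ := by
  obtain ⟨w, hw, hm⟩ := Set.exists_max_image (T.S.Wf : Set (Equiv.Perm ι))
    (fun w => RootSys.ht (C.vec (w δ))) (Set.toFinite _) ⟨1, one_mem _⟩
  have e : T.π (w δ) = w δ := (Sym.apply_π hw δ).symm.trans (congrArg w h1)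
  have hd : ∀ i, 0 ≤ C.A (C.simple i) (w δ) := fun i => by
    by_contra! h3
    have h4 : ∀ j ∈ T.S.orb i, C.A (C.simple j) (w δ) < 0 := fun j hj =>
      T.S.orb_induction (q := fun j => C.A (C.simple j) (w δ) < 0) h3 (fun j hj => by
        rwa [← e, ← T.S.π_simple, show T.S.π = T.π from rfl, RootSys.A_aut (g.aut M.conn)]) hj
    have h5 : ∀ j ∈ T.S.orb i, 0 ≤ C.A (C.simple j) (C.neg (w δ)) := fun j hj => by
      have := h4 j hj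
      simp; omega
    have h6 := RootSys.lin_le (fun j hj => C.A_simple j _ ▸ h5 j hj) (lg_mem (T.S.orb i))
    rw [← RootSys.vec_aut (lg_mem_Aut _), RootSys.neg_aut (lg_mem_Aut _), C.vec_neg, C.vec_neg,
      neg_le_neg_iff] at h6
    have h7 := (Finset.sum_eq_sum_iff_of_le fun i _ => h6 i).1 (le_antisymm
      (Finset.sum_le_sum fun i _ => h6 i) (by
        simpa [RootSys.ht_apply] using hm _ (mul_mem (T.S.s_mem_Wf i) hw)))
    have h8 := RootSys.mem_WJ_of_fix h5 (lg_mem (T.S.orb i)) (by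
      rw [RootSys.neg_aut (lg_mem_Aut _), ← C.vec_inj (funext fun k => h7 k (Finset.mem_univ k))])
    have h9 := (C.mem_of_descent h8 (not_pos_s i)).2
    have := h4 i (T.S.mem_orb_self i)
    simp at h9; omega
  obtain ⟨v, hv, e'⟩ := h.exists_W_of_len ((RootSys.len_aut (Sym.mem_Aut hw) δ).trans h2)
  refine ⟨w, hw, C.vec_inj (le_antisymm (h _) ?_)⟩
  rw [← e', RootSys.vec_aut (C.W_le_Aut hv)]
  exact RootSys.lin_le (J := Set.univ) (fun j _ => C.A_simple j _ ▸ hd j) (C.WJ_univ ▸ hv)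

/-- a fixed long simple root -/
theorem opp_long (M : LT p T G1 ω) (g : Gr T φ c) (h : C.Top θ) (ha : a ∈ G1) (h1 : T.p j = j)
    (h2 : C.len (C.simple j) = C.len θ) (h3 : WA ρ G1 a (T.S.s j)) : Opp p ρ G1 θ a := by
  obtain ⟨w, hw, rfl⟩ := exists_Wf_top M g h ((T.π_simple j).trans (congrArg _ h1)) h2
  refine (opp_of_neg M ha h3 (J := {j}) (C.pos_simple j) (C.inSub_simple.2 rfl) (fun u hu t => ?_)
    (by simp [s_single h1])).move M hw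
  obtain ⟨t', rfl⟩ := ρ.mem_X.1 (UL_single ρ j ▸ hu)
  exact ρ.x_comm_self _ _ _

/-- the node of type `²A₂` -/
theorem opp_su3 (M : LT p T G1 ω) (g : Gr T φ c) (h : C.Top θ) (hl : C.SameLen) (ha : a ∈ G1)
    (h1 : T.p (T.p j) = j) (h2 : C.car j (T.p j) = -1) (h3 : WA ρ G1 a (T.S.s j)) : Opp p ρ G1 θ a := by
  have h4 : C.car (T.p j) j = -1 := by rw [← h2, ← g.car j, h1, ← g.car, h1]
  have h5 : j ≠ T.p j := fun e => by rw [← e, C.car_self] at h2; omega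
  set δ := C.sref j (C.simple (T.p j))
  have hδ : C.vec δ = C.vec (C.simple j) + C.vec (C.simple (T.p j)) := by
    rw [C.vec_sref, C.A_simple_simple, h2]; simp [add_comm]
  have hp : C.Pos δ := (C.pos_simple _).sref (C.simple_injective.ne h5.symm)
  have hJ : C.InSub (T.S.orb j) δ := (C.inSub_WJ (C.sref_mem_WJ (T.S.mem_orb_self j)) _).2
    (C.inSub_simple.2 (((T.S.stab_orb j) j).2 (T.S.mem_orb_self j)))
  have hA : ∀ r, C.InSub (T.S.orb j) r → C.A r δ = C.vec r j + C.vec r (T.p j) := fun r hr => by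
    have e : ∀ k, C.sp k (C.vec r) = C.car k j * C.vec r j + C.car k (T.p j) * C.vec r (T.p j) := fun k => by
      rw [C.sp_apply]
      exact Fintype.sum_eq_add _ _ h5 fun l hl => by rw [hr l (by rw [orb_pair h1]; simpa using hl), mul_zero]
    rw [RootSys.A_add hδ, RootSys.A_symm_of_len (hl r _), RootSys.A_symm_of_len (hl r _), C.A_simple,
      C.A_simple, e, e, C.car_self, C.car_self, h2, h4]
    ring
  have hA' : ∀ r, C.Pos r → C.InSub (T.S.orb j) r → 0 < C.A r δ := fun r hr hr' => by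
    obtain ⟨k, hk, -⟩ := hr.exists_simple_pos
    have := hr'.mem hk.ne'
    have h6 : 0 ≤ C.vec r j := hr j
    have h7 : 0 ≤ C.vec r (T.p j) := hr _
    rw [orb_pair h1] at this
    rw [hA r hr']
    rcases this with rfl | rfl <;> omega
  have hπ : T.π δ = δ := C.vec_inj (by
    rw [RootSys.vec_aut (g.aut M.conn), hδ, map_add, ← RootSys.vec_aut (g.aut M.conn),
      ← RootSys.vec_aut (g.aut M.conn), T.π_simple, T.π_simple, h1, add_comm])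
  obtain ⟨w, hw, rfl⟩ := exists_Wf_top M g h hπ (hl _ _)
  refine (opp_of_neg M ha h3 hp hJ (fun u hu t => ?_) ?_).move M hw
  · refine (Subgroup.mem_centralizer_singleton_iff.1 ((ρ.U_le_iff.2 fun r hr t' => ?_ :
      ρ.UL _ ≤ Subgroup.centralizer {ρ.x δ t}) hu))
    exact Subgroup.mem_centralizer_singleton_iff.2 (ρ.commute_of_none (hr.1.ne_neg hp)
      (hl.n3.not_add (hA' r hr.1 hr.2)) t' t)
  · have h6 : C.Pos (C.neg (T.S.s j δ)) := (C.pos_neg_iff _).2 fun h => (pos_lg_iff hp).1 h hJ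
    have h7 : C.InSub (T.S.orb j) (C.neg (T.S.s j δ)) := C.inSub_neg.2 (inSub_lg.2 hJ)
    have h8 := g.vec_π (C.neg (T.S.s j δ)) j
    rw [T.π_neg, show T.π (T.S.s j δ) = T.S.s j δ from
      (Sym.apply_π (T.S.s_mem_Wf j) δ).symm.trans (congrArg _ hπ)] at h8
    rw [C.eq_neg_comm]
    by_contra e
    have := (RootSys.abs_A_le_of_len (hl _ _) e (h6.ne_neg hp)).2
    have := hA' _ h6 h7
    have := hA _ h7
    omega

end CF.Ah
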