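import Cfsg.Agent.Ah.B

/-! Products of conjugacy classes in groups of Lie type: tools for graph twists of order two. -/

set_option autoImplicit false
set_option linter.unusedSectionVars false
set_option linter.style.haveILetI false

namespace CF.Ah.UN

open CF.BN CF.Chev CF.Loc Cfsg Cfsg.Lie

section
variable {B ι : Type} [Fintype B] [DecidableEq B] [Fintype ι] [DecidableEq ι] {R : RootSys B ι} {I D : Set B}
  {w : Equiv.Perm ι} {r : ι}

theorem inSub_of_orth (h : ∀ k ∈ D, k ∉ I → ∀ l ∈ I, R.car k l = 0) (hw : w ∈ R.WJ D) (hr : R.InSub I r) :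
    R.InSub I (w r) := by
  obtain ⟨l, hl, rfl⟩ := R.mem_WJ_iff.1 hw
  clear hw
  induction l with
  | nil => exact hr
  | cons k l ih =>
    have a := ih fun i hi => hl i (List.mem_cons_of_mem _ hi)
    rw [R.wp_cons, Equiv.Perm.mul_apply]
    by_cases e : k ∈ I
    · exact (R.inSub_WJ (R.sref_mem_WJ e) _).2 a
    · rwa [← R.refl_simple, R.refl_of_A_eq_zero]
      rw [R.A_simple, R.sp_apply]
      refine Finset.sum_eq_zero fun l _ => ?_
      by_cases c : l ∈ I
      · rw [h k (hl k List.mem_cons_self) e l c, zero_mul]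
      · rw [a l c, mul_zero]

/-- simple reflections in coordinates -/
def act {l : ℕ} (m : Fin l → Fin l → ℤ) (s : Fin l) (c : Fin l → ℤ) : Fin l → ℤ :=
  c - (∑ u, c u * m s u) • Pi.single s 1

theorem vec_wp {l : ℕ} {e : Fin l → B} {m : Fin l → Fin l → ℤ} (h : ∀ s t, R.car (e s) (e t) = m s t) (L : List (Fin l))
    (s : Fin l) : R.vec (R.wp (L.map e) (R.simple (e s))) =
      ∑ t, L.foldr (act m) (Pi.single s 1) t • R.vec (R.simple (e t)) := by
  induction L with
  | nil => simp [Pi.single_apply]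
  | cons k L ih =>
    rw [List.map_cons, R.wp_cons, Equiv.Perm.mul_apply, R.vec_sref', ih, R.reflL_apply, map_sum]
    simp only [map_smul, ← R.A_def, R.A_simple_simple, h]
    simp [act, sub_smul, Pi.single_apply]

theorem lgA {l : ℕ} (hl : l = 2 ∨ l = 3 ∨ l = 4) {e : Fin l → B} (h : ∀ s t, R.car (e s) (e t) = (cbA l).car s t)
    (s : Fin l) : lg R (Set.range e) (R.simple (e s)) = R.neg (R.simple (e s.rev)) := by
  simp only [cbA_car] at h
  obtain ⟨L, q⟩ : ∃ L : List (Fin l), ∀ s, L.foldr (act fun i j : Fin l => if i = j then 2 else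
      if i.val = j + 1 ∨ j.val = i + 1 then -1 else 0) (Pi.single s 1) = -Pi.single s.rev 1 := by
    rcases hl with rfl | rfl | rfl
    exacts [⟨[0, 1, 0], by decide⟩, ⟨[0, 2, 1, 0, 2, 1], by decide⟩, ⟨[0, 1, 0, 2, 1, 0, 3, 2, 1, 0], by decide⟩]
  have k : ∀ s, R.wp (L.map e) (R.simple (e s)) = R.neg (R.simple (e s.rev)) := fun s => R.eq_neg_of_vec (by
    rw [vec_wp h, q]; simp [Pi.single_apply])
  rw [← eq_lg (R.wp_mem_WJ (l := L.map e) (by simp)) (by
    rintro _ ⟨s, rfl⟩; rw [k]; exact R.not_pos_neg_simple _), k]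

end

section
variable {K : Type*} [Field K] [Finite K] {φ : K →+* K}

theorem cast_card (φ : K →+* K) : (Nat.card {t : K // φ t = t} : K) = 0 := by
  haveI := Fintype.ofFinite (φ.eqLocusField (.id K))
  have := congrArg (φ.eqLocusField (.id K)).subtype (FiniteField.cast_card_eq_zero _)
  rwa [map_natCast, map_zero, ← Nat.card_eq_fintype_card] at this

theorem fix_two (h : Nat.card {t : K // φ t = t} = 2) {t : K} (e : φ t = t) : t = 0 ∨ t = 1 := by
  obtain ⟨y, -, hy⟩ := (Nat.card_eq_two_iff' (⟨0, map_zero φ⟩ : {t : K // φ t = t})).1 h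
  refine or_iff_not_imp_left.2 fun c => ?_
  exact congrArg Subtype.val ((hy ⟨t, e⟩ (by simpa)).trans (hy ⟨1, map_one φ⟩ (by simp)).symm)

theorem card_four (h2 : ∀ t, φ (φ t) = t) (h1 : φ ≠ 1) (h : Nat.card {t : K // φ t = t} = 2) : Nat.card K = 4 := by
  classical
  have q : (2 : K) = 0 := by simpa [h] using cast_card φ
  have k : ∀ t, φ t ≠ t → φ t = t + 1 ∧ t * (t + 1) = 1 := fun t n => by
    have a : φ t = t + 1 := by
      rcases fix_two h (t := t + φ t) (by simp [h2, add_comm]) with e | e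
      · exact absurd (by linear_combination e - t * q) n
      · linear_combination e - t * q
    refine ⟨a, a ▸ (fix_two h (t := t * φ t) (by simp [h2, mul_comm])).resolve_left fun e => n ?_⟩
    rcases mul_eq_zero.1 e with e | e
    · rw [e, map_zero]
    · rw [← h2 t, e, map_zero, map_zero]
  obtain ⟨w, hw⟩ : ∃ w, φ w ≠ w := by by_contra! c; exact h1 (RingHom.ext c)
  have w0 : w ≠ 0 := fun e => hw (by rw [e, map_zero])
  have w1 : w ≠ 1 := fun e => hw (by rw [e, map_one])
  have : (Set.univ : Set K) = ({0, 1, w, w + 1} : Finset K) := (Set.eq_univ_of_forall fun t => by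
    by_cases n : φ t = t
    · rcases fix_two h n with rfl | rfl <;> simp
    · have : (t - w) * (t - (w + 1)) = 0 := by linear_combination (k t n).2 + (k w hw).2 + (1 - t * w - t) * q
      rcases mul_eq_zero.1 this with e | e <;> simp [sub_eq_zero.1 e]).symm
  rw [← Set.ncard_univ, this, Set.ncard_coe_finset, Finset.card_insert_of_notMem, Finset.card_insert_of_notMem,
    Finset.card_pair (by simp)]
  · simp [w0, w1.symm]
  · simp only [Finset.mem_insert, Finset.mem_singleton, not_or]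
    exact ⟨zero_ne_one, w0.symm, fun e => w1 (by linear_combination -e - q)⟩

end

variable {B ι : Type} [Fintype B] [DecidableEq B] [Fintype ι] [DecidableEq ι]
  {C : ChevBasis B ι} {K : Type*} [Field K] {G : Type*} [Group G] {ρ : StRep C K G}
  {T : Tw ρ} {φ : K →+* K} {c : Kˣ} {w : Equiv.Perm ι} {i : B}

theorem gr_of (h1 : ∀ r, T.φ r = φ) (h2 : ∀ i, T.c (C.simple i) = c) (h3 : c * c = 1)
    (h4 : ∀ i j, C.car (T.p i) (T.p j) = C.car i j) (h5 : ∀ t, φ (φ t) = t) (h6 : φ ≠ 1) (h7 : ∀ i, T.p (T.p i) = i)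
    (h8 : T.p ≠ 1) : Gr T φ c := by
  have a : φ ^ 2 = 1 := RingHom.ext h5
  have b : T.p ^ 2 = 1 := Equiv.ext h7
  refine ⟨h1, h2, h3, h4, fun k e => ?_, fun i n k e => ?_, fun e => absurd e h8⟩
  · obtain ⟨k, rfl⟩ := orderOf_eq_prime a h6 ▸ orderOf_dvd_of_pow_eq_one e
    simp [pow_mul, b, sq c, h3]
  · obtain ⟨k, rfl | rfl⟩ := Nat.even_or_odd' k
    · simp [pow_mul, a]
    · exact absurd (by simpa [pow_succ, pow_mul, b] using e) n

theorem neg_cases (h : Neg T w i) (h7 : ∀ i, T.p (T.p i) = i) (h0 : T.p i ≠ i → C.car i (T.p i) = 0) :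
    w (C.simple i) = C.neg (C.simple i) ∨ w (C.simple i) = C.neg (C.simple (T.p i)) := by
  obtain ⟨j, hj, e⟩ := RootSys.eq_simple_of_orth (R := C.toRootSys) (J := T.S.orb i) (r := C.neg (w (C.simple i)))
    (fun j hj k hk n => by
      rcases (mem_orb_of_invol h7).1 hj with rfl | rfl <;> rcases (mem_orb_of_invol h7).1 hk with rfl | rfl
      exacts [absurd rfl n, h0 n.symm, by
        rw [← C.A_simple_simple, C.A_eq_zero_iff, C.A_simple_simple]; exact h0 n, absurd rfl n])
    ((C.pos_neg_iff _).2 h.2) (C.inSub_neg.2 h.1)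
  rw [C.neg_eq_iff] at e
  rcases (mem_orb_of_invol h7).1 hj with rfl | rfl
  exacts [.inl e, .inr e]

end CF.Ah.UN
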