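import Cfsg.Agent.Ah.UM

/-! The cells met by one class and the inverse of another one. -/

set_option autoImplicit false
set_option linter.unusedSectionVars false

namespace CF.Ah

open CF.BN CF.Chev CF.Loc Cfsg

variable {B ι : Type} [Fintype B] [DecidableEq B] [Fintype ι] [DecidableEq ι]
  {C : ChevBasis B ι} {K : Type*} [Field K] {G : Type*} [Group G] {ρ : StRep C K G}
  {T : Tw ρ} {G1 P : Subgroup G} {ω : ι → ℝ} {p : ℕ} [Fact p.Prime] {J : Set B} {a b x y z u n m g : G}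
  {w w' v v' : Equiv.Perm ι} {i : B} {θ r : ι}

theorem Om.symm (h : Om ρ G1 a b w) : Om ρ G1 b a w⁻¹ := ⟨h.2, h.1⟩

namespace UO

theorem St.symm (S : St p T G1 ω a b) : St p T G1 ω b a := ⟨S.lt, S.center, S.mb, S.ma, S.nb, S.na⟩

theorem ss (i : B) : T.S.s i * T.S.s i = 1 := lg_mul_self _

theorem sws_inv (w : Equiv.Perm ι) (i : B) : (T.S.s i * w * T.S.s i)⁻¹ = T.S.s i * w⁻¹ * T.S.s i := by
  simp only [mul_inv_rev, lg_inv, mul_assoc]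

theorem comm (hw : w ∈ T.S.Wf) (h : C.InSub (T.S.orb i) (w (C.simple i))) : T.S.s i * w * T.S.s i = w := by
  have key : ∀ w ∈ T.S.Wf, C.InSub (T.S.orb i) (w (C.simple i)) → C.Pos (w (C.simple i)) →
      T.S.s i * w * T.S.s i = w := fun w hw h h' => inv_injective (by
    rw [sws_inv, Sym.s_mul_eq (inv_mem hw) h' ((pos_lg_of_inSub h).not.2 (not_not.2 h')), mul_assoc, ss, mul_one])
  by_cases h' : C.Pos (w (C.simple i))
  · exact key w hw h h'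
  exact mul_left_cancel (a := T.S.s i) (by
    simpa only [mul_assoc] using key _ (mul_mem (Sym.s_mem_Wf i) hw) (inSub_lg.2 h) ((pos_lg_of_inSub h).2 h'))

theorem comm' (hw : w ∈ T.S.Wf) (h : C.InSub (T.S.orb i) (w⁻¹ (C.simple i))) : T.S.s i * w * T.S.s i = w :=
  inv_injective ((sws_inv w i).trans (comm (inv_mem hw) h))

theorem len_lt (hw : w ∈ T.S.Wf) (c : ¬ C.Pos (w (C.simple i))) : C.length (w * T.S.s i) < C.length w := by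
  have := Sym.length_mul_s (mul_mem hw (Sym.s_mem_Wf i)) ((Sym.pos_mul_s_iff hw i).2 c)
  rw [mul_assoc, ss, mul_one] at this
  have : 0 < C.length (T.S.s i) := length_lg_pos (T.S.mem_orb_self i)
  omega

theorem sg (hw : w ∈ T.S.Wf) (hr : C.Pos r) (h : C.InSub (T.S.orb i) r) : C.Pos (w r) ↔ C.Pos (w (C.simple i)) :=
  ⟨fun e => by_contra fun c => Sym.neg_of_orb hw c hr h e, fun e => Sym.pos_of_orb hw e hr h⟩

theorem out (hw : w ∈ T.S.Wf) (h : ¬ C.InSub (T.S.orb i) (w (C.simple i))) (hr : C.Pos r)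
    (h' : C.InSub (T.S.orb i) r) : ¬ C.InSub (T.S.orb i) (w r) := fun c => by
  have := sg (mul_mem (Sym.s_mem_Wf i) hw) hr h'
  rw [Equiv.Perm.mul_apply, Equiv.Perm.mul_apply, pos_lg_of_inSub c, pos_lg_of_not_inSub h, sg hw hr h'] at this
  tauto

theorem om_of (hx : Cj G1 a x) (hy : Cj G1 b y) (h : x * y ∈ ρ.Bo) (c : x ∈ ρ.Cell w) : Om ρ G1 a b w :=
  ⟨⟨x, hx, c⟩, y, hy, by simpa using StRep.cell_mul_right (StRep.cell_inv c) h⟩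

theorem not_Bo (hm : ρ.NW m (T.S.s i)) : m ∉ ρ.Bo := fun c =>
  lg_ne_one (T.S.mem_orb_self i) (hm.eq_one_of_mem_Bo T.faith c)

theorem Up_PJ (hu : u ∈ ρ.Up) (J : Set B) : u ∈ ρ.PJ J := ρ.Bo_le_PJ J (ρ.Up_le_Bo hu)

variable (M : LT p T G1 ω)
include M

theorem wf (ha : a ∈ G1) (h : WA ρ G1 a w) : w ∈ T.S.Wf :=
  let ⟨_, hx, c⟩ := h
  Tw.mem_Wf_of_cell (M.form.fix (hx.mem ha)) c

theorem syl (h1 : ρ.Up ⊓ G1 ≤ P) (h2 : P ≤ G1) (hg : g ∈ P) (h : PE p g) : ∃ k ∈ P, k * g * k⁻¹ ∈ ρ.Up := by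
  have := M.finite
  obtain ⟨_, h⟩ := h
  obtain ⟨k, hk, e⟩ := (M.isSyl.mono h1 h2).exists_cj_le (isPGroup_zpowers h) (Subgroup.zpowers_le.2 hg)
  exact ⟨k, hk, (e (conj_mem_cj k (Subgroup.mem_zpowers g))).1⟩

theorem mem_Up (hg : g ∈ ρ.Bo ⊓ G1) (h : PE p g) : g ∈ ρ.Up := by
  obtain ⟨k, hk, e⟩ := syl M (inf_le_inf_right _ ρ.Up_le_Bo) inf_le_right hg h
  simpa [mul_assoc] using StRep.Bo_conj_mem_Up (inv_mem (il hk)) e

theorem form (ha : a ∈ G1) (h : WA ρ G1 a w) : ∃ u ∈ ρ.Up ⊓ G1, ∃ n ∈ G1, ρ.NW n w ∧ Cj G1 a (u * n) := by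
  obtain ⟨x, hx, c⟩ := h
  obtain ⟨u, hu, n, hn, hw, u', hu', rfl⟩ := M.form.bruhat (hx.mem ha) c
  have := M.form.Uw_le (Tw.mem_Wf_of_cell (M.form.fix (hx.mem ha)) c) hu'
  exact ⟨u' * u, mul_mem (im (ρ.Uw_le_Up w hu'.1) this) (M.form.Up_inf ▸ hu), n, hn, hw,
    by simpa [mul_assoc] using hx.conj this⟩

theorem key (hU : PU p G1 a b) (h1 : ρ.Up ⊓ G1 ≤ P) (h2 : P ≤ G1) (ha : a ∈ G1) (hx : Cj G1 a x) (hy : Cj G1 b y)
    (h : x * y ∈ P) : ∃ k ∈ P, ∃ w, k * x * k⁻¹ ∈ ρ.Cell w ∧ Om ρ G1 a b w := by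
  obtain ⟨k, hk, e⟩ := syl M h1 h2 h (hU x y hx hy)
  obtain ⟨w, -, c⟩ := M.form.exists_cell ((hx.conj (h2 hk)).mem ha)
  exact ⟨k, hk, w, c, om_of (hx.conj (h2 hk)) (hy.conj (h2 hk)) (by simpa [mul_assoc] using ρ.Up_le_Bo e) c⟩

/-- The rank one counting argument. -/
theorem ro (hz : z ∈ ρ.PJ (T.S.orb i) ⊓ G1) (h : ∀ r ∈ blk T i, ∃ q ∈ ρ.UJ (T.S.orb i) ⊓ G1,
    ∃ q' ∈ ρ.UJ (T.S.orb i) ⊓ G1, PE p (r * q * z * q')) : z ∈ ρ.Bo := by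
  by_contra hb
  have := M.finite
  obtain ⟨m, m1, hm⟩ := M.form.exists_n_s i
  have bB : ∀ t : blk T i, t.1 ∈ ρ.Bo := fun t => ρ.Up_le_Bo (ρ.U_mono (fun _ h => h.1) t.2.1)
  have qB := (ρ.UJ_le_Up (T.S.orb i)).trans ρ.Up_le_Bo
  have k : ∀ r : blk T i, ∃ t : blk T i, (t * m)⁻¹ * (r * z) * (t * m) ∈ ρ.Bo := fun r => by
    obtain ⟨q, hq, q', hq', e⟩ := h r r.2
    have l := inf_le_inf_right G1 (ρ.UJ_le_PJ (T.S.orb i))
    obtain ⟨k, hk, e⟩ := syl M (inf_le_inf_right _ fun _ h => Up_PJ h _) inf_le_right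
      (mul_mem (mul_mem (mul_mem (im (ρ.Bo_le_PJ _ (bB r)) (M.form.pos i r.2)) (l hq)) hz) (l hq')) e
    have e' : k * (r * z) * k⁻¹ ∈ ρ.Bo := by
      simpa [mul_assoc] using mul_mem (mul_mem (inv_mem (qB (StRep.PJ_conj_mem_UJ
        (mul_mem (il hk) (ρ.Bo_le_PJ _ (bB r))) (il hq)))) (ρ.Up_le_Bo e)) (inv_mem (qB (StRep.PJ_conj_mem_UJ (il hk) (il hq'))))
    obtain ⟨t, ht, c, hc, e⟩ := exists_of_mem_PJ M.form m1 hm (inv_mem (ir hk)) (inv_mem (il hk)) fun c => hb (by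
      simpa [mul_assoc] using mul_mem (inv_mem (bB r)) (mul_mem (mul_mem c e') (inv_mem c)))
    obtain rfl := inv_eq_iff_eq_inv.1 e
    exact ⟨⟨t, ht⟩, by simpa [mul_assoc] using mul_mem (mul_mem (il hc) e') (inv_mem (il hc))⟩
  choose f hf using k
  have inj : Function.Injective f := fun r r' e => by
    by_contra c
    have := mem_Bo_of_conj_blk M.form (mul_mem (M.form.pos i (f r).2) m1)
      (mul_mem (ρ.Bo_le_PJ _ (bB _)) (hm.mem_PJ (lg_mem _))) (r * r'⁻¹).2.1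
      (fun q => c (mul_inv_eq_one.1 (Subtype.ext q))) (by simpa [mul_assoc, e] using mul_mem (hf r) (inv_mem (hf r')))
    exact not_Bo hm ((mul_mem_cancel_left (bB _)).1 this)
  obtain ⟨t, ht, c, hc, e⟩ := exists_of_mem_PJ M.form m1 hm (inv_mem (ir hz)) (inv_mem (il hz)) (by simpa using hb)
  obtain ⟨r, hr⟩ := Finite.surjective_of_injective inj ⟨t, ht⟩
  obtain rfl := inv_eq_iff_eq_inv.1 e
  have := hf r
  rw [hr] at this
  exact not_Bo hm (by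
    simpa [mul_assoc] using mul_mem (inv_mem (mul_mem (inv_mem (bB r)) (bB ⟨t, ht⟩))) (inv_mem (mul_mem this (il hc))))

theorem c1 (hw : w ∈ T.S.Wf) (hn : ρ.NW n w) (h : C.Pos (w (C.simple i))) (hg : g ∈ ρ.PJ (T.S.orb i) ⊓ G1)
    (h0 : g ∉ ρ.Bo) : n * g ∈ ρ.Cell (w * T.S.s i) := by
  obtain ⟨m, m1, hm⟩ := M.form.exists_n_s i
  obtain ⟨t, ht, c, hc, rfl⟩ := exists_of_mem_PJ M.form m1 hm (ir hg) (il hg) h0
  exact ⟨_, ρ.Up_le_Bo (hn.acts.conj_mem_U (fun r hr => Sym.pos_of_orb hw h hr.1 hr.2) (il ht)), _, hn.mul hm, c, il hc,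
    by group⟩

theorem c2 (hw : w ∈ T.S.Wf) (hn : ρ.NW n w) (hu : u ∈ ρ.Up ⊓ G1) (m1 : m ∈ G1) (hm : ρ.NW m (T.S.s i)) :
    n * (u * m) ∈ ρ.Cell (w * T.S.s i) ∨ ¬ C.Pos (w (C.simple i)) ∧ n * (u * m) ∈ ρ.Cell w := by
  have l := im (hm.mem_PJ (lg_mem _)) m1
  have l' := mul_mem (im (Up_PJ (il hu) _) (ir hu)) l
  by_cases h : C.Pos (w (C.simple i))
  · exact .inl (c1 M hw hn h l' fun c => not_Bo hm ((mul_mem_cancel_left (ρ.Up_le_Bo (il hu))).1 c))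
  by_cases h' : m⁻¹ * (u * m) ∈ ρ.Bo
  · exact .inl (by simpa [mul_assoc] using StRep.cell_mul_right (hn.mul hm).mem_cell h')
  · exact .inr ⟨h, by simpa [mul_assoc, ss] using (c1 M (mul_mem hw (Sym.s_mem_Wf i)) (hn.mul hm)
      ((Sym.pos_mul_s_iff hw i).2 h) (mul_mem (inv_mem l) l') h')⟩

theorem asc (ha : a ∈ G1) (h : WA ρ G1 a w) (h1 : C.Pos (w (C.simple i)))
    (h2 : ¬ C.InSub (T.S.orb i) (w (C.simple i))) : WA ρ G1 a (T.S.s i * w * T.S.s i) := by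
  obtain ⟨u, hu, n, -, hn, c⟩ := form M ha h
  obtain ⟨m, m1, hm⟩ := M.form.exists_n_s i
  refine ⟨_, c.conj (inv_mem (mul_mem (ir hu) m1)), ?_⟩
  simpa [mul_assoc] using (c2 M (mul_mem (Sym.s_mem_Wf i) (wf M ha h)) ((nW_s_inv hm).mul hn) hu m1 hm).resolve_right
    fun c => c.1 ((pos_lg_of_not_inSub h2).2 h1)

theorem kk (hU : PU p G1 a b) (hw : w ∈ T.S.Wf) (hu : u ∈ ρ.Up ⊓ G1) (n1 : n ∈ G1) (hn : ρ.NW n w)
    (hz : z ∈ ρ.Up ⊓ G1) (hx : Cj G1 a (u * n)) (hy : Cj G1 b ((u * n)⁻¹ * z)) (m1 : m ∈ G1) (hm : ρ.NW m (T.S.s i))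
    (h1 : ¬ C.Pos (w⁻¹ (C.simple i))) (h2 : ¬ C.InSub (T.S.orb i) (w⁻¹ (C.simple i))) (hg : g ∈ ρ.Up ⊓ G1)
    (hg' : n * g * n⁻¹ ∈ ρ.UJ (T.S.orb i)) : (u * m)⁻¹ * (z * g⁻¹) * (u * m) ∈ ρ.Bo := by
  have mP := hm.mem_PJ (lg_mem _)
  have l := mul_mem (im (Up_PJ (il hu) _) (ir hu)) (im mP m1)
  have l' := mul_mem hz (inv_mem hg)
  refine ro M (mul_mem (mul_mem (inv_mem l) (im (Up_PJ (il l') _) (ir l'))) l) fun r hr => ?_
  have r1 := mul_mem (mul_mem (mul_mem (inv_mem n1) m1) (M.form.pos i hr)) (inv_mem (mul_mem (inv_mem n1) m1))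
  have r2 : n⁻¹ * m * r * (n⁻¹ * m)⁻¹ ∈ ρ.UJ (T.S.orb i) := (hn.inv.mul hm).acts.conj_mem_U (fun r hr => And.intro
    (Sym.pos_of_orb (mul_mem (inv_mem hw) (Sym.s_mem_Wf i)) ((Sym.pos_mul_s_iff (inv_mem hw) i).2 h1) hr.1 hr.2) (by
      have := out (inv_mem hw) h2 ((C.pos_neg_iff _).2 ((pos_lg_of_inSub hr.2).not.2 (not_not.2 hr.1)))
        (C.inSub_neg.2 (inSub_lg.2 hr.2))
      rwa [RootSys.neg_aut (Sym.mem_Aut (inv_mem hw)), C.inSub_neg] at this)) (il hr)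
  refine ⟨_, im (StRep.PJ_conj_mem_UJ (inv_mem mP) hg') (mul_mem (mul_mem (inv_mem m1) (mul_mem (mul_mem n1 (ir hg))
    (inv_mem n1))) (inv_mem (inv_mem m1))), _, im (StRep.PJ_conj_mem_UJ (inv_mem (il l)) (inv_mem r2))
    (mul_mem (mul_mem (inv_mem (ir l)) (inv_mem r1)) (inv_mem (inv_mem (ir l)))), ?_⟩
  convert (hU _ _ hx (hy.conj (mul_mem r1 (ir hg)))).conj (u * m)⁻¹ using 1
  group

end UO

open UO

theorem exists_om (S : St p T G1 ω a b) (hU : PU p G1 a b) : ∃ w, Om ρ G1 a b w :=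
  let ⟨_, _, w, _, h⟩ := key S.lt hU inf_le_right le_rfl S.ma (.refl _ a) (.refl _ b) (mul_mem S.ma S.mb)
  ⟨w, h⟩

theorem Om.form (S : St p T G1 ω a b) (hU : PU p G1 a b) (h : Om ρ G1 a b w) :
    ∃ u ∈ ρ.Up ⊓ G1, ∃ n ∈ G1, ρ.NW n w ∧ ∃ z ∈ ρ.Up ⊓ G1, Cj G1 a (u * n) ∧ Cj G1 b ((u * n)⁻¹ * z) := by
  obtain ⟨u, hu, n, n1, hn, hx⟩ := UO.form S.lt S.ma h.1
  obtain ⟨y, hy, c⟩ := h.2
  obtain ⟨d, hd, t, ht, e⟩ := S.lt.form.sharp (inv_mem (hy.mem S.mb)) n1 hn (StRep.cell_inv c)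
  obtain rfl := inv_eq_iff_eq_inv.1 e
  have t1 := S.lt.form.Uw_le (wf S.lt S.ma h.1) ht
  have hy' : Cj G1 b ((u * n)⁻¹ * (u * d⁻¹ * t⁻¹)) := by simpa [mul_assoc] using hy.conj t1
  have hz := mul_mem (mul_mem (im (ρ.Up_le_Bo (il hu)) (ir hu)) (inv_mem hd))
    (inv_mem (im (ρ.Up_le_Bo (ρ.Uw_le_Up w (il ht))) t1))
  exact ⟨u, hu, n, n1, hn, _, im (mem_Up S.lt hz (by simpa [mul_assoc] using hU _ _ hx hy')) (ir hz), hx, hy'⟩

theorem Om.kw (S : St p T G1 ω a b) (hU : PU p G1 a b) (h : Om ρ G1 a b w) : Kw ρ G1 w := fun n' _ hn' k hk => by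
  obtain ⟨u, hu, n, n1, hn, z, hz, hx, hy⟩ := h.form S hU
  have k1 := hn.acts.conj_mem_H (il hk)
  have k2 := StRep.Bo_conj_mem_Up (ρ.H_le_Bo k1) (il (mul_mem (inv_mem hu) hz))
  have k3 := mul_mem k1 (inv_mem (il hk))
  have e : u * n * (k * ((u * n)⁻¹ * z) * k⁻¹) =
      u * (n * k * n⁻¹ * (u⁻¹ * z) * (n * k * n⁻¹)⁻¹) * (n * k * n⁻¹ * k⁻¹) := by group
  have k4 := mem_Up S.lt (im (e ▸ mul_mem (ρ.Up_le_Bo (mul_mem (il hu) k2)) (ρ.H_le_Bo k3))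
    (mul_mem (hx.mem S.ma) ((hy.conj (ir hk)).mem S.mb))) (hU _ _ hx (hy.conj (ir hk)))
  rw [e, mul_mem_cancel_left (mul_mem (il hu) k2)] at k4
  have k5 : Commute n k := commutatorElement_eq_one_iff_commute.1 ((StRep.Up_inf_H T.faith).le (im k4 k3))
  simpa using k5.mul_left (S.lt.r3.commute_H (hn.inv_mul_mem_H hn') (il hk))

theorem UO.os (S : St p T G1 ω a b) (hU : PU p G1 a b) (h : Om ρ G1 a b w) (h1 : ¬ C.Pos (w⁻¹ (C.simple i))) :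
    ¬ C.Pos (w (C.simple i)) := fun h2 => by
  obtain ⟨u, hu, n, n1, hn, z, hz, hx, hy⟩ := h.form S hU
  obtain ⟨m, m1, hm⟩ := S.lt.form.exists_n_s i
  obtain ⟨g, hg, g1⟩ := exists_block_ne_one S.lt.form i
  have hw := wf S.lt S.ma h.1
  have h3 : ¬ C.InSub (T.S.orb i) (w⁻¹ (C.simple i)) := fun c => by
    have := Sym.pos_of_orb hw h2 ((C.pos_neg_iff _).2 h1) (C.inSub_neg.2 c)
    rw [RootSys.neg_aut (Sym.mem_Aut hw), C.pos_neg_iff] at this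
    exact this (by simpa using C.pos_simple i)
  have k := fun g => kk S.lt hU hw hu n1 hn hz hx hy m1 hm h1 h3 (g := g)
  have := mem_Bo_of_conj_blk S.lt.form (mul_mem (ir hu) m1) (mul_mem (Up_PJ (il hu) _) (hm.mem_PJ (lg_mem _))) (il hg) g1
    (by simpa [mul_assoc] using mul_mem (inv_mem (k g (im (ρ.U_mono (fun _ h => h.1) (il hg)) (ir hg))
      (hn.acts.conj_mem_U (fun r hr => And.intro (Sym.pos_of_orb hw h2 hr.1 hr.2) fun c => Sym.neg_of_orb (inv_mem hw) h1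
        (Sym.pos_of_orb hw h2 hr.1 hr.2) c (by simpa using hr.1)) (il hg)))) (k 1 (one_mem _) (by simp)))
  exact not_Bo hm ((mul_mem_cancel_left (ρ.Up_le_Bo (il hu))).1 this)

/-- Left and right descents agree. -/
theorem Om.pos_iff (S : St p T G1 ω a b) (hU : PU p G1 a b) (h : Om ρ G1 a b w) :
    C.Pos (w⁻¹ (C.simple i)) ↔ C.Pos (w (C.simple i)) :=
  not_iff_not.1 ⟨os S hU h, os (St.symm S) hU.symm h.symm⟩

theorem UO.conj_s (S : St p T G1 ω a b) (hU : PU p G1 a b) (h : Om ρ G1 a b w) (i : B) :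
    Om ρ G1 a b (T.S.s i * w * T.S.s i) := by
  by_cases e : T.S.s i * w * T.S.s i = w
  · rwa [e]
  have hw := wf S.lt S.ma h.1
  have h1 := mt (comm hw) e
  have h2 := mt (comm' (i := i) hw) e
  by_cases h3 : C.Pos (w (C.simple i))
  · exact ⟨asc S.lt S.ma h.1 h3 h1, sws_inv (T := T) w i ▸ asc S.lt S.mb h.2 ((h.pos_iff S hU).2 h3) h2⟩
  obtain ⟨u, hu, n, n1, hn, z, hz, hx, hy⟩ := h.form S hU
  obtain ⟨m, m1, hm⟩ := S.lt.form.exists_n_s i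
  have h4 := mt (h.pos_iff S hU).1 h3
  have k := kk S.lt hU hw hu n1 hn hz hx hy m1 hm h4 h2 (one_mem _) (by simp)
  have l := inv_mem (mul_mem (ir hu) m1)
  have o : ∀ v, m⁻¹ * n * (u * m) ∈ ρ.Cell v → Om ρ G1 a b v := fun v c =>
    om_of (hx.conj l) (hy.conj l) (by simpa [mul_assoc] using k) (by simpa [mul_assoc] using c)
  rcases c2 S.lt (mul_mem (Sym.s_mem_Wf i) hw) ((nW_s_inv hm).mul hn) hu m1 hm with c | ⟨c, c'⟩
  · exact o _ c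
  · exact absurd (((o _ c').pos_iff S hU).1 (by
      rw [mul_inv_rev, lg_inv]; exact (Sym.pos_mul_s_iff (inv_mem hw) i).2 h4)) c

theorem Om.conj (S : St p T G1 ω a b) (hU : PU p G1 a b) (h : Om ρ G1 a b w) (hv : v ∈ T.S.Wf) :
    Om ρ G1 a b (v * w * v⁻¹) :=
  Sym.Wf_induction (q := fun v => ∀ w, Om ρ G1 a b w → Om ρ G1 a b (v * w * v⁻¹)) (fun w h => by simpa using h)
    (fun v _ i _ ih w h => by simpa only [mul_inv_rev, lg_inv, mul_assoc] using ih _ (conj_s S hU h i)) hv w h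

theorem Om.min (S : St p T G1 ω a b) (hU : PU p G1 a b) (h : Om ρ G1 a b w) (h1 : w ≠ 1) :
    ∃ D, T.S.Stab D ∧ D.Nonempty ∧ Om ρ G1 a b (lg C.toRootSys D) ∧
      ∀ i ∈ D, Neg T (lg C.toRootSys D) i := by
  induction hl : C.length w using Nat.strong_induction_on generalizing w with
  | _ k ih =>
  have hw := wf S.lt S.ma h.1
  by_cases c : ∀ i, ¬ C.Pos (w (C.simple i)) → T.S.s i * w * T.S.s i = w
  · replace c : ∀ i, ¬ C.Pos (w (C.simple i)) → C.InSub (T.S.orb i) (w (C.simple i)) := fun i d => by_contra fun f => by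
      have := (Sym.pos_mul_s_iff hw i).2 d
      rw [← c i d, mul_assoc, ss, mul_one, Equiv.Perm.mul_apply, pos_lg_of_not_inSub f] at this
      exact d this
    obtain ⟨D, hD⟩ : ∃ D, ∀ i, i ∈ D ↔ ¬ C.Pos (w (C.simple i)) := ⟨{i | ¬ C.Pos (w (C.simple i))}, fun _ => Iff.rfl⟩
    have sD : T.S.Stab D := fun i => by
      rw [hD, hD, Sym.pos_simple_iff hw ((T.S.stab_orb i i).2 (T.S.mem_orb_self i))]
    have e : lg C.toRootSys D * w = 1 := C.eq_one_of_simple_pos (mul_mem (lg_mem_W _) hw.1) fun i => by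
      by_cases d : C.Pos (w (C.simple i))
      · exact (pos_lg_iff d).2 fun f => neg_of_inSub (Sym.mem_Aut (inv_mem hw))
          (fun j hj => mt (h.pos_iff S hU).1 ((hD j).1 hj)) d f (by simpa using C.pos_simple i)
      · exact (pos_lg_of_inSub fun j hj => c i d j fun f => hj (sD.orb_subset ((hD i).2 d) f)).2 d
    rw [mul_eq_one_iff_inv_eq, lg_inv] at e
    refine ⟨D, sD, by_contra fun f => h1 (C.eq_one_of_simple_pos hw.1 fun i => by_contra fun d => f ⟨i, (hD i).2 d⟩), ?_⟩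
    rw [e]
    exact ⟨h, fun i d => ⟨c i ((hD i).1 d), (hD i).1 d⟩⟩
  push Not at c
  obtain ⟨i, c, c'⟩ := c
  have s := Sym.s_mem_Wf (S := T.S) i
  refine ih _ ?_ (conj_s S hU h i) (fun e => h1 ?_) rfl
  · have l1 := len_lt hw c
    have l2 := len_lt (i := i) (inv_mem (mul_mem hw s)) (by
      rw [mul_inv_rev, lg_inv, Equiv.Perm.mul_apply, pos_lg_of_not_inSub (mt (comm' hw) c')]
      exact mt (h.pos_iff S hU).1 c)
    rw [← C.length_inv (Sym.mem_Aut (mul_mem (inv_mem (mul_mem hw s)) s)),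
      C.length_inv (Sym.mem_Aut (mul_mem hw s)), mul_inv_rev, inv_inv, lg_inv, ← mul_assoc] at l2
    exact l2.trans (hl ▸ l1)
  · rw [mul_eq_one_iff_eq_inv, lg_inv] at e
    exact mul_left_cancel (e.trans (mul_one _).symm)

theorem om_J (S : St p T G1 ω a b) (hU : PU p G1 a b) (hJ : T.S.Stab J) (h1 : WA ρ G1 a w)
    (h2 : WA ρ G1 b w') (hv : v ∈ C.WJ J ⊓ T.S.Wf) (hv' : v' ∈ C.WJ J ⊓ T.S.Wf) (e : w'⁻¹ = v * w * v') :
    ∃ t ∈ C.WJ J ⊓ T.S.Wf, ∃ t' ∈ C.WJ J ⊓ T.S.Wf, Om ρ G1 a b (t * w * t') := by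
  obtain ⟨u, hu, n, n1, hn, hx⟩ := form S.lt S.ma h1
  obtain ⟨u', hu', n', n1', hn', hy⟩ := form S.lt S.mb h2
  obtain ⟨m, m1, hm⟩ := S.lt.form.exists_n hv'.2
  have hw := wf S.lt S.ma h1
  have l := mul_mem m1 n1'
  have q : (n * m * n') ∈ ρ.PJ J := ((hn.mul hm).mul hn').mem_PJ (by
    rw [inv_eq_iff_eq_inv.1 e]; simpa [mul_assoc] using inv_mem (il hv))
  have mP := hm.mem_PJ hv'.1
  obtain ⟨k, hk, t, c, o⟩ := key S.lt hU (P := ρ.PJ J ⊓ G1) (inf_le_inf_right _ fun _ h => Up_PJ h _) inf_le_right S.ma hx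
    (hy.conj l) (im (by
      simpa [mul_assoc] using mul_mem (mul_mem (mul_mem (Up_PJ (il hu) J) q) (Up_PJ (il hu') J)) (inv_mem mP))
      (mul_mem (hx.mem S.ma) ((hy.conj l).mem S.mb)))
  have lf : ∀ k ∈ ρ.PJ J ⊓ G1, ∀ g ∈ G1, ∀ w, g ∈ ρ.Cell w → ∃ t ∈ C.WJ J ⊓ T.S.Wf, k * g ∈ ρ.Cell (t * w) :=
    fun k hk g hg w c => by
      obtain ⟨v, hv, d⟩ := StRep.mem_PJ_iff.1 (il hk)
      obtain ⟨t, ht, d⟩ := StRep.mul_mem_cell_WJ hv d c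
      exact ⟨t, im ht ((mul_mem_cancel_right (Tw.mem_Wf_of_cell (S.lt.form.fix hg) c)).1
        (Tw.mem_Wf_of_cell (S.lt.form.fix (mul_mem (ir hk) hg)) d)), d⟩
  obtain ⟨t1, h1, d⟩ := lf k hk _ (hx.mem S.ma) w (StRep.cell_mul_left (ρ.Up_le_Bo (il hu)) hn.mem_cell)
  obtain ⟨t2, h2, d⟩ := lf k hk _ (inv_mem (mul_mem (ir hk) (hx.mem S.ma))) _ (StRep.cell_inv d)
  exact ⟨t1, h1, t2⁻¹, inv_mem h2, StRep.cell_unique T.faith c (by simpa [mul_assoc] using StRep.cell_inv d) ▸ o⟩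

theorem UO.nX (h' : ∀ u ∈ ρ.Up, ∀ t, Commute u (ρ.x θ t)) : ρ.Bo ≤ 𝐍(ρ.X θ) := fun b hb => by
  obtain ⟨u, hu, z, hz, rfl⟩ := StRep.mem_Bo.1 hb
  refine mul_mem (Subgroup.centralizer_le_normalizer _ ?_) (cj_eq_self_iff.1 ((StRep.acts_of_mem_H hz).map_X θ))
  rintro _ ⟨t, rfl⟩
  exact (h' u hu t).eq.symm

theorem UO.neg (M : LT p T G1 ω) (h' : ∀ u ∈ ρ.Up, ∀ t, Commute u (ρ.x θ t)) (c : x ∈ ρ.Cell w)
    (h : ¬ IsPGroup p ↥(ρ.X θ ⊔ cj[x] (ρ.X θ))) : w θ = C.neg θ := by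
  obtain ⟨b, hb, n, hn, b', hb', rfl⟩ := c
  by_contra e
  obtain ⟨φ, h2, h3⟩ := C.exists_pos_pair e
  have := M.fin
  have := M.char
  refine h ((isPGroup_cj b ((StRep.isPGroup_U T.faith (C.closed_linear_pos φ) ⟨φ, fun _ h => h⟩).to_le
    (sup_le (ρ.X_le_U h2) (ρ.X_le_U h3)))).to_le (Eq.ge ?_))
  rw [cj_sup, cj_mul, cj_mul, cj_eq_self (nX h' hb'), hn.acts.map_X, cj_eq_self (nX h' hb)]

theorem om_opp (S : St p T G1 ω a b) (hU : PU p G1 a b) (h : C.Pos θ)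
    (h' : ∀ u ∈ ρ.Up, ∀ t, Commute u (ρ.x θ t)) (h1 : Opp p ρ G1 θ a) (h2 : Opp p ρ G1 θ b) :
    ∃ w, Om ρ G1 a b w ∧ w θ = C.neg θ := by
  obtain ⟨x, hx, h1⟩ := h1
  obtain ⟨y, hy, h2⟩ := h2
  obtain ⟨w, hw, c⟩ := S.lt.form.exists_cell (hx.mem S.ma)
  obtain ⟨v, hv, d⟩ := S.lt.form.exists_cell (hy.mem S.mb)
  have e1 := neg S.lt h' c h1
  have e2 := neg S.lt h' d h2
  obtain ⟨u, hu, n, n1, hn, t, ht, rfl⟩ := S.lt.form.bruhat (hx.mem S.ma) c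
  obtain ⟨u', hu', n', n1', hn', t', ht', rfl⟩ := S.lt.form.bruhat (hy.mem S.mb) d
  have N := ρ.Up_le_Bo.trans (nX h')
  have l := mul_mem (inv_mem (S.lt.form.Uw_le hw ht)) (inv_mem (S.lt.form.Up_le hu'))
  have q : n * n' ∈ 𝐍(ρ.X θ) := cj_eq_self_iff.1 (((hn.mul hn').acts.map_X θ).trans (by
    rw [Equiv.Perm.mul_apply, e2, RootSys.neg_aut (Sym.mem_Aut hw), e1, C.neg_neg]))
  obtain ⟨k, hk, s, c, o⟩ := key S.lt hU (P := 𝐍(ρ.X θ) ⊓ G1) (inf_le_inf_right _ N) inf_le_right S.ma hx (hy.conj l) (im (by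
    simpa [mul_assoc] using mul_mem (mul_mem (N (il hu)) q)
      (N (mul_mem (mul_mem (ρ.Uw_le_Up v (il ht')) (il hu')) (ρ.Uw_le_Up w (il ht)))))
    (mul_mem (hx.mem S.ma) ((hy.conj l).mem S.mb)))
  refine ⟨s, o, neg S.lt h' c fun f => h1 ?_⟩
  refine (isPGroup_cj_iff (g := k)).1 (f.to_le (Eq.le ?_))
  rw [cj_sup, cj_mul _ k⁻¹, cj_mul k, cj_eq_self (inv_mem (il hk)), cj_eq_self (il hk)]

end CF.Ah
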