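import Cfsg.Agent.Ah.B
import Cfsg.Agent.Geom.Simple

/-! Products of classes in symplectic groups of characteristic two. -/

set_option autoImplicit false
set_option linter.unusedSectionVars false

namespace CF.Ah

open CF.Geom Cfsg Module

namespace US

variable {F V M : Type*} [Field F] [Finite F] [CharP F 2] [AddCommGroup V] [Module F V] [FiniteDimensional F V]
  [AddCommGroup M] [Module F M] {B : LinearMap.BilinForm F V} {a b y z : V ≃ₗ[F] V} {u v w u' v' : V} {l m : F}

/-- The standing assumptions on the form. -/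
structure Sy (B : LinearMap.BilinForm F V) : Prop where
  nd : B.Nondegenerate
  alt : B.IsAlt
  dim : 4 ≤ finrank F V

/-- An independent orthogonal pair. -/
structure Ti (B : LinearMap.BilinForm F V) (u v : V) : Prop where
  li : LinearIndependent F ![u, v]
  or : B u v = 0

/-- The map `x ↦ B x u • v`. -/
def ot (B : LinearMap.BilinForm F V) (v u : V) : End F V := (B.flip u).smulRight v

theorem ot_apply (v u x : V) : ot B v u x = B x u • v := rfl

theorem two : (2 : F) = 0 := CharP.cast_eq_zero F 2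

variable (F) in
include F in
theorem neg_v (v : V) : -v = v := by rw [← neg_one_smul F v, CharTwo.neg_eq, one_smul]

theorem adj (ha : a ∈ SpG B) (u v : V) : B (a⁻¹ u) v = B u (a v) := by
  rw [← mem_SpG.1 ha]; simp

theorem nofix {p q r s : F} (li : LinearIndependent F ![v, w]) (h : PE 2 z) (e : z v = p • v + q • w)
    (e' : z w = r • v + s • w) : (p - 1) * (s - 1) - q * r = 0 := by
  obtain ⟨k, h⟩ := h
  induction k generalizing z p q r s with
  | zero =>
    rw [pow_zero, pow_one] at h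
    subst h
    obtain ⟨h1, h2⟩ := LinearIndependent.pair_iff.1 li (p - 1) q (by
      rw [sub_smul, one_smul, sub_add_eq_add_sub, ← e]; simp)
    simp [h1, h2]
  | succ k ih =>
    have := ih (z := z * z) (p := p * p + q * r) (q := p * q + q * s) (r := r * p + s * r) (s := r * q + s * s)
      (by rw [LinearEquiv.mul_apply, e, map_add, map_smul, map_smul, e, e']; module)
      (by rw [LinearEquiv.mul_apply, e', map_add, map_smul, map_smul, e, e']; module)
      (by rw [← sq, ← pow_mul, ← pow_succ', h])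
    exact pow_eq_zero_iff (n := 2) (by omega) |>.1
      (by linear_combination this - (p + s) * ((p - 1) * (s - 1) - q * r) * two (F := F))

variable (S : Sy B)
include S

theorem Sy.symm (u v : V) : B u v = B v u := by rw [← LinearMap.IsAlt.neg S.alt, CharTwo.neg_eq]

theorem Sy.ext (h : ∀ t, B u t = B v t) : u = v :=
  sub_eq_zero.1 (S.nd.1 _ fun t => by rw [map_sub, LinearMap.sub_apply, h, sub_self])

theorem Sy.dual (li : LinearIndependent F ![u, v]) : ∃ x, B x u = 0 ∧ B x v = 1 := by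
  obtain ⟨φ, h1, h2, -⟩ := exists_dual_two (H := F ∙ u) (u := v) (u' := v) (fun e => by
    obtain ⟨c, e⟩ := Submodule.mem_span_singleton.1 e
    exact (LinearIndependent.pair_iff' (li.ne_zero 0)).1 li c e) (fun e => by
    obtain ⟨c, e⟩ := Submodule.mem_span_singleton.1 e
    exact (LinearIndependent.pair_iff' (li.ne_zero 0)).1 li c e)
  obtain ⟨r, rfl⟩ := exists_repr_dual Function.surjective_id B S.nd.1 φ
  exact ⟨r, h1 u (Submodule.mem_span_singleton_self u), h2⟩

omit [Finite F] [CharP F 2] S in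
theorem ex_li {W : Submodule F V} (h : 2 ≤ finrank F W) (h0 : u ≠ 0) : ∃ v ∈ W, LinearIndependent F ![u, v] := by
  by_contra n
  push Not at n
  have : W ≤ F ∙ u := fun v hv => by
    obtain ⟨c, e⟩ := not_forall_not.1 (mt (LinearIndependent.pair_iff' h0).2 (n v hv))
    exact Submodule.mem_span_singleton.2 ⟨c, e⟩
  have := Submodule.finrank_mono this
  rw [finrank_span_singleton h0] at this
  omega

theorem Sy.perp (h0 : u ≠ 0) (w : V) : ∃ v, Ti B u v ∧ B w v = 0 := by
  have h1 := LinearMap.finrank_range_add_finrank_ker ((B u).prod (B w))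
  have h2 := Submodule.finrank_le (LinearMap.range ((B u).prod (B w)))
  have h3 := S.dim
  simp only [finrank_prod, finrank_self] at h2
  obtain ⟨v, hv, li⟩ := ex_li (W := LinearMap.ker ((B u).prod (B w))) (by omega) h0
  exact ⟨v, ⟨li, congrArg Prod.fst hv⟩, congrArg Prod.snd hv⟩

theorem Sy.sc {f : End F V} (h : ∀ u v, B u v = 0 → B (f u) v = 0) : ∃ c : F, ∀ v, f v = c • v := by
  obtain ⟨c, e⟩ := f.exists_eq_smul_id_of_forall_notLinearIndependent fun v li => by
    obtain ⟨x, h1, h2⟩ := S.dual li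
    rw [S.symm, h v x (S.symm _ _ ▸ h1)] at h2
    exact zero_ne_one h2
  exact ⟨c, fun v => by simp [e]⟩

theorem Sy.sc' {f : End F V} (h : ∀ u v, Ti B u v → B (f u) v = 0) : ∃ c : F, ∀ v, f v = c • v := by
  refine S.sc fun u v e => ?_
  by_cases h0 : u = 0
  · simp [h0]
  by_cases li : LinearIndependent F ![u, v]
  · exact h u v ⟨li, e⟩
  obtain ⟨c, rfl⟩ := not_forall_not.1 (mt (LinearIndependent.pair_iff' h0).2 li)
  obtain ⟨w, t, -⟩ := S.perp h0 u
  have := h u (c • u + w) ⟨(LinearIndependent.pair_iff' h0).2 fun d e =>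
    (LinearIndependent.pair_iff' h0).1 t.li (d - c) (by rw [sub_smul, e]; simp), by simp [t.or, S.alt u]⟩
  rwa [map_add, h u w t, add_zero] at this

theorem Sy.one (ha : a ∈ SpG B) (h : ∀ v, a v = l • v) : a = 1 := by
  have : Nontrivial V := Module.nontrivial_of_finrank_pos (R := F) (by have := S.dim; omega)
  obtain ⟨e, he⟩ := exists_ne (0 : V)
  obtain ⟨f, hf⟩ := not_forall.1 (mt (S.nd.1 e) he)
  have := mem_SpG.1 ha e f
  simp only [h, map_smul, LinearMap.smul_apply, smul_eq_mul, ← mul_assoc, mul_eq_right₀ hf] at this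
  obtain rfl : l = 1 := sub_eq_zero.1 (pow_eq_zero_iff (n := 2) (by omega) |>.1
    (by linear_combination this + (1 - l) * two (F := F)))
  exact LinearEquiv.ext fun v => by simp [h]

theorem Sy.witt (h : Ti B u v) (h' : Ti B u' v') : ∃ g ∈ SpG B, g u = u' ∧ g v = v' := by
  obtain ⟨g, h1, -, h2⟩ := (isWittPair_alt B S.nd S.alt).frame_fin 2 _ _ h.li h'.li (fun i j => by
    fin_cases i <;> fin_cases j <;> simp [h.or, h'.or, S.alt _, S.symm v u, S.symm v' u']) fun _ => rfl
  exact ⟨g, mem_SpG.2 h1, h2 0, h2 1⟩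

theorem Ti.symm (h : Ti B u v) : Ti B v u := ⟨LinearIndependent.pair_symm_iff.1 h.li, (S.symm _ _).trans h.or⟩

theorem dd (Φ : End F V →ₗ[F] M) {k : M} (hΦ : ∀ y, Cj (SpG B) b y → Φ y = k) (h : Ti B u v) (h' : Ti B u' v') :
    B (b u) v • Φ (ot B v' u') + B (b v) u • Φ (ot B u' v') = 0 := by
  obtain ⟨g, hg, rfl, rfl⟩ := S.witt h h'
  have e : ∀ u v, B (b u) v = B ((g * b * g⁻¹) (g u)) (g v) := fun u v => by simp [mem_SpG.1 hg]
  rw [e, e]
  have c := Cj.of hg b
  generalize g * b * g⁻¹ = y at c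
  generalize g u = u at h'
  generalize g v = v at h'
  have i : ∀ u x, (spTrans S.alt u 1).1⁻¹ x = x - B x u • u := fun u x =>
    (LinearEquiv.symm_apply_eq _).2 (by simp [spTrans_apply, S.alt u])
  have q : B (y u) v • ot B v u + B (y v) u • ot B u v =
      (((spTrans S.alt v 1).1 * y * (spTrans S.alt v 1).1⁻¹ : V ≃ₗ[F] V) : End F V) +
        (((spTrans S.alt u 1).1 * y * (spTrans S.alt u 1).1⁻¹ : V ≃ₗ[F] V) : End F V) - (y : End F V) -
        (((spTrans S.alt v 1).1 * ((spTrans S.alt u 1).1 * y * (spTrans S.alt u 1).1⁻¹) *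
          (spTrans S.alt v 1).1⁻¹ : V ≃ₗ[F] V) : End F V) := by
    ext x
    simp [i, spTrans_apply, ot_apply, h'.or, (h'.symm S).or]
    module
  rw [← map_smul, ← map_smul, ← map_add, q, map_sub, map_sub, map_add, hΦ _ c, hΦ _ (c.conj (spTrans ..).2),
    hΦ _ (c.conj (spTrans ..).2), hΦ _ ((c.conj (spTrans ..).2).conj (spTrans ..).2)]
  simp

theorem quad (ha : a ∈ SpG B) (hb : b ∈ SpG B) (h1 : a ≠ 1) (h : SC 2 (SpG B) a b) :
    ∃ m : F, ∀ v, b (b v) = m • b v + v := by
  obtain ⟨c, -, -, hc⟩ := h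
  have d := fun u v u' v' => dd S (u := u) (v := v) (u' := u') (v' := v') (b := b)
    (LinearMap.trace F V ∘ₗ LinearMap.mulLeft F (a : End F V)) (k := LinearMap.trace F V c) fun y hy => by
      obtain ⟨g, -, e⟩ := hc a y (.refl _ a) hy
      rw [← LinearMap.trace_conj' (c : End F V) g]
      exact congrArg _ (LinearMap.ext fun x => LinearEquiv.congr_fun e x)
  have t : ∀ u v, LinearMap.trace F V (a * ot B v u) = B (a v) u := fun u v => by
    rw [show (a : End F V) * ot B v u = ot B (a v) u from LinearMap.ext fun x => by simp [ot_apply], ot,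
      LinearMap.trace_smulRight]
    rfl
  simp only [LinearMap.comp_apply, LinearMap.mulLeft_apply, t, smul_eq_mul] at d
  obtain ⟨m, e⟩ := S.sc' (f := (b : End F V) + (b⁻¹ : V ≃ₗ[F] V)) fun u v h => by
    by_contra n
    obtain ⟨l, e⟩ := S.sc' (f := a) fun u' v' h' => by
      simp only [LinearMap.add_apply, LinearEquiv.coe_coe, map_add, adj hb, S.symm u] at n ⊢
      exact mul_left_cancel₀ (pow_ne_zero 2 n) (by
        linear_combination B (b v) u * d u v u' v' h h' + B (b u) v * d u v v' u' h (h'.symm S) +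
          (B (b u) v * B (b v) u * (B (a u') v' - B (a v') u')) * two (F := F))
    exact h1 (S.one ha e)
  exact ⟨m, fun v => by rw [← e]; simp [add_assoc, ← two_smul F, two]⟩

theorem ex_ti (ha : a ∈ SpG B) (e : ∀ v, a (a v) = l • a v + v) (h0 : l ≠ 0) : ∃ v, Ti B v (a v) := by
  have p : ∀ u w, B (a u) w + B (a w) u = l * B u w := fun u w => by
    have := mem_SpG.1 ha (a w) u
    rw [e, map_add, map_smul, LinearMap.add_apply, LinearMap.smul_apply, mem_SpG.1 ha, S.symm w, S.symm w] at this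
    linear_combination this - (l * B u w - B (a w) u) * two (F := F)
  have q : ∀ W : Submodule F V, ∀ u ∈ W, ∀ w ∈ W, B u w ≠ 0 → ∃ x ∈ W, B (a x) x ≠ 0 := fun W u hu w hw n => by
    by_contra c
    push Not at c
    have := c _ (add_mem hu hw)
    simp only [map_add, LinearMap.add_apply, c u hu, c w hw] at this
    exact mul_ne_zero h0 n (by linear_combination this - p u w)
  have : Nontrivial V := Module.nontrivial_of_finrank_pos (R := F) (by have := S.dim; omega)
  obtain ⟨u, hu⟩ := exists_ne (0 : V)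
  obtain ⟨w, hw⟩ := not_forall.1 (mt (S.nd.1 u) hu)
  obtain ⟨x, -, hx⟩ := q ⊤ u trivial w trivial hw
  obtain ⟨u, t, t'⟩ := S.perp (u := x) (fun c => hx (by simp [c])) (a x)
  obtain ⟨w, hw⟩ := not_forall.1 (mt (S.nd.1 u) (t.li.ne_zero 1))
  obtain ⟨y, hy, n⟩ := q (LinearMap.ker (B x) ⊓ LinearMap.ker (B (a x))) u ⟨t.or, t'⟩
    (w - (B (a x) w / B (a x) x) • x - (B x w / B (a x) x) • a x)
    ⟨by simp [S.alt x, S.symm x (a x), hx], by simp [S.alt (a x), hx]⟩
    (by simpa [S.symm u x, t.or, S.symm u (a x), t'] using hw)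
  obtain ⟨s, hs⟩ := surjective_frobenius F 2 (B (a x) x / B (a y) y)
  rw [frobenius_def, eq_div_iff n] at hs
  have y1 : B x y = 0 := hy.1
  have y2 : B (a x) y = 0 := hy.2
  have y3 : B (a y) x = 0 := by simpa [y1, y2] using p x y
  refine ⟨x + s • y, LinearIndependent.pair_iff.2 fun c d e => ?_, ?_⟩
  · have e1 := congrArg (B x) e
    have e2 := congrArg (B (a x)) e
    simp [S.alt x, S.alt (a x), y1, y2, y3, S.symm x (a y), S.symm x (a x), hx, mem_SpG.1 ha] at e1 e2
    exact ⟨e2, e1⟩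
  · simp [y2, y3, S.symm x (a y), S.symm x (a x), S.symm y (a x), S.symm y (a y)]
    linear_combination hs + B (a x) x * two (F := F)

theorem nz (ha : a ∈ SpG B) (hb : b ∈ SpG B) (h1 : b ≠ 1) (h : PU 2 (SpG B) a b)
    (e : ∀ v, a (a v) = l • a v + v) (e' : ∀ v, b (b v) = m • b v + v) : l = 0 := by
  by_contra h0
  obtain ⟨v, t⟩ := ex_ti S ha e h0
  by_cases m0 : m = 0
  · simp only [m0, zero_smul, zero_add] at e'
    obtain ⟨x, hx⟩ := not_forall.1 (mt LinearEquiv.ext h1)
    have k1 := LinearMap.finrank_range_add_finrank_ker ((b : End F V) - 1)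
    have k2 : LinearMap.range ((b : End F V) - 1) ≤ LinearMap.ker ((b : End F V) - 1) := by
      rintro _ ⟨x, rfl⟩
      simp [e', sub_eq_add_neg, neg_v F, add_comm, ← two_smul F, two]
    have k3 := Submodule.finrank_mono k2
    have k4 := S.dim
    obtain ⟨f, hf, li⟩ := ex_li (W := LinearMap.ker ((b : End F V) - 1)) (by omega) (sub_ne_zero.2 hx)
    have f1 : b f = f := sub_eq_zero.1 hf
    have f2 : b (b x - x) = b x - x := sub_eq_zero.1 (k2 ⟨x, rfl⟩)
    obtain ⟨g, hg, g1, g2⟩ := S.witt ⟨li, by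
      have := mem_SpG.1 hb x f
      simpa [f1, sub_eq_zero] using this⟩ t
    have := nofix t.li (h _ _ (.refl _ a) (.of hg b)) (p := 0) (q := 1) (r := 1) (s := l)
      (by rw [← g1]; simp [-map_sub, f2]) (by rw [add_comm, one_smul, ← e, ← g2]; simp [f1])
    exact h0 (by linear_combination -this - two (F := F) * (1 - 1))
  · obtain ⟨w, t'⟩ := ex_ti S hb e' m0
    obtain ⟨g, hg, g1, g2⟩ := S.witt t' t
    have y1 : (g * b * g⁻¹) v = a v := by rw [← g2, ← g1]; simp
    have y2 : (g * b * g⁻¹) (a v) = m • a v + v := by rw [← g2, ← g1]; simp [e']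
    have := nofix t.li (h _ _ (.refl _ a) (.of hg b)) (p := 1) (q := l) (r := m) (s := m * l + 1)
      (by rw [LinearEquiv.mul_apply, y1, e]; module) (by rw [LinearEquiv.mul_apply, y2, map_add, map_smul, e]; module)
    exact mul_ne_zero h0 m0 (by linear_combination -this)

theorem ex_comm (ha : a ∈ SpG B) (hb : b ∈ SpG B) (e : ∀ v, a (a v) = v) (e' : ∀ v, b (b v) = v)
    (d : finrank F (LinearMap.range ((b : End F V) - 1)) ≤ finrank F (LinearMap.range ((a : End F V) - 1))) :
    ∃ y, Cj (SpG B) b y ∧ Commute a y := by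
  have ti : ∀ a ∈ SpG B, (∀ v, a (a v) = v) → ∀ x ∈ LinearMap.range ((a : End F V) - 1),
      ∀ y ∈ LinearMap.range ((a : End F V) - 1), B x y = 0 := by
    rintro a ha e _ ⟨x, rfl⟩ _ ⟨y, rfl⟩
    have := mem_SpG.1 ha (a x) y
    simp [e, mem_SpG.1 ha] at this ⊢
    linear_combination this + (B x y - B (a x) y - B x (a y) + B (a x) y) * two (F := F)
  obtain ⟨φ, hφ⟩ := finrank_le_iff_exists_linearMap.1 d
  obtain ⟨g, g1, -, g2⟩ := (isWittPair_alt B S.nd S.alt).extend_map _ (Submodule.subtype _ ∘ₗ φ)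
    (Subtype.val_injective.comp hφ) (fun x y => (ti a ha e _ (φ x).2 _ (φ y).2).trans (ti b hb e' _ x.2 _ y.2).symm)
    fun _ => rfl
  have c := Cj.of (mem_SpG.2 g1) b
  have hy := c.mem hb
  have y1 : ∀ x, (g * b * g⁻¹) x - x ∈ LinearMap.range ((a : End F V) - 1) := fun x => by
    convert (φ ⟨_, g⁻¹ x, rfl⟩).2 using 1
    simpa using g2 ⟨_, g⁻¹ x, rfl⟩
  have y2 : ∀ x, (g * b * g⁻¹) ((g * b * g⁻¹) x) = x := fun x => by simp [e']
  refine ⟨_, c, LinearEquiv.ext fun x => ?_⟩
  generalize g * b * g⁻¹ = y at hy y1 y2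
  have a1 : a (y x - x) = y x - x := by
    obtain ⟨w, q⟩ := y1 x
    simp [← q, e, sub_eq_add_neg, neg_v F, add_comm]
  have a2 : y (a x - x) = a x - x := S.ext fun t => by
    rw [← y2 t, mem_SpG.1 hy, y2, ← sub_eq_zero, ← map_sub]
    exact ti a ha e _ ⟨x, rfl⟩ _ (y1 t)
  rw [map_sub, sub_eq_iff_eq_add] at a1 a2
  simp only [LinearEquiv.mul_apply, a1, a2]
  abel

theorem invol (ha : a ∈ SpG B) (hb : b ∈ SpG B) (h1 : a ≠ 1) (h2 : b ≠ 1) (h : SC 2 (SpG B) a b)
    (e : ∀ v, a (a v) = v) (e' : ∀ v, b (b v) = v) (hy : Cj (SpG B) b y) (c : Commute a y) : False := by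
  obtain ⟨k, -, -, hk⟩ := h
  have a2 : a * a = 1 := LinearEquiv.ext e
  have b2 : ∀ y, Cj (SpG B) b y → y * y = 1 := by
    rintro _ ⟨g, -, rfl⟩
    rw [conj_mul, show b * b = 1 from LinearEquiv.ext e']
    simp
  have k2 : k * k = 1 := by
    obtain ⟨g, -, q⟩ := (hk a y (.refl _ a) hy).symm
    rw [q, conj_mul, ← sq, c.mul_pow, sq, sq, a2, b2 y hy]
    simp
  have cm : ∀ y, Cj (SpG B) b y → a * y = y * a := fun y hy => by
    obtain ⟨g, -, q⟩ := hk a y (.refl _ a) hy
    have : a * y * (a * y) = 1 := by rw [q, conj_mul, k2]; simp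
    rw [eq_inv_of_mul_eq_one_left this, mul_inv_rev, inv_eq_of_mul_eq_one_left a2, inv_eq_of_mul_eq_one_left (b2 y hy)]
  obtain ⟨u, v, t, n⟩ : ∃ u v, Ti B u v ∧ B (b u) v ≠ 0 := by
    by_contra n
    push Not at n
    obtain ⟨l, q⟩ := S.sc' (f := b) n
    exact h2 (S.one hb q)
  have s : B (b v) u = B (b u) v := by rw [← mem_SpG.1 hb, e', S.symm]
  obtain ⟨l, q⟩ := S.sc (f := a) fun u' w o => by
    by_cases u0 : u' = 0
    · simp [u0]
    obtain ⟨v', t', o'⟩ := S.perp u0 w
    obtain ⟨x, x1, x2⟩ := S.dual t'.li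
    have := congrArg (fun f : End F V => B w (f x)) (dd S (LinearMap.mulLeft F (a : End F V) - LinearMap.mulRight F (a : End F V))
      (k := 0) (fun y hy => sub_eq_zero.2 (LinearMap.ext fun x => LinearEquiv.congr_fun (cm y hy) x)) t t')
    simpa [ot_apply, x1, x2, o', S.symm w u', o, s, n, S.symm w (a u')] using this
  exact h1 (S.one ha q)

theorem main (ha : a ∈ SpG B) (hb : b ∈ SpG B) (h1 : a ≠ 1) (h2 : b ≠ 1) : ¬ SC 2 (SpG B) a b := fun h => by
  obtain ⟨m, e'⟩ := quad S ha hb h1 h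
  obtain ⟨l, e⟩ := quad S hb ha h2 (h.symm hb)
  obtain rfl := nz S ha hb h2 h.pu e e'
  obtain rfl := nz S hb ha h1 h.pu.symm e' e
  simp only [zero_smul, zero_add] at e e'
  rcases le_total (finrank F (LinearMap.range ((b : End F V) - 1))) (finrank F (LinearMap.range ((a : End F V) - 1)))
    with d | d
  · obtain ⟨y, hy, c⟩ := ex_comm S ha hb e e' d
    exact invol S ha hb h1 h2 h e e' hy c
  · obtain ⟨y, hy, c⟩ := ex_comm S hb ha e' e d
    exact invol S hb ha h2 h1 (h.symm hb) e' e hy c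

end US

theorem u_Sp2 {X : Type*} [Group X] (h : IsPSpChar 2 X) : NoU 2 X := by
  obtain ⟨F, _, _, _, m, hm, -, ⟨e⟩⟩ := h
  have S : US.Sy (sympBilin m F) := ⟨sympBilin_nondegenerate m, sympBilin_isAlt m, by simp; omega⟩
  have : Nonempty (Fin m) := ⟨⟨0, by omega⟩⟩
  have z : Subgroup.center (Matrix.symplecticGroup (Fin m) F) = ⊥ := eq_bot_iff.2 fun g hg => by
    obtain ⟨c, q⟩ := center_sp_scalar S.nd S.alt (ρ := (spEquiv m F).toMonoidHom)
      (MonoidHom.range_eq_top.2 (spEquiv m F).surjective) g hg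
    exact (spEquiv m F).map_eq_one_iff.1 (Subtype.ext (S.one (spEquiv m F g).2 q))
  exact noU_of (e.trans (((QuotientGroup.quotientMulEquivOfEq z).trans QuotientGroup.quotientBot).trans
    (spEquiv m F))) fun a ha b hb => US.main S ha hb

end CF.Ah
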