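import Cfsg.Agent.Ah.B
import Cfsg.Agent.Chev.Thom
import Cfsg.Agent.Chev.LTU
import Cfsg.Agent.Chev.Sub

/-! Products of classes: a trace lemma for unitary groups. -/

set_option autoImplicit false
set_option linter.unusedSectionVars false

namespace CF.Ah.UU

open CF.Geom Module

section

variable {F V : Type*} [Field F] [AddCommGroup V] [Module F V] [FiniteDimensional F V] {σ : F →+* F}
  {B : V →ₛₗ[σ] V →ₗ[F] F} {v w v' w' : V} {a b : End F V} {k : F}

/-- An independent pair spanning a totally isotropic subspace. -/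
structure Ti (B : V →ₛₗ[σ] V →ₗ[F] F) (v w : V) : Prop where
  li : LinearIndependent F ![v, w]
  l : B v v = 0
  r : B w w = 0
  or : B v w = 0

/-- The map `x ↦ B u x • v`. -/
def ot (B : V →ₛₗ[σ] V →ₗ[F] F) (v u : V) : End F V := (B u).smulRight v

theorem ot_apply (v u x : V) : ot B v u x = B u x • v := rfl

theorem trace_ot (a : End F V) (v u : V) : LinearMap.trace F V (a * ot B v u) = B u (a v) := by
  rw [show a * ot B v u = ot B (a v) u from LinearMap.ext fun x => by simp [ot_apply], ot,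
    LinearMap.trace_smulRight]

/-- Conjugation of an endomorphism. -/
def cj (g : V ≃ₗ[F] V) (b : End F V) : End F V := (g : End F V) * b * (g⁻¹ : V ≃ₗ[F] V)

theorem cj_cj (g h : V ≃ₗ[F] V) (b : End F V) : cj g (cj h b) = cj (g * h) b :=
  LinearMap.ext fun x => by simp [cj]

theorem dd0 (hH : IsHerm B) (hB : B.Nondegenerate) (h : ∀ g ∈ UG B, LinearMap.trace F V (a * cj g b) = k)
    (t : Ti B v w) (t' : Ti B v' w') : B w (a v) * B v' (b w') + B v (a w) * B w' (b v') = 0 := by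
  obtain ⟨g, h1, -, h2⟩ := (hH.wittPair hB).frame_fin 2 _ _ t'.li t.li (fun i j => by
    fin_cases i <;> fin_cases j <;> simp [t.l, t.r, t.or, t'.l, t'.r, t'.or, hH.refl t.or, hH.refl t'.or])
    fun i => by fin_cases i <;> simp [t.l, t.r, t'.l, t'.r]
  have hg := mem_UG.2 h1
  obtain rfl : g v' = v := h2 0
  obtain rfl : g w' = w := h2 1
  have e : ∀ u v, B u (b v) = B (g u) (cj g b (g v)) := fun u v => by simp [cj, h1]
  rw [e, e]
  have c : ∀ k' ∈ UG B, LinearMap.trace F V (a * cj k' (cj g b)) = k := fun k' hk => by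
    rw [cj_cj]; exact h _ (mul_mem hk hg)
  generalize cj g b = y at c
  generalize g v' = v at t
  generalize g w' = w at t
  obtain ⟨ω, hω⟩ := not_forall.1 fun n => hH.ne_id (RingHom.ext n)
  have hs : σ (σ ω - ω) = -(σ ω - ω) := by rw [map_sub, hH.invol]; ring
  have h0 : σ ω - ω ≠ 0 := sub_ne_zero.2 hω
  generalize σ ω - ω = s at hs h0
  have i : ∀ u (hu : B u u = 0) x, (uTrans hH hu hs).1⁻¹ x = x - (s * B u x) • u := fun u hu x =>
    (LinearEquiv.symm_apply_eq _).2 (by simp [uTrans_apply, hu])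
  have q : (s * s * B v (y w)) • ot B v w + (s * s * B w (y v)) • ot B w v =
      cj (uTrans hH t.l hs).1 y + cj (uTrans hH t.r hs).1 y - cj 1 y -
        cj (uTrans hH t.l hs * uTrans hH t.r hs).1 y := by
    ext x
    simp [cj, i, uTrans_apply, ot_apply, t.or, hH.refl t.or]
    module
  have := congrArg (fun z => LinearMap.trace F V (a * z)) q
  simp only [mul_add, mul_sub, map_add, map_sub, mul_smul_comm, map_smul, trace_ot, smul_eq_mul,
    c _ (uTrans ..).2, c _ (one_mem _), c _ (uTrans hH t.l hs * uTrans hH t.r hs).2] at this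
  exact mul_left_cancel₀ (mul_ne_zero h0 h0) (by linear_combination this)

theorem dd (hH : IsHerm B) (hB : B.Nondegenerate) (h : ∀ g ∈ UG B, LinearMap.trace F V (a * cj g b) = k)
    (t : Ti B v w) (t' : Ti B v' w') : B w (a v) * B v' (b w') = 0 := by
  obtain ⟨ω, hω⟩ := not_forall.1 fun n => hH.ne_id (RingHom.ext n)
  have h0 : ω ≠ 0 := fun e => hω (by simp [e])
  have h1 := dd0 hH hB h t t'
  have h2 := dd0 hH hB h t (v' := v') (w' := ω • w') ⟨LinearIndependent.pair_iff.2 fun c d e => by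
    simpa [h0] using LinearIndependent.pair_iff.1 t'.li c (d * ω) (by rwa [mul_smul]),
    t'.l, by simp [t'.r], by simp [t'.or]⟩
  simp only [map_smul, smul_eq_mul, map_smulₛₗ, LinearMap.smul_apply] at h2
  exact mul_left_cancel₀ (sub_ne_zero.2 hω) (by simp only [RingHom.id_apply]; linear_combination σ ω * h1 - h2)

theorem li_of {x : V} (h0 : v ≠ 0) (h1 : B x v = 0) (h2 : B x w = 1) : LinearIndependent F ![v, w] :=
  (LinearIndependent.pair_iff' h0).2 fun c e => by simp [← e, h1] at h2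

/-- An isotropic vector orthogonal to a hyperbolic pair. -/
structure Hy (B : V →ₛₗ[σ] V →ₗ[F] F) (v e f : V) : Prop where
  ne : v ≠ 0
  v0 : B v v = 0
  e0 : B e e = 0
  f0 : B f f = 0
  ef : B e f = 1
  ve : B v e = 0
  vf : B v f = 0

variable {e f e' f' : V}

theorem Hy.te (hH : IsHerm B) (h : Hy B v e f) : Ti B v e :=
  ⟨li_of h.ne (hH.refl h.vf) (hH.flip_one h.ef), h.v0, h.e0, h.ve⟩

theorem Hy.tf (hH : IsHerm B) (h : Hy B v e f) : Ti B v f :=
  ⟨li_of h.ne (hH.refl h.ve) h.ef, h.v0, h.f0, h.vf⟩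

theorem Hy.perp (hH : IsHerm B) (h : Hy B v e f) {W : Submodule F V} (hW : ∀ w, Ti B v w → w ∈ W) {z : V}
    (hz : B v z = 0) : z ∈ W := by
  obtain ⟨y, e1, h1, h2⟩ := hH.hyp_decomp h.e0 h.f0 h.ef z
  obtain ⟨s, hs⟩ := exists_trace_eq σ (.inl hH.ne_id) hH.invol (-B y y) (by rw [map_neg, hH.eq])
  have h3 : B v y = 0 := by rw [e1] at hz; simpa [h.ve, h.vf] using hz
  have h4 := hW (y + e + s • f) ⟨li_of h.ne (hH.refl h.vf) (by simp [h2, h.f0, hH.flip_one h.ef]), h.v0, by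
    simp [h1, h2, hH.refl h1, hH.refl h2, h.e0, h.f0, h.ef, hH.flip_one h.ef]
    linear_combination hs, by simp [h3, h.ve, h.vf]⟩
  have h5 := hW _ (h.te hH)
  have h6 := hW _ (h.tf hH)
  rw [e1]
  exact add_mem (add_mem (W.smul_mem _ h5) (W.smul_mem _ h6)) (by
    simpa using sub_mem (sub_mem h4 (W.smul_mem s h6)) h5)

theorem Hy.eig (hH : IsHerm B) (hB : B.Nondegenerate) (H : Hy B v e f)
    (h : ∀ v w, Ti B v w → B w (a v) = 0) (h0 : w ≠ 0) (hw : B w w = 0) : ∃ c : F, a w = c • w := by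
  obtain ⟨g, h1, -, h2⟩ := (hH.wittPair hB).frame_fin 1 ![v] ![w] (by simpa using H.ne) (by simpa using h0)
    (fun i j => by simp [H.v0, hw, Subsingleton.elim i 0, Subsingleton.elim j 0])
    fun i => by simp [H.v0, hw, Subsingleton.elim i 0]
  obtain rfl : g v = w := h2 0
  have H' : Hy B (g v) (g e) (g f) :=
    ⟨h0, hw, by rw [h1, H.e0], by rw [h1, H.f0], by rw [h1, H.ef], by rw [h1, H.ve], by rw [h1, H.vf]⟩
  generalize g v = w at H' h0
  obtain ⟨x, hx⟩ := not_forall.1 (mt (hB.1 w) h0)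
  refine ⟨σ (B w x)⁻¹ * B x (a w), sub_eq_zero.1 (hB.2 _ fun z => ?_)⟩
  have := hH.refl (H'.perp hH (W := LinearMap.ker (B (a w))) (fun u t => hH.refl (h w u t))
    (z := z - (B w z * (B w x)⁻¹) • x) (by simp [hx]))
  simp only [map_sub, map_smulₛₗ, LinearMap.sub_apply, LinearMap.smul_apply, smul_eq_mul, map_mul, hH.eq,
    RingHom.id_apply] at this ⊢
  linear_combination this

theorem scalar (hH : IsHerm B) (hB : B.Nondegenerate) (H : Hy B e e' f') (H' : Hy B e' e f)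
    (h : ∀ v w, Ti B v w → B w (a v) = 0) : ∃ c : F, ∀ v, a v = c • v := by
  obtain ⟨c, hc⟩ := H.eig hH hB h H.ne H.v0
  have k : ∀ v w, Ti B v w → a v = c • v → a w = c • w := fun v w t e => by
    obtain ⟨d, hd⟩ := H.eig hH hB h (t.li.ne_zero 1) t.r
    obtain ⟨d', hd'⟩ := H.eig hH hB h (w := v + w)
      (fun e => one_ne_zero (LinearIndependent.pair_iff.1 t.li 1 1 (by simpa using e)).1)
      (by simp [t.l, t.r, t.or, hH.refl t.or])
    change a w = d • w at hd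
    rw [map_add, e, hd] at hd'
    obtain ⟨h1, h2⟩ := LinearIndependent.pair_iff.1 t.li (c - d') (d - d') (by
      linear_combination (norm := module) hd')
    rw [hd, sub_eq_zero.1 h1, sub_eq_zero.1 h2]
  refine ⟨c, fun v => ?_⟩
  have h1 := H.perp hH (W := LinearMap.ker (a - c • 1)) (fun w t => by simp [k _ _ t hc])
    (z := v - B e v • f) (by simp [H'.ef])
  simp only [LinearMap.mem_ker, LinearMap.sub_apply, map_sub, map_smul, LinearMap.smul_apply, End.one_apply,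
    k _ _ (H'.tf hH) (k _ _ (H.te hH) hc), sub_self, smul_zero, sub_zero] at h1
  exact sub_eq_zero.1 h1

/-- The trace lemma. -/
theorem trace_lemma (hH : IsHerm B) (hB : B.Nondegenerate) (H : Hy B e e' f') (H' : Hy B e' e f)
    (h : ∀ g ∈ UG B, LinearMap.trace F V (a * cj g b) = k) :
    (∃ c : F, ∀ v, a v = c • v) ∨ ∃ c : F, ∀ v, b v = c • v := by
  by_cases n : ∀ v w, Ti B v w → B w (a v) = 0
  · exact .inl (scalar hH hB H H' n)
  push Not at n
  obtain ⟨v, w, t, n⟩ := n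
  exact .inr (scalar hH hB H H' fun w' v' t' => (mul_eq_zero.1 (dd hH hB h t
    ⟨LinearIndependent.pair_symm_iff.1 t'.li, t'.r, t'.l, hH.refl t'.or⟩)).resolve_left n)

end

section

open Matrix CF.Chev Cfsg

variable {K : Type*} [Field K] {φ : K →+* K} {n : ℕ}

/-- The Hermitian form of the antidiagonal matrix. -/
def bf (m : ℕ) (φ : K →+* K) : (Fin m → K) →ₛₗ[φ] (Fin m → K) →ₗ[K] K :=
  (hermSesq (Fin m) φ).comp (LinearMap.funLeft K K Fin.rev)

theorem bf_apply {m : ℕ} (x y : Fin m → K) : bf m φ x y = ∑ i, φ (x i.rev) * y i := rfl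

theorem bf_single {m : ℕ} (i j : Fin m) :
    bf m φ (Pi.single i 1) (Pi.single j 1) = if i.val + j.val + 1 = m then 1 else 0 := by
  rw [bf_apply, Finset.sum_eq_single j (fun k _ h => by simp [h]) (by simp)]
  simp only [Pi.single_apply, Fin.ext_iff, Fin.val_rev, if_true, mul_one]
  split_ifs <;> first | omega | simp

theorem bf_herm {m : ℕ} (h1 : φ ≠ RingHom.id K) (h2 : ∀ t, φ (φ t) = t) : IsHerm (bf m φ) :=
  ⟨h1, h2, ⟨fun x y => by
    simp only [bf_apply, map_sum, map_mul, h2]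
    exact Fintype.sum_equiv Fin.revPerm _ _ fun i => by simp [mul_comm]⟩⟩

theorem bf_nondeg {m : ℕ} : (bf m φ).Nondegenerate :=
  ⟨fun u hu => funext fun i => by simpa [bf_apply, Pi.single_apply] using hu (Pi.single i.rev 1),
    fun u hu => funext fun i => by
      simpa [bf_apply, Pi.single_apply, Fin.rev_eq_iff, apply_ite φ] using hu (Pi.single i.rev 1)⟩

theorem mem_center {A : SpecialLinearGroup (Fin n) K} (h : ∃ c : K, ∀ v, toLin' (slToMat n K A) v = c • v) :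
    A ∈ Subgroup.center _ := by
  obtain ⟨c, h⟩ := h
  have : slToMat n K A = c • 1 := matrix_eq_iff_mulVec.2 fun v => by simpa [smul_mulVec] using h v
  exact Subgroup.mem_center_iff.2 fun g => sl_ext (by rw [map_mul, map_mul, this]; simp)

theorem mat_lemma (hn : 4 ≤ n) (h1 : φ ≠ RingHom.id K) (h2 : ∀ t, φ (φ t) = t)
    (hd : ∀ d : K, d ≠ 0 → ∃ l, l ^ n * d = 1 ∧ φ l * l = 1) {A B : SpecialLinearGroup (Fin n) K} {c : K}
    (h : ∀ M, suσ n φ M = M → (slToMat n K (A * (M * B * M⁻¹))).trace = c) :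
    A ∈ Subgroup.center _ ∨ B ∈ Subgroup.center _ := by
  refine (trace_lemma (bf_herm h1 h2) bf_nondeg (e := Pi.single ⟨0, by omega⟩ 1)
    (e' := Pi.single ⟨1, by omega⟩ 1) (f := Pi.single ⟨n - 1, by omega⟩ 1) (f' := Pi.single ⟨n - 2, by omega⟩ 1)
    (by constructor <;> simp [bf_single] <;> omega) (by constructor <;> simp [bf_single] <;> omega)
    (k := c) fun g hg => ?_).imp mem_center mem_center
  obtain ⟨l, e1, e2⟩ := hd (LinearMap.toMatrix' (g : End K (Fin n → K))).det (by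
    rw [LinearMap.det_toMatrix']; exact (LinearEquiv.isUnit_det' g).ne_zero)
  let M : SpecialLinearGroup (Fin n) K := ⟨l • LinearMap.toMatrix' (g : End K (Fin n → K)), by simpa using e1⟩
  have e3 : ∀ v, slToMat n K M *ᵥ v = l • g v := fun v => by
    change (l • _) *ᵥ v = _
    simp [smul_mulVec]
  rw [← h M (suσ_eq_iff.2 (Matrix.ext fun i j => ?_)), ← trace_toLin'_eq]
  · congr 1
    refine LinearMap.ext fun v => ?_
    obtain ⟨v, rfl⟩ : ∃ u, slToMat n K M *ᵥ u = v := ⟨slToMat n K M⁻¹ *ᵥ v, by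
      rw [mulVec_mulVec, ← map_mul]; simp⟩
    rw [toLin'_apply, mulVec_mulVec, ← map_mul, mul_assoc, inv_mul_cancel_right, map_mul, map_mul,
      ← mulVec_mulVec, ← mulVec_mulVec, e3, e3]
    simp [cj, mulVec_smul]
  · have := mem_UG.1 hg (Pi.single i 1) (Pi.single j 1)
    rw [mul_apply]
    simp only [mul_revM, transpose_apply, map_apply]
    change ∑ k, φ (l * _) * (l * _) = _
    simp only [LinearMap.toMatrix'_apply, map_mul, mul_mul_mul_comm _ _ l, e2, one_mul, LinearEquiv.coe_coe]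
    rw [← bf_apply, this, bf_single]
    simp only [revM, of_apply, Fin.ext_iff, Fin.val_rev]
    exact if_congr (by omega) rfl rfl

end

section

open Matrix CF.BN CF.Chev CF.Loc Cfsg Cfsg.Lie StRep

variable {B ι : Type} [Fintype B] [DecidableEq B] [Fintype ι] [DecidableEq ι]
  {C : ChevBasis B ι} {K : Type*} [Field K] {G : Type*} [Group G] {ρ : StRep C K G}
  {T : Tw ρ} {G1 : Subgroup G} {ω : ι → ℝ} {g h n : G} {w m : Equiv.Perm ι} {φ : K →+* K} {c : Kˣ}
  {l : ℕ} {e : Fin l → B} {f : SpecialLinearGroup (Fin (l + 1)) K →* G}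
  {X Y : SpecialLinearGroup (Fin (l + 1)) K}

/-- `g` acts on the image of `f` like the matrix `X`. -/
def R (f : SpecialLinearGroup (Fin (l + 1)) K →* G) (g : G) (X : SpecialLinearGroup (Fin (l + 1)) K) : Prop :=
  ∀ A, g * f A * g⁻¹ = f (X * A * X⁻¹)

theorem R.self (X : SpecialLinearGroup (Fin (l + 1)) K) : R f (f X) X := fun A => by simp

theorem R.mul (h1 : R f g X) (h2 : R f h Y) : R f (g * h) (X * Y) := fun A => by
  rw [show X * Y * A * (X * Y)⁻¹ = X * (Y * A * Y⁻¹) * X⁻¹ by group, ← h1, ← h2]; group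

theorem R.inv (h1 : R f g X) : R f g⁻¹ X⁻¹ := fun A => by
  have := h1 (X⁻¹ * A * X⁻¹⁻¹)
  rw [show X * (X⁻¹ * A * X⁻¹⁻¹) * X⁻¹ = A by group] at this
  rw [← this]; group

theorem R.pow (h1 : R f g X) (k : ℕ) : R f (g ^ k) (X ^ k) := by
  induction k with
  | zero => simpa using R.self (f := f) 1
  | succ k ih => rw [pow_succ, pow_succ]; exact ih.mul h1

theorem R.comm (h1 : R f g X) (h2 : X ∈ Subgroup.center _) (A) : g * f A * g⁻¹ = f A := by
  rw [h1, ← Subgroup.mem_center_iff.1 h2, mul_inv_cancel_right]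

theorem R.acts (h : ρ.IsA e f) (hd : ∀ d : K, d ≠ 0 → ∃ a, a ^ (l + 1) * d = 1) (hg : ρ.Acts g m)
    (hm : ∀ s, m (C.simple (e s)) = C.simple (e s)) : ∃ X, R f g X := by
  obtain ⟨-, c, h1, h2⟩ := id hg
  obtain ⟨d, he⟩ := exists_ratio fun i => c (C.simple (e i))
  obtain ⟨a, ha⟩ := hd (dgl d).1.det (isUnit_iff_ne_zero.1 (isUnits_det_units _))
  refine ⟨⟨a • (dgl d).1, by simpa using ha⟩, fun A => ?_⟩
  have := DFunLike.congr_fun (hom_ext_SL (φ := (MulAut.conj g).toMonoidHom.comp f)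
    (φ' := f.comp (cjS (dgl d))) (fun i t => by
      change g * f _ * g⁻¹ = f (cjS _ _)
      rw [cjS_transvection, h.pos, h.pos, h2, hm, ← he]; simp) fun i t => by
      change g * f _ * g⁻¹ = f (cjS _ _)
      rw [cjS_transvection, h.neg, h.neg, h2, RootSys.neg_aut hg.mem_Aut, hm, h1, ← he]; simp) A
  refine this.trans (congrArg f (eq_mul_inv_of_mul_eq (sl_ext ?_)))
  change (dgl d).1 * A.1 * ((dgl d)⁻¹).1 * (a • (dgl d).1) = (a • (dgl d).1) * A.1
  simp

theorem R.levi (h : ρ.IsA e f) (hd : ∀ d : K, d ≠ 0 → ∃ a, a ^ (l + 1) * d = 1)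
    (hg : g ∈ ρ.LJ (Set.range e)) : ∃ X, R f g X := by
  let S : Subgroup G :=
    { carrier := {g | ∃ X, R f g X}
      one_mem' := ⟨1, by simpa using R.self (f := f) 1⟩
      mul_mem' := fun ⟨_, h1⟩ ⟨_, h2⟩ => ⟨_, h1.mul h2⟩
      inv_mem' := fun ⟨_, h1⟩ => ⟨_, h1.inv⟩ }
  refine (sup_le (fun g hg => R.acts h hd (acts_of_mem_H hg) fun _ => rfl) ?_ : _ ≤ S) hg
  change ρ.GJ _ ≤ S
  rw [← h.range]
  rintro _ ⟨X, rfl⟩
  exact ⟨X, R.self X⟩

theorem eq_one (hρ : ρ.Faithful) {J : Set B} (hw : w ∈ C.WJ J) (hg : g ∈ ρ.Cell w)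
    (h : ∀ j ∈ J, ∃ t ≠ 0, g * ρ.x (C.simple j) t * g⁻¹ ∈ ρ.Up) : w = 1 := by
  by_contra h1
  obtain ⟨i, hi⟩ := C.exists_descent (C.WJ_le_W _ hw) h1
  obtain ⟨t, h2, h3⟩ := h i (C.mem_of_descent hw hi)
  exact hi (supp_prodL hρ ρ.bst_pos ρ.bst_pos (L := [C.simple i]) (t := fun _ => t) (by simp)
    (by simp [C.pos_simple]) (by simp) h2 (ρ.bst_pos_diff i) hg (by simpa using h3))

theorem mem_G1 [Fintype K] (F : T.Form G1) (h3 : ρ.R3) (hl : 3 ≤ l) (hK : Fintype.card K = 2 ^ 2)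
    (hφ : ∀ t, φ t = t ^ 2) (h1 : φ ≠ RingHom.id K) (h2 : ∀ t, φ (φ t) = t) (h : ρ.IsA e f)
    (he : ∀ s t, C.car (e s) (e t) = (cbA l).car s t) (hp : ∀ s, T.p (e s) = e s.rev)
    (h4 : ∀ r, T.φ r = φ) (h5 : ∀ i, T.c (C.simple i) = -1) (hX : suσ _ φ X = X) : f X ∈ G1 := by
  obtain ⟨E, hE⟩ := Emb.exists_of_diagram e he
  have h0 : 1 ≤ l := by omega
  obtain ⟨f', hf⟩ := exists_hom_of_tor (faithful_slRep l K h0) (slRep_Gp l K) (r3_slRep l K)
    (h3.pull E) fun c hc => by rw [tor_injective_slRep l K (hc.trans (map_one _).symm), map_one]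
  replace hf : ∀ r t, f' ((slRep l K).x r t) = ρ.x (E.f r) (E.eU K r * t) := hf
  obtain rfl : f = f' := hom_ext_SL (fun i t => (h.pos i t).trans (.symm ((hf ((cbA l).simple i) t).trans (by
    simp [hE, E.eU_simple])))) fun i t => (h.neg i t).trans (.symm
      ((hf ((cbA l).neg ((cbA l).simple i)) t).trans (by simp [hE, E.f_neg, E.eU_neg, E.eU_simple])))
  have k : T.σ.comp f = f.comp (suσ _ φ) := hom_ext_simple₂ (slRep_Gp l K) fun i t => by
    have e1 := (twU h0 φ).σ_x ((cbA l).simple i) t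
    have e2 := (twU h0 φ).σ_x ((cbA l).neg ((cbA l).simple i)) t
    rw [Tw.π_neg] at e2
    rw [Tw.π_simple] at e1 e2
    exact ⟨((congrArg T.σ (h.pos i t)).trans (by rw [T.σ_x, T.π_simple, hp, h4, h5]; rfl)).trans
        ((congrArg f e1).trans (h.pos _ _)).symm,
      ((congrArg T.σ (h.neg i t)).trans (by rw [T.σ_x, T.π_neg, T.π_simple, hp, h4, T.c_neg, h5, inv_neg_one]; rfl)).trans
        ((congrArg f e2).trans (h.neg _ _)).symm⟩
  have k' : ∀ X ∈ (twU h0 φ).Fix, f X ∈ T.Fix := fun X hX => (DFunLike.congr_fun k X).trans (congrArg f hX)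
  refine (sup_le (fun X hX => F.Up_le ⟨?_, k' X hX.2⟩) fun X hX => F.Um_le ⟨?_, k' X hX.2⟩ :
    (twU h0 φ).Gen ≤ G1.comap f) (genU h0 hK hφ h1 h2 (by omega) (by omega) hX)
  · exact ((slRep l K).U_le_iff (H := ρ.Up.comap f)).2 (fun r hr t => by
      rw [Subgroup.mem_comap, hf]; exact ρ.x_mem_U ((E.pos_iff hE).2 hr) _) hX.1
  · exact ((slRep l K).U_le_iff (H := ρ.Um.comap f)).2 (fun r hr t => by
      rw [Subgroup.mem_comap, hf]; exact ρ.x_mem_U (mt (E.pos_iff hE).1 hr) _) hX.1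

theorem frob [Fintype K] (hK : Fintype.card K = 2 ^ 2) (h1 : φ ≠ RingHom.id K) (t : K) :
    φ t = t ^ 2 := by
  have k : ∀ t : K, t = 0 ∨ t = 1 ∨ t ^ 2 + t + 1 = 0 := fun t => by
    have := FiniteField.pow_card t
    rw [hK] at this
    simpa only [mul_eq_zero, sub_eq_zero] using
      (by linear_combination this : t * ((t - 1) * (t ^ 2 + t + 1)) = 0)
  have k' : ∀ {s t : K}, s ^ 2 + s + 1 = 0 → t ^ 2 + t + 1 = 0 → s = t ∨ s = t ^ 2 := fun {s t} e e' => by
    simpa only [mul_eq_zero, sub_eq_zero] using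
      (by linear_combination e + (t - s - 1) * e' : (s - t) * (s - t ^ 2) = 0)
  rcases k t with rfl | rfl | e
  · simp
  · simp
  refine (k' (by simpa using congrArg φ e) e).resolve_left fun e' => h1 (RingHom.ext fun s => ?_)
  rcases k s with rfl | rfl | e2
  · simp
  · simp
  rcases k' e2 e with rfl | rfl <;> simp [e']

theorem no_levi (M : LT 2 T G1 ω) (g : Gr T φ c) (hq : Nat.card K = 4) (hl : l = 3 ∨ l = 4)
    (h1 : ∀ s t, C.car (e s) (e t) = (cbA l).car s t) (h2 : ∀ s, T.p (e s) = e s.rev)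
    (hw : w ∈ C.WJ (Set.range e)) (hw' : w ≠ 1) (hn : ρ.NW n m)
    (hm : ∀ s, m (C.simple (e s)) = C.simple (e s)) {l₁ l₂ : G} (h3 : l₁ ∈ ρ.LJ (Set.range e))
    (h4 : l₂ ∈ ρ.LJ (Set.range e)) (h5 : l₁ ∈ ρ.Cell w) (h6 : l₂ ∈ ρ.Cell w⁻¹)
    (h : ∀ g ∈ ρ.LJ (Set.range e) ⊓ G1, PE 2 (l₁ * (n * g * n⁻¹) * l₂ * g⁻¹)) : False := by
  have := M.fin
  have := M.char
  have := Fintype.ofFinite K
  have hK : Fintype.card K = 2 ^ 2 := by rw [← Nat.card_eq_fintype_card, hq]; rfl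
  have l3 : 3 ≤ l := by omega
  let z : Fin l := ⟨0, by omega⟩
  have p1 : T.p (e z) ≠ e z := fun q => by
    have := h1 z.rev z
    rw [← h2, q, C.car_self, cbA_car] at this
    simp only [z, Fin.ext_iff, Fin.val_rev] at this
    omega
  have φ1 : φ ≠ RingHom.id K := fun q => p1 (by
    have := (g.ord 1 (by rw [q]; rfl)).1
    rw [pow_one] at this
    rw [this]; rfl)
  have φ2 : ∀ t, φ (φ t) = t := fun t => DFunLike.congr_fun (g.ord' _ p1 2 (by
    rw [sq, Equiv.Perm.mul_apply, h2, h2, Fin.rev_rev])) t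
  have hφ := frob hK φ1
  have k3 : ∀ t : K, t ≠ 0 → t ^ 3 = 1 := fun t h => by simpa [hK] using FiniteField.pow_card_sub_one_eq_one t h
  have hd : ∀ d : K, d ≠ 0 → ∃ a, a ^ (l + 1) * d = 1 ∧ φ a * a = 1 := fun d d0 => by
    rcases hl with rfl | rfl
    · exact ⟨d ^ 2, by linear_combination (d ^ 6 + d ^ 3 + 1) * k3 d d0, by
        rw [hφ]; linear_combination (d ^ 3 + 1) * k3 d d0⟩
    · exact ⟨d, by linear_combination (d ^ 3 + 1) * k3 d d0, by rw [hφ]; linear_combination k3 d d0⟩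
  have hd' : ∀ d : K, d ≠ 0 → ∃ a, a ^ (l + 1) * d = 1 := fun d h => (hd d h).imp fun _ h => h.1
  have hz : ∀ X ∈ Subgroup.center (SpecialLinearGroup (Fin (l + 1)) K), X = 1 := fun X hX => by
    obtain ⟨r, e1, e2⟩ := Matrix.SpecialLinearGroup.mem_center_iff.1 hX
    rw [Fintype.card_fin] at e1
    have := k3 r (by rintro rfl; simp at e1)
    obtain rfl : r = 1 := by
      rcases hl with rfl | rfl
      · linear_combination e1 - r * this
      · linear_combination (r ^ 3 + 1) * this - r * e1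
    exact Subtype.ext (by simpa using e2.symm)
  obtain ⟨f, hf⟩ := M.r3.exists_isA (by omega) h1
  have fi : Function.Injective f := (injective_iff_map_eq_one f).2 fun X hX => hz X
    ((le_center_or_eq_top (faithful_slRep l K (by omega)) (slRep_Gp l K) connA (.inr (.inl (a2NbA (by omega))))
      f.ker).resolve_right (fun q => one_ne_zero (T.faith.x_eq_one_iff.1 ((hf.pos z 1).symm.trans
        (q.ge (Subgroup.mem_top _))))) hX)
  obtain ⟨X₁, r1⟩ := R.levi hf hd' h3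
  obtain ⟨X₂, r2⟩ := R.levi hf hd' h4
  obtain ⟨D, r3⟩ := R.acts hf hd' hn.acts hm
  have c1 : c = -1 := Units.ext (by
    have : (c : K) * c = 1 := congrArg Units.val g.sq
    rcases mul_self_eq_one_iff.1 this with q | q <;> simp [q, CharTwo.neg_eq])
  obtain ⟨-, a, -, ha⟩ := id hn.acts
  rcases mat_lemma (A := X₁ * D) (B := D⁻¹ * X₂) (c := (l + 1 : ℕ)) (by omega) φ1 φ2 hd fun A hA => by
    obtain ⟨k, hk⟩ := h (f A) ⟨Subgroup.mem_sup_right (hf.range.le ⟨A, rfl⟩), mem_G1 M.form M.r3 l3 hK hφ φ1 φ2 hf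
      h1 h2 g.φ_eq (c1 ▸ g.c_eq) hA⟩
    have r := (((r1.mul ((r3.mul (.self A)).mul r3.inv)).mul r2).mul (R.self A).inv).pow (2 ^ k)
    rw [hk, show X₁ * (D * A * D⁻¹) * X₂ * A⁻¹ = X₁ * D * (A * (D⁻¹ * X₂) * A⁻¹) by group] at r
    generalize X₁ * D * (A * (D⁻¹ * X₂) * A⁻¹) = Y at r
    have := hz (Y ^ 2 ^ k) (Subgroup.mem_center_iff.2 fun B =>
      (mul_inv_eq_iff_eq_mul.1 (fi (by simpa using (r B).symm))).symm)
    have q : IsNilpotent (slToMat _ K Y - 1) := ⟨2 ^ k, by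
      rw [sub_pow_char_pow_of_commute _ _ (Commute.one_right _), ← map_pow, this]; simp⟩
    have := (isNilpotent_trace_of_isNilpotent q).eq_zero
    rw [trace_sub, sub_eq_zero] at this
    simpa using this
    with q | q
  · refine hw' (eq_one T.faith hw h5 ?_)
    rintro _ ⟨s, rfl⟩
    refine ⟨a (C.simple (e s)) * 1, by simp, ?_⟩
    have := ha (C.simple (e s)) 1
    rw [hm] at this
    rw [← this, show ∀ y, l₁ * (n * y * n⁻¹) * l₁⁻¹ = l₁ * n * y * (l₁ * n)⁻¹ from fun y => by group, ← hf.pos,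
      (r1.mul r3).comm q, hf.pos]
    exact ρ.x_mem_U (C.pos_simple _) _
  · refine hw' (inv_eq_one.1 (eq_one T.faith (inv_mem hw) h6 ?_))
    rintro _ ⟨s, rfl⟩
    refine ⟨1, by simp, ?_⟩
    rw [show ∀ y, l₂ * y * l₂⁻¹ = n * (n⁻¹ * l₂ * y * (n⁻¹ * l₂)⁻¹) * n⁻¹ from fun y => by group, ← hf.pos,
      (r3.inv.mul r2).comm q, hf.pos, ha, hm]
    exact ρ.x_mem_U (C.pos_simple _) _

end

end CF.Ah.UU
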