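import Cfsg.Agent.Ah.UL
import Cfsg.Agent.Ah.UU0

/-! Products of classes: unitary Levi subgroups over the field with four elements. -/

set_option autoImplicit false

namespace CF.Ah

open CF.BN CF.Chev CF.Loc Cfsg Cfsg.Lie

variable {B ι : Type} [Fintype B] [DecidableEq B] [Fintype ι] [DecidableEq ι]
  {C : ChevBasis B ι} {K : Type*} [Field K] {G : Type*} [Group G] {ρ : StRep C K G}
  {T : Tw ρ} {G1 : Subgroup G} {ω : ι → ℝ} {a b : G} {w m : Equiv.Perm ι} {φ : K →+* K} {c : Kˣ}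

theorem ul (S : St 2 T G1 ω a b) (hU : PU 2 G1 a b) (g : Gr T φ c) (hq : Nat.card K = 4) {l : ℕ}
    (hl : l = 3 ∨ l = 4) {e : Fin l → B} (h1 : ∀ s t, C.car (e s) (e t) = (cbA l).car s t)
    (h2 : ∀ s, T.p (e s) = e s.rev) (hw : w ∈ C.WJ (Set.range e) ⊓ T.S.Wf) (hw' : w ≠ 1) (hm : m ∈ T.S.Wf)
    (hm' : ∀ s, m (C.simple (e s)) = C.simple (e s)) : ¬ Om ρ G1 a b (w * m) := fun h => by
  obtain ⟨n, -, hn, l₁, h3, l₂, h4, h5, h6, h7⟩ := h.levi S hU (J := Set.range e) (fun i => by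
    constructor
    · rintro ⟨s, hs⟩
      exact ⟨s.rev, T.p.injective ((h2 _).trans (by rwa [Fin.rev_rev]))⟩
    · rintro ⟨s, rfl⟩
      exact ⟨s.rev, (h2 s).symm⟩) hw hm (by rintro _ ⟨s, rfl⟩; exact ⟨_, ⟨s, rfl⟩, hm' s⟩)
  exact UU.no_levi S.lt g hq hl h1 h2 hw.1 hw' hn hm' h3.1 h4.1 h5 h6 h7

end CF.Ah
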