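import Cfsg.Agent.Ah.UF

/-! Products of conjugacy classes: a calculus of words in the generators of the Weyl group. -/

set_option autoImplicit false

namespace CF.Ah.UW

open CF.BN CF.Chev CF.Loc Cfsg

variable {B ι : Type} [Fintype B] [DecidableEq B] [Fintype ι] [DecidableEq ι]
  {C : ChevBasis B ι} {K : Type*} [Field K] {G : Type*} [Group G] {ρ : StRep C K G}
  {T : Tw ρ} {G1 : Subgroup G} {ω : ι → ℝ} {p : ℕ} [Fact p.Prime] {a : G} {sg : B → ι → ι}

/-- The element of a word. -/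
noncomputable def wd (T : Tw ρ) (l : List B) : Equiv.Perm ι := (l.map T.S.s).prod

/-- The action of a word, by a table. -/
def ev (sg : B → ι → ι) (l : List B) (r : ι) : ι := l.foldr sg r

@[simp] theorem wd_nil : wd T [] = 1 := rfl

theorem wd_cons (i : B) (l : List B) : wd T (i :: l) = T.S.s i * wd T l := by simp [wd]

theorem wd_append (l l' : List B) : wd T (l ++ l') = wd T l * wd T l' := by simp [wd]

theorem wd_one (i : B) : wd T [i] = T.S.s i := by simp [wd]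

theorem wd_rev (l : List B) : wd T l.reverse = (wd T l)⁻¹ := by
  induction l with
  | nil => simp
  | cons i l ih => rw [List.reverse_cons, wd_append, ih, wd_one, wd_cons, mul_inv_rev, lg_inv]

theorem wd_mem (l : List B) : wd T l ∈ T.S.Wf := by
  induction l with
  | nil => exact one_mem _
  | cons i l ih => exact wd_cons (T := T) i l ▸ mul_mem (Sym.s_mem_Wf i) ih

theorem wd_cj (i : B) (l : List B) : T.S.s i * wd T l * T.S.s i = wd T (i :: l ++ [i]) := by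
  rw [wd_append, wd_cons, wd_one]

/-- Two words act in the same way. -/
def Sm (sg : B → ι → ι) (l l' : List B) : Prop := ∀ r, ev sg l r = ev sg l' r

instance (l l' : List B) : Decidable (Sm sg l l') := inferInstanceAs (Decidable (∀ _, _))

/-- One move between cells met by a class. -/
def Mv (C : ChevBasis B ι) (sg : B → ι → ι) (l : List B) (i : B) (l' : List B) : Prop :=
  (C.Pos (ev sg l.reverse (C.simple i)) ∨ C.Pos (ev sg l (C.simple i))) ∧ Sm sg l' (i :: l ++ [i]) ∨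
    (C.Pos (ev sg l.reverse (C.simple i)) ∧ ¬ C.Pos (ev sg l (C.simple i))) ∧ Sm sg l' (i :: l) ∨
    (¬ C.Pos (ev sg l.reverse (C.simple i)) ∧ C.Pos (ev sg l (C.simple i))) ∧ Sm sg l' (l ++ [i])

instance (l : List B) (i : B) (l' : List B) : Decidable (Mv C sg l i l') := by
  unfold Mv; infer_instance

/-- A chain of moves. -/
def Ch (C : ChevBasis B ι) (sg : B → ι → ι) : List B → List (B × List B) → List B → Prop
  | l, [], l' => Sm sg l l'
  | l, x :: m, l' => Mv C sg l x.1 x.2 ∧ Ch C sg x.2 m l'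

instance decCh : ∀ (l : List B) (m : List (B × List B)) (l' : List B), Decidable (Ch C sg l m l')
  | l, [], l' => inferInstanceAs (Decidable (Sm sg l l'))
  | l, x :: m, l' => have := decCh x.2 m l'; inferInstanceAs (Decidable (_ ∧ _))

/-- The folding condition for words, relative to a list of cells that are not met. -/
def FW (C : ChevBasis B ι) (sg : B → ι → ι) (bad : List (List B)) : List B → List B → Prop
  | _, [] => True
  | l, k :: m => C.Pos (ev sg (k :: l ++ [k]).reverse (C.simple k)) ∧ (∃ x ∈ bad, Sm sg (l ++ [k]) x) ∧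
      FW C sg bad (k :: l ++ [k]) m

instance decFW (bad : List (List B)) : ∀ l m : List B, Decidable (FW C sg bad l m)
  | _, [] => isTrue trivial
  | l, k :: m => have := decFW bad (k :: l ++ [k]) m; inferInstanceAs (Decidable (_ ∧ _))

variable (hs : ∀ i r, T.S.s i r = sg i r)
include hs

theorem wd_ev (l : List B) (r : ι) : wd T l r = ev sg l r := by
  induction l with
  | nil => rfl
  | cons i l ih => rw [wd_cons, Equiv.Perm.mul_apply, ih, hs]; rfl

theorem wd_inv_ev (l : List B) (r : ι) : (wd T l)⁻¹ r = ev sg l.reverse r := by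
  rw [← wd_rev, wd_ev hs]

theorem wd_eq {l l' : List B} (h : Sm sg l l') : wd T l = wd T l' :=
  Equiv.ext fun r => by rw [wd_ev hs, wd_ev hs, h]

theorem mv (M : LT p T G1 ω) (ha : a ∈ G1) {l l' : List B} {i : B} (h : WA ρ G1 a (wd T l))
    (hm : Mv C sg l i l') : WA ρ G1 a (wd T l') := by
  rw [Mv, ← wd_inv_ev hs, ← wd_ev hs] at hm
  rcases hm with ⟨h1, h2⟩ | ⟨h1, h2⟩ | ⟨h1, h2⟩ <;> rw [wd_eq hs h2]
  · exact wd_cj (T := T) i l ▸ h.asc M ha h1
  · exact wd_cons (T := T) i l ▸ h.ascL M ha h1.1 h1.2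
  · rw [wd_append, wd_one]; exact h.ascR M ha h1.1 h1.2

theorem ch (M : LT p T G1 ω) (ha : a ∈ G1) (m : List (B × List B)) {l l' : List B}
    (h : WA ρ G1 a (wd T l)) (hm : Ch C sg l m l') : WA ρ G1 a (wd T l') := by
  induction m generalizing l with
  | nil => exact wd_eq hs hm ▸ h
  | cons x m ih => exact ih (mv hs M ha h hm.1) hm.2

theorem foldOK {bad : List (List B)} (hb : ∀ x ∈ bad, ¬ WA ρ G1 a (wd T x)) {l m : List B}
    (h : FW C sg bad l m) : FoldOK T G1 a (wd T l) m := by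
  induction m generalizing l with
  | nil => trivial
  | cons k m ih =>
    obtain ⟨h1, ⟨x, hx, h2⟩, h3⟩ := h
    refine ⟨?_, ?_, ?_⟩
    · rwa [wd_cj, wd_inv_ev hs]
    · rw [← wd_one, ← wd_append, wd_eq hs h2]; exact hb x hx
    · rw [wd_cj]; exact ih h3

/-- Folding: a representative `u n` with `u` in a small group. -/
theorem fold' (M : LT p T G1 ω) (ha : a ∈ G1) {bad : List (List B)}
    (hb : ∀ x ∈ bad, ¬ WA ρ G1 a (wd T x)) {l : List B} (h : WA ρ G1 a (wd T l)) (L : List (List B))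
    (hL : ∀ m ∈ L, FW C sg bad l m) (v l' : List B) (hv : Sm sg (v ++ l ++ v.reverse) l') {S : Set ι}
    (hS : ∀ r, C.Pos r → (∀ m ∈ L, C.Pos (ev sg m.reverse r)) → ev sg v r ∈ S) :
    ∃ u ∈ G1, u ∈ ρ.U S ∧ ∃ n ∈ G1, ρ.NW n (wd T l') ∧ Cj G1 a (u * n) := by
  obtain ⟨u, hu, n, hn, hw, hc⟩ := h.form M ha
  have h1 := fold M hu hn hw (L := L) fun m hm =>
    foldOK hs (fun x hx e => hb x hx ((WA.cj hc).1 e)) (hL m hm)
  obtain ⟨k, hk, hk'⟩ := M.form.exists_n (wd_mem (T := T) v)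
  refine ⟨k * u * k⁻¹, mul_mem (mul_mem hk hu.2) (inv_mem hk), hk'.acts.conj_mem_U (fun r hr => ?_) h1,
    k * n * k⁻¹, mul_mem (mul_mem hk hn) (inv_mem hk), ?_, ?_⟩
  · rw [wd_ev hs]
    exact hS r hr.1 fun m hm => wd_ev hs m.reverse r ▸ hr.2 m hm
  · rw [← wd_eq hs hv, wd_append, wd_append, wd_rev]
    exact (hk'.mul hw).mul hk'.inv
  · simpa [mul_assoc] using hc.conj hk

/-- Folding down to a simple node. -/
theorem blk' (M : LT p T G1 ω) (ha : a ∈ G1) (hp : PE p a) {bad : List (List B)}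
    (hb : ∀ x ∈ bad, ¬ WA ρ G1 a (wd T x)) {l : List B} (h : WA ρ G1 a (wd T l)) (L : List (List B))
    (hL : ∀ m ∈ L, FW C sg bad l m) (v : List B) {i : B} (hv : Sm sg (v ++ l ++ v.reverse) [i])
    {J : Set B} (hJ : T.S.Stab J) (hi : i ∈ J)
    (hS : ∀ r, C.Pos r → (∀ m ∈ L, C.Pos (ev sg m.reverse r)) → C.Pos (ev sg v r) ∧
      (C.InSub (T.S.orb i) (ev sg v r) ∨ ¬ C.InSub J (ev sg v r))) :
    ∃ y ∈ blk T i, y ≠ 1 ∧ ∃ q ∈ ρ.UJ J ⊓ G1, Cj G1 a (y * q) := by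
  obtain ⟨u, hu, hu', n, hn, hw, hc⟩ := fold' hs M ha hb h L hL v [i] hv
    (S := {r | C.Pos r ∧ (C.InSub (T.S.orb i) r ∨ ¬ C.InSub J r)}) hS
  obtain ⟨y, hy, h1, q, hq, e⟩ := blk_of M hJ hi hu hu' hn (wd_one (T := T) i ▸ hw) (hp.cj hc)
  exact ⟨y, hy, h1, q, hq, hc.trans e⟩

/-- Folding down to a simple node, all the way. -/
theorem blk1 (M : LT p T G1 ω) (ha : a ∈ G1) (hp : PE p a) {bad : List (List B)}
    (hb : ∀ x ∈ bad, ¬ WA ρ G1 a (wd T x)) {l : List B} (h : WA ρ G1 a (wd T l)) (L : List (List B))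
    (hL : ∀ m ∈ L, FW C sg bad l m) (v : List B) {i : B} (hv : Sm sg (v ++ l ++ v.reverse) [i])
    (hS : ∀ r, C.Pos r → (∀ m ∈ L, C.Pos (ev sg m.reverse r)) → C.Pos (ev sg v r) ∧
      C.InSub (T.S.orb i) (ev sg v r)) : ∃ y ∈ blk T i, y ≠ 1 ∧ Cj G1 a y := by
  obtain ⟨y, hy, h1, q, hq, e⟩ := blk' hs M ha hp hb h L hL v hv T.S.stab_univ trivial
    fun r a b => (hS r a b).imp_right .inl
  obtain rfl : q = 1 := Subgroup.mem_bot.1
    (ρ.U_le_iff.2 (fun r hr => (hr.2 (C.inSub_univ r)).elim) hq.1)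
  exact ⟨y, hy, h1, by simpa using e⟩

theorem opp (M : LT p T G1 ω) (ha : a ∈ G1) {l : List B} (h : WA ρ G1 a (wd T l)) {δ θ : ι} {J : Set B}
    (h1 : C.Pos δ) (h2 : C.InSub J δ) (h3 : ∀ u ∈ ρ.UL J, ∀ t, Commute u (ρ.x δ t))
    (h4 : ev sg l δ = C.neg δ) (v : List B) (h5 : ev sg v δ = θ) : Opp p ρ G1 θ a := by
  rw [← h5, ← wd_ev hs]
  exact (opp_of_neg M ha h h1 h2 h3 (wd_ev hs l δ ▸ h4)).move M (wd_mem v)

omit hs in
theorem blk_notMem {i : B} {y : G} (hy : y ∈ blk T i) (h1 : y ≠ 1) : y ∉ ρ.UJ (T.S.orb i) := fun h =>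
  h1 (Subgroup.mem_bot.1 ((StRep.UJ_inf_LJ T.faith _).le
    ⟨h, Subgroup.mem_sup_right (ρ.U_mono (fun _ h => h.2) hy.1)⟩))

omit hs in
theorem blk_mem {i j : B} {y : G} (hy : y ∈ blk T i) (h : j ∉ T.S.orb i) : y ∈ ρ.UJ (T.S.orb j) :=
  ρ.U_mono (fun r hr => And.intro hr.1 fun e => C.not_inSub_empty r fun k _ => by
    by_contra c
    exact h ((T.S.orb_eq_of_mem (by_contra fun d => c (hr.2 k d))).symm.trans
      (T.S.orb_eq_of_mem (by_contra fun d => c (e k d))) ▸ T.S.mem_orb_self j)) hy.1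

/-- In rank two, the product of two classes of block elements of different types is no class. -/
theorem not_sc (M : LT p T G1 ω) {b x y : G} (ha : a ∈ G1) (hb : b ∈ G1) {i j : B} (hx : x ∈ blk T i)
    (x1 : x ≠ 1) (hy : y ∈ blk T j) (y1 : y ≠ 1) (hij : j ∉ T.S.orb i)
    (hk : ∀ k, k ∈ T.S.orb i ∨ k ∈ T.S.orb j)
    (hS : ∀ r, C.Pos r → C.InSub (T.S.orb i) r → C.Pos (sg j r) ∧ ¬ C.InSub (T.S.orb i) (sg j r))
    (cx : Cj G1 a x) (cy : Cj G1 b y) : ¬ SC p G1 a b := by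
  rintro ⟨c, -, -, h⟩
  have hji : i ∉ T.S.orb j := fun e => hij ((T.S.orb_eq_of_mem e).symm ▸ T.S.mem_orb_self j)
  have h1 := blk_mem hx hij
  have h2 := blk_mem hy hji
  have h3 : ∀ k, x * y ∉ ρ.UJ (T.S.orb k) := fun k e => by
    rcases hk k with d | d <;> rw [T.S.orb_eq_of_mem d] at e
    · exact blk_notMem hx x1 ((mul_mem_cancel_right h2).1 e)
    · exact blk_notMem hy y1 ((mul_mem_cancel_left h1).1 e)
  obtain ⟨n, hn, hw⟩ := M.form.exists_n_s j
  have h4 : n * x * n⁻¹ * y ∈ ρ.UJ (T.S.orb i) :=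
    mul_mem (hw.acts.conj_mem_U (fun r hr => by rw [hs]; exact hS r hr.1 hr.2) hx.1) h2
  obtain ⟨k, hk', e⟩ := (h _ _ cx cy).symm.trans (h _ _ (cx.conj hn) cy)
  have h5 := reg_unique M ⟨mul_mem (ρ.UJ_le_Up _ h1) (ρ.UJ_le_Up _ h2), mul_mem (cx.mem ha) (cy.mem hb)⟩
    h3 hk' (e ▸ ρ.Up_le_Bo (ρ.UJ_le_Up _ h4))
  refine h3 i ?_
  rw [e] at h4
  simpa [mul_assoc] using StRep.PJ_conj_mem_UJ (ρ.Bo_le_PJ _ (inv_mem h5)) h4

end CF.Ah.UW
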