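import Cfsg.Agent.Ah.UF
import Cfsg.Agent.Ah.UL
import Cfsg.Agent.Chev.LTS
import Cfsg.Agent.Chev.TabX

/-! Products of classes consisting of unipotent elements: the Suzuki and Ree groups. -/

set_option autoImplicit false

namespace CF.Ah

open CF.BN CF.Chev CF.Loc Cfsg Cfsg.Lie

namespace UZ

section

variable {B ι : Type} [Fintype B] [DecidableEq B] [Fintype ι] [DecidableEq ι]
  {C : ChevBasis B ι} {K : Type*} [Field K] {G : Type*} [Group G] {ρ : StRep C K G}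
  {T : Tw ρ} {G1 : Subgroup G} {ω : ι → ℝ} {p : ℕ} [Fact p.Prime] {a b : G} {w : Equiv.Perm ι}

omit [Fact p.Prime] in
theorem kw_sq (M : LT p T G1 ω) (hw : w ∈ T.S.Wf) (h : Kw ρ G1 w) {c : B → Kˣ}
    (hc : M.r3.tor c ∈ G1) {r : ι} (e : w r = C.neg r) : (∏ i, c i ^ C.sp i (C.vec r)) ^ 2 = 1 := by
  obtain ⟨n, hn, hnw⟩ := M.form.exists_n hw
  have h1 := h n hn hnw _ ⟨M.r3.range_tor.le ⟨c, rfl⟩, hc⟩
  obtain ⟨d, hd⟩ := hnw.acts.exists_conj_x r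
  have h2 := M.r3.actsT_tor c
  have h3 : M.r3.tor c * (n * ρ.x r 1 * n⁻¹) * (M.r3.tor c)⁻¹ =
      n * (M.r3.tor c * ρ.x r 1 * (M.r3.tor c)⁻¹) * n⁻¹ := by
    rw [show ∀ t n x : G, t * (n * x * n⁻¹) * t⁻¹ = (t * n) * x * (t * n)⁻¹ from fun _ _ _ => by group,
      ← h1.eq]
    group
  rw [hd, h2, h2, hd, e, C.vec_neg, Char.ev_neg, C.torChar_ev] at h3
  have h4 := T.faith.x_injective _ h3
  rw [mul_one, mul_one, mul_comm, Units.mul_right_inj, Units.val_inj] at h4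
  rw [sq]
  exact inv_eq_iff_mul_eq_one.1 h4

/-- The frame: no longest element of a stable set of nodes centralizes the torus. -/
theorem om_one (S : St p T G1 ω a b) (hU : PU p G1 a b)
    (h : ∀ D, T.S.Stab D → D.Nonempty → ¬ Kw ρ G1 (lg C.toRootSys D)) (h1 : Om ρ G1 a b w) : w = 1 := by
  by_contra h2
  obtain ⟨D, d1, d2, d3, -⟩ := h1.min S hU h2
  exact h D d1 d2 (d3.kw S hU)

theorem rank_one (S : St p T G1 ω a b) (h0 : ∀ i, T.S.orb i = Set.univ)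
    (h : ¬ Kw ρ G1 (lg C.toRootSys Set.univ)) : ¬ PU p G1 a b := fun hU => by
  have h1 : ∀ w, Om ρ G1 a b w → w = 1 := fun w => om_one S hU fun D d1 ⟨i, hi⟩ => by
    rwa [show D = Set.univ from Set.eq_univ_of_univ_subset (h0 i ▸ d1.orb_subset hi)]
  obtain ⟨h2, h3⟩ := pe_of_om S hU h1
  obtain ⟨i, hi⟩ := exists_wa_s S.lt S.ma h2 S.na
  obtain ⟨j, hj⟩ := exists_wa_s S.lt S.mb h3 S.nb
  rw [Sym.s, h0 i] at hi
  rw [Sym.s, h0 j] at hj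
  exact lg_ne_one (Set.mem_univ i) (h1 _ ⟨hi, by rwa [lg_inv]⟩)

end

theorem lgB2 : lg cB2.toRootSys Set.univ = cB2.negPerm :=
  lg_univ_eq_neg (cm := [[2, -2], [-1, 2]]) (by decide +kernel) [0, 1, 0, 1] (by decide +kernel)

section F4

/-- The image of a root. -/
def ev (l : List (Fin 4)) (r : ℕ) : ℕ := (l.flatMap swF4).foldr (fun (i : Fin 4) s => tabF4.sref i s) r

/-- Equality of words. -/
def eqW (l m : List (Fin 4)) : Prop := ∀ r < 48, ev l r = ev m r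

instance (l m : List (Fin 4)) : Decidable (eqW l m) := Nat.decidableBallLT _ _

/-- The folding condition. -/
def chk (N : List (List (Fin 4))) (sim : Fin 4 → ℕ) : List (Fin 4) → List (Fin 4) → Prop
  | [], _ => True
  | k :: L, l => 24 ≤ ev (k :: (l ++ [k])).reverse (sim k) ∧ (∃ m ∈ N, eqW (l ++ [k]) m) ∧
      chk N sim L (k :: (l ++ [k]))

instance decChk (N : List (List (Fin 4))) (sim : Fin 4 → ℕ) :
    ∀ L l : List (Fin 4), Decidable (chk N sim L l)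
  | [], _ => isTrue trivial
  | k :: L, l => @instDecidableAnd _ _ _ (@instDecidableAnd _ _ _ (decChk N sim L (k :: (l ++ [k]))))

/-- The simple roots. -/
def sim : Fin 4 → ℕ := ![33, 27, 25, 24]

variable {K : Type*} [Field K] {G : Type*} [Group G] {ρ : StRep cF4 K G} {T : Tw ρ} {G1 : Subgroup G}
  {ω : Fin 48 → ℝ} {a b : G} {l m : List (Fin 4)} {i j k : Fin 4}

variable (T) in
/-- The value of a word. -/
noncomputable def W (l : List (Fin 4)) : Equiv.Perm (Fin 48) := (l.map T.S.s).prod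

theorem W_cons : W T (k :: l) = T.S.s k * W T l := by simp [W]

theorem W_snoc : W T (l ++ [k]) = W T l * T.S.s k := by simp [W]

theorem W_append : W T (l ++ m) = W T l * W T m := by simp [W]

theorem W_one : W T [k] = T.S.s k := by simp [W]

theorem W_conj : W T (k :: (l ++ [k])) = T.S.s k * W T l * T.S.s k := by simp [W, mul_assoc]

theorem W_rev : W T l.reverse = (W T l)⁻¹ := by
  induction l with
  | nil => simp [W]
  | cons k l ih => rw [List.reverse_cons, W_snoc, W_cons, ih, mul_inv_rev, lg_inv]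

theorem W_mem : W T l ∈ T.S.Wf :=
  list_prod_mem (by simpa using fun k _ => Sym.s_mem_Wf k)

variable (hp : T.S.p = Fin.revPerm)
include hp

theorem val_W (r : Fin 48) : (W T l r).1 = ev l r := by
  have h (L : List (Fin 4)) (r : Fin 48) :
      (cF4.wp L r).1 = L.foldr (fun (i : Fin 4) s => tabF4.sref i s) r := by
    induction L with
    | nil => rfl
    | cons j L ih => rw [List.foldr_cons, ← ih, RootSys.wp_cons]; exact certF4.val_sref j _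
  rw [ev, ← h]
  congr 2
  induction l with
  | nil => rfl
  | cons k l ih => rw [W_cons, ih, List.flatMap_cons, RootSys.wp_append, (dataF4 hp).s_eq]

theorem pos_W {r : Fin 48} : cF4.Pos (W T l r) ↔ 24 ≤ ev l r := by
  rw [(by decide +kernel : ∀ r : Fin 48, cF4.Pos r ↔ 24 ≤ r.1), val_W hp]

theorem pos_sim : cF4.Pos (W T l (cF4.simple k)) ↔ 24 ≤ ev l (sim k) := by
  rw [pos_W hp, (by decide +kernel : ∀ k, (cF4.simple k).1 = sim k)]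

theorem W_eq (h : eqW l m) : W T l = W T m :=
  Equiv.ext fun r => Fin.ext (by rw [val_W hp, val_W hp, h r r.2])

theorem foldOK {N : List (List (Fin 4))} (hN : ∀ m ∈ N, ¬ WA ρ G1 a (W T m)) :
    ∀ L l, chk N sim L l → FoldOK T G1 a (W T l) L
  | [], _, _ => trivial
  | k :: L, l, ⟨h1, ⟨m, h2, h3⟩, h4⟩ => ⟨by rwa [← W_conj, ← W_rev, pos_sim hp],
      by rw [← W_snoc, W_eq hp h3]; exact hN m h2, W_conj (T := T) ▸ foldOK hN L _ h4⟩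

theorem asc (M : LT 2 T G1 ω) (ha : a ∈ G1) (h : WA ρ G1 a (W T l)) (k : Fin 4)
    (h1 : 24 ≤ ev l (sim k)) : WA ρ G1 a (W T (k :: (l ++ [k]))) :=
  W_conj (T := T) ▸ h.asc M ha (.inr ((pos_sim hp).2 h1))

theorem ascL (M : LT 2 T G1 ω) (ha : a ∈ G1) (h : WA ρ G1 a (W T l)) (k : Fin 4)
    (h1 : 24 ≤ ev l.reverse (sim k) ∧ ¬ 24 ≤ ev l (sim k)) : WA ρ G1 a (W T (k :: l)) :=
  W_cons (T := T) ▸ h.ascL M ha (by rw [← W_rev, pos_sim hp]; exact h1.1) (mt (pos_sim hp).1 h1.2)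

omit hp in
theorem tab (h : i = 0 ∧ j = 1 ∨ i = 1 ∧ j = 0) :
    (24 ≤ ev [i] (sim j) ∧ 24 ≤ ev [j, i, j] (sim i) ∧ 24 ≤ ev [i, j, i, j, i] (sim j)) ∧
    (24 ≤ ev [j] (sim i) ∧ 24 ≤ ev [i, j, i] (sim j) ∧ 24 ≤ ev [j, i, j, i, j] (sim i)) ∧
    ((24 ≤ ev [j, i].reverse (sim i) ∧ ¬ 24 ≤ ev [j, i] (sim i)) ∧
      (24 ≤ ev [i, j, i, j].reverse (sim j) ∧ ¬ 24 ≤ ev [i, j, i, j] (sim j)) ∧
      (24 ≤ ev [j, i, j, i, j, i].reverse (sim i) ∧ ¬ 24 ≤ ev [j, i, j, i, j, i] (sim i))) ∧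
    (¬ 24 ≤ ev [i, j, i] (sim i) ∧ ¬ 24 ≤ ev [j, i, j, i, j] (sim j) ∧
      ¬ 24 ≤ ev [i, j, i, j, i, j, i] (sim i) ∧ ¬ 24 ≤ ev [j, i, j, i, j, i, j, i] (sim i)) ∧
    eqW [i, j, i, j, i, j, i].reverse ([j, i, j, i, j, i, j, i] ++ [j]) ∧ i ∉ swF4 j ∧
    (∀ L ∈ [[j, i, j], [i, j, i, j]], chk [[j, i], [i, j, i, j], [j, i, j, i, j, i], [j, i, j, i, j, i, j, i]]
      sim L [j, i, j, i, j, i, j]) ∧
    (∀ r < 48, 24 ≤ r ∧ 24 ≤ ev [j, i, j] r ∧ 24 ≤ ev [j, i, j, i] r →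
      ev [j, i, j] r ∈ (rlF4 i).map Fin.val) ∧
    eqW ([j, i, j] ++ [j, i, j, i, j, i, j] ++ [j, i, j].reverse) [i] ∧
    (∀ r ∈ rlF4 j, r ∉ rlF4 i) ∧
    ∀ r ∈ rlF4 i, 24 ≤ ev [j] r ∧ ev [j] r ∉ (rlF4 i).map Fin.val := by
  rcases h with ⟨rfl, rfl⟩ | ⟨rfl, rfl⟩ <;>
    refine ⟨?_, ?_, ?_, ?_, ?_, ?_, ?_, ?_, ?_, ?_, ?_⟩ <;> decide +kernel

theorem red (S : St 2 T G1 ω a b) (hU : PU 2 G1 a b) (h0 : ∀ w, Om ρ G1 a b w → w = 1)
    (h : i = 0 ∧ j = 1 ∨ i = 1 ∧ j = 0) (ha : WA ρ G1 a (T.S.s i)) (hb : WA ρ G1 b (T.S.s j))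
    (pa : PE 2 a) : ∃ y ∈ blk T i, y ≠ 1 ∧ Cj G1 a y := by
  obtain ⟨⟨t1, t2, t3⟩, ⟨t4, t5, t6⟩, ⟨t7, t8, t9⟩, ⟨s1, s2, s3, s4⟩, s5, s6, s7, s8, s9, -⟩ := tab h
  have M := S.lt
  have D := dataF4 hp
  rw [← W_one] at ha hb
  have a7 : WA ρ G1 a (W T [j, i, j, i, j, i, j]) :=
    asc hp M S.ma (asc hp M S.ma (asc hp M S.ma ha j t1) i t2) j t3
  have b3 := asc hp M S.mb hb i t4
  have b5 := asc hp M S.mb b3 j t5
  have b7 := asc hp M S.mb b5 i t6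
  have key : ∀ {l k}, WA ρ G1 a (W T l) → WA ρ G1 b (W T l.reverse) → 24 ≤ ev l (sim k) :=
    fun h1 h2 => (pos_sim hp).1 (by rw [h0 _ ⟨h1, W_rev (T := T) ▸ h2⟩]; exact cF4.pos_simple _)
  have hN : ∀ m ∈ [[j, i], [i, j, i, j], [j, i, j, i, j, i], [j, i, j, i, j, i, j, i]],
      ¬ WA ρ G1 a (W T m) := by
    simp only [List.forall_mem_cons, List.not_mem_nil, false_imp_iff, implies_true, and_true]
    refine ⟨fun e => s1 (key (ascL hp M S.ma e i t7) b3), fun e => s2 (key (ascL hp M S.ma e j t8) b5),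
      fun e => s3 (key (ascL hp M S.ma e i t9) b7), fun e => ?_⟩
    obtain ⟨t, ht, t', ht', e⟩ := om_J S hU (T.S.stab_orb j) e b7 (one_mem _)
      ⟨lg_mem _, Sym.s_mem_Wf j⟩ (by rw [← W_rev, one_mul, ← W_snoc]; exact W_eq hp s5)
    refine s6 ((D.mem_orb _ _).1 (cF4.mem_of_descent (w := W T [j, i, j, i, j, i, j, i]) ?_
      (mt (pos_sim hp).1 s4)))
    rw [show W T [j, i, j, i, j, i, j, i] = t⁻¹ * t'⁻¹ by
      rw [eq_inv_mul_iff_mul_eq, eq_inv_iff_mul_eq_one, h0 _ e]]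
    exact mul_mem (inv_mem ht.1) (inv_mem ht'.1)
  obtain ⟨u, hu, n, hn, hw, c1⟩ := a7.form M S.ma
  have h1 := fold M hu hn hw (L := [[j, i, j], [i, j, i, j]]) fun L hL =>
    foldOK hp (fun m hm e => hN m hm ((WA.cj c1).1 e)) L _ (s7 L hL)
  obtain ⟨g, hg, hgw⟩ := M.form.exists_n (W_mem (T := T) (l := [j, i, j]))
  have c2 : Cj G1 a (g * u * g⁻¹ * (g * n * g⁻¹)) := by simpa using c1.conj hg
  obtain ⟨y, y1, y2, q, hq, c3⟩ := blk_of M T.S.stab_univ (Set.mem_univ i)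
    (mul_mem (mul_mem hg hu.2) (inv_mem hg)) (hgw.acts.conj_mem_U (fun r hr => by
      obtain ⟨r', r1, r2⟩ := List.mem_map.1 (s8 r r.2 ⟨(pos_W hp (l := [])).1 hr.1,
        (pos_W hp).1 (hr.2 [j, i, j] (by simp)), (pos_W hp).1 (hr.2 [i, j, i, j] (by simp))⟩)
      obtain rfl : r' = W T [j, i, j] r := Fin.ext (r2.trans (val_W hp r).symm)
      exact ((D.mem_rl _ _).1 r1).imp_right .inl) h1)
    (mul_mem (mul_mem hg hn) (inv_mem hg)) (by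
      have := (hgw.mul hw).mul hgw.inv
      rwa [← W_rev, ← W_append, ← W_append, W_eq hp s9, W_one] at this) (pa.cj c2)
  obtain rfl : q = 1 := Subgroup.mem_bot.1 ((ρ.U_le_iff.2 fun r hr =>
    absurd (cF4.inSub_univ r) hr.2 : ρ.UJ Set.univ ≤ ⊥) hq.1)
  exact ⟨y, y1, y2, by simpa using c2.trans c3⟩

theorem not_sc (S : St 2 T G1 ω a b) (hS : SC 2 G1 a b) (h0 : ∀ w, Om ρ G1 a b w → w = 1)
    (ha : WA ρ G1 a (T.S.s 0)) (hb : WA ρ G1 b (T.S.s 1)) : False := by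
  have M := S.lt
  have D := dataF4 hp
  obtain ⟨pa, pb⟩ := pe_of_om S hS.pu h0
  obtain ⟨y, y1, y2, y3⟩ := red hp S hS.pu h0 (.inl ⟨rfl, rfl⟩) ha hb pa
  obtain ⟨z, z1, z2, z3⟩ := red hp ⟨M, S.center, S.mb, S.ma, S.nb, S.na⟩ hS.pu.symm
    (fun w e => inv_eq_one.1 (h0 _ e.symm)) (.inr ⟨rfl, rfl⟩) hb ha pb
  have k1 : ∀ {i j x}, i = 0 ∧ j = 1 ∨ i = 1 ∧ j = 0 → x ∈ blk T j → x ∈ ρ.UJ (T.S.orb i) :=
    fun h hx => ρ.U_mono (fun r hr => And.intro hr.1 fun e => (tab h).2.2.2.2.2.2.2.2.2.1 r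
      ((D.mem_rl _ _).2 hr) ((D.mem_rl _ _).2 ⟨hr.1, e⟩)) hx.1
  have k2 : ∀ {i x}, x ∈ blk T i → x ∈ ρ.UJ (T.S.orb i) → x = 1 := fun h1 h2 =>
    Subgroup.mem_bot.1 ((ρ.UJ_inf_LJ T.faith _).le
      ⟨h2, Subgroup.mem_sup_right (ρ.U_mono (fun _ h => h.2) h1.1)⟩)
  have k3 : y * z ∉ ρ.UJ (T.S.orb 0) := fun e =>
    y2 (k2 y1 ((mul_mem_cancel_right (k1 (.inl ⟨rfl, rfl⟩) z1)).1 e))
  have k4 : y * z ∉ ρ.UJ (T.S.orb 1) := fun e =>
    z2 (k2 z1 ((mul_mem_cancel_left (k1 (.inr ⟨rfl, rfl⟩) y1)).1 e))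
  obtain ⟨n, hn, hw⟩ := M.form.exists_n_s 1
  have k5 : n * y * n⁻¹ * z ∈ ρ.UJ (T.S.orb 0) := mul_mem (hw.acts.conj_mem_U (fun r hr => by
    have := (tab (.inl ⟨rfl, rfl⟩)).2.2.2.2.2.2.2.2.2.2 r ((D.mem_rl _ _).2 hr)
    rw [← W_one]
    exact ⟨(pos_W hp).2 this.1, fun e => this.2 (List.mem_map.2
      ⟨_, (D.mem_rl _ _).2 ⟨(pos_W hp).2 this.1, e⟩, val_W hp r⟩)⟩) y1.1) (k1 (.inl ⟨rfl, rfl⟩) z1)
  obtain ⟨c, -, -, hc⟩ := hS
  obtain ⟨g, hg, e⟩ := (hc _ _ y3 z3).symm.trans (hc _ _ (y3.conj hn) z3)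
  have k6 := reg_unique M ⟨mul_mem (ρ.UJ_le_Up _ (k1 (.inr ⟨rfl, rfl⟩) y1))
    (ρ.UJ_le_Up _ (k1 (.inl ⟨rfl, rfl⟩) z1)),
    mul_mem (y3.mem S.ma) (z3.mem S.mb)⟩ (fun i => ?_) hg (e ▸ ρ.Up_le_Bo (ρ.UJ_le_Up _ k5))
  · refine k3 ?_
    have := StRep.PJ_conj_mem_UJ (ρ.Bo_le_PJ _ (inv_mem k6)) k5
    rwa [e, show g⁻¹ * (g * (y * z) * g⁻¹) * g⁻¹⁻¹ = y * z by group] at this
  · rcases (by decide : ∀ i, i ∈ swF4 0 ∨ i ∈ swF4 1) i with h | h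
    · rwa [T.S.orb_eq_of_mem ((D.mem_orb _ _).2 h)]
    · rwa [T.S.orb_eq_of_mem ((D.mem_orb _ _).2 h)]

end F4

end UZ

open UZ

variable {X : Type*} [Group X]

theorem u_Sz (h : IsoSuzuki X) : NoU 2 X := by
  obtain ⟨K, _, _, m, hm, hK, ⟨e⟩⟩ := h
  obtain ⟨_, θ, h1, h2⟩ := exists_theta Nat.prime_two hK
  have h3 := Suz.eight_le_card hm hK
  obtain ⟨e', -⟩ := ((tits h2).lieData (e := 2 ^ (m + 1)) fun x => by
    simp [tits, frobenius_def, h1, pow_succ, pow_mul]).nonempty_equiv (nonempty_szData h2).some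
  have D := dataB2 (Equiv.ext (isIs_twB2 θ).p_eq)
  have M := ltB2 h2 (by rw [Nat.card_eq_fintype_card]; omega)
  refine noU_of (e.trans e') fun a ha b hb na nb hS => rank_one ⟨M, linkB2.center_group K, ha, hb, na, nb⟩
    (fun i => Set.eq_univ_of_forall fun j => (D.mem_orb i j).2 (by revert j; decide)) (fun hk => ?_) hS.pu
  obtain ⟨t, t0, t1⟩ : ∃ t : K, t ≠ 0 ∧ t ≠ 1 := Suz.exists_ne_zero_ne_one (by omega)
  have hc : M.r3.tor ![Units.map (θ : K →* K) (Units.mk0 t t0), Units.mk0 t t0] ∈ (twB2 θ).Fix :=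
    Tw.tor_mem_Fix _ _ ((isIs_twB2 θ).mem_TF.2 (Fin.forall_fin_two.2 ⟨?_, ?_⟩))
  · have := kw_sq M (Sym.stab_univ _).lg_mem_Wf hk hc (r := 7) (by rw [lgB2]; rfl)
    have e : ∀ k, cB2.sp k (cB2.vec 7) = ![2, 0] k := by decide +kernel
    simp only [e, Fin.prod_univ_two, Units.ext_iff] at this
    exact t1 (θ.injective (by simpa [CharTwo.neg_eq] using this))
  · rw [show iB2.π 0 = 1 from rfl, show iB2.lam (cB2.simple 0) = 2 by decide +kernel]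
    exact Units.ext (h2 t).symm
  · rw [show iB2.π 1 = 0 from rfl, show iB2.lam (cB2.simple 1) = 1 by decide +kernel, pow_one]
    rfl

theorem u_Ree (h : IsoRee X) : NoU 3 X := by
  obtain ⟨K, _, _, m, hm, hK, ⟨e⟩⟩ := h
  obtain ⟨_, θ, h1, h2⟩ := exists_theta Nat.prime_three hK
  have M := ltG2 h1 h2
  have D := dataG2 (pG2_eq (isIs_twG2 θ))
  refine noU_of (e.trans (packG2 h1 h2).e) fun a ha b hb na nb hS => rank_one
    ⟨M, (packG2 h1 h2).center, ha, hb, na, nb⟩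
    (fun i => Set.eq_univ_of_forall fun j => (D.mem_orb i j).2 (by revert i j; decide)) (fun hk => ?_) hS.pu
  have (t : Kˣ) : t ^ 2 = 1 := by
    have := kw_sq M (Sym.stab_univ _).lg_mem_Wf hk (tor_memG2 h1 h2 t) (r := 11) (by rw [lgG2]; rfl)
    have e : ∀ k, cG2.sp k (cG2.vec 11) = ![0, 1] k := by decide +kernel
    simpa [e, tG2] using this
  obtain ⟨u, hu⟩ := exists_sq_ne_one (K := K) (hK ▸ (pow_one 3).symm.trans_lt
    (Nat.pow_lt_pow_right (by decide) (by omega)))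
  exact hu (this u)

theorem u_2F4 (h : Iso2F4 X) : NoU 2 X := by
  obtain ⟨K, _, _, m, hm, hK, ⟨e⟩⟩ := h
  obtain ⟨_, θ, h1, h2⟩ := exists_theta Nat.prime_two hK
  have M := ltF4 h1 h2
  have I := isIs_twF4 θ
  have hp := pF4_eq I
  have D := dataF4 hp
  refine noU_of (e.trans (packF4 h1 h2).e) fun a ha b hb na nb hS => ?_
  have S : St 2 (twF4 θ) _ _ a b := ⟨M, (packF4 h1 h2).center, ha, hb, na, nb⟩
  obtain ⟨u, hu⟩ := exists_ne_one_F4 hK hm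
  have h3 : ∀ J, (twF4 θ).S.Stab J → ∀ k : Fin 4, k = 0 ∨ k = 1 →
      lg cF4.toRootSys J (cF4.simple k) = cF4.neg (cF4.simple k) → 
        ¬ Kw (repF4 K) (gF4 (repF4 K) (2 ^ m)) (lg cF4.toRootSys J) := by
    rintro J hJ k (rfl | rfl) e hk
    · have := kw_sq M hJ.lg_mem_Wf hk (tor_memF4 I h2 h1 _ ((mem_TF_F4 I h2).2 ⟨(u, 1), rfl⟩)) e
      have e : ∀ k, cF4.sp k (cF4.vec (cF4.simple 0)) = ![2, -1, 0, 0] k := by decide +kernel
      simp only [e, Fin.prod_univ_four, Units.ext_iff] at this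
      exact hu (Units.ext (θ.injective (by simpa [CharTwo.neg_eq] using this)))
    · have := kw_sq M hJ.lg_mem_Wf hk (tor_memF4 I h2 h1 _ ((mem_TF_F4 I h2).2 ⟨(1, u), rfl⟩)) e
      have e : ∀ k, cF4.sp k (cF4.vec (cF4.simple 1)) = ![-1, 2, -1, 0] k := by decide +kernel
      simp only [e, Fin.prod_univ_four, Units.ext_iff] at this
      exact hu (Units.ext (θ.injective (by simpa [CharTwo.neg_eq] using this)))
  have h4 : ∀ k : Fin 4, k = 0 ∨ k = 1 → (twF4 θ).S.s k (cF4.simple k) = cF4.neg (cF4.simple k) := by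
    rintro k (rfl | rfl) <;> refine Fin.ext ?_ <;> rw [← W_one, val_W hp] <;> decide +kernel
  have h5 : ∀ i : Fin 4, (twF4 θ).S.orb i = (twF4 θ).S.orb 0 ∨ (twF4 θ).S.orb i = (twF4 θ).S.orb 1 :=
    fun i => ((by decide : ∀ i, i ∈ swF4 0 ∨ i ∈ swF4 1) i).imp
      (fun h => Sym.orb_eq_of_mem _ ((D.mem_orb _ _).2 h)) fun h => Sym.orb_eq_of_mem _ ((D.mem_orb _ _).2 h)
  have h0 : ∀ w, Om (repF4 K) (gF4 (repF4 K) (2 ^ m)) a b w → w = 1 := fun w => om_one S hS.pu fun J hJ ⟨i, hi⟩ => by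
    have h6 : ∀ k, (∀ x ∈ J, (twF4 θ).S.orb x = (twF4 θ).S.orb k) → J = (twF4 θ).S.orb k := fun k h =>
      subset_antisymm (fun x hx => h x hx ▸ Sym.mem_orb_self _ x) (h i hi ▸ hJ.orb_subset hi)
    by_cases c0 : ∀ x ∈ J, (twF4 θ).S.orb x = (twF4 θ).S.orb 0
    · exact h3 J hJ 0 (.inl rfl) (h6 0 c0 ▸ h4 0 (.inl rfl))
    by_cases c1 : ∀ x ∈ J, (twF4 θ).S.orb x = (twF4 θ).S.orb 1
    · exact h3 J hJ 1 (.inr rfl) (h6 1 c1 ▸ h4 1 (.inr rfl))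
    push Not at c0 c1
    obtain ⟨x, hx, c0⟩ := c0
    obtain ⟨y, hy, c1⟩ := c1
    obtain rfl : J = Set.univ := Set.eq_univ_of_forall fun z => (h5 z).elim
      (fun h => hJ.orb_subset hy (by rw [(h5 y).resolve_right c1, ← h]; exact Sym.mem_orb_self _ z))
      fun h => hJ.orb_subset hx (by rw [(h5 x).resolve_left c0, ← h]; exact Sym.mem_orb_self _ z)
    exact h3 _ hJ 0 (.inl rfl) (by rw [lgF4]; rfl)
  obtain ⟨pa, pb⟩ := pe_of_om S hS.pu h0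
  obtain ⟨i, hi⟩ := exists_wa_s M ha pa na
  obtain ⟨j, hj⟩ := exists_wa_s M hb pb nb
  have h7 : ∀ k, WA (repF4 K) (gF4 (repF4 K) (2 ^ m)) a ((twF4 θ).S.s k) →
      WA (repF4 K) (gF4 (repF4 K) (2 ^ m)) b ((twF4 θ).S.s k) → False := fun k e e' =>
    lg_ne_one (Sym.mem_orb_self _ k) (h0 _ ⟨e, by rwa [lg_inv]⟩)
  rcases h5 i with c | c <;> rcases h5 j with c' | c' <;> rw [Sym.s, c] at hi <;> rw [Sym.s, c'] at hj
  · exact h7 0 hi hj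
  · exact not_sc hp S hS h0 hi hj
  · exact not_sc hp ⟨M, S.center, hb, ha, nb, na⟩ (hS.symm hb) (fun w e => inv_eq_one.1 (h0 _ e.symm)) hj hi
  · exact h7 1 hi hj

end CF.Ah
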